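import Mathlib
import Cfsg.Agent.Helper2.SLGen

/-!
# Generation of `SL_3(F)` by an upper unitriangular element and an antidiagonal monomial element

Explicit `3 × 3` matrix tools: `Um s t c` (upper unitriangular), `Lm p q r` (lower unitriangular),
`Am a b c` (antidiagonal monomial), `Dm` (diagonal), and two generation criteria.
-/

set_option autoImplicit false

namespace Cfsg.Agent.Helper20.SL3Gen

open Matrix

variable {F : Type*} [Field F]

theorem mk3 {a b c d e f g h i a' b' c' d' e' f' g' h' i' : F} (h1 : a = a') (h2 : b = b')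
    (h3 : c = c') (h4 : d = d') (h5 : e = e') (h6 : f = f') (h7 : g = g') (h8 : h = h')
    (h9 : i = i') :
    (!![a, b, c; d, e, f; g, h, i] : Matrix (Fin 3) (Fin 3) F)
      = !![a', b', c'; d', e', f'; g', h', i'] := by
  subst h1 h2 h3 h4 h5 h6 h7 h8 h9
  rfl

theorem mul3 {a11 a12 a13 a21 a22 a23 a31 a32 a33 b11 b12 b13 b21 b22 b23 b31 b32 b33
    c11 c12 c13 c21 c22 c23 c31 c32 c33 : F}
    (h11 : a11 * b11 + a12 * b21 + a13 * b31 = c11)
    (h12 : a11 * b12 + a12 * b22 + a13 * b32 = c12)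
    (h13 : a11 * b13 + a12 * b23 + a13 * b33 = c13)
    (h21 : a21 * b11 + a22 * b21 + a23 * b31 = c21)
    (h22 : a21 * b12 + a22 * b22 + a23 * b32 = c22)
    (h23 : a21 * b13 + a22 * b23 + a23 * b33 = c23)
    (h31 : a31 * b11 + a32 * b21 + a33 * b31 = c31)
    (h32 : a31 * b12 + a32 * b22 + a33 * b32 = c32)
    (h33 : a31 * b13 + a32 * b23 + a33 * b33 = c33) :
    (!![a11, a12, a13; a21, a22, a23; a31, a32, a33] : Matrix (Fin 3) (Fin 3) F)
        * !![b11, b12, b13; b21, b22, b23; b31, b32, b33]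
      = !![c11, c12, c13; c21, c22, c23; c31, c32, c33] := by
  rw [Matrix.mul_fin_three]
  exact mk3 h11 h12 h13 h21 h22 h23 h31 h32 h33

theorem det3 (a b c d e f g h i : F) :
    Matrix.det (!![a, b, c; d, e, f; g, h, i] : Matrix (Fin 3) (Fin 3) F)
      = a * e * i - a * f * h - b * d * i + b * f * g + c * d * h - c * e * g := by
  rw [Matrix.det_fin_three]
  rfl

/-- Upper unitriangular. -/
def Um (s t c : F) : Matrix.SpecialLinearGroup (Fin 3) F :=
  ⟨!![1, s, c; 0, 1, t; 0, 0, 1], by rw [det3]; ring⟩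

/-- Lower unitriangular. -/
def Lm (p q r : F) : Matrix.SpecialLinearGroup (Fin 3) F :=
  ⟨!![1, 0, 0; p, 1, 0; r, q, 1], by rw [det3]; ring⟩

/-- Antidiagonal monomial. -/
def Am (a b c : F) (h : a * b * c = -1) : Matrix.SpecialLinearGroup (Fin 3) F :=
  ⟨!![0, 0, a; 0, b, 0; c, 0, 0], by rw [det3]; linear_combination (-1 : F) * h⟩

/-- Diagonal. -/
def Dm (d1 d2 d3 : F) (h : d1 * d2 * d3 = 1) : Matrix.SpecialLinearGroup (Fin 3) F :=
  ⟨!![d1, 0, 0; 0, d2, 0; 0, 0, d3], by rw [det3]; linear_combination h⟩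

theorem Um_congr {s t c s' t' c' : F} (hs : s = s') (ht : t = t') (hc : c = c') :
    Um s t c = Um s' t' c' := by
  subst hs ht hc
  rfl

theorem Lm_congr {s t c s' t' c' : F} (hs : s = s') (ht : t = t') (hc : c = c') :
    Lm s t c = Lm s' t' c' := by
  subst hs ht hc
  rfl

theorem Um_mul (s t c s' t' c' : F) :
    Um s t c * Um s' t' c' = Um (s + s') (t + t') (c + c' + s * t') := by
  apply Subtype.ext
  show (!![1, s, c; 0, 1, t; 0, 0, 1] : Matrix (Fin 3) (Fin 3) F)
      * !![1, s', c'; 0, 1, t'; 0, 0, 1] = !![1, s + s', c + c' + s * t'; 0, 1, t + t'; 0, 0, 1]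
  apply mul3 <;> ring

theorem Um_one : Um (0 : F) 0 0 = 1 := by
  apply Subtype.ext
  show (!![1, 0, 0; 0, 1, 0; 0, 0, 1] : Matrix (Fin 3) (Fin 3) F) = 1
  exact Matrix.one_fin_three.symm

theorem Um_inv (s t c : F) : (Um s t c)⁻¹ = Um (-s) (-t) (s * t - c) := by
  apply inv_eq_of_mul_eq_one_right
  rw [Um_mul, ← Um_one]
  apply Um_congr <;> ring

theorem ne_of_abc {a b c : F} (h : a * b * c = -1) : a ≠ 0 ∧ b ≠ 0 ∧ c ≠ 0 := by
  refine ⟨?_, ?_, ?_⟩ <;> rintro rfl <;> simp at h

theorem Am_mul_Um (a b c : F) (h : a * b * c = -1) (p q r : F) :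
    Am a b c h * Um (q * b / c) (p * a / b) (r * a / c) = Lm p q r * Am a b c h := by
  obtain ⟨ha, hb, hc⟩ := ne_of_abc h
  apply Subtype.ext
  show (!![0, 0, a; 0, b, 0; c, 0, 0] : Matrix (Fin 3) (Fin 3) F)
      * !![1, q * b / c, r * a / c; 0, 1, p * a / b; 0, 0, 1]
      = !![1, 0, 0; p, 1, 0; r, q, 1] * !![0, 0, a; 0, b, 0; c, 0, 0]
  rw [Matrix.mul_fin_three, Matrix.mul_fin_three]
  apply mk3 <;> first | ring1 | (field_simp; ring1) | field_simp

theorem Am_sq (a b c : F) (h : a * b * c = -1) :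
    Am a b c h * Am a b c h
      = Dm (a * c) (b * b) (a * c) (by linear_combination (a * b * c - 1) * h) := by
  apply Subtype.ext
  show (!![0, 0, a; 0, b, 0; c, 0, 0] : Matrix (Fin 3) (Fin 3) F)
      * !![0, 0, a; 0, b, 0; c, 0, 0] = !![a * c, 0, 0; 0, b * b, 0; 0, 0, a * c]
  apply mul3 <;> ring

theorem Dm_mul_Um (d1 d2 d3 : F) (h : d1 * d2 * d3 = 1) (s t c : F) :
    Dm d1 d2 d3 h * Um s t c
      = Um (d1 / d2 * s) (d2 / d3 * t) (d1 / d3 * c) * Dm d1 d2 d3 h := by
  have h2 : d2 ≠ 0 := by rintro rfl; simp at h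
  have h3 : d3 ≠ 0 := by rintro rfl; simp at h
  apply Subtype.ext
  show (!![d1, 0, 0; 0, d2, 0; 0, 0, d3] : Matrix (Fin 3) (Fin 3) F)
      * !![1, s, c; 0, 1, t; 0, 0, 1]
      = !![1, d1 / d2 * s, d1 / d3 * c; 0, 1, d2 / d3 * t; 0, 0, 1]
        * !![d1, 0, 0; 0, d2, 0; 0, 0, d3]
  rw [Matrix.mul_fin_three, Matrix.mul_fin_three]
  apply mk3 <;> first | ring1 | (field_simp; ring1) | field_simp

theorem Lm_Um_comm (p r : F) :
    Lm p 0 0 * Um 0 0 r = Um 0 (p * r) 0 * (Um 0 0 r * Lm p 0 0) := by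
  apply Subtype.ext
  show (!![1, 0, 0; p, 1, 0; 0, 0, 1] : Matrix (Fin 3) (Fin 3) F)
      * !![1, 0, r; 0, 1, 0; 0, 0, 1]
      = !![1, 0, 0; 0, 1, p * r; 0, 0, 1]
        * (!![1, 0, r; 0, 1, 0; 0, 0, 1] * !![1, 0, 0; p, 1, 0; 0, 0, 1])
  rw [Matrix.mul_fin_three, Matrix.mul_fin_three, Matrix.mul_fin_three]
  apply mk3 <;> ring

theorem tv01 (t : F) (h : (0 : Fin 3) ≠ 1) :
    Matrix.SpecialLinearGroup.transvection h t = Um t 0 0 := by
  apply Subtype.ext
  show (1 : Matrix (Fin 3) (Fin 3) F) + Matrix.single 0 1 t = !![1, t, 0; 0, 1, 0; 0, 0, 1]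
  rw [Matrix.one_fin_three]
  ext k l
  fin_cases k <;> fin_cases l <;> simp [Matrix.single_apply]

theorem tv02 (t : F) (h : (0 : Fin 3) ≠ 2) :
    Matrix.SpecialLinearGroup.transvection h t = Um 0 0 t := by
  apply Subtype.ext
  show (1 : Matrix (Fin 3) (Fin 3) F) + Matrix.single 0 2 t = !![1, 0, t; 0, 1, 0; 0, 0, 1]
  rw [Matrix.one_fin_three]
  ext k l
  fin_cases k <;> fin_cases l <;> simp [Matrix.single_apply]

theorem tv12 (t : F) (h : (1 : Fin 3) ≠ 2) :
    Matrix.SpecialLinearGroup.transvection h t = Um 0 t 0 := by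
  apply Subtype.ext
  show (1 : Matrix (Fin 3) (Fin 3) F) + Matrix.single 1 2 t = !![1, 0, 0; 0, 1, t; 0, 0, 1]
  rw [Matrix.one_fin_three]
  ext k l
  fin_cases k <;> fin_cases l <;> simp [Matrix.single_apply]

theorem tv10 (t : F) (h : (1 : Fin 3) ≠ 0) :
    Matrix.SpecialLinearGroup.transvection h t = Lm t 0 0 := by
  apply Subtype.ext
  show (1 : Matrix (Fin 3) (Fin 3) F) + Matrix.single 1 0 t = !![1, 0, 0; t, 1, 0; 0, 0, 1]
  rw [Matrix.one_fin_three]
  ext k l
  fin_cases k <;> fin_cases l <;> simp [Matrix.single_apply]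

theorem tv21 (t : F) (h : (2 : Fin 3) ≠ 1) :
    Matrix.SpecialLinearGroup.transvection h t = Lm 0 t 0 := by
  apply Subtype.ext
  show (1 : Matrix (Fin 3) (Fin 3) F) + Matrix.single 2 1 t = !![1, 0, 0; 0, 1, 0; 0, t, 1]
  rw [Matrix.one_fin_three]
  ext k l
  fin_cases k <;> fin_cases l <;> simp [Matrix.single_apply]

theorem tv20 (t : F) (h : (2 : Fin 3) ≠ 0) :
    Matrix.SpecialLinearGroup.transvection h t = Lm 0 0 t := by
  apply Subtype.ext
  show (1 : Matrix (Fin 3) (Fin 3) F) + Matrix.single 2 0 t = !![1, 0, 0; 0, 1, 0; t, 0, 1]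
  rw [Matrix.one_fin_three]
  ext k l
  fin_cases k <;> fin_cases l <;> simp [Matrix.single_apply]

/-- **Final lemma**: a subgroup containing an upper unitriangular element with non-zero
`(2,3)` entry, an antidiagonal monomial element and, for every `s`, an element `Um s 0 *`,
is everything. -/
theorem final_lemma (H : Subgroup (Matrix.SpecialLinearGroup (Fin 3) F)) (x y z : F)
    (hy : y ≠ 0) (hu : Um x y z ∈ H) (a b c : F) (h : a * b * c = -1) (hM : Am a b c h ∈ H)
    (h3 : ∀ s, ∃ c', Um s 0 c' ∈ H) : H = ⊤ := by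
  obtain ⟨ha, hb, hc⟩ := ne_of_abc h
  have hE13 : ∀ r, Um 0 0 r ∈ H := by
    intro r
    obtain ⟨c₁, h1⟩ := h3 (r / y)
    have e : Um 0 0 r = (Um (r / y) 0 c₁ * Um x y z) * (Um x y z * Um (r / y) 0 c₁)⁻¹ := by
      rw [eq_mul_inv_iff_mul_eq, Um_mul, Um_mul, Um_mul]
      apply Um_congr <;> first | ring1 | (field_simp; ring1) | field_simp
    rw [e]
    exact H.mul_mem (H.mul_mem h1 hu) (H.inv_mem (H.mul_mem hu h1))
  have hE12 : ∀ s, Um s 0 0 ∈ H := by
    intro s
    obtain ⟨c₁, h1⟩ := h3 s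
    have e : Um s 0 0 = Um s 0 c₁ * Um 0 0 (-c₁) := by
      rw [Um_mul]
      apply Um_congr <;> ring
    rw [e]
    exact H.mul_mem h1 (hE13 _)
  have hE23y : Um 0 y 0 ∈ H := by
    have e : Um 0 y 0 = Um (-x) 0 0 * Um x y z * Um 0 0 (x * y - z) := by
      rw [Um_mul, Um_mul]
      apply Um_congr <;> ring
    rw [e]
    exact H.mul_mem (H.mul_mem (hE12 _) hu) (hE13 _)
  have hL : ∀ p q r, Um (q * b / c) (p * a / b) (r * a / c) ∈ H → Lm p q r ∈ H := by
    intro p q r hU
    have e : Lm p q r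
        = Am a b c h * Um (q * b / c) (p * a / b) (r * a / c) * (Am a b c h)⁻¹ := by
      rw [eq_mul_inv_iff_mul_eq]
      exact (Am_mul_Um a b c h p q r).symm
    rw [e]
    exact H.mul_mem (H.mul_mem hM hU) (H.inv_mem hM)
  have hE32 : ∀ q, Lm 0 q 0 ∈ H := by
    intro q
    apply hL
    have e : Um (q * b / c) (0 * a / b) (0 * a / c) = Um (q * b / c) 0 0 := by
      apply Um_congr <;> ring
    rw [e]
    exact hE12 _
  have hE31 : ∀ r, Lm 0 0 r ∈ H := by
    intro r
    apply hL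
    have e : Um (0 * b / c) (0 * a / b) (r * a / c) = Um 0 0 (r * a / c) := by
      apply Um_congr <;> ring
    rw [e]
    exact hE13 _
  have hE21y : Lm (y * b / a) 0 0 ∈ H := by
    apply hL
    have e : Um (0 * b / c) (y * b / a * a / b) (0 * a / c) = Um 0 y 0 := by
      apply Um_congr <;> first | ring1 | (field_simp; ring1) | field_simp
    rw [e]
    exact hE23y
  have hE23 : ∀ t, Um 0 t 0 ∈ H := by
    intro t
    have hp : y * b / a ≠ 0 := div_ne_zero (mul_ne_zero hy hb) ha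
    have e : Um 0 t 0 = (Lm (y * b / a) 0 0 * Um 0 0 (t / (y * b / a)))
        * (Um 0 0 (t / (y * b / a)) * Lm (y * b / a) 0 0)⁻¹ := by
      rw [eq_mul_inv_iff_mul_eq, Lm_Um_comm]
      congr 1
      apply Um_congr <;> first | ring1 | (field_simp; ring1) | field_simp
    rw [e]
    exact H.mul_mem (H.mul_mem hE21y (hE13 _)) (H.inv_mem (H.mul_mem (hE13 _) hE21y))
  have hE21 : ∀ p, Lm p 0 0 ∈ H := by
    intro p
    apply hL
    have e : Um (0 * b / c) (p * a / b) (0 * a / c) = Um 0 (p * a / b) 0 := by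
      apply Um_congr <;> ring
    rw [e]
    exact hE23 _
  apply Helper2.SLGen.eq_top_of_transvection_mem
  intro i j hij t
  fin_cases i <;> fin_cases j
  · exact absurd rfl hij
  · rw [tv01 t hij]; exact hE12 t
  · rw [tv02 t hij]; exact hE13 t
  · rw [tv10 t hij]; exact hE21 t
  · exact absurd rfl hij
  · rw [tv12 t hij]; exact hE23 t
  · rw [tv20 t hij]; exact hE31 t
  · rw [tv21 t hij]; exact hE32 t
  · exact absurd rfl hij

/-- Closure of an additive family under multiplication by a generating set of scalars. -/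
theorem scal [Finite F] {V : Type*} [AddCommGroup V] [Module F V] (P : V → Prop) (h0 : P 0)
    (hadd : ∀ v w, P v → P w → P (v + w)) (hneg : ∀ v, P v → P (-v)) (S : Set F)
    (hS : ∀ m ∈ S, ∀ v, P v → P (m • v)) (hcl : Subfield.closure S = ⊤) :
    ∀ (r : F) (v : V), P v → P (r • v) := by
  classical
  haveI := Fintype.ofFinite F
  have hpow : ∀ (r : F), (∀ v, P v → P (r • v)) → ∀ n : ℕ, ∀ v, P v → P ((r ^ n) • v) := by
    intro r hr n
    induction n with
    | zero =>
      intro v hv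
      rw [pow_zero, one_smul]
      exact hv
    | succ n ih =>
      intro v hv
      rw [pow_succ, mul_smul]
      exact ih _ (hr v hv)
  let K : Subfield F :=
    { carrier := {r | ∀ v, P v → P (r • v)}
      mul_mem' := fun {a b} ha hb v hv => by
        rw [mul_smul]
        exact ha _ (hb v hv)
      one_mem' := fun v hv => by
        rw [one_smul]
        exact hv
      add_mem' := fun {a b} ha hb v hv => by
        rw [add_smul]
        exact hadd _ _ (ha v hv) (hb v hv)
      zero_mem' := fun v hv => by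
        rw [zero_smul]
        exact h0
      neg_mem' := fun {a} ha v hv => by
        rw [neg_smul]
        exact hneg _ (ha v hv)
      inv_mem' := fun a ha v hv => by
        by_cases h : a = 0
        · rw [h, _root_.inv_zero, zero_smul]
          exact h0
        · have h1 : a ^ (Fintype.card F - 1) = 1 := FiniteField.pow_card_sub_one_eq_one a h
          have hc : 2 ≤ Fintype.card F := Fintype.one_lt_card
          have h2 : a * a ^ (Fintype.card F - 2) = 1 := by
            rw [← pow_succ']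
            have : Fintype.card F - 2 + 1 = Fintype.card F - 1 := by omega
            rw [this]
            exact h1
          rw [inv_eq_of_mul_eq_one_right h2]
          exact hpow a ha _ v hv }
  have hle : Subfield.closure S ≤ K := Subfield.closure_le.2 (fun m hm => hS m hm)
  intro r v hv
  have hr : r ∈ K := hle (by rw [hcl]; exact Subfield.mem_top r)
  exact hr v hv

end Cfsg.Agent.Helper20.SL3Gen
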