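import Mathlib
import Cfsg.Agent.Helper20.SL3Gen

/-!
# The generic family of two conjugate regular unipotent generators of `SL_3(F)`
-/

set_option autoImplicit false

namespace Cfsg.Agent.Helper20.SL3Gen

open Matrix

variable {F : Type*} [Field F]

theorem solve_lin (x μ μ' s : F) (hx : x ≠ 0) (hne : μ ≠ μ') :
    -(s / (x * (μ - μ'))) * μ' * x + s / (x * (μ - μ')) * (μ * x) = s := by
  have h := sub_ne_zero.2 hne
  first | (field_simp; ring1) | field_simp

/-- **Generic lemma**: the torus element `Am²` acts on the unitriangular group by `(μ, μ⁻¹)`;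
if `μ + μ⁻¹` generates the field then all `Um s 0 *` lie in `H`. -/
theorem generic_lemma [Finite F] (H : Subgroup (Matrix.SpecialLinearGroup (Fin 3) F))
    (x y z : F) (hx : x ≠ 0) (hu : Um x y z ∈ H) (a b c : F)
    (h : a * b * c = -1) (hM : Am a b c h ∈ H)
    (hμ : a * c / (b * b) ≠ b * b / (a * c))
    (hcl : Subfield.closure {a * c / (b * b) + b * b / (a * c)} = ⊤) :
    ∀ s, ∃ c', Um s 0 c' ∈ H := by
  obtain ⟨ha, hb, hc⟩ := ne_of_abc h
  have hprod : a * c * (b * b) * (a * c) = 1 := by linear_combination (a * b * c - 1) * h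
  have hD : Dm (a * c) (b * b) (a * c) hprod ∈ H := by
    have h1 := H.mul_mem hM hM
    rw [Am_sq] at h1
    exact h1
  have step1 : ∀ s t c', Um s t c' ∈ H →
      Um (a * c / (b * b) * s) (b * b / (a * c) * t) (a * c / (a * c) * c') ∈ H := by
    intro s t c' hU
    have e := Dm_mul_Um (a * c) (b * b) (a * c) hprod s t c'
    have e' : Um (a * c / (b * b) * s) (b * b / (a * c) * t) (a * c / (a * c) * c')
        = Dm (a * c) (b * b) (a * c) hprod * Um s t c' * (Dm (a * c) (b * b) (a * c) hprod)⁻¹ := by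
      rw [eq_mul_inv_iff_mul_eq]
      exact e.symm
    rw [e']
    exact H.mul_mem (H.mul_mem hD hU) (H.inv_mem hD)
  have step2 : ∀ s t c', Um s t c' ∈ H →
      Um (b * b / (a * c) * s) (a * c / (b * b) * t) c' ∈ H := by
    intro s t c' hU
    have e := Dm_mul_Um (a * c) (b * b) (a * c) hprod (b * b / (a * c) * s)
      (a * c / (b * b) * t) c'
    have e2 : Um (a * c / (b * b) * (b * b / (a * c) * s)) (b * b / (a * c) * (a * c / (b * b) * t))
        (a * c / (a * c) * c') = Um s t c' := by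
      apply Um_congr <;> first | ring1 | (field_simp; ring1) | field_simp
    rw [e2] at e
    have e' : Um (b * b / (a * c) * s) (a * c / (b * b) * t) c'
        = (Dm (a * c) (b * b) (a * c) hprod)⁻¹ * Um s t c' * Dm (a * c) (b * b) (a * c) hprod := by
      rw [mul_assoc, ← e, inv_mul_cancel_left]
    rw [e']
    exact H.mul_mem (H.mul_mem (H.inv_mem hD) hU) hD
  have hP0 : ∃ c', Um ((0 : F × F).1) ((0 : F × F).2) c' ∈ H := by
    refine ⟨0, ?_⟩
    show Um (0 : F) 0 0 ∈ H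
    rw [Um_one]
    exact H.one_mem
  have hadd : ∀ v w : F × F, (∃ c', Um v.1 v.2 c' ∈ H) → (∃ c', Um w.1 w.2 c' ∈ H) →
      ∃ c', Um (v + w).1 (v + w).2 c' ∈ H := by
    rintro v w ⟨c1, h1⟩ ⟨c2, h2⟩
    refine ⟨c1 + c2 + v.1 * w.2, ?_⟩
    have h3 := H.mul_mem h1 h2
    rw [Um_mul] at h3
    exact h3
  have hneg : ∀ v : F × F, (∃ c', Um v.1 v.2 c' ∈ H) → ∃ c', Um (-v).1 (-v).2 c' ∈ H := by
    rintro v ⟨c1, h1⟩
    refine ⟨v.1 * v.2 - c1, ?_⟩
    have h3 := H.inv_mem h1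
    rw [Um_inv] at h3
    exact h3
  have hS : ∀ m ∈ ({a * c / (b * b) + b * b / (a * c)} : Set F), ∀ v : F × F,
      (∃ c', Um v.1 v.2 c' ∈ H) → ∃ c', Um (m • v).1 (m • v).2 c' ∈ H := by
    rintro m hm v ⟨c1, h1⟩
    rw [Set.mem_singleton_iff] at hm
    subst hm
    have A := step1 v.1 v.2 c1 h1
    have B := step2 v.1 v.2 c1 h1
    have C := H.mul_mem A B
    rw [Um_mul] at C
    refine ⟨a * c / (a * c) * c1 + c1 + a * c / (b * b) * v.1 * (a * c / (b * b) * v.2), ?_⟩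
    have e : ∀ cc, Um (((a * c / (b * b) + b * b / (a * c)) • v).1)
        (((a * c / (b * b) + b * b / (a * c)) • v).2) cc
        = Um (a * c / (b * b) * v.1 + b * b / (a * c) * v.1)
          (b * b / (a * c) * v.2 + a * c / (b * b) * v.2) cc := by
      intro cc
      apply Um_congr
      · show (a * c / (b * b) + b * b / (a * c)) * v.1 = _
        ring
      · show (a * c / (b * b) + b * b / (a * c)) * v.2 = _
        ring
      · rfl
    rw [e]
    exact C
  have hall := scal (F := F) (fun v : F × F => ∃ c', Um v.1 v.2 c' ∈ H) hP0 hadd hneg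
    {a * c / (b * b) + b * b / (a * c)} hS hcl
  intro s
  have P1 : ∃ c', Um ((x, y) : F × F).1 ((x, y) : F × F).2 c' ∈ H := ⟨z, hu⟩
  have P2 : ∃ c', Um ((a * c / (b * b) * x, b * b / (a * c) * y) : F × F).1
      ((a * c / (b * b) * x, b * b / (a * c) * y) : F × F).2 c' ∈ H := ⟨_, step1 x y z hu⟩
  obtain ⟨cc, hcc⟩ := hadd _ _
    (hall (-(s / (x * (a * c / (b * b) - b * b / (a * c)))) * (b * b / (a * c))) _ P1)
    (hall (s / (x * (a * c / (b * b) - b * b / (a * c)))) _ P2)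
  refine ⟨cc, ?_⟩
  have e : Um s 0 cc = Um
      (((-(s / (x * (a * c / (b * b) - b * b / (a * c)))) * (b * b / (a * c))) • ((x, y) : F × F)
        + (s / (x * (a * c / (b * b) - b * b / (a * c))))
          • ((a * c / (b * b) * x, b * b / (a * c) * y) : F × F)).1)
      (((-(s / (x * (a * c / (b * b) - b * b / (a * c)))) * (b * b / (a * c))) • ((x, y) : F × F)
        + (s / (x * (a * c / (b * b) - b * b / (a * c))))
          • ((a * c / (b * b) * x, b * b / (a * c) * y) : F × F)).2) cc := by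
    apply Um_congr
    · show s = -(s / (x * (a * c / (b * b) - b * b / (a * c)))) * (b * b / (a * c)) * x
        + s / (x * (a * c / (b * b) - b * b / (a * c))) * (a * c / (b * b) * x)
      exact (solve_lin x _ _ s hx hμ).symm
    · show (0 : F) = -(s / (x * (a * c / (b * b) - b * b / (a * c)))) * (b * b / (a * c)) * y
        + s / (x * (a * c / (b * b) - b * b / (a * c))) * (b * b / (a * c) * y)
      ring
    · rfl
  rw [e]
  exact hcc

theorem z3 : (!![0, 0, 0; 0, 0, 0; 0, 0, 0] : Matrix (Fin 3) (Fin 3) F) = 0 := by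
  ext i j
  fin_cases i <;> fin_cases j <;> rfl

theorem Um_sub_one (s t c : F) :
    ((Um s t c : Matrix.SpecialLinearGroup (Fin 3) F) : Matrix (Fin 3) (Fin 3) F) - 1
      = !![0, s, c; 0, 0, t; 0, 0, 0] := by
  show (!![1, s, c; 0, 1, t; 0, 0, 1] : Matrix (Fin 3) (Fin 3) F) - 1 = _
  rw [Matrix.one_fin_three]
  ext i j
  fin_cases i <;> fin_cases j <;> simp

theorem N_sq (s t c : F) :
    (!![0, s, c; 0, 0, t; 0, 0, 0] : Matrix (Fin 3) (Fin 3) F) * !![0, s, c; 0, 0, t; 0, 0, 0]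
      = !![0, 0, s * t; 0, 0, 0; 0, 0, 0] := by
  apply mul3 <;> ring

theorem N_cube (s t c : F) :
    (!![0, 0, s * t; 0, 0, 0; 0, 0, 0] : Matrix (Fin 3) (Fin 3) F)
        * !![0, s, c; 0, 0, t; 0, 0, 0]
      = !![0, 0, 0; 0, 0, 0; 0, 0, 0] := by
  apply mul3 <;> ring

theorem Um_nilp (s t c : F) :
    IsNilpotent (((Um s t c : Matrix.SpecialLinearGroup (Fin 3) F) : Matrix (Fin 3) (Fin 3) F)
      - 1) :=
  ⟨3, by rw [Um_sub_one, pow_succ, pow_two, N_sq, N_cube, z3]⟩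

theorem Um_reg (s t c : F) (hs : s ≠ 0) (ht : t ≠ 0) :
    (((Um s t c : Matrix.SpecialLinearGroup (Fin 3) F) : Matrix (Fin 3) (Fin 3) F) - 1)
      ^ (3 - 1) ≠ 0 := by
  show (((Um s t c : Matrix.SpecialLinearGroup (Fin 3) F) : Matrix (Fin 3) (Fin 3) F) - 1)
      ^ 2 ≠ 0
  rw [Um_sub_one, pow_two, N_sq]
  intro h
  have h2 := congrFun (congrFun h 0) 2
  change s * t = 0 at h2
  exact mul_ne_zero hs ht h2

/-- The family: for `b ≠ 0, 1` there are conjugate regular unipotent `u`, `g u g⁻¹` whose product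
is the antidiagonal monomial matrix `Am b b c`. -/
theorem family (b c : F) (hb : b ≠ 0) (hd : b - 1 ≠ 0) (hc : b * b * c = -1) :
    ∃ u g : Matrix.SpecialLinearGroup (Fin 3) F,
      IsNilpotent ((u : Matrix (Fin 3) (Fin 3) F) - 1) ∧
      ((u : Matrix (Fin 3) (Fin 3) F) - 1) ^ (3 - 1) ≠ 0 ∧
      u = Um ((b - 1) ^ 2) (b - 1) (3 * b - 1) ∧ u * (g * u * g⁻¹) = Am b b c hc := by
  have hc' : c = -1 / (b * b) := by
    rw [eq_div_iff (mul_ne_zero hb hb)]
    linear_combination hc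
  subst hc'
  have hdet : Matrix.det (!![b / (b - 1), -(b ^ 2 * (b + 1)) / (b - 1) ^ 2, 0;
      -1 / (b * (b - 1)), (3 * b - 1) / (b * (b - 1) ^ 2), 0;
      -1 / (b * (b - 1)), (b ^ 3 - 2 * b ^ 2 + 4 * b - 1) / (b * (b - 1) ^ 2), -(b - 1)] :
        Matrix (Fin 3) (Fin 3) F) = 1 := by
    rw [det3]
    first | (field_simp; ring1) | field_simp
  obtain ⟨g, hg⟩ : ∃ g : Matrix.SpecialLinearGroup (Fin 3) F,
      (g : Matrix (Fin 3) (Fin 3) F) = !![b / (b - 1), -(b ^ 2 * (b + 1)) / (b - 1) ^ 2, 0;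
      -1 / (b * (b - 1)), (3 * b - 1) / (b * (b - 1) ^ 2), 0;
      -1 / (b * (b - 1)), (b ^ 3 - 2 * b ^ 2 + 4 * b - 1) / (b * (b - 1) ^ 2), -(b - 1)] :=
    ⟨⟨_, hdet⟩, rfl⟩
  refine ⟨Um ((b - 1) ^ 2) (b - 1) (3 * b - 1), g, Um_nilp _ _ _,
    Um_reg _ _ _ (pow_ne_zero 2 hd) hd, rfl, ?_⟩
  have key : Um ((b - 1) ^ 2) (b - 1) (3 * b - 1) * g * Um ((b - 1) ^ 2) (b - 1) (3 * b - 1)
      = Am b b (-1 / (b * b)) hc * g := by
    apply Subtype.ext
    rw [Matrix.SpecialLinearGroup.coe_mul, Matrix.SpecialLinearGroup.coe_mul,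
      Matrix.SpecialLinearGroup.coe_mul, hg]
    show (!![1, (b - 1) ^ 2, 3 * b - 1; 0, 1, b - 1; 0, 0, 1] : Matrix (Fin 3) (Fin 3) F)
        * !![b / (b - 1), -(b ^ 2 * (b + 1)) / (b - 1) ^ 2, 0;
          -1 / (b * (b - 1)), (3 * b - 1) / (b * (b - 1) ^ 2), 0;
          -1 / (b * (b - 1)), (b ^ 3 - 2 * b ^ 2 + 4 * b - 1) / (b * (b - 1) ^ 2), -(b - 1)]
        * !![1, (b - 1) ^ 2, 3 * b - 1; 0, 1, b - 1; 0, 0, 1]
      = !![0, 0, b; 0, b, 0; -1 / (b * b), 0, 0]
        * !![b / (b - 1), -(b ^ 2 * (b + 1)) / (b - 1) ^ 2, 0;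
          -1 / (b * (b - 1)), (3 * b - 1) / (b * (b - 1) ^ 2), 0;
          -1 / (b * (b - 1)), (b ^ 3 - 2 * b ^ 2 + 4 * b - 1) / (b * (b - 1) ^ 2), -(b - 1)]
    rw [Matrix.mul_fin_three, Matrix.mul_fin_three, Matrix.mul_fin_three]
    apply mk3 <;> first | ring1 | (field_simp; ring1) | field_simp
  generalize Um ((b - 1) ^ 2) (b - 1) (3 * b - 1) = u at key ⊢
  calc u * (g * u * g⁻¹) = (u * g * u) * g⁻¹ := by group
    _ = Am b b (-1 / (b * b)) hc * g * g⁻¹ := by rw [key]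
    _ = Am b b (-1 / (b * b)) hc := by group

end Cfsg.Agent.Helper20.SL3Gen
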