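import Mathlib
import Cfsg.Agent.Helper20.SL3Gen2

/-!
# Generic fields: `SL_3(F)` is generated by two conjugate regular unipotent elements
(for `|F| ∉ {2, 3, 4, 7, 16}`)
-/

set_option autoImplicit false

namespace Cfsg.Agent.Helper20.SL3Gen

open Matrix

variable {F : Type*} [Field F]

theorem arith_A (Q k : ℕ) (hQ : 2 ≤ Q) (hk : 2 ≤ k) (hd : Q ^ k - 1 ∣ 3 * (Q - 1)) :
    Q ^ k = 4 := by
  have h1 : Q ^ 2 ≤ Q ^ k := Nat.pow_le_pow_right (by omega) hk
  have h2 : Q ^ k - 1 ≤ 3 * (Q - 1) := Nat.le_of_dvd (by omega) hd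
  have hpos : 0 < Q ^ k := Nat.pow_pos (by omega)
  have h3 : Q ≤ 2 := by
    by_contra hcon
    push Not at hcon
    have h5 : 3 * Q ≤ Q * Q := Nat.mul_le_mul_right Q hcon
    rw [pow_two] at h1
    generalize Q ^ k = N at h1 h2 hpos
    generalize Q * Q = M at h1 h5
    omega
  have hQ2 : Q = 2 := by omega
  subst hQ2
  have h4 : k < 3 := by
    by_contra hcon
    push Not at hcon
    have h6 : 2 ^ 3 ≤ 2 ^ k := Nat.pow_le_pow_right (by norm_num) hcon
    generalize 2 ^ k = N at h2 h6 hpos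
    omega
  have hk2 : k = 2 := by omega
  subst hk2
  norm_num

theorem arith_B (Q k : ℕ) (hQ : 2 ≤ Q) (hk : 2 ≤ k) (hd : Q ^ k - 1 ∣ 3 * (Q + 1)) :
    Q ^ k = 4 ∨ Q ^ k = 16 := by
  have h1 : Q ^ 2 ≤ Q ^ k := Nat.pow_le_pow_right (by omega) hk
  have h2 : Q ^ k - 1 ≤ 3 * (Q + 1) := Nat.le_of_dvd (by omega) hd
  have hpos : 0 < Q ^ k := Nat.pow_pos (by omega)
  have h3 : Q ≤ 4 := by
    by_contra hcon
    push Not at hcon
    have h5 : 5 * Q ≤ Q * Q := Nat.mul_le_mul_right Q hcon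
    rw [pow_two] at h1
    generalize Q ^ k = N at h1 h2 hpos
    generalize Q * Q = M at h1 h5
    omega
  obtain rfl | rfl | rfl : Q = 2 ∨ Q = 3 ∨ Q = 4 := by omega
  · have hk4 : k < 4 := by
      by_contra hcon
      push Not at hcon
      have h6 : 2 ^ 4 ≤ 2 ^ k := Nat.pow_le_pow_right (by norm_num) hcon
      generalize 2 ^ k = N at h2 h6 hpos
      omega
    obtain rfl | rfl : k = 2 ∨ k = 3 := by omega
    · left; norm_num
    · exfalso; norm_num at hd
  · have hk4 : k < 3 := by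
      by_contra hcon
      push Not at hcon
      have h6 : 3 ^ 3 ≤ 3 ^ k := Nat.pow_le_pow_right (by norm_num) hcon
      generalize 3 ^ k = N at h2 h6 hpos
      omega
    obtain rfl : k = 2 := by omega
    exfalso; norm_num at hd
  · have hk4 : k < 3 := by
      by_contra hcon
      push Not at hcon
      have h6 : 4 ^ 3 ≤ 4 ^ k := Nat.pow_le_pow_right (by norm_num) hcon
      generalize 4 ^ k = N at h2 h6 hpos
      omega
    obtain rfl : k = 2 := by omega
    right; norm_num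

theorem exists_generic [Fintype F] (h2 : Fintype.card F ≠ 2) (h3 : Fintype.card F ≠ 3)
    (h4 : Fintype.card F ≠ 4) (h7 : Fintype.card F ≠ 7) (h16 : Fintype.card F ≠ 16) :
    ∃ u g : Matrix.SpecialLinearGroup (Fin 3) F,
      IsNilpotent ((u : Matrix (Fin 3) (Fin 3) F) - 1) ∧
      ((u : Matrix (Fin 3) (Fin 3) F) - 1) ^ (3 - 1) ≠ 0 ∧
      Subgroup.closure ({u, g * u * g⁻¹} : Set (Matrix.SpecialLinearGroup (Fin 3) F)) = ⊤ := by
  classical
  obtain ⟨ζ, hζ⟩ := IsCyclic.exists_generator (α := Fˣ)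
  have hord : orderOf ζ = Fintype.card F - 1 := by
    rw [orderOf_eq_card_of_forall_mem_zpowers hζ, Nat.card_eq_fintype_card, Fintype.card_units]
  have hq1 : 1 < Fintype.card F := Fintype.one_lt_card
  have hz : (ζ : F) ≠ 0 := ζ.ne_zero
  have hpow : ∀ n : ℕ, (ζ : F) ^ n = 1 → Fintype.card F - 1 ∣ n := by
    intro n hn
    rw [← hord]
    apply orderOf_dvd_of_pow_eq_one
    apply Units.ext
    rw [Units.val_pow_eq_pow_val, hn, Units.val_one]
  generalize (ζ : F) = z at hz hpow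
  have hb : -z⁻¹ ≠ 0 := neg_ne_zero.2 (inv_ne_zero hz)
  have hd : -z⁻¹ - 1 ≠ 0 := by
    intro h
    have hzi : z⁻¹ = -1 := by linear_combination (-1 : F) * h
    have h1 : z = -1 := by
      rw [← inv_inv z, hzi]
      norm_num
    have h2' : z ^ 2 = 1 := by
      rw [h1]
      norm_num
    have h5 := Nat.le_of_dvd (by norm_num) (hpow 2 h2')
    omega
  have hc : (-z⁻¹) * (-z⁻¹) * (-z ^ 2) = -1 := by
    first | (field_simp; ring1) | field_simp
  obtain ⟨u, g, hn, hr, hu, hM⟩ := family (-z⁻¹) (-z ^ 2) hb hd hc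
  refine ⟨u, g, hn, hr, ?_⟩
  have huH : Um ((-z⁻¹ - 1) ^ 2) (-z⁻¹ - 1) (3 * (-z⁻¹) - 1)
      ∈ Subgroup.closure ({u, g * u * g⁻¹} : Set (Matrix.SpecialLinearGroup (Fin 3) F)) := by
    rw [← hu]
    exact Subgroup.subset_closure (Set.mem_insert _ _)
  have hMH : Am (-z⁻¹) (-z⁻¹) (-z ^ 2) hc
      ∈ Subgroup.closure ({u, g * u * g⁻¹} : Set (Matrix.SpecialLinearGroup (Fin 3) F)) := by
    rw [← hM]
    exact Subgroup.mul_mem _ (Subgroup.subset_closure (Set.mem_insert _ _))
      (Subgroup.subset_closure (Set.mem_insert_of_mem _ rfl))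
  have e1 : (-z⁻¹) * (-z ^ 2) / ((-z⁻¹) * (-z⁻¹)) = z ^ 3 := by
    first | (field_simp; ring1) | field_simp
  have e2 : (-z⁻¹) * (-z⁻¹) / ((-z⁻¹) * (-z ^ 2)) = (z ^ 3)⁻¹ := by
    first | (field_simp; ring1) | field_simp
  have hμ0 : z ^ 3 ≠ 0 := pow_ne_zero 3 hz
  apply final_lemma _ _ _ _ hd huH _ _ _ hc hMH
  apply generic_lemma _ _ _ _ (pow_ne_zero 2 hd) huH _ _ _ hc hMH
  · rw [e1, e2]
    intro h
    have h6 : z ^ 6 = 1 := by
      have h8 : z ^ 3 * z ^ 3 = 1 := by
        nth_rewrite 2 [h]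
        exact mul_inv_cancel₀ hμ0
      rw [← h8]
      ring
    have hdv := hpow 6 h6
    generalize hm : Fintype.card F - 1 = m at hdv
    have hm6 : m ≤ 6 := Nat.le_of_dvd (by norm_num) hdv
    interval_cases m <;> omega
  · rw [e1, e2]
    by_contra hK
    obtain ⟨K, hKdef⟩ : ∃ K : Subfield F,
        K = Subfield.closure ({z ^ 3 + (z ^ 3)⁻¹} : Set F) := ⟨_, rfl⟩
    rw [← hKdef] at hK
    have hσK : z ^ 3 + (z ^ 3)⁻¹ ∈ K := by
      rw [hKdef]
      exact Subfield.subset_closure (Set.mem_singleton _)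
    haveI : Fintype K := Fintype.ofFinite K
    have hcard : Fintype.card F = Fintype.card K ^ Module.finrank K F :=
      Module.card_eq_pow_finrank
    have hQ : 2 ≤ Fintype.card K := Fintype.one_lt_card
    have hk : 2 ≤ Module.finrank K F := by
      by_contra hcon
      push Not at hcon
      apply hK
      have hle : Fintype.card F ≤ Fintype.card K := by
        rw [hcard]
        calc Fintype.card K ^ Module.finrank K F ≤ Fintype.card K ^ 1 :=
              Nat.pow_le_pow_right (by omega) (by omega)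
          _ = Fintype.card K := pow_one _
      have hbij : Function.Bijective (Subtype.val : K → F) :=
        (Fintype.bijective_iff_injective_and_card _).2 ⟨Subtype.val_injective,
          le_antisymm (Fintype.card_le_of_injective _ Subtype.val_injective) hle⟩
      rw [eq_top_iff]
      intro x _
      obtain ⟨y, rfl⟩ := hbij.2 x
      exact y.2
    have hφσ : (FiniteField.frobeniusAlgHom K F) (z ^ 3 + (z ^ 3)⁻¹) = z ^ 3 + (z ^ 3)⁻¹ :=
      (FiniteField.frobeniusAlgHom K F).commutes ⟨z ^ 3 + (z ^ 3)⁻¹, hσK⟩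
    have hφ : ∀ x : F, (FiniteField.frobeniusAlgHom K F) x = x ^ Fintype.card K := fun x => rfl
    rw [map_add, map_inv₀, hφ] at hφσ
    have ht0 : (z ^ 3) ^ Fintype.card K ≠ 0 := pow_ne_zero _ hμ0
    have i1 : (z ^ 3) ^ Fintype.card K * ((z ^ 3) ^ Fintype.card K)⁻¹ = 1 :=
      mul_inv_cancel₀ ht0
    have i2 : z ^ 3 * (z ^ 3)⁻¹ = 1 := mul_inv_cancel₀ hμ0
    have hfac : ((z ^ 3) ^ Fintype.card K - z ^ 3)
        * ((z ^ 3) ^ Fintype.card K * z ^ 3 - 1) = 0 := by
      linear_combination ((z ^ 3) ^ Fintype.card K * z ^ 3) * hφσ - z ^ 3 * i1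
        + (z ^ 3) ^ Fintype.card K * i2
    rcases mul_eq_zero.1 hfac with hA | hB
    · have hA' : (z ^ 3) ^ (Fintype.card K - 1) = 1 := by
        have h9 : (z ^ 3) ^ (Fintype.card K - 1) * z ^ 3 = 1 * z ^ 3 := by
          rw [← pow_succ, Nat.sub_add_cancel (by omega), one_mul]
          exact sub_eq_zero.1 hA
        exact mul_right_cancel₀ hμ0 h9
      have hdvd := hpow (3 * (Fintype.card K - 1)) (by rw [pow_mul]; exact hA')
      rw [hcard] at hdvd
      exact h4 (hcard.trans (arith_A _ _ hQ hk hdvd))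
    · have hB' : (z ^ 3) ^ (Fintype.card K + 1) = 1 := by
        rw [pow_succ]
        exact sub_eq_zero.1 hB
      have hdvd := hpow (3 * (Fintype.card K + 1)) (by rw [pow_mul]; exact hB')
      rw [hcard] at hdvd
      rcases arith_B _ _ hQ hk hdvd with h | h
      · exact h4 (hcard.trans h)
      · exact h16 (hcard.trans h)

end Cfsg.Agent.Helper20.SL3Gen
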