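import Mathlib
import Cfsg.Agent.Helper20.SL3Gen3
import Cfsg.Agent.Helper20.SL3Cert

/-!
# The fields with `2, 3, 4, 7, 16` elements: `SL_3(F)` is generated by two conjugate regular
unipotent elements
-/

set_option autoImplicit false

namespace Cfsg.Agent.Helper20.SL3Gen

open Matrix

variable {F : Type*} [Field F]

theorem two_eq_zero_of_card [Fintype F] (k : ℕ) (hk : k ≠ 0) (h : Fintype.card F = 2 ^ k) :
    (2 : F) = 0 := by
  have h1 : ((Fintype.card F : ℕ) : F) = 0 := Nat.cast_card_eq_zero F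
  rw [h] at h1
  push_cast at h1
  exact (pow_eq_zero_iff hk).1 h1

theorem prime_closure [Fintype F] (hp : (Fintype.card F).Prime) (S : Set F) :
    Subfield.closure S = ⊤ := by
  classical
  obtain ⟨K, hK⟩ : ∃ K : Subfield F, K = Subfield.closure S := ⟨_, rfl⟩
  rw [← hK]
  haveI : Fintype K := Fintype.ofFinite K
  have hcard : Fintype.card F = Fintype.card K ^ Module.finrank K F := Module.card_eq_pow_finrank
  have hQ : 2 ≤ Fintype.card K := Fintype.one_lt_card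
  have hk0 : Module.finrank K F ≠ 0 := by
    intro h0
    rw [h0, pow_zero] at hcard
    rw [hcard] at hp
    exact Nat.not_prime_one hp
  have hdvd : Fintype.card K ∣ Fintype.card F := by
    rw [hcard]
    exact dvd_pow_self _ hk0
  have h1 : Fintype.card K = Fintype.card F := by
    rcases (Nat.dvd_prime hp).1 hdvd with h | h
    · omega
    · exact h
  have hbij : Function.Bijective (Subtype.val : K → F) :=
    (Fintype.bijective_iff_injective_and_card _).2 ⟨Subtype.val_injective, h1⟩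
  rw [eq_top_iff]
  intro x _
  obtain ⟨y, rfl⟩ := hbij.2 x
  exact y.2

theorem exists_gen [Fintype F] : ∃ z : F, z ≠ 0 ∧ z ^ (Fintype.card F - 1) = 1 ∧
    (∀ n : ℕ, z ^ n = 1 → Fintype.card F - 1 ∣ n) ∧ ∀ K : Subfield F, z ∈ K → K = ⊤ := by
  classical
  obtain ⟨ζ, hζ⟩ := IsCyclic.exists_generator (α := Fˣ)
  have hord : orderOf ζ = Fintype.card F - 1 := by
    rw [orderOf_eq_card_of_forall_mem_zpowers hζ, Nat.card_eq_fintype_card, Fintype.card_units]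
  refine ⟨(ζ : F), ζ.ne_zero, ?_, ?_, ?_⟩
  · rw [← hord, ← Units.val_pow_eq_pow_val, pow_orderOf_eq_one, Units.val_one]
  · intro n hn
    rw [← hord]
    apply orderOf_dvd_of_pow_eq_one
    apply Units.ext
    rw [Units.val_pow_eq_pow_val, hn, Units.val_one]
  · intro K hK
    rw [eq_top_iff]
    intro x _
    by_cases hx : x = 0
    · rw [hx]
      exact K.zero_mem
    · obtain ⟨k, hk⟩ := Subgroup.mem_zpowers_iff.1 (hζ (Units.mk0 x hx))
      have hx' : x = (ζ : F) ^ k := by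
        rw [← Units.val_zpow_eq_zpow_val, hk, Units.val_mk0]
      rw [hx']
      exact K.zpow_mem hK k

theorem exists_omega4 [Fintype F] (h : Fintype.card F = 4) : ∃ ω : F, ω ^ 2 + ω + 1 = 0 := by
  obtain ⟨z, hz, hz1, hzd, -⟩ := exists_gen (F := F)
  rw [h] at hz1 hzd
  refine ⟨z, ?_⟩
  have h3 : z ^ 3 = 1 := hz1
  have hne : z - 1 ≠ 0 := by
    intro h0
    have h1 : z ^ 1 = 1 := by
      rw [pow_one]
      linear_combination h0
    exact absurd (hzd 1 h1) (by decide)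
  have hfac : (z - 1) * (z ^ 2 + z + 1) = 0 := by linear_combination h3
  rcases mul_eq_zero.1 hfac with h0 | h0
  · exact absurd h0 hne
  · exact h0

theorem exists_omega16 [Fintype F] (h : Fintype.card F = 16) (hp : (2 : F) = 0) :
    ∃ ω : F, ω ^ 4 + ω + 1 = 0 ∧ ∀ K : Subfield F, ω ∈ K → K = ⊤ := by
  obtain ⟨z, hz, hz1, hzd, hzK⟩ := exists_gen (F := F)
  rw [h] at hz1 hzd
  have h15 : z ^ 15 = 1 := hz1
  have hfac : (z ^ 4 + z + 1) * (z ^ 4 + z ^ 3 + 1) * (z ^ 4 + z ^ 3 + z ^ 2 + z + 1)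
      * (z ^ 2 + z + 1) * (z + 1) = 0 := by
    linear_combination h15 + (1 + 2 * z + 4 * z ^ 2 + 6 * z ^ 3 + 9 * z ^ 4 + 13 * z ^ 5
      + 16 * z ^ 6 + 17 * z ^ 7 + 17 * z ^ 8 + 16 * z ^ 9 + 13 * z ^ 10 + 9 * z ^ 11
      + 6 * z ^ 12 + 4 * z ^ 13 + 2 * z ^ 14) * hp
  rcases mul_eq_zero.1 hfac with h0 | h0
  · rcases mul_eq_zero.1 h0 with h0 | h0
    · rcases mul_eq_zero.1 h0 with h0 | h0
      · rcases mul_eq_zero.1 h0 with h0 | h0
        · exact ⟨z, h0, hzK⟩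
        · refine ⟨z⁻¹, ?_, ?_⟩
          · have hzi : z * z⁻¹ = 1 := mul_inv_cancel₀ hz
            linear_combination (z⁻¹) ^ 4 * h0
              - ((z * z⁻¹) ^ 3 + (z * z⁻¹) ^ 2 + (z * z⁻¹) + 1) * hzi
              - z⁻¹ * ((z * z⁻¹) ^ 2 + z * z⁻¹ + 1) * hzi
          · intro K hK
            apply hzK
            have h9 := K.inv_mem hK
            rwa [inv_inv] at h9
      · exfalso
        have h5 : z ^ 5 = 1 := by linear_combination (z - 1) * h0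
        exact absurd (hzd 5 h5) (by decide)
    · exfalso
      have h3 : z ^ 3 = 1 := by linear_combination (z - 1) * h0
      exact absurd (hzd 3 h3) (by decide)
  · exfalso
    have h1 : z ^ 1 = 1 := by linear_combination h0 - hp
    exact absurd (hzd 1 h1) (by decide)

theorem Um0_add (H : Subgroup (Matrix.SpecialLinearGroup (Fin 3) F)) {v w c1 c2 : F}
    (h1 : Um v 0 c1 ∈ H) (h2 : Um w 0 c2 ∈ H) : Um (v + w) 0 (c1 + c2) ∈ H := by
  have h3 := H.mul_mem h1 h2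
  rw [Um_mul] at h3
  have e : Um (v + w) 0 (c1 + c2) = Um (v + w) (0 + 0) (c1 + c2 + v * 0) := by
    apply Um_congr <;> ring
  rw [e]
  exact h3

theorem Um0_neg (H : Subgroup (Matrix.SpecialLinearGroup (Fin 3) F)) {v c1 : F}
    (h1 : Um v 0 c1 ∈ H) : Um (-v) 0 (-c1) ∈ H := by
  have h3 := H.inv_mem h1
  rw [Um_inv] at h3
  have e : Um (-v) 0 (-c1) = Um (-v) (-0) (v * 0 - c1) := by
    apply Um_congr <;> ring
  rw [e]
  exact h3

theorem h3_of_scal [Finite F] (H : Subgroup (Matrix.SpecialLinearGroup (Fin 3) F)) (s₀ c₀ : F)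
    (hs : s₀ ≠ 0) (h1 : Um s₀ 0 c₀ ∈ H) (S : Set F)
    (hS : ∀ m ∈ S, ∀ s c', Um s 0 c' ∈ H → ∃ c'', Um (m * s) 0 c'' ∈ H)
    (hcl : Subfield.closure S = ⊤) : ∀ s, ∃ c', Um s 0 c' ∈ H := by
  have hP0 : ∃ c', Um (0 : F) 0 c' ∈ H := ⟨0, by rw [Um_one]; exact H.one_mem⟩
  have hadd : ∀ v w : F, (∃ c', Um v 0 c' ∈ H) → (∃ c', Um w 0 c' ∈ H) →
      ∃ c', Um (v + w) 0 c' ∈ H := by
    rintro v w ⟨c1, h1⟩ ⟨c2, h2⟩
    exact ⟨_, Um0_add H h1 h2⟩
  have hneg : ∀ v : F, (∃ c', Um v 0 c' ∈ H) → ∃ c', Um (-v) 0 c' ∈ H := by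
    rintro v ⟨c1, h1⟩
    exact ⟨_, Um0_neg H h1⟩
  have hS' : ∀ m ∈ S, ∀ v : F, (∃ c', Um v 0 c' ∈ H) → ∃ c', Um (m • v) 0 c' ∈ H := by
    rintro m hm v ⟨c1, h1⟩
    exact hS m hm v c1 h1
  have hall := scal (F := F) (V := F) (fun v : F => ∃ c', Um v 0 c' ∈ H) hP0 hadd hneg S hS' hcl
  intro s
  obtain ⟨cc, hcc⟩ := hall (s / s₀) s₀ ⟨c₀, h1⟩
  refine ⟨cc, ?_⟩
  have e : Um s 0 cc = Um ((s / s₀) • s₀) 0 cc := by
    apply Um_congr
    · show s = s / s₀ * s₀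
      rw [div_mul_cancel₀ _ hs]
    · rfl
    · rfl
  rw [e]
  exact hcc

theorem torus_step (H : Subgroup (Matrix.SpecialLinearGroup (Fin 3) F)) (a b c : F)
    (h : a * b * c = -1) (hM : Am a b c h ∈ H) (s c' : F) (hU : Um s 0 c' ∈ H) :
    ∃ c'', Um (a * c / (b * b) * s) 0 c'' ∈ H := by
  have hprod : a * c * (b * b) * (a * c) = 1 := by linear_combination (a * b * c - 1) * h
  have hD : Dm (a * c) (b * b) (a * c) hprod ∈ H := by
    have h1 := H.mul_mem hM hM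
    rw [Am_sq] at h1
    exact h1
  have e := Dm_mul_Um (a * c) (b * b) (a * c) hprod s 0 c'
  have e' : Um (a * c / (b * b) * s) (b * b / (a * c) * 0) (a * c / (a * c) * c')
      = Dm (a * c) (b * b) (a * c) hprod * Um s 0 c' * (Dm (a * c) (b * b) (a * c) hprod)⁻¹ := by
    rw [eq_mul_inv_iff_mul_eq]
    exact e.symm
  refine ⟨a * c / (a * c) * c', ?_⟩
  have e2 : Um (a * c / (b * b) * s) 0 (a * c / (a * c) * c')
      = Um (a * c / (b * b) * s) (b * b / (a * c) * 0) (a * c / (a * c) * c') := by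
    apply Um_congr
    · rfl
    · rw [mul_zero]
    · rfl
  rw [e2, e']
  exact H.mul_mem (H.mul_mem hD hU) (H.inv_mem hD)

theorem sl_inv_of_mul {A B : Matrix.SpecialLinearGroup (Fin 3) F}
    (h : (A : Matrix (Fin 3) (Fin 3) F) * (B : Matrix (Fin 3) (Fin 3) F)
      = !![1, 0, 0; 0, 1, 0; 0, 0, 1]) : B = A⁻¹ := by
  apply eq_inv_of_mul_eq_one_right
  apply Subtype.ext
  rw [Matrix.SpecialLinearGroup.coe_mul, h, Matrix.SpecialLinearGroup.coe_one]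
  exact Matrix.one_fin_three.symm

theorem case2 [Fintype F] (hcard : Fintype.card F = 2) :
    ∃ u g : Matrix.SpecialLinearGroup (Fin 3) F,
      IsNilpotent ((u : Matrix (Fin 3) (Fin 3) F) - 1) ∧
      ((u : Matrix (Fin 3) (Fin 3) F) - 1) ^ (3 - 1) ≠ 0 ∧
      Subgroup.closure ({u, g * u * g⁻¹} : Set (Matrix.SpecialLinearGroup (Fin 3) F)) = ⊤ := by
  have hp : (2 : F) = 0 := two_eq_zero_of_card 1 one_ne_zero (hcard.trans (by norm_num))
  obtain ⟨g, hg⟩ : ∃ g : Matrix.SpecialLinearGroup (Fin 3) F,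
      (g : Matrix (Fin 3) (Fin 3) F) = !![0, 0, 1; 0, 1, 0; 1, 0, 0] := ⟨⟨_, detG2 hp⟩, rfl⟩
  obtain ⟨v, hv⟩ : ∃ v : Matrix.SpecialLinearGroup (Fin 3) F,
      (v : Matrix (Fin 3) (Fin 3) F) = !![1, 0, 0; 1, 1, 0; 0, 1, 1] := ⟨⟨_, detV2 hp⟩, rfl⟩
  have hu : ((Um 1 1 0 : Matrix.SpecialLinearGroup (Fin 3) F) : Matrix (Fin 3) (Fin 3) F)
      = !![1, 1, 0; 0, 1, 1; 0, 0, 1] := rfl
  refine ⟨Um 1 1 0, g, Um_nilp _ _ _, Um_reg _ _ _ one_ne_zero one_ne_zero, ?_⟩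
  have hconj : g * Um 1 1 0 * g⁻¹ = v := by
    rw [mul_inv_eq_iff_eq_mul]
    apply Subtype.ext
    rw [Matrix.SpecialLinearGroup.coe_mul, Matrix.SpecialLinearGroup.coe_mul, hg, hv, hu,
      gu2 hp, vg2 hp]
  rw [hconj]
  obtain ⟨H, hH⟩ : ∃ H : Subgroup (Matrix.SpecialLinearGroup (Fin 3) F),
      H = Subgroup.closure ({Um 1 1 0, v} : Set (Matrix.SpecialLinearGroup (Fin 3) F)) :=
    ⟨_, rfl⟩
  rw [← hH]
  have huH : Um 1 1 0 ∈ H := by
    rw [hH]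
    exact Subgroup.subset_closure (Set.mem_insert _ _)
  have hvH : v ∈ H := by
    rw [hH]
    exact Subgroup.subset_closure (Set.mem_insert_of_mem _ rfl)
  have hc : (1 : F) * 1 * 1 = -1 := by linear_combination hp
  have hAH : Am 1 1 1 hc ∈ H := by
    have e : Am (1 : F) 1 1 hc = Um 1 1 0 * Um 1 1 0 * v * v * Um 1 1 0 * Um 1 1 0 := by
      apply Subtype.ext
      simp only [Matrix.SpecialLinearGroup.coe_mul, hv, hu]
      exact (cert_anti2 hp).symm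
    rw [e]
    repeat' (first | exact huH | exact hvH | apply Subgroup.mul_mem)
  have hU1 : Um 1 0 0 ∈ H := by
    have e : Um (1 : F) 0 0 = v * Um 1 1 0 * v * Um 1 1 0 * Um 1 1 0 * v := by
      apply Subtype.ext
      simp only [Matrix.SpecialLinearGroup.coe_mul, hv, hu]
      exact (cert_um12 hp).symm
    rw [e]
    repeat' (first | exact huH | exact hvH | apply Subgroup.mul_mem)
  exact final_lemma H 1 1 0 one_ne_zero huH 1 1 1 hc hAH
    (h3_of_scal H 1 0 one_ne_zero hU1 ∅ (by intro m hm; simp at hm)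
      (prime_closure (by rw [hcard]; exact Nat.prime_two) ∅))

theorem case3 [Fintype F] (hcard : Fintype.card F = 3) :
    ∃ u g : Matrix.SpecialLinearGroup (Fin 3) F,
      IsNilpotent ((u : Matrix (Fin 3) (Fin 3) F) - 1) ∧
      ((u : Matrix (Fin 3) (Fin 3) F) - 1) ^ (3 - 1) ≠ 0 ∧
      Subgroup.closure ({u, g * u * g⁻¹} : Set (Matrix.SpecialLinearGroup (Fin 3) F)) = ⊤ := by
  have hp : (3 : F) = 0 := by
    have h1 : ((Fintype.card F : ℕ) : F) = 0 := Nat.cast_card_eq_zero F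
    rw [hcard] at h1
    exact_mod_cast h1
  obtain ⟨g, hg⟩ : ∃ g : Matrix.SpecialLinearGroup (Fin 3) F,
      (g : Matrix (Fin 3) (Fin 3) F) = !![0, 0, 1; 0, 2, 0; 1, 0, 0] := ⟨⟨_, detG3 hp⟩, rfl⟩
  obtain ⟨v, hv⟩ : ∃ v : Matrix.SpecialLinearGroup (Fin 3) F,
      (v : Matrix (Fin 3) (Fin 3) F) = !![1, 0, 0; 2, 1, 0; 0, 2, 1] := ⟨⟨_, detV3 hp⟩, rfl⟩
  obtain ⟨vi, hvi⟩ : ∃ vi : Matrix.SpecialLinearGroup (Fin 3) F,
      (vi : Matrix (Fin 3) (Fin 3) F) = !![1, 0, 0; 1, 1, 0; 1, 1, 1] := ⟨⟨_, detVi3 hp⟩, rfl⟩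
  have hu : ((Um 1 1 0 : Matrix.SpecialLinearGroup (Fin 3) F) : Matrix (Fin 3) (Fin 3) F)
      = !![1, 1, 0; 0, 1, 1; 0, 0, 1] := rfl
  have hui : ((Um 2 2 1 : Matrix.SpecialLinearGroup (Fin 3) F) : Matrix (Fin 3) (Fin 3) F)
      = !![1, 2, 1; 0, 1, 2; 0, 0, 1] := rfl
  refine ⟨Um 1 1 0, g, Um_nilp _ _ _, Um_reg _ _ _ one_ne_zero one_ne_zero, ?_⟩
  have hconj : g * Um 1 1 0 * g⁻¹ = v := by
    rw [mul_inv_eq_iff_eq_mul]
    apply Subtype.ext
    rw [Matrix.SpecialLinearGroup.coe_mul, Matrix.SpecialLinearGroup.coe_mul, hg, hv, hu,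
      gu3 hp, vg3 hp]
  rw [hconj]
  obtain ⟨H, hH⟩ : ∃ H : Subgroup (Matrix.SpecialLinearGroup (Fin 3) F),
      H = Subgroup.closure ({Um 1 1 0, v} : Set (Matrix.SpecialLinearGroup (Fin 3) F)) :=
    ⟨_, rfl⟩
  rw [← hH]
  have huH : Um 1 1 0 ∈ H := by
    rw [hH]
    exact Subgroup.subset_closure (Set.mem_insert _ _)
  have hvH : v ∈ H := by
    rw [hH]
    exact Subgroup.subset_closure (Set.mem_insert_of_mem _ rfl)
  have hviH : vi ∈ H := by
    rw [sl_inv_of_mul (A := v) (B := vi) (by rw [hv, hvi]; exact vvi3 hp)]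
    exact H.inv_mem hvH
  have huiH : Um 2 2 1 ∈ H := by
    rw [sl_inv_of_mul (A := Um 1 1 0) (B := Um 2 2 1) (uui3 hp)]
    exact H.inv_mem huH
  have hc : (2 : F) * 1 * 1 = -1 := by linear_combination hp
  have hAH : Am 2 1 1 hc ∈ H := by
    have e : Am (2 : F) 1 1 hc = Um 1 1 0 * vi * Um 2 2 1 * v * Um 1 1 0 * vi := by
      apply Subtype.ext
      simp only [Matrix.SpecialLinearGroup.coe_mul, hv, hvi, hu, hui]
      exact (cert_anti3 hp).symm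
    rw [e]
    repeat' (first | exact huH | exact hvH | exact hviH | exact huiH | apply Subgroup.mul_mem)
  have hU1 : Um 1 0 2 ∈ H := by
    have e : Um (1 : F) 0 2 = v * Um 2 2 1 * vi * Um 1 1 0 * vi * Um 2 2 1 * vi := by
      apply Subtype.ext
      simp only [Matrix.SpecialLinearGroup.coe_mul, hv, hvi, hu, hui]
      exact (cert_um13 hp).symm
    rw [e]
    repeat' (first | exact huH | exact hvH | exact hviH | exact huiH | apply Subgroup.mul_mem)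
  exact final_lemma H 1 1 0 one_ne_zero huH 2 1 1 hc hAH
    (h3_of_scal H 1 2 one_ne_zero hU1 ∅ (by intro m hm; simp at hm)
      (prime_closure (by rw [hcard]; exact Nat.prime_three) ∅))

theorem case4 [Fintype F] (hcard : Fintype.card F = 4) :
    ∃ u g : Matrix.SpecialLinearGroup (Fin 3) F,
      IsNilpotent ((u : Matrix (Fin 3) (Fin 3) F) - 1) ∧
      ((u : Matrix (Fin 3) (Fin 3) F) - 1) ^ (3 - 1) ≠ 0 ∧
      Subgroup.closure ({u, g * u * g⁻¹} : Set (Matrix.SpecialLinearGroup (Fin 3) F)) = ⊤ := by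
  have hp : (2 : F) = 0 := two_eq_zero_of_card 2 two_ne_zero (hcard.trans (by norm_num))
  obtain ⟨ω, hω⟩ := exists_omega4 hcard
  obtain ⟨g, hg⟩ : ∃ g : Matrix.SpecialLinearGroup (Fin 3) F,
      (g : Matrix (Fin 3) (Fin 3) F) = !![0, 0, 1; ω, 0, 0; 0, 1 + ω, 0] :=
    ⟨⟨_, detG4 ω hp hω⟩, rfl⟩
  obtain ⟨v, hv⟩ : ∃ v : Matrix.SpecialLinearGroup (Fin 3) F,
      (v : Matrix (Fin 3) (Fin 3) F) = !![1, 0, 0; 0, 1, 1 + ω; 1 + ω, 0, 1] :=
    ⟨⟨_, detV4 ω hp hω⟩, rfl⟩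
  obtain ⟨vi, hvi⟩ : ∃ vi : Matrix.SpecialLinearGroup (Fin 3) F,
      (vi : Matrix (Fin 3) (Fin 3) F) = !![1, 0, 0; ω, 1, 1 + ω; 1 + ω, 0, 1] :=
    ⟨⟨_, detVi4 ω hp hω⟩, rfl⟩
  have hu : ((Um 1 1 0 : Matrix.SpecialLinearGroup (Fin 3) F) : Matrix (Fin 3) (Fin 3) F)
      = !![1, 1, 0; 0, 1, 1; 0, 0, 1] := rfl
  have hui : ((Um 1 1 1 : Matrix.SpecialLinearGroup (Fin 3) F) : Matrix (Fin 3) (Fin 3) F)
      = !![1, 1, 1; 0, 1, 1; 0, 0, 1] := rfl
  refine ⟨Um 1 1 0, g, Um_nilp _ _ _, Um_reg _ _ _ one_ne_zero one_ne_zero, ?_⟩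
  have hconj : g * Um 1 1 0 * g⁻¹ = v := by
    rw [mul_inv_eq_iff_eq_mul]
    apply Subtype.ext
    rw [Matrix.SpecialLinearGroup.coe_mul, Matrix.SpecialLinearGroup.coe_mul, hg, hv, hu,
      gu4 ω hp hω, vg4 ω hp hω]
  rw [hconj]
  obtain ⟨H, hH⟩ : ∃ H : Subgroup (Matrix.SpecialLinearGroup (Fin 3) F),
      H = Subgroup.closure ({Um 1 1 0, v} : Set (Matrix.SpecialLinearGroup (Fin 3) F)) :=
    ⟨_, rfl⟩
  rw [← hH]
  have huH : Um 1 1 0 ∈ H := by
    rw [hH]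
    exact Subgroup.subset_closure (Set.mem_insert _ _)
  have hvH : v ∈ H := by
    rw [hH]
    exact Subgroup.subset_closure (Set.mem_insert_of_mem _ rfl)
  have hviH : vi ∈ H := by
    rw [sl_inv_of_mul (A := v) (B := vi) (by rw [hv, hvi]; exact vvi4 ω hp hω)]
    exact H.inv_mem hvH
  have huiH : Um 1 1 1 ∈ H := by
    rw [sl_inv_of_mul (A := Um 1 1 0) (B := Um 1 1 1) (uui4 ω hp hω)]
    exact H.inv_mem huH
  have hc : (1 + ω) * 1 * ω = -1 := by linear_combination hω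
  have hAH : Am (1 + ω) 1 ω hc ∈ H := by
    have e : Am (1 + ω) 1 ω hc
        = Um 1 1 0 * Um 1 1 0 * v * Um 1 1 0 * Um 1 1 0 * vi * Um 1 1 0 * Um 1 1 0 := by
      apply Subtype.ext
      simp only [Matrix.SpecialLinearGroup.coe_mul, hv, hvi, hu]
      exact (cert_anti4 ω hp hω).symm
    rw [e]
    repeat' (first | exact huH | exact hvH | exact hviH | exact huiH | apply Subgroup.mul_mem)
  have hU1 : Um 1 0 ω ∈ H := by
    have e : Um 1 0 ω
        = vi * Um 1 1 1 * vi * Um 1 1 0 * v * v * Um 1 1 1 * v * Um 1 1 0 * v := by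
      apply Subtype.ext
      simp only [Matrix.SpecialLinearGroup.coe_mul, hv, hvi, hu, hui]
      exact (cert_um14 ω hp hω).symm
    rw [e]
    repeat' (first | exact huH | exact hvH | exact hviH | exact huiH | apply Subgroup.mul_mem)
  have hUω : Um ω 0 0 ∈ H := by
    have e : Um ω 0 0
        = Um 1 1 0 * vi * Um 1 1 0 * v * Um 1 1 1 * vi * Um 1 1 0 * Um 1 1 0 * v * Um 1 1 1
          * v := by
      apply Subtype.ext
      simp only [Matrix.SpecialLinearGroup.coe_mul, hv, hvi, hu, hui]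
      exact (cert_umw4 ω hp hω).symm
    rw [e]
    repeat' (first | exact huH | exact hvH | exact hviH | exact huiH | apply Subgroup.mul_mem)
  apply final_lemma H 1 1 0 one_ne_zero huH (1 + ω) 1 ω hc hAH
  intro s
  have hs4 : s ^ 4 = s := by
    have h9 := FiniteField.pow_card s
    rw [hcard] at h9
    exact h9
  have hfac : s * (s - 1) * (s - ω) * (s - (1 + ω)) = 0 := by
    linear_combination hs4 + (s - s ^ 3 - ω * s ^ 2 * (s - 1)) * hp + s * (s - 1) * hω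
  rcases mul_eq_zero.1 hfac with h0 | h0
  · rcases mul_eq_zero.1 h0 with h0 | h0
    · rcases mul_eq_zero.1 h0 with h0 | h0
      · subst h0
        exact ⟨0, by rw [Um_one]; exact H.one_mem⟩
      · have h1 : s = 1 := by linear_combination h0
        subst h1
        exact ⟨ω, hU1⟩
    · have h1 : s = ω := by linear_combination h0
      subst h1
      exact ⟨0, hUω⟩
  · have h1 : s = 1 + ω := by linear_combination h0
    subst h1
    exact ⟨_, Um0_add H hU1 hUω⟩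

theorem case7 [Fintype F] (hcard : Fintype.card F = 7) :
    ∃ u g : Matrix.SpecialLinearGroup (Fin 3) F,
      IsNilpotent ((u : Matrix (Fin 3) (Fin 3) F) - 1) ∧
      ((u : Matrix (Fin 3) (Fin 3) F) - 1) ^ (3 - 1) ≠ 0 ∧
      Subgroup.closure ({u, g * u * g⁻¹} : Set (Matrix.SpecialLinearGroup (Fin 3) F)) = ⊤ := by
  have hp : (7 : F) = 0 := by
    have h1 : ((Fintype.card F : ℕ) : F) = 0 := Nat.cast_card_eq_zero F
    rw [hcard] at h1
    exact_mod_cast h1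
  have hb : (2 : F) ≠ 0 := by
    intro h
    have h1 : (1 : F) = 0 := by linear_combination hp - 3 * h
    exact one_ne_zero h1
  have hd : (2 : F) - 1 ≠ 0 := by norm_num
  have hc : (2 : F) * 2 * 5 = -1 := by linear_combination (3 : F) * hp
  have hc' : (3 : F) * 4 * 4 = -1 := by linear_combination (7 : F) * hp
  have h6 : (6 : F) ≠ 0 := by
    intro h
    have h1 : (1 : F) = 0 := by linear_combination hp - h
    exact one_ne_zero h1
  obtain ⟨u, g, hn, hr, hu0, hM⟩ := family (2 : F) 5 hb hd hc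
  have hu' : u = Um 1 1 5 := by
    rw [hu0]
    apply Um_congr <;> norm_num
  refine ⟨u, g, hn, hr, ?_⟩
  obtain ⟨H, hH⟩ : ∃ H : Subgroup (Matrix.SpecialLinearGroup (Fin 3) F),
      H = Subgroup.closure ({u, g * u * g⁻¹} : Set (Matrix.SpecialLinearGroup (Fin 3) F)) :=
    ⟨_, rfl⟩
  rw [← hH]
  have huH : Um 1 1 5 ∈ H := by
    rw [hH, ← hu']
    exact Subgroup.subset_closure (Set.mem_insert _ _)
  have hMH : Am 2 2 5 hc ∈ H := by
    rw [hH, ← hM]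
    exact Subgroup.mul_mem _ (Subgroup.subset_closure (Set.mem_insert _ _))
      (Subgroup.subset_closure (Set.mem_insert_of_mem _ rfl))
  have huiH : Um 6 6 3 ∈ H := by
    rw [sl_inv_of_mul (A := Um 1 1 5) (B := Um 6 6 3) (uui7 hp)]
    exact H.inv_mem huH
  have hMiH : Am 3 4 4 hc' ∈ H := by
    rw [sl_inv_of_mul (A := Am 2 2 5 hc) (B := Am 3 4 4 hc') (mmi7 hp)]
    exact H.inv_mem hMH
  have hU6 : Um 6 0 0 ∈ H := by
    have e : Um (6 : F) 0 0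
        = Um 1 1 5 * Am 2 2 5 hc * Um 6 6 3 * Um 6 6 3 * Am 2 2 5 hc * Um 1 1 5 * Um 1 1 5
          * Am 2 2 5 hc * Um 1 1 5 * Am 3 4 4 hc' * Um 1 1 5 * Am 2 2 5 hc := by
      apply Subtype.ext
      simp only [Matrix.SpecialLinearGroup.coe_mul]
      exact (cert_um7 hp).symm
    rw [e]
    repeat' (first | exact huH | exact hMH | exact hMiH | exact huiH | apply Subgroup.mul_mem)
  exact final_lemma H 1 1 5 one_ne_zero huH 2 2 5 hc hMH
    (h3_of_scal H 6 0 h6 hU6 ∅ (by intro m hm; simp at hm)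
      (prime_closure (by rw [hcard]; norm_num) ∅))

theorem case16 [Fintype F] (hcard : Fintype.card F = 16) :
    ∃ u g : Matrix.SpecialLinearGroup (Fin 3) F,
      IsNilpotent ((u : Matrix (Fin 3) (Fin 3) F) - 1) ∧
      ((u : Matrix (Fin 3) (Fin 3) F) - 1) ^ (3 - 1) ≠ 0 ∧
      Subgroup.closure ({u, g * u * g⁻¹} : Set (Matrix.SpecialLinearGroup (Fin 3) F)) = ⊤ := by
  have hp : (2 : F) = 0 := two_eq_zero_of_card 4 (by norm_num) (hcard.trans (by norm_num))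
  obtain ⟨ω, hω, hωK⟩ := exists_omega16 hcard hp
  have hb : ω ≠ 0 := by
    intro h
    rw [h] at hω
    norm_num at hω
  have hd : ω - 1 ≠ 0 := by
    intro h
    have h1 : (1 : F) = 0 := by
      linear_combination hω - hp - (ω ^ 3 + ω ^ 2 + ω + 2) * h
    exact one_ne_zero h1
  have hc : ω * ω * (1 + ω ^ 2 + ω ^ 3) = -1 := by
    linear_combination (-ω : F) * hp + (1 + ω : F) * hω
  have hc' : ω ^ 2 * (1 + ω ^ 3) * (1 + ω ^ 3) = -1 := by
    linear_combination (ω ^ 5 + ω ^ 2 + ω + 1) * hp + (ω ^ 4 - ω - 1) * hω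
  have e1 : (ω - 1) ^ 2 = 1 + ω ^ 2 := by linear_combination (-ω : F) * hp
  have e2 : ω - 1 = 1 + ω := by linear_combination (-1 : F) * hp
  have e3 : 3 * ω - 1 = 1 + ω := by linear_combination (-1 + ω : F) * hp
  have hy : 1 + ω ≠ 0 := by
    rw [← e2]
    exact hd
  have hs0 : 1 + ω + ω ^ 2 ≠ 0 := by
    intro h
    have h1 : (1 : F) = 0 := by linear_combination hω - (ω ^ 2 - ω) * h - ω * hp
    exact one_ne_zero h1
  obtain ⟨u, g, hn, hr, hu0, hM⟩ := family ω (1 + ω ^ 2 + ω ^ 3) hb hd hc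
  have hu' : u = Um (1 + ω ^ 2) (1 + ω) (1 + ω) := by
    rw [hu0]
    exact Um_congr e1 e2 e3
  refine ⟨u, g, hn, hr, ?_⟩
  obtain ⟨H, hH⟩ : ∃ H : Subgroup (Matrix.SpecialLinearGroup (Fin 3) F),
      H = Subgroup.closure ({u, g * u * g⁻¹} : Set (Matrix.SpecialLinearGroup (Fin 3) F)) :=
    ⟨_, rfl⟩
  rw [← hH]
  have huH : Um (1 + ω ^ 2) (1 + ω) (1 + ω) ∈ H := by
    rw [hH, ← hu']
    exact Subgroup.subset_closure (Set.mem_insert _ _)
  have hMH : Am ω ω (1 + ω ^ 2 + ω ^ 3) hc ∈ H := by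
    rw [hH, ← hM]
    exact Subgroup.mul_mem _ (Subgroup.subset_closure (Set.mem_insert _ _))
      (Subgroup.subset_closure (Set.mem_insert_of_mem _ rfl))
  have huiH : Um (1 + ω ^ 2) (1 + ω) (ω ^ 2 + ω ^ 3) ∈ H := by
    rw [sl_inv_of_mul (A := Um (1 + ω ^ 2) (1 + ω) (1 + ω))
      (B := Um (1 + ω ^ 2) (1 + ω) (ω ^ 2 + ω ^ 3)) (uui16 ω hp hω)]
    exact H.inv_mem huH
  have hMiH : Am (ω ^ 2) (1 + ω ^ 3) (1 + ω ^ 3) hc' ∈ H := by
    rw [sl_inv_of_mul (A := Am ω ω (1 + ω ^ 2 + ω ^ 3) hc)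
      (B := Am (ω ^ 2) (1 + ω ^ 3) (1 + ω ^ 3) hc') (mmi16 ω hp hω)]
    exact H.inv_mem hMH
  have hU : Um (1 + ω + ω ^ 2) 0 (ω ^ 2 + ω ^ 3) ∈ H := by
    have e : Um (1 + ω + ω ^ 2) 0 (ω ^ 2 + ω ^ 3)
        = Am ω ω (1 + ω ^ 2 + ω ^ 3) hc * Um (1 + ω ^ 2) (1 + ω) (1 + ω)
          * Am (ω ^ 2) (1 + ω ^ 3) (1 + ω ^ 3) hc'
          * Um (1 + ω ^ 2) (1 + ω) (ω ^ 2 + ω ^ 3)
          * Am (ω ^ 2) (1 + ω ^ 3) (1 + ω ^ 3) hc'
          * Am (ω ^ 2) (1 + ω ^ 3) (1 + ω ^ 3) hc'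
          * Am (ω ^ 2) (1 + ω ^ 3) (1 + ω ^ 3) hc'
          * Um (1 + ω ^ 2) (1 + ω) (ω ^ 2 + ω ^ 3)
          * Am (ω ^ 2) (1 + ω ^ 3) (1 + ω ^ 3) hc'
          * Um (1 + ω ^ 2) (1 + ω) (1 + ω)
          * Am ω ω (1 + ω ^ 2 + ω ^ 3) hc
          * Um (1 + ω ^ 2) (1 + ω) (ω ^ 2 + ω ^ 3)
          * Um (1 + ω ^ 2) (1 + ω) (ω ^ 2 + ω ^ 3)
          * Am ω ω (1 + ω ^ 2 + ω ^ 3) hc
          * Um (1 + ω ^ 2) (1 + ω) (1 + ω)
          * Am ω ω (1 + ω ^ 2 + ω ^ 3) hc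
          * Um (1 + ω ^ 2) (1 + ω) (ω ^ 2 + ω ^ 3)
          * Am (ω ^ 2) (1 + ω ^ 3) (1 + ω ^ 3) hc' := by
      apply Subtype.ext
      simp only [Matrix.SpecialLinearGroup.coe_mul]
      exact (cert_um16 ω hp hω).symm
    rw [e]
    repeat' (first | exact huH | exact hMH | exact hMiH | exact huiH | apply Subgroup.mul_mem)
  have hμ : ω * (1 + ω ^ 2 + ω ^ 3) / (ω * ω) = 1 + ω + ω ^ 2 + ω ^ 3 := by
    rw [div_eq_iff (mul_ne_zero hb hb)]
    linear_combination (ω : F) * hp + (-ω : F) * hω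
  have hcl : Subfield.closure ({ω * (1 + ω ^ 2 + ω ^ 3) / (ω * ω)} : Set F) = ⊤ := by
    apply hωK
    have hm : ω * (1 + ω ^ 2 + ω ^ 3) / (ω * ω)
        ∈ Subfield.closure ({ω * (1 + ω ^ 2 + ω ^ 3) / (ω * ω)} : Set F) :=
      Subfield.subset_closure (Set.mem_singleton _)
    have e : ω = 1 + ω * (1 + ω ^ 2 + ω ^ 3) / (ω * ω)
        + (ω * (1 + ω ^ 2 + ω ^ 3) / (ω * ω)) ^ 3 := by
      rw [hμ]
      linear_combination (4 * ω + 5 * ω ^ 2 + 2 * ω ^ 3 : F) * hp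
        + (-3 - 8 * ω - 9 * ω ^ 2 - 6 * ω ^ 3 - 3 * ω ^ 4 - ω ^ 5 : F) * hω
    have h9 := Subfield.add_mem _ (Subfield.add_mem _ (Subfield.one_mem _) hm)
      (Subfield.pow_mem _ hm 3)
    rw [← e] at h9
    exact h9
  exact final_lemma H (1 + ω ^ 2) (1 + ω) (1 + ω) hy huH ω ω (1 + ω ^ 2 + ω ^ 3) hc hMH
    (h3_of_scal H (1 + ω + ω ^ 2) (ω ^ 2 + ω ^ 3) hs0 hU
      {ω * (1 + ω ^ 2 + ω ^ 3) / (ω * ω)}
      (by
        intro m hm s c' hs
        rw [Set.mem_singleton_iff] at hm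
        subst hm
        exact torus_step H ω ω (1 + ω ^ 2 + ω ^ 3) hc hMH s c' hs)
      hcl)

end Cfsg.Agent.Helper20.SL3Gen
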