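import Mathlib
import Cfsg.Agent.Helper20.SL3Spec

/-!
# `SL_n(F)` (`n ≥ 3`, `F` finite) is generated by three conjugate regular unipotent elements

Transvection calculus: `1 + vecMulVec v φ` with `φ ⬝ᵥ v = 0`.
The generators are `u = 1 - N` (`N` the nilpotent shift), `u · x_{1n}(ζ)` (conjugate of `u` by the
transvection `x_{1,n-1}(-ζ)`) and the conjugate of `u` by `x_{n,1}(1)`.
-/

set_option autoImplicit false

namespace Cfsg.Agent.Helper20.SLnGen

open Matrix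

section general

variable {F : Type*} [Field F] {ι : Type*} [DecidableEq ι] [Fintype ι]

/-- The matrix `M` is the matrix of an element of the subgroup `H`. -/
def InH (H : Subgroup (Matrix.SpecialLinearGroup ι F)) (M : Matrix ι ι F) : Prop :=
  ∃ x ∈ H, (x : Matrix ι ι F) = M

theorem inH_one (H : Subgroup (Matrix.SpecialLinearGroup ι F)) : InH H 1 :=
  ⟨1, H.one_mem, Matrix.SpecialLinearGroup.coe_one⟩

theorem inH_mul {H : Subgroup (Matrix.SpecialLinearGroup ι F)} {A B : Matrix ι ι F}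
    (hA : InH H A) (hB : InH H B) : InH H (A * B) := by
  obtain ⟨x, hx, rfl⟩ := hA
  obtain ⟨y, hy, rfl⟩ := hB
  exact ⟨x * y, H.mul_mem hx hy, Matrix.SpecialLinearGroup.coe_mul x y⟩

theorem inH_inv {H : Subgroup (Matrix.SpecialLinearGroup ι F)} {A B : Matrix ι ι F}
    (hA : InH H A) (hAB : A * B = 1) : InH H B := by
  obtain ⟨x, hx, rfl⟩ := hA
  refine ⟨x⁻¹, H.inv_mem hx, ?_⟩
  have h1 : ((x⁻¹ : Matrix.SpecialLinearGroup ι F) : Matrix ι ι F) * (x : Matrix ι ι F) = 1 := by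
    rw [← Matrix.SpecialLinearGroup.coe_mul, inv_mul_cancel, Matrix.SpecialLinearGroup.coe_one]
  calc ((x⁻¹ : Matrix.SpecialLinearGroup ι F) : Matrix ι ι F)
      = ((x⁻¹ : Matrix.SpecialLinearGroup ι F) : Matrix ι ι F) * ((x : Matrix ι ι F) * B) := by
        rw [hAB, mul_one]
    _ = B := by rw [← mul_assoc, h1, one_mul]

theorem tv_mul_axis (v v' φ : ι → F) (h : φ ⬝ᵥ v' = 0) :
    (1 + vecMulVec v φ) * (1 + vecMulVec v' φ) = 1 + vecMulVec (v + v') φ := by
  have e : vecMulVec v φ * vecMulVec v' φ = 0 := by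
    rw [vecMulVec_mul_vecMulVec, h, zero_smul, vecMulVec_zero]
  have e2 : (1 + vecMulVec v φ) * (1 + vecMulVec v' φ)
      = 1 + vecMulVec v φ + vecMulVec v' φ + vecMulVec v φ * vecMulVec v' φ := by
    noncomm_ring
  rw [e2, e, add_zero, add_vecMulVec, add_assoc]

theorem tv_conj (K K' : Matrix ι ι F) (hK : K * K' = 1) (v φ : ι → F) :
    K * (1 + vecMulVec v φ) * K' = 1 + vecMulVec (K *ᵥ v) (φ ᵥ* K') := by
  rw [mul_add, add_mul, mul_one, hK, mul_vecMulVec, vecMulVec_mul]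

theorem tv_comm (v₁ ψ₁ v₂ ψ₂ : ι → F) (h21 : ψ₂ ⬝ᵥ v₁ = 0) (h11 : ψ₁ ⬝ᵥ v₁ = 0)
    (h22 : ψ₂ ⬝ᵥ v₂ = 0) :
    (1 + vecMulVec v₁ ψ₁) * (1 + vecMulVec v₂ ψ₂) * (1 + vecMulVec (-v₁) ψ₁)
        * (1 + vecMulVec (-v₂) ψ₂)
      = 1 + vecMulVec v₁ ((ψ₁ ⬝ᵥ v₂) • ψ₂) := by
  have hXX : vecMulVec v₁ ψ₁ * vecMulVec v₁ ψ₁ = 0 := by
    rw [vecMulVec_mul_vecMulVec, h11, zero_smul, vecMulVec_zero]
  have hYY : vecMulVec v₂ ψ₂ * vecMulVec v₂ ψ₂ = 0 := by
    rw [vecMulVec_mul_vecMulVec, h22, zero_smul, vecMulVec_zero]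
  have hYX : vecMulVec v₂ ψ₂ * vecMulVec v₁ ψ₁ = 0 := by
    rw [vecMulVec_mul_vecMulVec, h21, zero_smul, vecMulVec_zero]
  rw [neg_vecMulVec, neg_vecMulVec, ← sub_eq_add_neg, ← sub_eq_add_neg,
    Cfsg.Agent.Helper2.SLGen.comm_ring3 _ _ hXX hYY hYX, vecMulVec_mul_vecMulVec]

variable {H : Subgroup (Matrix.SpecialLinearGroup ι F)}

theorem inH_tv_zero (φ : ι → F) : InH H (1 + vecMulVec (0 : ι → F) φ) := by
  rw [zero_vecMulVec, add_zero]
  exact inH_one H

theorem inH_tv_neg {v φ : ι → F} (h : InH H (1 + vecMulVec v φ)) (hφ : φ ⬝ᵥ v = 0) :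
    InH H (1 + vecMulVec (-v) φ) := by
  apply inH_inv h
  rw [tv_mul_axis v (-v) φ (by rw [dotProduct_neg, hφ, neg_zero]), add_neg_cancel,
    zero_vecMulVec, add_zero]

theorem inH_tv_add {v v' φ : ι → F} (h : InH H (1 + vecMulVec v φ))
    (h' : InH H (1 + vecMulVec v' φ)) (hφ : φ ⬝ᵥ v' = 0) :
    InH H (1 + vecMulVec (v + v') φ) := by
  rw [← tv_mul_axis v v' φ hφ]
  exact inH_mul h h'

theorem inH_tv_conj {K : Matrix ι ι F} (hK : InH H K) {v φ φ' : ι → F}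
    (h : InH H (1 + vecMulVec v φ)) (hφ : φ' ᵥ* K = φ) :
    InH H (1 + vecMulVec (K *ᵥ v) φ') := by
  obtain ⟨x, hx, rfl⟩ := hK
  have h1 : (x : Matrix ι ι F) * ((x⁻¹ : Matrix.SpecialLinearGroup ι F) : Matrix ι ι F) = 1 := by
    rw [← Matrix.SpecialLinearGroup.coe_mul, mul_inv_cancel, Matrix.SpecialLinearGroup.coe_one]
  have h2 : φ ᵥ* ((x⁻¹ : Matrix.SpecialLinearGroup ι F) : Matrix ι ι F) = φ' := by
    rw [← hφ, vecMul_vecMul, h1, vecMul_one]
  have h3 : InH H ((x : Matrix ι ι F) * (1 + vecMulVec v φ)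
      * ((x⁻¹ : Matrix.SpecialLinearGroup ι F) : Matrix ι ι F)) :=
    inH_mul (inH_mul ⟨x, hx, rfl⟩ h) ⟨x⁻¹, H.inv_mem hx, rfl⟩
  rw [tv_conj _ _ h1, h2] at h3
  exact h3

theorem inH_tv_comm {v₁ ψ₁ v₂ ψ₂ : ι → F} (h1 : InH H (1 + vecMulVec v₁ ψ₁))
    (h2 : InH H (1 + vecMulVec v₂ ψ₂)) (h21 : ψ₂ ⬝ᵥ v₁ = 0) (h11 : ψ₁ ⬝ᵥ v₁ = 0)
    (h22 : ψ₂ ⬝ᵥ v₂ = 0) :
    InH H (1 + vecMulVec v₁ ((ψ₁ ⬝ᵥ v₂) • ψ₂)) := by
  rw [← tv_comm v₁ ψ₁ v₂ ψ₂ h21 h11 h22]
  exact inH_mul (inH_mul (inH_mul h1 h2) (inH_tv_neg h1 h11)) (inH_tv_neg h2 h22)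

/-- All transvections with axis `ψ` lie in `H`. -/
def AxisIn (H : Subgroup (Matrix.SpecialLinearGroup ι F)) (ψ : ι → F) : Prop :=
  ∀ v : ι → F, ψ ⬝ᵥ v = 0 → InH H (1 + vecMulVec v ψ)

theorem axisIn_smul {ψ : ι → F} (h : AxisIn H ψ) (a : F) : AxisIn H (a • ψ) := by
  intro v hv
  rw [vecMulVec_smul, ← smul_vecMulVec]
  apply h
  rw [dotProduct_smul, ← smul_dotProduct]
  exact hv

theorem axisIn_conj {ψ : ι → F} (h : AxisIn H ψ) {K : Matrix ι ι F} (hK : InH H K) :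
    AxisIn H (ψ ᵥ* K) := by
  intro v hv
  obtain ⟨x, hx, rfl⟩ := hK
  have h1 : ((x⁻¹ : Matrix.SpecialLinearGroup ι F) : Matrix ι ι F) * (x : Matrix ι ι F) = 1 := by
    rw [← Matrix.SpecialLinearGroup.coe_mul, inv_mul_cancel, Matrix.SpecialLinearGroup.coe_one]
  have h1' : (x : Matrix ι ι F) * ((x⁻¹ : Matrix.SpecialLinearGroup ι F) : Matrix ι ι F) = 1 := by
    rw [← Matrix.SpecialLinearGroup.coe_mul, mul_inv_cancel, Matrix.SpecialLinearGroup.coe_one]
  have h2 : ψ ⬝ᵥ ((x : Matrix ι ι F) *ᵥ v) = 0 := by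
    rw [dotProduct_mulVec]
    exact hv
  have h3 := inH_tv_conj (H := H)
    (K := ((x⁻¹ : Matrix.SpecialLinearGroup ι F) : Matrix ι ι F)) ⟨x⁻¹, H.inv_mem hx, rfl⟩
    (h _ h2) (φ' := ψ ᵥ* (x : Matrix ι ι F)) (by rw [vecMul_vecMul, h1', vecMul_one])
  rw [mulVec_mulVec, h1, one_mulVec] at h3
  exact h3

theorem axisIn_sub {ψ ψ' χ : ι → F} (h : AxisIn H ψ) (h' : AxisIn H ψ') (v' : ι → F)
    (h1 : ψ' ⬝ᵥ v' = 0) (h2 : ψ ⬝ᵥ v' = 1) (hχ : χ = ψ - ψ') : AxisIn H χ := by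
  have hK : InH H (1 + vecMulVec (-v') ψ') :=
    h' (-v') (by rw [dotProduct_neg, h1, neg_zero])
  have h3 := axisIn_conj h hK
  have e : ψ ᵥ* (1 + vecMulVec (-v') ψ') = χ := by
    rw [vecMul_add, vecMul_one, vecMul_vecMulVec, dotProduct_neg, h2, hχ, neg_smul, one_smul,
      sub_eq_add_neg]
  rw [e] at h3
  exact h3

theorem single_eq_vecMulVec (i j : ι) (a : F) :
    Matrix.single i j a = vecMulVec (Pi.single i a) (Pi.single j (1 : F)) := by
  ext k l
  rw [Matrix.single_apply, vecMulVec_apply, Pi.single_apply, Pi.single_apply]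
  by_cases hk : k = i
  · by_cases hl : l = j
    · rw [if_pos ⟨hk.symm, hl.symm⟩, if_pos hk, if_pos hl, mul_one]
    · rw [if_neg (fun h => hl h.2.symm), if_neg hl, mul_zero]
  · rw [if_neg (fun h => hk h.1.symm), if_neg hk, zero_mul]

theorem E_mulVec (a b : ι) (y : ι → F) :
    vecMulVec (Pi.single a (1 : F)) (Pi.single b (1 : F)) *ᵥ y = Pi.single a (y b) := by
  rw [vecMulVec_mulVec, single_dotProduct, one_mul]
  ext k
  by_cases hk : k = a
  · subst hk
    simp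
  · simp [Pi.single_eq_of_ne hk]

theorem vecMul_E (a b : ι) (φ : ι → F) :
    φ ᵥ* vecMulVec (Pi.single a (1 : F)) (Pi.single b (1 : F)) = Pi.single b (φ a) := by
  rw [vecMul_vecMulVec, dotProduct_single, mul_one]
  ext k
  by_cases hk : k = b
  · subst hk
    simp
  · simp [Pi.single_eq_of_ne hk]

theorem conj_coe {A B : Matrix.SpecialLinearGroup ι F} {M : Matrix ι ι F}
    (hAB : (A : Matrix ι ι F) * (B : Matrix ι ι F) = M * (A : Matrix ι ι F)) :
    ((A * B * A⁻¹ : Matrix.SpecialLinearGroup ι F) : Matrix ι ι F) = M := by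
  rw [Matrix.SpecialLinearGroup.coe_mul, Matrix.SpecialLinearGroup.coe_mul, hAB, mul_assoc,
    ← Matrix.SpecialLinearGroup.coe_mul, mul_inv_cancel, Matrix.SpecialLinearGroup.coe_one,
    mul_one]

end general

section shift

variable {F : Type*} [Field F] {n : ℕ}

/-- The nilpotent shift matrix `N = ∑ E_{i,i+1}`. -/
def Nm (F : Type*) [Field F] (n : ℕ) : Matrix (Fin n) (Fin n) F :=
  Matrix.of (fun i j => if j.val = i.val + 1 then (1 : F) else 0)

theorem Nm_mulVec (y : Fin n → F) (i j : Fin n) (hij : j.val = i.val + 1) :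
    (Nm F n *ᵥ y) i = y j := by
  simp only [mulVec, dotProduct, Nm, of_apply]
  rw [Finset.sum_eq_single j]
  · rw [if_pos hij, one_mul]
  · intro b _ hb
    rw [if_neg (fun hh => hb (Fin.ext (hh.trans hij.symm))), zero_mul]
  · intro hh
    exact absurd (Finset.mem_univ _) hh

theorem Nm_mulVec_last (y : Fin n → F) (i : Fin n) (hi : i.val + 1 = n) :
    (Nm F n *ᵥ y) i = 0 := by
  simp only [mulVec, dotProduct, Nm, of_apply]
  apply Finset.sum_eq_zero
  intro b _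
  rw [if_neg (by have := b.isLt; omega), zero_mul]

theorem vecMul_Nm (φ : Fin n → F) (i j : Fin n) (hij : j.val = i.val + 1) :
    (φ ᵥ* Nm F n) j = φ i := by
  simp only [vecMul, dotProduct, Nm, of_apply]
  rw [Finset.sum_eq_single i]
  · rw [if_pos hij, mul_one]
  · intro b _ hb
    rw [if_neg (fun hh => hb (Fin.ext (by omega))), mul_zero]
  · intro hh
    exact absurd (Finset.mem_univ _) hh

theorem vecMul_Nm_zero (φ : Fin n → F) (j : Fin n) (hj : j.val = 0) :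
    (φ ᵥ* Nm F n) j = 0 := by
  simp only [vecMul, dotProduct, Nm, of_apply]
  apply Finset.sum_eq_zero
  intro b _
  rw [if_neg (by omega), mul_zero]

theorem Nm_mulVec_single (j j' : Fin n) (h : j.val = j'.val + 1) (a : F) :
    Nm F n *ᵥ Pi.single j a = Pi.single j' a := by
  ext k
  by_cases hk : k.val + 1 < n
  · obtain ⟨k', hk'⟩ : ∃ k' : Fin n, k'.val = k.val + 1 := ⟨⟨k.val + 1, hk⟩, rfl⟩
    rw [Nm_mulVec _ k k' hk']
    by_cases hkj : k = j'
    · subst hkj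
      have : k' = j := Fin.ext (by omega)
      subst this
      rw [Pi.single_eq_same, Pi.single_eq_same]
    · rw [Pi.single_eq_of_ne hkj, Pi.single_eq_of_ne]
      intro hh
      apply hkj
      apply Fin.ext
      rw [hh] at hk'
      omega
  · rw [Nm_mulVec_last _ k (by have := k.isLt; omega), Pi.single_eq_of_ne]
    intro hh
    rw [hh] at hk
    have := j.isLt
    omega

theorem Nm_mulVec_single_zero (j : Fin n) (h : j.val = 0) (a : F) :
    Nm F n *ᵥ Pi.single j a = 0 := by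
  ext k
  by_cases hk : k.val + 1 < n
  · obtain ⟨k', hk'⟩ : ∃ k' : Fin n, k'.val = k.val + 1 := ⟨⟨k.val + 1, hk⟩, rfl⟩
    rw [Nm_mulVec _ k k' hk', Pi.single_eq_of_ne]
    · rfl
    · intro hh
      rw [hh] at hk'
      omega
  · rw [Nm_mulVec_last _ k (by have := k.isLt; omega)]
    rfl

theorem single_vecMul_Nm (i i' : Fin n) (h : i'.val = i.val + 1) (a : F) :
    Pi.single i a ᵥ* Nm F n = Pi.single i' a := by
  ext k
  by_cases hk : k.val = 0
  · rw [vecMul_Nm_zero _ k hk, Pi.single_eq_of_ne]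
    intro hh
    rw [hh] at hk
    omega
  · obtain ⟨k', hk'⟩ : ∃ k' : Fin n, k.val = k'.val + 1 :=
      ⟨⟨k.val - 1, by have := k.isLt; omega⟩, by show k.val = k.val - 1 + 1; omega⟩
    rw [vecMul_Nm _ k' k hk']
    by_cases hki : k = i'
    · subst hki
      have : k' = i := Fin.ext (by omega)
      subst this
      rw [Pi.single_eq_same, Pi.single_eq_same]
    · rw [Pi.single_eq_of_ne hki, Pi.single_eq_of_ne]
      intro hh
      apply hki
      apply Fin.ext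
      rw [hh] at hk'
      omega

theorem single_vecMul_Nm_last (i : Fin n) (h : i.val + 1 = n) (a : F) :
    Pi.single i a ᵥ* Nm F n = 0 := by
  ext k
  by_cases hk : k.val = 0
  · rw [vecMul_Nm_zero _ k hk]
    rfl
  · obtain ⟨k', hk'⟩ : ∃ k' : Fin n, k.val = k'.val + 1 :=
      ⟨⟨k.val - 1, by have := k.isLt; omega⟩, by show k.val = k.val - 1 + 1; omega⟩
    rw [vecMul_Nm _ k' k hk', Pi.single_eq_of_ne]
    · rfl
    · intro hh
      rw [hh] at hk'
      have := k.isLt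
      omega

theorem Nm_pow_apply (k : ℕ) (i j : Fin n) :
    (Nm F n ^ k) i j = if j.val = i.val + k then 1 else 0 := by
  induction k generalizing j with
  | zero =>
    rw [pow_zero, Matrix.one_apply]
    by_cases h : i = j
    · subst h
      rw [if_pos rfl, if_pos (by omega)]
    · rw [if_neg h, if_neg]
      intro hh
      exact h (Fin.ext (by omega))
  | succ k ih =>
    rw [pow_succ]
    have e := congrFun (Matrix.mul_apply_eq_vecMul (Nm F n ^ k) (Nm F n) i) j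
    rw [e]
    by_cases hj : j.val = 0
    · rw [vecMul_Nm_zero _ j hj, if_neg (by omega)]
    · obtain ⟨j', hj'⟩ : ∃ j' : Fin n, j.val = j'.val + 1 :=
        ⟨⟨j.val - 1, by have := j.isLt; omega⟩, by show j.val = j.val - 1 + 1; omega⟩
      rw [vecMul_Nm _ j' j hj', ih j']
      by_cases h2 : j'.val = i.val + k
      · rw [if_pos h2, if_pos (by omega)]
      · rw [if_neg h2, if_neg (by omega)]

theorem det_Um (F : Type*) [Field F] (n : ℕ) : Matrix.det (1 - Nm F n) = 1 := by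
  have htri : (1 - Nm F n).IsUpperTriangular := by
    intro i j hij
    have hlt : j < i := hij
    have hne : i ≠ j := fun h => by
      rw [h] at hlt
      exact lt_irrefl _ hlt
    have hv : j.val < i.val := hlt
    rw [Matrix.sub_apply, Matrix.one_apply_ne hne]
    simp only [Nm, of_apply]
    rw [if_neg (by omega), sub_zero]
  rw [Matrix.det_of_isUpperTriangular htri]
  apply Finset.prod_eq_one
  intro i _
  rw [Matrix.sub_apply, Matrix.one_apply_eq]
  simp only [Nm, of_apply]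
  rw [if_neg (by omega), sub_zero]

theorem Um_nilp (F : Type*) [Field F] (n : ℕ) :
    IsNilpotent ((1 - Nm F n) - 1 : Matrix (Fin n) (Fin n) F) := by
  refine ⟨n, ?_⟩
  have e : (1 - Nm F n) - 1 = -Nm F n := by abel
  have h0 : Nm F n ^ n = 0 := by
    ext i j
    rw [Nm_pow_apply, if_neg (by have := j.isLt; omega)]
    rfl
  rw [e, neg_pow, h0, mul_zero]

theorem Um_reg (F : Type*) [Field F] (n : ℕ) (hn : 1 ≤ n) :
    ((1 - Nm F n) - 1 : Matrix (Fin n) (Fin n) F) ^ (n - 1) ≠ 0 := by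
  have e : (1 - Nm F n) - 1 = -Nm F n := by abel
  have hN : Nm F n ^ (n - 1) ≠ 0 := by
    intro h
    have h2 := congrFun (congrFun h ⟨0, by omega⟩) ⟨n - 1, by omega⟩
    rw [Nm_pow_apply, if_pos (by simp)] at h2
    exact one_ne_zero h2
  rw [e]
  rcases Nat.even_or_odd (n - 1) with h | h
  · rw [h.neg_pow]
    exact hN
  · rw [h.neg_pow]
    exact neg_ne_zero.2 hN

end shift

end Cfsg.Agent.Helper20.SLnGen
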