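import Mathlib
import Cfsg.Agent.Helper20.SLnGen

/-!
# `SL_n(F)` is generated by three conjugate regular unipotent elements: the generation argument
-/

set_option autoImplicit false

namespace Cfsg.Agent.Helper20.SLnGen

open Matrix

variable {F : Type*} [Field F] {n : ℕ}

/-- The third generator `1 - N - E_{n,2} + E_{n-1,1}`. -/
def Um3 (F : Type*) [Field F] (n : ℕ) (i0 i1 iM iL : Fin n) : Matrix (Fin n) (Fin n) F :=
  1 - Nm F n - vecMulVec (Pi.single iL (1 : F)) (Pi.single i1 (1 : F))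
    + vecMulVec (Pi.single iM (1 : F)) (Pi.single i0 (1 : F))

theorem rowU_last (iL : Fin n) (hL : iL.val + 1 = n) (a : F) :
    Pi.single iL a ᵥ* (1 - Nm F n) = Pi.single iL a := by
  rw [vecMul_sub, vecMul_one, single_vecMul_Nm_last iL hL, sub_zero]

theorem rowU (i i' : Fin n) (h : i'.val = i.val + 1) (a : F) :
    Pi.single i a ᵥ* (1 - Nm F n) = Pi.single i a - Pi.single i' a := by
  rw [vecMul_sub, vecMul_one, single_vecMul_Nm i i' h]

theorem rowU3_last (i0 i1 iM iL : Fin n) (hL : iL.val + 1 = n) (hLM : iL ≠ iM) :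
    Pi.single iL (1 : F) ᵥ* Um3 F n i0 i1 iM iL = Pi.single iL 1 - Pi.single i1 1 := by
  unfold Um3
  rw [vecMul_add, vecMul_sub, vecMul_sub, vecMul_one, single_vecMul_Nm_last iL hL, vecMul_E,
    vecMul_E, Pi.single_eq_same, Pi.single_eq_of_ne hLM.symm, Pi.single_zero, sub_zero, add_zero]

theorem rowU3_M (i0 i1 iM iL : Fin n) (hML : iL.val = iM.val + 1) (hLM : iL ≠ iM) :
    Pi.single iM (1 : F) ᵥ* Um3 F n i0 i1 iM iL
      = Pi.single iM 1 - Pi.single iL 1 + Pi.single i0 1 := by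
  unfold Um3
  rw [vecMul_add, vecMul_sub, vecMul_sub, vecMul_one, single_vecMul_Nm iM iL hML, vecMul_E,
    vecMul_E, Pi.single_eq_same, Pi.single_eq_of_ne hLM, Pi.single_zero, sub_zero]

theorem colU3_zero (i0 i1 iM iL : Fin n) (h0 : i0.val = 0) (h10 : i1 ≠ i0) (t : F) :
    Um3 F n i0 i1 iM iL *ᵥ Pi.single i0 t = Pi.single i0 t + Pi.single iM t := by
  unfold Um3
  rw [add_mulVec, sub_mulVec, sub_mulVec, one_mulVec, Nm_mulVec_single_zero i0 h0, E_mulVec,
    E_mulVec, Pi.single_eq_same, Pi.single_eq_of_ne h10, Pi.single_zero, sub_zero, sub_zero]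

theorem colU3_ones (hn : 3 ≤ n) (i0 i1 iM iL : Fin n) (h0 : i0.val = 0) (h1 : i1.val = 1)
    (hL : iL.val + 1 = n) (s : Fin n → F) (hs0 : ∀ j : Fin n, j.val = 0 → s j = 0)
    (hs1 : ∀ j : Fin n, j.val ≠ 0 → s j = 1) :
    Um3 F n i0 i1 iM iL *ᵥ s = -Pi.single i0 (1 : F) := by
  unfold Um3
  rw [add_mulVec, sub_mulVec, sub_mulVec, one_mulVec, E_mulVec, E_mulVec, hs0 i0 h0,
    hs1 i1 (by omega), Pi.single_zero, add_zero]
  ext k
  rw [Pi.sub_apply, Pi.sub_apply, Pi.neg_apply]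
  by_cases hk : k.val + 1 < n
  · obtain ⟨k', hk'⟩ : ∃ k' : Fin n, k'.val = k.val + 1 := ⟨⟨k.val + 1, hk⟩, rfl⟩
    have hkL : k ≠ iL := fun hh => by have := congrArg Fin.val hh; omega
    rw [Nm_mulVec _ k k' hk', Pi.single_eq_of_ne hkL, hs1 k' (by omega)]
    by_cases hk0 : k.val = 0
    · have : k = i0 := Fin.ext (by omega)
      subst this
      rw [hs0 k hk0, Pi.single_eq_same]
      ring
    · have hki : k ≠ i0 := fun hh => by have := congrArg Fin.val hh; omega
      rw [hs1 k hk0, Pi.single_eq_of_ne hki]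
      ring
  · have hkL : k = iL := Fin.ext (by have := k.isLt; omega)
    subst hkL
    have hki : k ≠ i0 := fun hh => by have := congrArg Fin.val hh; omega
    rw [Nm_mulVec_last _ k hL, Pi.single_eq_same, hs1 k (by omega), Pi.single_eq_of_ne hki]
    ring

theorem M1 (i0 i1 iM iL : Fin n) (h0 : i0.val = 0) (h1 : i1.val = 1) (hM : iM.val + 2 = n)
    (hL : iL.val + 1 = n) (hn : 3 ≤ n) :
    (1 + vecMulVec (Pi.single iL (1 : F)) (Pi.single i0 (1 : F))) * (1 - Nm F n)
      = Um3 F n i0 i1 iM iL * (1 + vecMulVec (Pi.single iL (1 : F)) (Pi.single i0 (1 : F))) := by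
  have h1L : i1 ≠ iL := fun h => by have := congrArg Fin.val h; omega
  have h0L : i0 ≠ iL := fun h => by have := congrArg Fin.val h; omega
  have hPN : vecMulVec (Pi.single iL (1 : F)) (Pi.single i0 (1 : F)) * Nm F n
      = vecMulVec (Pi.single iL (1 : F)) (Pi.single i1 (1 : F)) := by
    rw [vecMulVec_mul, single_vecMul_Nm i0 i1 (by omega) 1]
  have hNP : Nm F n * vecMulVec (Pi.single iL (1 : F)) (Pi.single i0 (1 : F))
      = vecMulVec (Pi.single iM (1 : F)) (Pi.single i0 (1 : F)) := by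
    rw [mul_vecMulVec, Nm_mulVec_single iL iM (by omega) 1]
  have hQP : vecMulVec (Pi.single iL (1 : F)) (Pi.single i1 (1 : F))
      * vecMulVec (Pi.single iL (1 : F)) (Pi.single i0 (1 : F)) = 0 := by
    rw [vecMulVec_mul_vecMulVec, single_dotProduct, one_mul, Pi.single_eq_of_ne h1L, zero_smul,
      vecMulVec_zero]
  have hRP : vecMulVec (Pi.single iM (1 : F)) (Pi.single i0 (1 : F))
      * vecMulVec (Pi.single iL (1 : F)) (Pi.single i0 (1 : F)) = 0 := by
    rw [vecMulVec_mul_vecMulVec, single_dotProduct, one_mul, Pi.single_eq_of_ne h0L, zero_smul,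
      vecMulVec_zero]
  unfold Um3
  have e1 : (1 + vecMulVec (Pi.single iL (1 : F)) (Pi.single i0 (1 : F))) * (1 - Nm F n)
      = 1 - Nm F n + vecMulVec (Pi.single iL (1 : F)) (Pi.single i0 (1 : F))
        - vecMulVec (Pi.single iL (1 : F)) (Pi.single i0 (1 : F)) * Nm F n := by
    noncomm_ring
  have e2 : (1 - Nm F n - vecMulVec (Pi.single iL (1 : F)) (Pi.single i1 (1 : F))
        + vecMulVec (Pi.single iM (1 : F)) (Pi.single i0 (1 : F)))
      * (1 + vecMulVec (Pi.single iL (1 : F)) (Pi.single i0 (1 : F)))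
      = 1 - Nm F n - vecMulVec (Pi.single iL (1 : F)) (Pi.single i1 (1 : F))
        + vecMulVec (Pi.single iM (1 : F)) (Pi.single i0 (1 : F))
        + vecMulVec (Pi.single iL (1 : F)) (Pi.single i0 (1 : F))
        - Nm F n * vecMulVec (Pi.single iL (1 : F)) (Pi.single i0 (1 : F))
        - vecMulVec (Pi.single iL (1 : F)) (Pi.single i1 (1 : F))
          * vecMulVec (Pi.single iL (1 : F)) (Pi.single i0 (1 : F))
        + vecMulVec (Pi.single iM (1 : F)) (Pi.single i0 (1 : F))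
          * vecMulVec (Pi.single iL (1 : F)) (Pi.single i0 (1 : F)) := by
    noncomm_ring
  rw [e1, e2, hPN, hNP, hQP, hRP]
  abel

theorem M2 (i0 iM iL : Fin n) (h0 : i0.val = 0) (hM : iM.val + 2 = n)
    (hL : iL.val + 1 = n) (hn : 3 ≤ n) (ζ : F) :
    (1 + vecMulVec (Pi.single i0 (-ζ)) (Pi.single iM (1 : F))) * (1 - Nm F n)
      = (1 - Nm F n) * (1 + vecMulVec (Pi.single i0 ζ) (Pi.single iL (1 : F)))
        * (1 + vecMulVec (Pi.single i0 (-ζ)) (Pi.single iM (1 : F))) := by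
  have hL0 : iL ≠ i0 := fun h => by have := congrArg Fin.val h; omega
  have hGN : vecMulVec (Pi.single i0 (-ζ)) (Pi.single iM (1 : F)) * Nm F n
      = -vecMulVec (Pi.single i0 ζ) (Pi.single iL (1 : F)) := by
    rw [vecMulVec_mul, single_vecMul_Nm iM iL (by omega) 1, Pi.single_neg, neg_vecMulVec]
  have hNT : Nm F n * vecMulVec (Pi.single i0 ζ) (Pi.single iL (1 : F)) = 0 := by
    rw [mul_vecMulVec, Nm_mulVec_single_zero i0 h0, zero_vecMulVec]
  have hNG : Nm F n * vecMulVec (Pi.single i0 (-ζ)) (Pi.single iM (1 : F)) = 0 := by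
    rw [mul_vecMulVec, Nm_mulVec_single_zero i0 h0, zero_vecMulVec]
  have hTG : vecMulVec (Pi.single i0 ζ) (Pi.single iL (1 : F))
      * vecMulVec (Pi.single i0 (-ζ)) (Pi.single iM (1 : F)) = 0 := by
    rw [vecMulVec_mul_vecMulVec, single_dotProduct, one_mul, Pi.single_eq_of_ne hL0, zero_smul,
      vecMulVec_zero]
  have e1 : (1 + vecMulVec (Pi.single i0 (-ζ)) (Pi.single iM (1 : F))) * (1 - Nm F n)
      = 1 - Nm F n + vecMulVec (Pi.single i0 (-ζ)) (Pi.single iM (1 : F))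
        - vecMulVec (Pi.single i0 (-ζ)) (Pi.single iM (1 : F)) * Nm F n := by
    noncomm_ring
  have e2 : (1 - Nm F n) * (1 + vecMulVec (Pi.single i0 ζ) (Pi.single iL (1 : F)))
        * (1 + vecMulVec (Pi.single i0 (-ζ)) (Pi.single iM (1 : F)))
      = 1 + vecMulVec (Pi.single i0 ζ) (Pi.single iL (1 : F))
        + vecMulVec (Pi.single i0 (-ζ)) (Pi.single iM (1 : F))
        + vecMulVec (Pi.single i0 ζ) (Pi.single iL (1 : F))
          * vecMulVec (Pi.single i0 (-ζ)) (Pi.single iM (1 : F))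
        - Nm F n - Nm F n * vecMulVec (Pi.single i0 ζ) (Pi.single iL (1 : F))
        - Nm F n * vecMulVec (Pi.single i0 (-ζ)) (Pi.single iM (1 : F))
        - Nm F n * vecMulVec (Pi.single i0 ζ) (Pi.single iL (1 : F))
          * vecMulVec (Pi.single i0 (-ζ)) (Pi.single iM (1 : F)) := by
    noncomm_ring
  rw [e1, e2, hGN, hNT, hNG, hTG, zero_mul]
  abel

end Cfsg.Agent.Helper20.SLnGen
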