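import Mathlib
import Cfsg.Agent.Helper20.SLnGen2

/-!
# `SL_n(F)` is generated by three conjugate regular unipotent elements: stages of the proof
-/

set_option autoImplicit false

namespace Cfsg.Agent.Helper20.SLnGen

open Matrix

variable {F : Type*} [Field F] {n : ℕ}

/-- Stage A: all transvections with axis `e_L` (the last coordinate functional) lie in `H`. -/
theorem stageA [Finite F] (hn : 3 ≤ n) (i0 i1 iM iL : Fin n) (h0 : i0.val = 0) (h1 : i1.val = 1)
    (hM : iM.val + 2 = n) (hL : iL.val + 1 = n)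
    (H : Subgroup (Matrix.SpecialLinearGroup (Fin n) F))
    (hU : InH H (1 - Nm F n)) (hU3 : InH H (Um3 F n i0 i1 iM iL))
    (ζ : F) (hζ0 : ζ ≠ 0) (hζ : ∀ K : Subfield F, ζ ∈ K → K = ⊤)
    (hτ : InH H (1 + vecMulVec (Pi.single i0 ζ) (Pi.single iL (1 : F)))) :
    ∀ v : Fin n → F, v iL = 0 → InH H (1 + vecMulVec v (Pi.single iL (1 : F))) := by
  have hL0 : iL ≠ i0 := fun h => by have := congrArg Fin.val h; omega
  have hLM : iL ≠ iM := fun h => by have := congrArg Fin.val h; omega
  have h10 : i1 ≠ i0 := fun h => by have := congrArg Fin.val h; omega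
  have hd0 : ∀ t : F, Pi.single iL (1 : F) ⬝ᵥ Pi.single i0 t = 0 := by
    intro t
    rw [single_dotProduct, one_mul, Pi.single_eq_of_ne hL0]
  -- A1: shift
  have A1 : ∀ v : Fin n → F, v iL = 0 → InH H (1 + vecMulVec v (Pi.single iL (1 : F))) →
      InH H (1 + vecMulVec (Nm F n *ᵥ v) (Pi.single iL (1 : F))) := by
    intro v hv hA
    have h1' := inH_tv_conj hU hA (φ' := Pi.single iL (1 : F)) (rowU_last iL hL 1)
    have hdot : Pi.single iL (1 : F) ⬝ᵥ ((1 - Nm F n) *ᵥ v) = 0 := by
      rw [dotProduct_mulVec, rowU_last iL hL 1, single_dotProduct, hv, mul_zero]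
    have h2' := inH_tv_neg h1' hdot
    have h3' := inH_tv_add hA h2' (by rw [dotProduct_neg, hdot, neg_zero])
    have e : v + -((1 - Nm F n) *ᵥ v) = Nm F n *ᵥ v := by
      rw [sub_mulVec, one_mulVec]
      abel
    rw [e] at h3'
    exact h3'
  -- A2: chain down to `e_0`
  have A2 : ∀ (a : F) (m : ℕ) (j : Fin n), j.val = m → j.val + 1 < n →
      InH H (1 + vecMulVec (Pi.single j a) (Pi.single iL (1 : F))) →
      InH H (1 + vecMulVec (Pi.single i0 a) (Pi.single iL (1 : F))) := by
    intro a m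
    induction m with
    | zero =>
      intro j hj _ hA
      have : j = i0 := Fin.ext (by omega)
      rw [this] at hA
      exact hA
    | succ m ih =>
      intro j hj hjn hA
      obtain ⟨j', hj'⟩ : ∃ j' : Fin n, j'.val = m := ⟨⟨m, by omega⟩, rfl⟩
      have hjL : j ≠ iL := fun h => by have := congrArg Fin.val h; omega
      have h3 := A1 _ (Pi.single_eq_of_ne hjL.symm a) hA
      rw [Nm_mulVec_single j j' (by omega) a] at h3
      exact ih j' hj' (by omega) h3
  -- the third generator and its inverse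
  obtain ⟨x3, hx3, hx3m⟩ := hU3
  have hinv1 : ((x3⁻¹ : Matrix.SpecialLinearGroup (Fin n) F) : Matrix (Fin n) (Fin n) F)
      * Um3 F n i0 i1 iM iL = 1 := by
    rw [← hx3m, ← Matrix.SpecialLinearGroup.coe_mul, inv_mul_cancel,
      Matrix.SpecialLinearGroup.coe_one]
  obtain ⟨K', hK'⟩ : ∃ K' : Matrix (Fin n) (Fin n) F,
      K' = ((x3⁻¹ : Matrix.SpecialLinearGroup (Fin n) F) : Matrix (Fin n) (Fin n) F) := ⟨_, rfl⟩
  rw [← hK'] at hinv1
  obtain ⟨ψ₁, hψ₁def⟩ : ∃ ψ₁ : Fin n → F, ψ₁ = Pi.single iL (1 : F) ᵥ* K' := ⟨_, rfl⟩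
  have hψ₁ : ψ₁ ᵥ* Um3 F n i0 i1 iM iL = Pi.single iL (1 : F) := by
    rw [hψ₁def, vecMul_vecMul, hinv1, vecMul_one]
  have hK'e0 : K' *ᵥ Pi.single i0 (1 : F)
      = -(fun j : Fin n => if j.val = 0 then (0 : F) else 1) := by
    have hc := colU3_ones (F := F) hn i0 i1 iM iL h0 h1 hL
      (fun j : Fin n => if j.val = 0 then (0 : F) else 1)
      (fun j hj => if_pos hj) (fun j hj => if_neg hj)
    have h2 := congrArg (fun w => K' *ᵥ w) hc
    simp only [mulVec_mulVec, hinv1, one_mulVec, mulVec_neg] at h2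
    rw [h2, neg_neg]
  have hψ0 : ψ₁ i0 = -1 := by
    have h2 := congrFun hK'e0 iL
    rw [mulVec_single_one, Pi.neg_apply, if_neg (by omega)] at h2
    rw [hψ₁def, single_one_vecMul]
    exact h2
  -- A3: products
  have A3 : ∀ t s : F, InH H (1 + vecMulVec (Pi.single i0 t) (Pi.single iL (1 : F))) →
      InH H (1 + vecMulVec (Pi.single i0 s) (Pi.single iL (1 : F))) →
      InH H (1 + vecMulVec (Pi.single i0 (-(s * t)) + Pi.single iM (-(s * t)))
        (Pi.single iL (1 : F))) := by
    intro t s ht hs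
    have hc := inH_tv_conj (H := H) ⟨x3, hx3, hx3m⟩ ht (φ' := ψ₁) hψ₁
    have h11 : ψ₁ ⬝ᵥ (Um3 F n i0 i1 iM iL *ᵥ Pi.single i0 t) = 0 := by
      rw [dotProduct_mulVec, hψ₁]
      exact hd0 t
    rw [colU3_zero i0 i1 iM iL h0 h10 t] at hc h11
    have h21 : Pi.single iL (1 : F) ⬝ᵥ (Pi.single i0 t + Pi.single iM t) = 0 := by
      rw [single_dotProduct, one_mul, Pi.add_apply, Pi.single_eq_of_ne hL0,
        Pi.single_eq_of_ne hLM, add_zero]
    have hcomm := inH_tv_comm hc hs h21 h11 (hd0 s)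
    have hval : ψ₁ ⬝ᵥ Pi.single i0 s = -s := by
      rw [dotProduct_single, hψ0]
      ring
    rw [hval, vecMulVec_smul, ← smul_vecMulVec] at hcomm
    have e : ((-s) • (Pi.single i0 t + Pi.single iM t) : Fin n → F)
        = Pi.single i0 (-(s * t)) + Pi.single iM (-(s * t)) := by
      ext k
      simp only [Pi.smul_apply, Pi.add_apply, Pi.single_apply, smul_eq_mul]
      split_ifs <;> ring
    rw [e] at hcomm
    exact hcomm
  -- A4: the root group `x_{1n}`
  have B0 : InH H (1 + vecMulVec (Pi.single i0 (0 : F)) (Pi.single iL (1 : F))) := by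
    rw [Pi.single_zero]
    exact inH_tv_zero _
  have Badd : ∀ t s : F, InH H (1 + vecMulVec (Pi.single i0 t) (Pi.single iL (1 : F))) →
      InH H (1 + vecMulVec (Pi.single i0 s) (Pi.single iL (1 : F))) →
      InH H (1 + vecMulVec (Pi.single i0 (t + s)) (Pi.single iL (1 : F))) := by
    intro t s ht hs
    have h3 := inH_tv_add ht hs (hd0 s)
    rw [← Pi.single_add] at h3
    exact h3
  have Bneg : ∀ t : F, InH H (1 + vecMulVec (Pi.single i0 t) (Pi.single iL (1 : F))) →
      InH H (1 + vecMulVec (Pi.single i0 (-t)) (Pi.single iL (1 : F))) := by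
    intro t ht
    have h3 := inH_tv_neg ht (hd0 t)
    rw [← Pi.single_neg] at h3
    exact h3
  obtain ⟨iM', hM'⟩ : ∃ j : Fin n, j.val + 3 = n := ⟨⟨n - 3, by omega⟩, by show n - 3 + 3 = n; omega⟩
  have Bmul : ∀ t s : F, InH H (1 + vecMulVec (Pi.single i0 t) (Pi.single iL (1 : F))) →
      InH H (1 + vecMulVec (Pi.single i0 s) (Pi.single iL (1 : F))) →
      InH H (1 + vecMulVec (Pi.single i0 (s * t)) (Pi.single iL (1 : F))) := by
    intro t s ht hs
    have h3 := A3 t s ht hs
    have hvL : (Pi.single i0 (-(s * t)) + Pi.single iM (-(s * t)) : Fin n → F) iL = 0 := by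
      rw [Pi.add_apply, Pi.single_eq_of_ne hL0, Pi.single_eq_of_ne hLM, add_zero]
    have h4 := A1 _ hvL h3
    rw [mulVec_add, Nm_mulVec_single_zero i0 h0, zero_add,
      Nm_mulVec_single iM iM' (by omega)] at h4
    have h5 := A2 _ iM'.val iM' rfl (by omega) h4
    have h6 := Bneg _ h5
    rw [neg_neg] at h6
    exact h6
  have hall := Cfsg.Agent.Helper20.SL3Gen.scal (F := F) (V := F)
    (fun t : F => InH H (1 + vecMulVec (Pi.single i0 t) (Pi.single iL (1 : F)))) B0 Badd Bneg {ζ}
    (by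
      intro m hm v hv
      rw [Set.mem_singleton_iff] at hm
      subst hm
      exact Bmul v m hv hτ)
    (hζ _ (Subfield.subset_closure (Set.mem_singleton ζ)))
  have Ball : ∀ t : F, InH H (1 + vecMulVec (Pi.single i0 t) (Pi.single iL (1 : F))) := by
    intro t
    have h3 : InH H (1 + vecMulVec (Pi.single i0 ((t / ζ) • ζ)) (Pi.single iL (1 : F))) :=
      hall (t / ζ) ζ hτ
    rw [smul_eq_mul, div_mul_cancel₀ _ hζ0] at h3
    exact h3
  -- A5: the other root groups `x_{jn}`
  have AM : ∀ a : F, InH H (1 + vecMulVec (Pi.single iM a) (Pi.single iL (1 : F))) := by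
    intro a
    have h3 := A3 1 (-a) (Ball 1) (Ball (-a))
    have e : -(-a * 1) = a := by ring
    rw [e] at h3
    have h4 := inH_tv_add h3 (Ball (-a)) (hd0 (-a))
    have e2 : (Pi.single i0 a + Pi.single iM a + Pi.single i0 (-a) : Fin n → F)
        = Pi.single iM a := by
      rw [Pi.single_neg]
      abel
    rw [e2] at h4
    exact h4
  have Aall : ∀ (m : ℕ) (j : Fin n), j.val + m + 2 = n → ∀ a : F,
      InH H (1 + vecMulVec (Pi.single j a) (Pi.single iL (1 : F))) := by
    intro m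
    induction m with
    | zero =>
      intro j hj a
      have : j = iM := Fin.ext (by omega)
      rw [this]
      exact AM a
    | succ m ih =>
      intro j hj a
      obtain ⟨j', hj'⟩ : ∃ j' : Fin n, j'.val = j.val + 1 := ⟨⟨j.val + 1, by omega⟩, rfl⟩
      have h3 := ih j' (by omega) a
      have hjL : j' ≠ iL := fun h => by have := congrArg Fin.val h; omega
      have h4 := A1 _ (Pi.single_eq_of_ne hjL.symm a) h3
      rw [Nm_mulVec_single j' j hj' a] at h4
      exact h4
  -- A6: all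
  intro v hv
  have key : InH H (1 + vecMulVec (∑ j, Pi.single j (v j)) (Pi.single iL (1 : F)))
      ∧ (∑ j, Pi.single j (v j) : Fin n → F) iL = 0 := by
    apply Finset.sum_induction (fun j => Pi.single j (v j))
      (fun w : Fin n → F => InH H (1 + vecMulVec w (Pi.single iL (1 : F))) ∧ w iL = 0)
    · rintro a b ⟨ha, ha0⟩ ⟨hb, hb0⟩
      exact ⟨inH_tv_add ha hb (by rw [single_dotProduct, one_mul, hb0]),
        by rw [Pi.add_apply, ha0, hb0, add_zero]⟩
    · exact ⟨inH_tv_zero _, rfl⟩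
    · intro j _
      by_cases hj : j = iL
      · subst hj
        rw [hv, Pi.single_zero]
        exact ⟨inH_tv_zero _, rfl⟩
      · have hjv : j.val ≠ iL.val := fun h => hj (Fin.ext h)
        have hjn := j.isLt
        exact ⟨Aall (n - 2 - j.val) j (by omega) (v j), Pi.single_eq_of_ne (Ne.symm hj) _⟩
  rw [Finset.univ_sum_single] at key
  exact key.1

/-- Stage W: all coordinate functionals are axes. -/
theorem stageW (hn : 3 ≤ n) (i0 i1 iM iL : Fin n) (h0 : i0.val = 0) (h1 : i1.val = 1)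
    (hM : iM.val + 2 = n) (hL : iL.val + 1 = n)
    (H : Subgroup (Matrix.SpecialLinearGroup (Fin n) F))
    (hU : InH H (1 - Nm F n)) (hU3 : InH H (Um3 F n i0 i1 iM iL))
    (hA : AxisIn H (Pi.single iL (1 : F))) :
    ∀ j : Fin n, AxisIn H (Pi.single j (1 : F)) := by
  have hL0 : iL ≠ i0 := fun h => by have := congrArg Fin.val h; omega
  have hLM : iL ≠ iM := fun h => by have := congrArg Fin.val h; omega
  have hL1 : iL ≠ i1 := fun h => by have := congrArg Fin.val h; omega
  have hM0 : iM ≠ i0 := fun h => by have := congrArg Fin.val h; omega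
  have W1 : AxisIn H (Pi.single i1 (1 : F)) := by
    have h3 := axisIn_conj hA hU3
    rw [rowU3_last i0 i1 iM iL hL hLM] at h3
    have h4 := axisIn_sub h3 hA (-(Pi.single i1 (1 : F)))
      (by rw [dotProduct_neg, dotProduct_single_one, Pi.single_eq_of_ne hL1.symm, neg_zero])
      (by
        rw [dotProduct_neg, dotProduct_single_one, Pi.sub_apply, Pi.single_eq_of_ne hL1.symm,
          Pi.single_eq_same]
        ring) rfl
    have h5 := axisIn_smul h4 (-1)
    have e : (-1 : F) • (Pi.single iL (1 : F) - Pi.single i1 (1 : F) - Pi.single iL (1 : F))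
        = Pi.single i1 (1 : F) := by
      rw [neg_one_smul]
      abel
    rw [e] at h5
    exact h5
  have Wup : ∀ (m : ℕ) (j : Fin n), j.val = m + 1 → AxisIn H (Pi.single j (1 : F)) := by
    intro m
    induction m with
    | zero =>
      intro j hj
      have : j = i1 := Fin.ext (by omega)
      rw [this]
      exact W1
    | succ m ih =>
      intro j hj
      obtain ⟨j', hj'⟩ : ∃ j' : Fin n, j'.val = m + 1 :=
        ⟨⟨m + 1, by have := j.isLt; omega⟩, rfl⟩
      have hjj : j ≠ j' := fun h => by have := congrArg Fin.val h; omega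
      have h3 := ih j' hj'
      have h4 := axisIn_conj h3 hU
      rw [rowU j' j (by omega) 1] at h4
      have h5 := axisIn_sub h4 h3 (-(Pi.single j (1 : F)))
        (by rw [dotProduct_neg, dotProduct_single_one, Pi.single_eq_of_ne hjj, neg_zero])
        (by
          rw [dotProduct_neg, dotProduct_single_one, Pi.sub_apply, Pi.single_eq_of_ne hjj,
            Pi.single_eq_same]
          ring) rfl
      have h6 := axisIn_smul h5 (-1)
      have e : (-1 : F) • (Pi.single j' (1 : F) - Pi.single j (1 : F) - Pi.single j' (1 : F))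
          = Pi.single j (1 : F) := by
        rw [neg_one_smul]
        abel
      rw [e] at h6
      exact h6
  have WM : AxisIn H (Pi.single iM (1 : F)) := Wup (n - 3) iM (by omega)
  have W0 : AxisIn H (Pi.single i0 (1 : F)) := by
    have h3 := axisIn_conj WM hU3
    rw [rowU3_M i0 i1 iM iL (by omega) hLM] at h3
    have h4 := axisIn_sub h3 WM (Pi.single i0 (1 : F))
      (by rw [dotProduct_single_one, Pi.single_eq_of_ne hM0.symm])
      (by
        rw [dotProduct_single_one, Pi.add_apply, Pi.sub_apply, Pi.single_eq_of_ne hM0.symm,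
          Pi.single_eq_of_ne hL0.symm, Pi.single_eq_same]
        ring) rfl
    have h5 := axisIn_sub h4 (axisIn_smul hA (-1)) (Pi.single i0 (1 : F))
      (by
        rw [dotProduct_single_one, Pi.smul_apply, Pi.single_eq_of_ne hL0.symm, smul_zero])
      (by
        rw [dotProduct_single_one, Pi.sub_apply, Pi.add_apply, Pi.sub_apply,
          Pi.single_eq_of_ne hM0.symm, Pi.single_eq_of_ne hL0.symm, Pi.single_eq_same]
        ring) rfl
    have e : Pi.single iM (1 : F) - Pi.single iL (1 : F) + Pi.single i0 (1 : F)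
        - Pi.single iM (1 : F) - (-1 : F) • Pi.single iL (1 : F) = Pi.single i0 (1 : F) := by
      rw [neg_one_smul]
      abel
    rw [e] at h5
    exact h5
  intro j
  by_cases hj : j.val = 0
  · have : j = i0 := Fin.ext (by omega)
    rw [this]
    exact W0
  · exact Wup (j.val - 1) j (by omega)

theorem gen_top [Finite F] (hn : 3 ≤ n) (i0 i1 iM iL : Fin n) (h0 : i0.val = 0) (h1 : i1.val = 1)
    (hM : iM.val + 2 = n) (hL : iL.val + 1 = n)
    (H : Subgroup (Matrix.SpecialLinearGroup (Fin n) F))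
    (hU : InH H (1 - Nm F n)) (hU3 : InH H (Um3 F n i0 i1 iM iL))
    (ζ : F) (hζ0 : ζ ≠ 0) (hζ : ∀ K : Subfield F, ζ ∈ K → K = ⊤)
    (hτ : InH H (1 + vecMulVec (Pi.single i0 ζ) (Pi.single iL (1 : F)))) : H = ⊤ := by
  have hA : AxisIn H (Pi.single iL (1 : F)) := by
    intro v hv
    apply stageA hn i0 i1 iM iL h0 h1 hM hL H hU hU3 ζ hζ0 hζ hτ v
    rw [single_dotProduct, one_mul] at hv
    exact hv
  have hW := stageW hn i0 i1 iM iL h0 h1 hM hL H hU hU3 hA
  haveI : Nontrivial (Fin n) := Fin.nontrivial_iff_two_le.2 (by omega)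
  apply Cfsg.Agent.Helper2.SLGen.eq_top_of_transvection_mem
  intro i j hij a
  obtain ⟨x, hx, hxm⟩ := hW j (Pi.single i a)
    (by rw [single_dotProduct, one_mul, Pi.single_eq_of_ne (Ne.symm hij)])
  have e : x = Matrix.SpecialLinearGroup.transvection hij a := by
    apply Subtype.ext
    rw [hxm, Matrix.SpecialLinearGroup.transvection_coe, single_eq_vecMulVec]
  rw [← e]
  exact hx

theorem three_conj [Fintype F] (n : ℕ) (hn : 3 ≤ n) :
    ∃ u g h : Matrix.SpecialLinearGroup (Fin n) F,
      (IsNilpotent ((u : Matrix (Fin n) (Fin n) F) - 1)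
        ∧ ((u : Matrix (Fin n) (Fin n) F) - 1) ^ (n - 1) ≠ 0) ∧
      Subgroup.closure ({u, g * u * g⁻¹, h * u * h⁻¹} :
        Set (Matrix.SpecialLinearGroup (Fin n) F)) = ⊤ := by
  classical
  obtain ⟨ζ, hζ0, -, -, hζK⟩ := Cfsg.Agent.Helper20.SL3Gen.exists_gen (F := F)
  obtain ⟨i0, h0⟩ : ∃ i : Fin n, i.val = 0 := ⟨⟨0, by omega⟩, rfl⟩
  obtain ⟨i1, h1⟩ : ∃ i : Fin n, i.val = 1 := ⟨⟨1, by omega⟩, rfl⟩
  obtain ⟨iM, hM⟩ : ∃ i : Fin n, i.val + 2 = n :=
    ⟨⟨n - 2, by omega⟩, by show n - 2 + 2 = n; omega⟩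
  obtain ⟨iL, hL⟩ : ∃ i : Fin n, i.val + 1 = n :=
    ⟨⟨n - 1, by omega⟩, by show n - 1 + 1 = n; omega⟩
  have h0M : i0 ≠ iM := fun h => by have := congrArg Fin.val h; omega
  have hL0 : iL ≠ i0 := fun h => by have := congrArg Fin.val h; omega
  obtain ⟨u, hu⟩ : ∃ u : Matrix.SpecialLinearGroup (Fin n) F,
      (u : Matrix (Fin n) (Fin n) F) = 1 - Nm F n := ⟨⟨_, det_Um F n⟩, rfl⟩
  refine ⟨u, Matrix.SpecialLinearGroup.transvection h0M (-ζ),
    Matrix.SpecialLinearGroup.transvection hL0 (1 : F), ⟨?_, ?_⟩, ?_⟩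
  · rw [hu]
    exact Um_nilp F n
  · rw [hu]
    exact Um_reg F n (by omega)
  · obtain ⟨H, hH⟩ : ∃ H : Subgroup (Matrix.SpecialLinearGroup (Fin n) F),
        H = Subgroup.closure ({u, Matrix.SpecialLinearGroup.transvection h0M (-ζ) * u
          * (Matrix.SpecialLinearGroup.transvection h0M (-ζ))⁻¹,
          Matrix.SpecialLinearGroup.transvection hL0 (1 : F) * u
          * (Matrix.SpecialLinearGroup.transvection hL0 (1 : F))⁻¹} :
          Set (Matrix.SpecialLinearGroup (Fin n) F)) := ⟨_, rfl⟩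
    rw [← hH]
    have huH : u ∈ H := by
      rw [hH]
      exact Subgroup.subset_closure (Set.mem_insert _ _)
    have hgH : Matrix.SpecialLinearGroup.transvection h0M (-ζ) * u
        * (Matrix.SpecialLinearGroup.transvection h0M (-ζ))⁻¹ ∈ H := by
      rw [hH]
      exact Subgroup.subset_closure (Set.mem_insert_of_mem _ (Set.mem_insert _ _))
    have hhH : Matrix.SpecialLinearGroup.transvection hL0 (1 : F) * u
        * (Matrix.SpecialLinearGroup.transvection hL0 (1 : F))⁻¹ ∈ H := by
      rw [hH]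
      exact Subgroup.subset_closure
        (Set.mem_insert_of_mem _ (Set.mem_insert_of_mem _ rfl))
    have hm3 : ((Matrix.SpecialLinearGroup.transvection hL0 (1 : F) * u
        * (Matrix.SpecialLinearGroup.transvection hL0 (1 : F))⁻¹ :
          Matrix.SpecialLinearGroup (Fin n) F) : Matrix (Fin n) (Fin n) F)
        = Um3 F n i0 i1 iM iL := by
      apply conj_coe
      rw [Matrix.SpecialLinearGroup.transvection_coe, single_eq_vecMulVec, hu]
      exact M1 i0 i1 iM iL h0 h1 hM hL hn
    have hm2 : ((Matrix.SpecialLinearGroup.transvection h0M (-ζ) * u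
        * (Matrix.SpecialLinearGroup.transvection h0M (-ζ))⁻¹ :
          Matrix.SpecialLinearGroup (Fin n) F) : Matrix (Fin n) (Fin n) F)
        = (u : Matrix (Fin n) (Fin n) F)
          * (1 + vecMulVec (Pi.single i0 ζ) (Pi.single iL (1 : F))) := by
      apply conj_coe
      rw [Matrix.SpecialLinearGroup.transvection_coe, single_eq_vecMulVec, hu]
      exact M2 i0 iM iL h0 hM hL hn ζ
    have hτ : InH H (1 + vecMulVec (Pi.single i0 ζ) (Pi.single iL (1 : F))) := by
      refine ⟨u⁻¹ * (Matrix.SpecialLinearGroup.transvection h0M (-ζ) * u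
        * (Matrix.SpecialLinearGroup.transvection h0M (-ζ))⁻¹), H.mul_mem (H.inv_mem huH) hgH, ?_⟩
      rw [Matrix.SpecialLinearGroup.coe_mul, hm2, ← mul_assoc,
        ← Matrix.SpecialLinearGroup.coe_mul, inv_mul_cancel, Matrix.SpecialLinearGroup.coe_one,
        one_mul]
    exact gen_top hn i0 i1 iM iL h0 h1 hM hL H ⟨u, huH, hu⟩ ⟨_, hhH, hm3⟩ ζ hζ0 hζK hτ

end Cfsg.Agent.Helper20.SLnGen
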