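import Mathlib
import Cfsg.Agent.Helper20.SLnGen3

/-!
# Transvection calculus for a pair `u`, `g u g⁻¹` with `g` a transvection

`a_k = u^k e`, `α_k = α u^(-k)`, `β(m) = α · u^m e`; the subgroup `K` contains `u` and `g u g⁻¹`
where `g = 1 + e ⊗ α`.
-/

set_option autoImplicit false

namespace Cfsg.Agent.Helper20.ECalc

open Matrix Cfsg.Agent.Helper20.SLnGen

section mat

variable {F : Type*} [Field F] {ι : Type*} [DecidableEq ι] [Fintype ι]

theorem vmv_mul (a b c d : ι → F) :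
    vecMulVec a b * vecMulVec c d = (b ⬝ᵥ c) • vecMulVec a d := by
  rw [vecMulVec_mul_vecMulVec, vecMulVec_smul]

theorem tv_comm_pair (v₁ ψ₁ v₂ ψ₂ v₃ : ι → F) (h21 : ψ₂ ⬝ᵥ v₁ = 0) (h11 : ψ₁ ⬝ᵥ v₁ = 0)
    (h22 : ψ₂ ⬝ᵥ v₂ = 0) (h13 : ψ₁ ⬝ᵥ v₃ = 0) :
    (1 + vecMulVec v₁ ψ₁) * ((1 + vecMulVec v₂ ψ₂) * (1 + vecMulVec (-v₃) ψ₁))
        * (1 + vecMulVec (-v₁) ψ₁) * ((1 + vecMulVec v₃ ψ₁) * (1 + vecMulVec (-v₂) ψ₂))
      = 1 + vecMulVec v₁ ((ψ₁ ⬝ᵥ v₂) • ψ₂) := by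
  have c1 : (1 + vecMulVec (-v₃) ψ₁) * (1 + vecMulVec (-v₁) ψ₁)
      = (1 + vecMulVec (-v₁) ψ₁) * (1 + vecMulVec (-v₃) ψ₁) := by
    rw [tv_mul_axis (-v₃) (-v₁) ψ₁ (by rw [dotProduct_neg, h11, neg_zero]),
      tv_mul_axis (-v₁) (-v₃) ψ₁ (by rw [dotProduct_neg, h13, neg_zero]), add_comm (-v₃) (-v₁)]
  have c2 : (1 + vecMulVec (-v₃) ψ₁) * (1 + vecMulVec v₃ ψ₁) = 1 := by
    rw [tv_mul_axis (-v₃) v₃ ψ₁ h13, neg_add_cancel, zero_vecMulVec, add_zero]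
  calc (1 + vecMulVec v₁ ψ₁) * ((1 + vecMulVec v₂ ψ₂) * (1 + vecMulVec (-v₃) ψ₁))
        * (1 + vecMulVec (-v₁) ψ₁) * ((1 + vecMulVec v₃ ψ₁) * (1 + vecMulVec (-v₂) ψ₂))
      = (1 + vecMulVec v₁ ψ₁) * (1 + vecMulVec v₂ ψ₂)
          * ((1 + vecMulVec (-v₃) ψ₁) * (1 + vecMulVec (-v₁) ψ₁))
          * (1 + vecMulVec v₃ ψ₁) * (1 + vecMulVec (-v₂) ψ₂) := by simp only [mul_assoc]
    _ = (1 + vecMulVec v₁ ψ₁) * (1 + vecMulVec v₂ ψ₂) * (1 + vecMulVec (-v₁) ψ₁)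
          * ((1 + vecMulVec (-v₃) ψ₁) * (1 + vecMulVec v₃ ψ₁)) * (1 + vecMulVec (-v₂) ψ₂) := by
        rw [c1]
        simp only [mul_assoc]
    _ = 1 + vecMulVec v₁ ((ψ₁ ⬝ᵥ v₂) • ψ₂) := by
        rw [c2, mul_one, tv_comm v₁ ψ₁ v₂ ψ₂ h21 h11 h22]

theorem trick {K : Subgroup (Matrix.SpecialLinearGroup ι F)}
    (a0 a1 a2 l0 l1 l2 : ι → F) (κ ρ : F)
    (h00 : l0 ⬝ᵥ a0 = 0) (h01 : l0 ⬝ᵥ a1 = 0) (h02 : l0 ⬝ᵥ a2 = 0)
    (h10 : l1 ⬝ᵥ a0 = κ) (h11 : l1 ⬝ᵥ a1 = 0) (h12 : l1 ⬝ᵥ a2 = 0)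
    (h20 : l2 ⬝ᵥ a0 = ρ) (h21 : l2 ⬝ᵥ a1 = κ) (h22 : l2 ⬝ᵥ a2 = 0)
    (hc : InH K ((1 + vecMulVec a0 l0) * (1 + vecMulVec (-a1) l1)))
    (hci : InH K ((1 + vecMulVec a1 l1) * (1 + vecMulVec (-a0) l0)))
    (hc' : InH K ((1 + vecMulVec a1 l1) * (1 + vecMulVec (-a2) l2)))
    (hc'i : InH K ((1 + vecMulVec a2 l2) * (1 + vecMulVec (-a1) l1))) :
    InH K (1 + vecMulVec ((-(κ * κ)) • a2) l0) := by
  have e1 : (1 + vecMulVec a0 l0) * (1 + vecMulVec (-a1) l1)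
      = 1 + vecMulVec a0 l0 - vecMulVec a1 l1 := by
    rw [neg_vecMulVec]
    simp only [mul_add, add_mul, mul_sub, sub_mul, mul_neg, neg_mul, mul_one, one_mul,
      smul_mul_assoc, mul_smul_comm, vmv_mul, h00, h01, h02, h10, h11, h12, h20, h21, h22,
      zero_smul, smul_zero]
    module
  have e2 : (1 + vecMulVec a1 l1) * (1 + vecMulVec (-a0) l0)
      = 1 + vecMulVec a1 l1 - vecMulVec a0 l0 - κ • vecMulVec a1 l0 := by
    rw [neg_vecMulVec]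
    simp only [mul_add, add_mul, mul_sub, sub_mul, mul_neg, neg_mul, mul_one, one_mul,
      smul_mul_assoc, mul_smul_comm, vmv_mul, h00, h01, h02, h10, h11, h12, h20, h21, h22,
      zero_smul, smul_zero]
    module
  have e3 : (1 + vecMulVec a1 l1) * (1 + vecMulVec (-a2) l2)
      = 1 + vecMulVec a1 l1 - vecMulVec a2 l2 := by
    rw [neg_vecMulVec]
    simp only [mul_add, add_mul, mul_sub, sub_mul, mul_neg, neg_mul, mul_one, one_mul,
      smul_mul_assoc, mul_smul_comm, vmv_mul, h00, h01, h02, h10, h11, h12, h20, h21, h22,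
      zero_smul, smul_zero]
    module
  have e4 : (1 + vecMulVec a2 l2) * (1 + vecMulVec (-a1) l1)
      = 1 + vecMulVec a2 l2 - vecMulVec a1 l1 - κ • vecMulVec a2 l1 := by
    rw [neg_vecMulVec]
    simp only [mul_add, add_mul, mul_sub, sub_mul, mul_neg, neg_mul, mul_one, one_mul,
      smul_mul_assoc, mul_smul_comm, vmv_mul, h00, h01, h02, h10, h11, h12, h20, h21, h22,
      zero_smul, smul_zero]
    module
  rw [e1] at hc
  rw [e2] at hci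
  rw [e3] at hc'
  rw [e4] at hc'i
  have e5 : (1 + vecMulVec a0 l0 - vecMulVec a1 l1) * (1 + vecMulVec a1 l1 - vecMulVec a2 l2)
      = 1 + vecMulVec a0 l0 - vecMulVec a2 l2 := by
    simp only [mul_add, add_mul, mul_sub, sub_mul, mul_neg, neg_mul, mul_one, one_mul,
      smul_mul_assoc, mul_smul_comm, vmv_mul, h00, h01, h02, h10, h11, h12, h20, h21, h22,
      zero_smul, smul_zero]
    module
  have e6 : (1 + vecMulVec a1 l1 - vecMulVec a0 l0 - κ • vecMulVec a1 l0)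
        * (1 + vecMulVec a2 l2 - vecMulVec a1 l1 - κ • vecMulVec a2 l1)
      = 1 - vecMulVec a0 l0 + vecMulVec a2 l2 - κ • vecMulVec a1 l0 - κ • vecMulVec a2 l1 := by
    simp only [mul_add, add_mul, mul_sub, sub_mul, mul_neg, neg_mul, mul_one, one_mul,
      smul_mul_assoc, mul_smul_comm, vmv_mul, h00, h01, h02, h10, h11, h12, h20, h21, h22,
      zero_smul, smul_zero]
    module
  have e7 : (1 + vecMulVec a0 l0 - vecMulVec a2 l2)
        * (1 - vecMulVec a0 l0 + vecMulVec a2 l2 - κ • vecMulVec a1 l0 - κ • vecMulVec a2 l1)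
      = 1 - κ • vecMulVec a1 l0 - κ • vecMulVec a2 l1 + (ρ + κ * κ) • vecMulVec a2 l0 := by
    simp only [mul_add, add_mul, mul_sub, sub_mul, mul_neg, neg_mul, mul_one, one_mul,
      smul_mul_assoc, mul_smul_comm, vmv_mul, h00, h01, h02, h10, h11, h12, h20, h21, h22,
      zero_smul, smul_zero]
    module
  have hq : InH K (1 - κ • vecMulVec a1 l0 - κ • vecMulVec a2 l1
      + (ρ + κ * κ) • vecMulVec a2 l0) := by
    rw [← e7, ← e5, ← e6]
    exact inH_mul (inH_mul hc hc') (inH_mul hci hc'i)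
  have e8 : (1 - κ • vecMulVec a1 l0 - κ • vecMulVec a2 l1 + (ρ + κ * κ) • vecMulVec a2 l0)
        * (1 + κ • vecMulVec a1 l0 + κ • vecMulVec a2 l1 - (ρ + κ * κ) • vecMulVec a2 l0)
      = 1 := by
    simp only [mul_add, add_mul, mul_sub, sub_mul, mul_neg, neg_mul, mul_one, one_mul,
      smul_mul_assoc, mul_smul_comm, vmv_mul, h00, h01, h02, h10, h11, h12, h20, h21, h22,
      zero_smul, smul_zero]
    module
  have hqi := inH_inv hq e8
  have e9a : (1 - κ • vecMulVec a1 l0 - κ • vecMulVec a2 l1 + (ρ + κ * κ) • vecMulVec a2 l0)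
        * (1 + vecMulVec a0 l0 - vecMulVec a1 l1)
      = 1 + vecMulVec a0 l0 - vecMulVec a1 l1 - κ • vecMulVec a1 l0 - κ • vecMulVec a2 l1
        + ρ • vecMulVec a2 l0 := by
    simp only [mul_add, add_mul, mul_sub, sub_mul, mul_neg, neg_mul, mul_one, one_mul,
      smul_mul_assoc, mul_smul_comm, vmv_mul, h00, h01, h02, h10, h11, h12, h20, h21, h22,
      zero_smul, smul_zero]
    module
  have e9b : (1 + vecMulVec a0 l0 - vecMulVec a1 l1 - κ • vecMulVec a1 l0 - κ • vecMulVec a2 l1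
        + ρ • vecMulVec a2 l0)
        * (1 + κ • vecMulVec a1 l0 + κ • vecMulVec a2 l1 - (ρ + κ * κ) • vecMulVec a2 l0)
      = 1 + vecMulVec a0 l0 - vecMulVec a1 l1 - (κ * κ) • vecMulVec a2 l0 := by
    simp only [mul_add, add_mul, mul_sub, sub_mul, mul_neg, neg_mul, mul_one, one_mul,
      smul_mul_assoc, mul_smul_comm, vmv_mul, h00, h01, h02, h10, h11, h12, h20, h21, h22,
      zero_smul, smul_zero]
    module
  have e9c : (1 + vecMulVec a0 l0 - vecMulVec a1 l1 - (κ * κ) • vecMulVec a2 l0)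
        * (1 + vecMulVec a1 l1 - vecMulVec a0 l0 - κ • vecMulVec a1 l0)
      = 1 + vecMulVec ((-(κ * κ)) • a2) l0 := by
    rw [smul_vecMulVec]
    simp only [mul_add, add_mul, mul_sub, sub_mul, mul_neg, neg_mul, mul_one, one_mul,
      smul_mul_assoc, mul_smul_comm, vmv_mul, h00, h01, h02, h10, h11, h12, h20, h21, h22,
      zero_smul, smul_zero]
    module
  rw [← e9c, ← e9b, ← e9a]
  exact inH_mul (inH_mul (inH_mul hq hc) hqi) hci

end mat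

end Cfsg.Agent.Helper20.ECalc
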