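import Mathlib
import Cfsg.Agent.Helper20.ECalc

/-!
# Transvection calculus for a pair `u`, `g u g⁻¹`: the sets `T_d`
-/

set_option autoImplicit false

namespace Cfsg.Agent.Helper20.ECalc

open Matrix Cfsg.Agent.Helper20.SLnGen

variable {F : Type*} [Field F] {n : ℕ}

/-- `a_k = u^k e`. -/
def av (u : Matrix.SpecialLinearGroup (Fin n) F) (e : Fin n → F) (k : ℤ) : Fin n → F :=
  ((u ^ k : Matrix.SpecialLinearGroup (Fin n) F) : Matrix (Fin n) (Fin n) F) *ᵥ e

/-- `α_k = α u^(-k)`. -/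
def alv (u : Matrix.SpecialLinearGroup (Fin n) F) (α : Fin n → F) (k : ℤ) : Fin n → F :=
  α ᵥ* ((u ^ (-k) : Matrix.SpecialLinearGroup (Fin n) F) : Matrix (Fin n) (Fin n) F)

/-- `β(m) = α · u^m e`. -/
def bet (u : Matrix.SpecialLinearGroup (Fin n) F) (e α : Fin n → F) (m : ℤ) : F :=
  α ⬝ᵥ av u e m

theorem coe_zpow_mul (u : Matrix.SpecialLinearGroup (Fin n) F) (i j : ℤ) :
    ((u ^ i : Matrix.SpecialLinearGroup (Fin n) F) : Matrix (Fin n) (Fin n) F)
        * ((u ^ j : Matrix.SpecialLinearGroup (Fin n) F) : Matrix (Fin n) (Fin n) F)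
      = ((u ^ (i + j) : Matrix.SpecialLinearGroup (Fin n) F) : Matrix (Fin n) (Fin n) F) := by
  rw [← Matrix.SpecialLinearGroup.coe_mul, ← _root_.zpow_add]

theorem pairing (u : Matrix.SpecialLinearGroup (Fin n) F) (e α : Fin n → F) (i j : ℤ) :
    alv u α j ⬝ᵥ av u e i = bet u e α (i - j) := by
  unfold alv bet av
  rw [← dotProduct_mulVec, mulVec_mulVec, coe_zpow_mul, neg_add_eq_sub]

theorem pairing' (u : Matrix.SpecialLinearGroup (Fin n) F) (e α : Fin n → F) (i j m : ℤ)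
    (hm : i - j = m) : alv u α j ⬝ᵥ av u e i = bet u e α m := by
  rw [pairing, hm]

theorem bet_zero (u : Matrix.SpecialLinearGroup (Fin n) F) (e α : Fin n → F) :
    bet u e α 0 = α ⬝ᵥ e := by
  unfold bet av
  rw [_root_.zpow_zero, Matrix.SpecialLinearGroup.coe_one, one_mulVec]

theorem alv_zero (u : Matrix.SpecialLinearGroup (Fin n) F) (α : Fin n → F) :
    alv u α 0 = α := by
  unfold alv
  rw [neg_zero, _root_.zpow_zero, Matrix.SpecialLinearGroup.coe_one, vecMul_one]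

theorem av_zero (u : Matrix.SpecialLinearGroup (Fin n) F) (e : Fin n → F) :
    av u e 0 = e := by
  unfold av
  rw [_root_.zpow_zero, Matrix.SpecialLinearGroup.coe_one, one_mulVec]

theorem av_succ (u : Matrix.SpecialLinearGroup (Fin n) F) (e : Fin n → F) (k : ℤ) :
    (u : Matrix (Fin n) (Fin n) F) *ᵥ av u e k = av u e (k + 1) := by
  unfold av
  rw [mulVec_mulVec, ← Matrix.SpecialLinearGroup.coe_mul, ← _root_.zpow_one_add, add_comm 1 k]

theorem av_pred (u : Matrix.SpecialLinearGroup (Fin n) F) (e : Fin n → F) (k : ℤ)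
    (x : Fin n → F) (hx : (u : Matrix (Fin n) (Fin n) F) *ᵥ x = av u e k) :
    av u e (k - 1) = x := by
  have h1 : (u : Matrix (Fin n) (Fin n) F) *ᵥ av u e (k - 1) = av u e k := by
    rw [av_succ, sub_add_cancel]
  have h2 : ((u⁻¹ : Matrix.SpecialLinearGroup (Fin n) F) : Matrix (Fin n) (Fin n) F)
      * (u : Matrix (Fin n) (Fin n) F) = 1 := by
    rw [← Matrix.SpecialLinearGroup.coe_mul, inv_mul_cancel, Matrix.SpecialLinearGroup.coe_one]
  have h3 := congrArg (fun y => ((u⁻¹ : Matrix.SpecialLinearGroup (Fin n) F) :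
    Matrix (Fin n) (Fin n) F) *ᵥ y) (h1.trans hx.symm)
  simp only [mulVec_mulVec, h2, one_mulVec] at h3
  exact h3

theorem av_natCast (u : Matrix.SpecialLinearGroup (Fin n) F) (e : Fin n → F) (k : ℕ) :
    av u e (k : ℤ) = ((u : Matrix (Fin n) (Fin n) F) ^ k) *ᵥ e := by
  unfold av
  rw [_root_.zpow_natCast, Matrix.SpecialLinearGroup.coe_pow]

theorem av_smul_conj (u : Matrix.SpecialLinearGroup (Fin n) F) (e : Fin n → F) (k i : ℤ) (t : F) :
    ((u ^ k : Matrix.SpecialLinearGroup (Fin n) F) : Matrix (Fin n) (Fin n) F) *ᵥ (t • av u e i)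
      = t • av u e (i + k) := by
  unfold av
  rw [mulVec_smul, mulVec_mulVec, coe_zpow_mul, add_comm k i]

theorem alv_conj (u : Matrix.SpecialLinearGroup (Fin n) F) (α : Fin n → F) (k j : ℤ) :
    alv u α (j + k) ᵥ* ((u ^ k : Matrix.SpecialLinearGroup (Fin n) F) : Matrix (Fin n) (Fin n) F)
      = alv u α j := by
  unfold alv
  have e : -(j + k) + k = -j := by ring
  rw [vecMul_vecMul, coe_zpow_mul, e]

/-- `1 + t a_i ⊗ α_j ∈ K`. -/
def Tin (K : Subgroup (Matrix.SpecialLinearGroup (Fin n) F))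
    (u : Matrix.SpecialLinearGroup (Fin n) F) (e α : Fin n → F) (i j : ℤ) (t : F) : Prop :=
  InH K (1 + vecMulVec (t • av u e i) (alv u α j))

variable {K : Subgroup (Matrix.SpecialLinearGroup (Fin n) F)}
  {u g : Matrix.SpecialLinearGroup (Fin n) F} {e α : Fin n → F}

theorem Tin_shift (hu : u ∈ K) {i j : ℤ} {t : F} (k : ℤ) (h : Tin K u e α i j t) :
    Tin K u e α (i + k) (j + k) t := by
  unfold Tin at h ⊢
  have h1 := inH_tv_conj (H := K)
    (K := ((u ^ k : Matrix.SpecialLinearGroup (Fin n) F) : Matrix (Fin n) (Fin n) F))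
    ⟨u ^ k, K.zpow_mem hu k, rfl⟩ h (φ' := alv u α (j + k)) (alv_conj u α k j)
  rw [av_smul_conj] at h1
  exact h1

theorem Tin_shift' (hu : u ∈ K) {i j : ℤ} {t : F} (k i' j' : ℤ) (hi : i' = i + k)
    (hj : j' = j + k) (h : Tin K u e α i j t) : Tin K u e α i' j' t := by
  rw [hi, hj]
  exact Tin_shift hu k h

theorem Tin_zero (K : Subgroup (Matrix.SpecialLinearGroup (Fin n) F))
    (u : Matrix.SpecialLinearGroup (Fin n) F) (e α : Fin n → F) (i j : ℤ) :
    Tin K u e α i j 0 := by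
  unfold Tin
  rw [zero_smul]
  exact inH_tv_zero _

theorem Tin_add {i j : ℤ} {t s : F} (hβ : bet u e α (i - j) = 0) (h : Tin K u e α i j t)
    (h' : Tin K u e α i j s) : Tin K u e α i j (t + s) := by
  unfold Tin at h h' ⊢
  rw [add_smul]
  exact inH_tv_add h h' (by rw [dotProduct_smul, pairing, hβ, smul_zero])

theorem Tin_neg {i j : ℤ} {t : F} (hβ : bet u e α (i - j) = 0) (h : Tin K u e α i j t) :
    Tin K u e α i j (-t) := by
  unfold Tin at h ⊢
  rw [neg_smul]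
  exact inH_tv_neg h (by rw [dotProduct_smul, pairing, hβ, smul_zero])

theorem Tin_comm {i j k l : ℤ} {t s : F} (h1 : Tin K u e α i j t) (h2 : Tin K u e α k l s)
    (hil : bet u e α (i - l) = 0) (hij : bet u e α (i - j) = 0)
    (hkl : bet u e α (k - l) = 0) :
    Tin K u e α i l (t * s * bet u e α (k - j)) := by
  unfold Tin at h1 h2 ⊢
  have h3 := inH_tv_comm h1 h2 (by rw [dotProduct_smul, pairing, hil, smul_zero])
    (by rw [dotProduct_smul, pairing, hij, smul_zero])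
    (by rw [dotProduct_smul, pairing, hkl, smul_zero])
  rw [dotProduct_smul, pairing, vecMulVec_smul, ← smul_vecMulVec, smul_smul] at h3
  have e1 : (s • bet u e α (k - j)) * t = t * s * bet u e α (k - j) := by
    rw [smul_eq_mul]
    ring
  rw [e1] at h3
  exact h3

theorem coe_inv_tv (hg : (g : Matrix (Fin n) (Fin n) F) = 1 + vecMulVec e α)
    (h0 : α ⬝ᵥ e = 0) :
    ((g⁻¹ : Matrix.SpecialLinearGroup (Fin n) F) : Matrix (Fin n) (Fin n) F)
      = 1 + vecMulVec (-e) α := by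
  have h1 : (g : Matrix (Fin n) (Fin n) F) * (1 + vecMulVec (-e) α) = 1 := by
    rw [hg, tv_mul_axis e (-e) α (by rw [dotProduct_neg, h0, neg_zero]), add_neg_cancel,
      zero_vecMulVec, add_zero]
  have h2 : ((g⁻¹ : Matrix.SpecialLinearGroup (Fin n) F) : Matrix (Fin n) (Fin n) F)
      * (g : Matrix (Fin n) (Fin n) F) = 1 := by
    rw [← Matrix.SpecialLinearGroup.coe_mul, inv_mul_cancel, Matrix.SpecialLinearGroup.coe_one]
  calc ((g⁻¹ : Matrix.SpecialLinearGroup (Fin n) F) : Matrix (Fin n) (Fin n) F)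
      = ((g⁻¹ : Matrix.SpecialLinearGroup (Fin n) F) : Matrix (Fin n) (Fin n) F)
          * ((g : Matrix (Fin n) (Fin n) F) * (1 + vecMulVec (-e) α)) := by rw [h1, mul_one]
    _ = 1 + vecMulVec (-e) α := by rw [← mul_assoc, h2, one_mul]

theorem coe_conj_tv (x : Matrix.SpecialLinearGroup (Fin n) F)
    (hg : (g : Matrix (Fin n) (Fin n) F) = 1 + vecMulVec e α) :
    ((x * g * x⁻¹ : Matrix.SpecialLinearGroup (Fin n) F) : Matrix (Fin n) (Fin n) F)
      = 1 + vecMulVec ((x : Matrix (Fin n) (Fin n) F) *ᵥ e)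
          (α ᵥ* ((x⁻¹ : Matrix.SpecialLinearGroup (Fin n) F) : Matrix (Fin n) (Fin n) F)) := by
  rw [Matrix.SpecialLinearGroup.coe_mul, Matrix.SpecialLinearGroup.coe_mul, hg]
  exact tv_conj _ _ (by rw [← Matrix.SpecialLinearGroup.coe_mul, mul_inv_cancel,
    Matrix.SpecialLinearGroup.coe_one]) e α

theorem pair_mem (hu : u ∈ K) (hV : g * u * g⁻¹ ∈ K)
    (hg : (g : Matrix (Fin n) (Fin n) F) = 1 + vecMulVec e α) (h0 : α ⬝ᵥ e = 0) (j k : ℤ) :
    InH K ((1 + vecMulVec (av u e j) (alv u α j))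
      * (1 + vecMulVec (-(av u e k)) (alv u α k))) := by
  have hgi := coe_inv_tv hg h0
  have hVm : g * u ^ (k - j) * g⁻¹ ∈ K := by
    rw [← conj_zpow]
    exact K.zpow_mem hV _
  have hx : (u ^ j * g * (u ^ j)⁻¹) * (u ^ k * g⁻¹ * (u ^ k)⁻¹)
      = u ^ j * (g * u ^ (k - j) * g⁻¹) * (u ^ k)⁻¹ := by
    rw [show k - j = -j + k by ring, _root_.zpow_add, _root_.zpow_neg]
    simp only [mul_assoc]
  refine ⟨(u ^ j * g * (u ^ j)⁻¹) * (u ^ k * g⁻¹ * (u ^ k)⁻¹), ?_, ?_⟩
  · rw [hx]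
    exact K.mul_mem (K.mul_mem (K.zpow_mem hu j) hVm) (K.inv_mem (K.zpow_mem hu k))
  · rw [Matrix.SpecialLinearGroup.coe_mul, coe_conj_tv (u ^ j) hg, coe_conj_tv (u ^ k) hgi,
      mulVec_neg]
    unfold av alv
    rw [_root_.zpow_neg, _root_.zpow_neg]

theorem Tin_pair (hu : u ∈ K) (hV : g * u * g⁻¹ ∈ K)
    (hg : (g : Matrix (Fin n) (Fin n) F) = 1 + vecMulVec e α) (h0 : α ⬝ᵥ e = 0)
    {i k : ℤ} {t : F} (j : ℤ) (h : Tin K u e α i k t)
    (hij : bet u e α (i - j) = 0) (hik : bet u e α (i - k) = 0) :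
    Tin K u e α i j (t * bet u e α (j - k)) := by
  unfold Tin at h ⊢
  have hb0 : bet u e α 0 = 0 := by
    rw [bet_zero]
    exact h0
  have hneg := inH_tv_neg h (by rw [dotProduct_smul, pairing, hik, smul_zero])
  have hp1 := pair_mem hu hV hg h0 j k
  have hp2 := pair_mem hu hV hg h0 k j
  have key := tv_comm_pair (t • av u e i) (alv u α k) (av u e j) (alv u α j) (av u e k)
    (by rw [dotProduct_smul, pairing, hij, smul_zero])
    (by rw [dotProduct_smul, pairing, hik, smul_zero])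
    (by rw [pairing, sub_self, hb0]) (by rw [pairing, sub_self, hb0])
  have h3 : InH K (1 + vecMulVec (t • av u e i) ((alv u α k ⬝ᵥ av u e j) • alv u α j)) := by
    rw [← key]
    exact inH_mul (inH_mul (inH_mul h hp1) hneg) hp2
  rw [pairing, vecMulVec_smul, ← smul_vecMulVec, smul_smul,
    mul_comm (bet u e α (j - k)) t] at h3
  exact h3

theorem Tin_trick (hu : u ∈ K) (hV : g * u * g⁻¹ ∈ K)
    (hg : (g : Matrix (Fin n) (Fin n) F) = 1 + vecMulVec e α) (h0 : α ⬝ᵥ e = 0)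
    (h1 : bet u e α 1 = 0) (h2 : bet u e α 2 = 0) :
    Tin K u e α 2 0 (-(bet u e α (-1) * bet u e α (-1))) := by
  have hb0 : bet u e α 0 = 0 := by
    rw [bet_zero]
    exact h0
  unfold Tin
  exact trick (av u e 0) (av u e 1) (av u e 2) (alv u α 0) (alv u α 1) (alv u α 2)
    (bet u e α (-1)) (bet u e α (-2))
    ((pairing' u e α 0 0 0 (by norm_num)).trans hb0)
    ((pairing' u e α 1 0 1 (by norm_num)).trans h1)
    ((pairing' u e α 2 0 2 (by norm_num)).trans h2)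
    (pairing' u e α 0 1 (-1) (by norm_num))
    ((pairing' u e α 1 1 0 (by norm_num)).trans hb0)
    ((pairing' u e α 2 1 1 (by norm_num)).trans h1)
    (pairing' u e α 0 2 (-2) (by norm_num))
    (pairing' u e α 1 2 (-1) (by norm_num))
    ((pairing' u e α 2 2 0 (by norm_num)).trans hb0)
    (pair_mem hu hV hg h0 0 1) (pair_mem hu hV hg h0 1 0)
    (pair_mem hu hV hg h0 1 2) (pair_mem hu hV hg h0 2 1)

/-- The standing hypotheses. -/
structure Setup (K : Subgroup (Matrix.SpecialLinearGroup (Fin n) F))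
    (u g : Matrix.SpecialLinearGroup (Fin n) F) (e α : Fin n → F) : Prop where
  hu : u ∈ K
  hV : g * u * g⁻¹ ∈ K
  hg : (g : Matrix (Fin n) (Fin n) F) = 1 + vecMulVec e α
  h0 : α ⬝ᵥ e = 0

theorem T_add {d : ℤ} {t s : F} (hβ : bet u e α d = 0) (h : Tin K u e α d 0 t)
    (h' : Tin K u e α d 0 s) : Tin K u e α d 0 (t + s) :=
  Tin_add (by rw [sub_zero]; exact hβ) h h'

theorem T_neg {d : ℤ} {t : F} (hβ : bet u e α d = 0) (h : Tin K u e α d 0 t) :
    Tin K u e α d 0 (-t) :=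
  Tin_neg (by rw [sub_zero]; exact hβ) h

theorem T_C (S : Setup K u g e α) {d1 d2 : ℤ} {t s : F} (m d : ℤ) (hd : d = d1 + d2 - m)
    (ht : Tin K u e α d1 0 t) (hs : Tin K u e α d2 0 s)
    (h1 : bet u e α d1 = 0) (h2 : bet u e α d2 = 0) (h3 : bet u e α d = 0) :
    Tin K u e α d 0 (t * s * bet u e α m) := by
  have ht' : Tin K u e α d (d2 - m) t :=
    Tin_shift' S.hu (d2 - m) d (d2 - m) (by rw [hd]; ring) (by ring) ht
  have h := Tin_comm ht' hs (by rw [sub_zero]; exact h3)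
    (by rw [show d - (d2 - m) = d1 by rw [hd]; ring]; exact h1) (by rw [sub_zero]; exact h2)
  rw [show d2 - (d2 - m) = m by ring] at h
  exact h

theorem T_G (S : Setup K u g e α) {d : ℤ} {t : F} (m d' : ℤ) (hd : d' = d - m)
    (ht : Tin K u e α d 0 t) (h1 : bet u e α d = 0) (h2 : bet u e α d' = 0) :
    Tin K u e α d' 0 (t * bet u e α m) := by
  have ht' : Tin K u e α d' (-m) t :=
    Tin_shift' S.hu (-m) d' (-m) (by rw [hd]; ring) (by ring) ht
  have h := Tin_pair S.hu S.hV S.hg S.h0 0 ht' (by rw [sub_zero]; exact h2)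
    (by rw [show d' - -m = d by rw [hd]; ring]; exact h1)
  rw [show (0 : ℤ) - -m = m by ring] at h
  exact h

theorem T_Tr (S : Setup K u g e α) (h1 : bet u e α 1 = 0) (h2 : bet u e α 2 = 0) :
    Tin K u e α 2 0 (-(bet u e α (-1) * bet u e α (-1))) :=
  Tin_trick S.hu S.hV S.hg S.h0 h1 h2

end Cfsg.Agent.Helper20.ECalc
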