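import Mathlib
import Cfsg.Agent.Helper20.ECalc2

/-!
# Transvection calculus for a pair `u`, `g u g⁻¹`: closing the sets `T_d`
-/

set_option autoImplicit false

namespace Cfsg.Agent.Helper20.ECalc

open Matrix Cfsg.Agent.Helper20.SLnGen

variable {F : Type*} [Field F] {n : ℕ}

variable {K : Subgroup (Matrix.SpecialLinearGroup (Fin n) F)}
  {u g : Matrix.SpecialLinearGroup (Fin n) F} {e α : Fin n → F}

theorem closureA [Finite F] (S : Setup K u g e α) (w : ℕ) (hw : 2 ≤ w) (ζ ε cn : F)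
    (hε : ε = 1 ∨ ε = -1) (hζ : Subfield.closure ({ζ} : Set F) = ⊤)
    (hb : ∀ m : ℕ, m ≤ w → bet u e α (m : ℤ) = 0)
    (hbm1 : bet u e α (-1) = 1)
    (hb1 : bet u e α ((w : ℤ) + 1) = ε * ζ)
    (hb2 : bet u e α ((w : ℤ) + 2) = ε * (cn * ζ - 1)) :
    ∀ d : ℕ, d ≤ w → ∀ t : F, Tin K u e α (d : ℤ) 0 t := by
  have hb0 : bet u e α 0 = 0 := by simpa using hb 0 (Nat.zero_le _)
  have hb1' : bet u e α 1 = 0 := by simpa using hb 1 (by omega)
  have hb2' : bet u e α 2 = 0 := by simpa using hb 2 hw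
  have hbw : bet u e α (w : ℤ) = 0 := hb w le_rfl
  have mono1 : ∀ (d : ℕ) (t : F), d + 1 ≤ w → Tin K u e α (d : ℤ) 0 t →
      Tin K u e α ((d + 1 : ℕ) : ℤ) 0 t := by
    intro d t hd ht
    have h := T_G S (-1) ((d + 1 : ℕ) : ℤ) (by push_cast; ring) ht (hb d (by omega))
      (hb (d + 1) hd)
    rw [hbm1, mul_one] at h
    exact h
  have mono : ∀ (k d : ℕ) (t : F), d + k ≤ w → Tin K u e α (d : ℤ) 0 t →
      Tin K u e α ((d + k : ℕ) : ℤ) 0 t := by
    intro k
    induction k with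
    | zero =>
      intro d t _ ht
      exact ht
    | succ k ih =>
      intro d t hd ht
      exact mono1 (d + k) t (by omega) (ih d t (by omega) ht)
  have h12 : Tin K u e α 2 0 1 := by
    have h := T_neg hb2' (T_Tr S hb1' hb2')
    rw [hbm1, mul_one, neg_neg] at h
    exact h
  have h1w : Tin K u e α (w : ℤ) 0 1 := by
    have h := mono (w - 2) 2 1 (by omega) (by exact_mod_cast h12)
    rwa [show 2 + (w - 2) = w by omega] at h
  have hP1 : Tin K u e α 0 0 (ε * (cn * ζ - 1)) := by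
    have h := T_C S ((w : ℤ) + 2) 0 (by ring) h12 h1w hb2' hbw hb0
    rw [hb2, one_mul, one_mul] at h
    exact h
  have hT1 : Tin K u e α 1 0 (ε * ζ) := by
    have h := T_C S ((w : ℤ) + 1) 1 (by ring) h12 h1w hb2' hbw hb1'
    rw [hb1, one_mul, one_mul] at h
    exact h
  have hP2 : Tin K u e α 0 0 (ε * ζ * 1 * (ε * ζ)) := by
    have h := T_C S ((w : ℤ) + 1) 0 (by ring) hT1 h1w hb1' hbw hb0
    rw [hb1] at h
    exact h
  have hPT1 : ∀ p : F, Tin K u e α 0 0 p → Tin K u e α 1 0 p := by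
    intro p hp
    have h := mono1 0 p (by omega) (by exact_mod_cast hp)
    exact_mod_cast h
  have hmul : ∀ p : F, Tin K u e α 0 0 p → Tin K u e α 0 0 (ζ * p) := by
    intro p hp
    have h := T_C S ((w : ℤ) + 1) 0 (by ring) (hPT1 p hp) h1w hb1' hbw hb0
    rw [hb1] at h
    rcases hε with hε | hε
    · have e1 : p * 1 * (ε * ζ) = ζ * p := by
        rw [hε]
        ring
      rw [e1] at h
      exact h
    · have h' := T_neg hb0 h
      have e1 : -(p * 1 * (ε * ζ)) = ζ * p := by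
        rw [hε]
        ring
      rw [e1] at h'
      exact h'
  have hstab := Cfsg.Agent.Helper20.SL3Gen.scal (F := F) (V := F)
    (fun p => Tin K u e α 0 0 p) (Tin_zero K u e α 0 0)
    (fun v w hv hw => T_add hb0 hv hw) (fun v hv => T_neg hb0 hv) {ζ}
    (fun m hm v hv => by
      rw [Set.mem_singleton_iff] at hm
      rw [hm, smul_eq_mul]
      exact hmul v hv) hζ
  have hεne : ε ≠ 0 := by
    rcases hε with hε | hε
    · rw [hε]
      exact one_ne_zero
    · rw [hε]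
      exact neg_ne_zero.2 one_ne_zero
  have hall0 : ∀ t : F, Tin K u e α 0 0 t := by
    intro t
    by_cases hz : ζ = 0
    · have hne : ε * (cn * ζ - 1) ≠ 0 := by
        rw [hz, mul_zero, zero_sub]
        exact mul_ne_zero hεne (neg_ne_zero.2 one_ne_zero)
      have h : Tin K u e α 0 0 (t / (ε * (cn * ζ - 1)) * (ε * (cn * ζ - 1))) :=
        hstab (t / (ε * (cn * ζ - 1))) _ hP1
      rw [div_mul_cancel₀ _ hne] at h
      exact h
    · have hne : ε * ζ * 1 * (ε * ζ) ≠ 0 :=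
        mul_ne_zero (mul_ne_zero (mul_ne_zero hεne hz) one_ne_zero) (mul_ne_zero hεne hz)
      have h : Tin K u e α 0 0 (t / (ε * ζ * 1 * (ε * ζ)) * (ε * ζ * 1 * (ε * ζ))) :=
        hstab (t / (ε * ζ * 1 * (ε * ζ))) _ hP2
      rw [div_mul_cancel₀ _ hne] at h
      exact h
  intro d hd t
  have h := mono d 0 t (by omega) (by exact_mod_cast hall0 t)
  rwa [zero_add] at h

theorem vstarA (S : Setup K u g e α) (w : ℕ) (hw : 2 ≤ w) (ζ ε cn : F)
    (hε : ε = 1 ∨ ε = -1)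
    (hb : ∀ m : ℕ, m ≤ w → bet u e α (m : ℤ) = 0)
    (hbm1 : bet u e α (-1) = 1)
    (hb1 : bet u e α ((w : ℤ) + 1) = ε * ζ)
    (hb2 : bet u e α ((w : ℤ) + 2) = ε * (cn * ζ - 1))
    (hall : ∀ d : ℕ, d ≤ w → ∀ t : F, Tin K u e α (d : ℤ) 0 t) :
    α ⬝ᵥ (av u e (-2) - bet u e α (-2) • av u e (-1)) = 0 ∧
    ∀ t : F, InH K (1 + vecMulVec (t • (av u e (-2) - bet u e α (-2) • av u e (-1))) α) := by
  obtain ⟨ρ, hρ⟩ : ∃ ρ : F, ρ = bet u e α (-2) := ⟨_, rfl⟩
  rw [← hρ]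
  obtain ⟨vs, hvs⟩ : ∃ vs : Fin n → F, vs = av u e (-2) - ρ • av u e (-1) := ⟨_, rfl⟩
  rw [← hvs]
  have hb0 : bet u e α 0 = 0 := by simpa using hb 0 (Nat.zero_le _)
  have hb1' : bet u e α 1 = 0 := by simpa using hb 1 (by omega)
  have d0 : alv u α 0 ⬝ᵥ vs = 0 := by
    rw [hvs, dotProduct_sub, dotProduct_smul, pairing' u e α (-2) 0 (-2) (by norm_num),
      pairing' u e α (-1) 0 (-1) (by norm_num), hbm1, ← hρ, smul_eq_mul, mul_one, sub_self]
  have d2 : alv u α (-2) ⬝ᵥ vs = 0 := by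
    rw [hvs, dotProduct_sub, dotProduct_smul, pairing' u e α (-2) (-2) 0 (by norm_num),
      pairing' u e α (-1) (-2) 1 (by norm_num), hb0, hb1', smul_zero, sub_zero]
  have E1 : ∀ t : F, InH K (1 + vecMulVec (t • vs) (alv u α (-2))) := by
    intro t
    have ha : Tin K u e α (-2) (-2) t :=
      Tin_shift' S.hu (-2) (-2) (-2) (by norm_num) (by norm_num) (hall 0 (Nat.zero_le _) t)
    have hb' : Tin K u e α (-1) (-2) (-(t * ρ)) :=
      Tin_shift' S.hu (-2) (-1) (-2) (by norm_num) (by norm_num)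
        (hall 1 (by omega) (-(t * ρ)))
    unfold Tin at ha hb'
    have h := inH_tv_add ha hb'
      (by rw [dotProduct_smul, pairing' u e α (-1) (-2) 1 (by norm_num), hb1', smul_zero])
    have e1 : t • av u e (-2) + (-(t * ρ)) • av u e (-1) = t • vs := by
      rw [hvs]
      module
    rw [e1] at h
    exact h
  have Q : ∀ (k : ℕ), k ≤ w → ∀ t : F,
      InH K (1 + vecMulVec ((t * bet u e α ((k : ℤ) + 2)) • vs) (alv u α 0)) := by
    intro k hk t
    have h2 := hall k hk 1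
    unfold Tin at h2
    have h := inH_tv_comm (E1 t) h2 (by rw [dotProduct_smul, d0, smul_zero])
      (by rw [dotProduct_smul, d2, smul_zero])
      (by rw [dotProduct_smul, pairing' u e α (k : ℤ) 0 (k : ℤ) (by ring), hb k hk, smul_zero])
    rw [dotProduct_smul, pairing' u e α (k : ℤ) (-2) ((k : ℤ) + 2) (by ring), vecMulVec_smul,
      ← smul_vecMulVec, smul_smul, smul_eq_mul, one_mul,
      mul_comm (bet u e α ((k : ℤ) + 2)) t] at h
    exact h
  have R1 : ∀ t : F, InH K (1 + vecMulVec ((t * (ε * ζ)) • vs) (alv u α 0)) := by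
    intro t
    have h := Q (w - 1) (by omega) t
    rw [show (((w - 1 : ℕ) : ℤ) + 2) = (w : ℤ) + 1 by omega, hb1] at h
    exact h
  have R2 : ∀ t : F, InH K (1 + vecMulVec ((t * (ε * (cn * ζ - 1))) • vs) (alv u α 0)) := by
    intro t
    have h := Q w le_rfl t
    rw [hb2] at h
    exact h
  refine ⟨?_, fun t => ?_⟩
  · rw [← alv_zero u α]
    exact d0
  · have h := inH_tv_add (R1 (t * ε * cn)) (R2 (-(t * ε)))
      (by rw [dotProduct_smul, d0, smul_zero])
    have e1 : (t * ε * cn * (ε * ζ)) • vs + (-(t * ε) * (ε * (cn * ζ - 1))) • vs = t • vs := by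
      rw [← add_smul]
      congr 1
      rcases hε with hε | hε
      · rw [hε]
        ring
      · rw [hε]
        ring
    rw [e1, alv_zero] at h
    exact h

theorem pow4_mem [Fintype F] (h4 : (4 : F) = 0) (E : Subfield F) (x : F) (hx : x ^ 4 ∈ E) :
    x ∈ E := by
  have h2 : (2 : F) = 0 := by
    have h22 : (2 : F) * 2 = 0 := by
      rw [← h4]
      norm_num
    exact mul_self_eq_zero.1 h22
  have hq : ((Fintype.card F : ℕ) : F) = 0 := Nat.cast_card_eq_zero F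
  obtain ⟨j, hj⟩ : ∃ j, Fintype.card F = 2 * j := by
    rcases Nat.even_or_odd' (Fintype.card F) with ⟨j, hj | hj⟩
    · exact ⟨j, hj⟩
    · exfalso
      rw [hj] at hq
      push_cast at hq
      rw [h2, zero_mul, zero_add] at hq
      exact one_ne_zero hq
  have hpow : x ^ (Fintype.card F) = x := FiniteField.pow_card x
  have e1 : x = (x ^ 4) ^ (j * j) := by
    rw [← pow_mul]
    have e2 : 4 * (j * j) = Fintype.card F * Fintype.card F := by
      rw [hj]
      ring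
    rw [e2, pow_mul, hpow, hpow]
  rw [e1]
  exact E.pow_mem hx _

theorem closure_pow4 [Fintype F] (γ : F) (hγ0 : γ ≠ 0)
    (hγ : Subfield.closure ({γ} : Set F) = ⊤) :
    Subfield.closure ({γ ^ 4, 4 * γ ^ 5} : Set F) = ⊤ := by
  obtain ⟨E, hE⟩ : ∃ E : Subfield F, E = Subfield.closure ({γ ^ 4, 4 * γ ^ 5} : Set F) :=
    ⟨_, rfl⟩
  rw [← hE]
  have h4 : γ ^ 4 ∈ E := by
    rw [hE]
    exact Subfield.subset_closure (Set.mem_insert _ _)
  have h5 : 4 * γ ^ 5 ∈ E := by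
    rw [hE]
    exact Subfield.subset_closure (Set.mem_insert_of_mem _ rfl)
  have hγE : γ ∈ E := by
    by_cases hc : (4 : F) = 0
    · exact pow4_mem hc E γ h4
    · have h4' : (4 : F) ∈ E := by
        have h := natCast_mem E 4
        exact_mod_cast h
      have h5' : γ ^ 5 ∈ E := by
        have h := E.mul_mem (E.inv_mem h4') h5
        rwa [← mul_assoc, inv_mul_cancel₀ hc, one_mul] at h
      have h := E.mul_mem h5' (E.inv_mem h4)
      have e1 : γ ^ 5 * (γ ^ 4)⁻¹ = γ := by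
        have e2 : γ ^ 5 = γ * γ ^ 4 := by ring
        rw [e2, mul_assoc, mul_inv_cancel₀ (pow_ne_zero 4 hγ0), mul_one]
      rwa [e1] at h
  rw [eq_top_iff, ← hγ, Subfield.closure_le]
  intro x hx
  rw [Set.mem_singleton_iff] at hx
  rw [hx]
  exact hγE

theorem closureB [Fintype F] (S : Setup K u g e α) (γ : F) (hγ0 : γ ≠ 0)
    (hγ : Subfield.closure ({γ} : Set F) = ⊤)
    (hb0 : bet u e α 0 = 0) (hb1 : bet u e α 1 = 0) (hb2 : bet u e α 2 = 0)
    (hbm1 : bet u e α (-1) = γ) (hb3 : bet u e α 3 = -γ) (hb4 : bet u e α 4 = -(4 * γ)) :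
    ∀ t : F, Tin K u e α 0 0 t ∧ Tin K u e α 1 0 t ∧ Tin K u e α 2 0 t := by
  have G01 : ∀ p : F, Tin K u e α 0 0 p → Tin K u e α 1 0 (p * γ) := by
    intro p hp
    have h := T_G S (-1) 1 (by norm_num) hp hb0 hb1
    rw [hbm1] at h
    exact h
  have G12 : ∀ p : F, Tin K u e α 1 0 p → Tin K u e α 2 0 (p * γ) := by
    intro p hp
    have h := T_G S (-1) 2 (by norm_num) hp hb1 hb2
    rw [hbm1] at h
    exact h
  have h2 : Tin K u e α 2 0 (γ * γ) := by
    have h := T_neg hb2 (T_Tr S hb1 hb2)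
    rw [hbm1, neg_neg] at h
    exact h
  have h1 : Tin K u e α 1 0 (γ * γ * (γ * γ) * (-γ)) := by
    have h := T_C S 3 1 (by norm_num) h2 h2 hb2 hb2 hb1
    rw [hb3] at h
    exact h
  have hP : Tin K u e α 0 0 (γ * γ * (γ * γ) * (-γ) * (γ * γ) * (-γ)) := by
    have h := T_C S 3 0 (by norm_num) h1 h2 hb1 hb2 hb0
    rw [hb3] at h
    exact h
  have hm1 : ∀ p : F, Tin K u e α 0 0 p → Tin K u e α 0 0 (γ ^ 4 * p) := by
    intro p hp
    have h := T_neg hb0 (T_C S 3 0 (by norm_num) (G01 p hp) h2 hb1 hb2 hb0)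
    rw [hb3] at h
    have e1 : -(p * γ * (γ * γ) * (-γ)) = γ ^ 4 * p := by ring
    rw [e1] at h
    exact h
  have hm2 : ∀ p : F, Tin K u e α 0 0 p → Tin K u e α 0 0 (4 * γ ^ 5 * p) := by
    intro p hp
    have h := T_neg hb0 (T_C S 4 0 (by norm_num) h2 (G12 _ (G01 p hp)) hb2 hb2 hb0)
    rw [hb4] at h
    have e1 : -(γ * γ * (p * γ * γ) * (-(4 * γ))) = 4 * γ ^ 5 * p := by ring
    rw [e1] at h
    exact h
  have hstab := Cfsg.Agent.Helper20.SL3Gen.scal (F := F) (V := F)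
    (fun p => Tin K u e α 0 0 p) (Tin_zero K u e α 0 0)
    (fun v w hv hw => T_add hb0 hv hw) (fun v hv => T_neg hb0 hv) {γ ^ 4, 4 * γ ^ 5}
    (fun m hm v hv => by
      rcases hm with hm | hm
      · rw [hm, smul_eq_mul]
        exact hm1 v hv
      · rw [Set.mem_singleton_iff] at hm
        rw [hm, smul_eq_mul]
        exact hm2 v hv) (closure_pow4 γ hγ0 hγ)
  have hall0 : ∀ t : F, Tin K u e α 0 0 t := by
    intro t
    have hne : γ * γ * (γ * γ) * (-γ) * (γ * γ) * (-γ) ≠ 0 := by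
      have hn : -γ ≠ 0 := neg_ne_zero.2 hγ0
      exact mul_ne_zero (mul_ne_zero (mul_ne_zero (mul_ne_zero (mul_ne_zero hγ0 hγ0)
        (mul_ne_zero hγ0 hγ0)) hn) (mul_ne_zero hγ0 hγ0)) hn
    have h : Tin K u e α 0 0 (t / (γ * γ * (γ * γ) * (-γ) * (γ * γ) * (-γ))
        * (γ * γ * (γ * γ) * (-γ) * (γ * γ) * (-γ))) :=
      hstab (t / (γ * γ * (γ * γ) * (-γ) * (γ * γ) * (-γ))) _ hP
    rw [div_mul_cancel₀ _ hne] at h
    exact h
  have hall1 : ∀ t : F, Tin K u e α 1 0 t := by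
    intro t
    have h := G01 (t / γ) (hall0 _)
    rw [div_mul_cancel₀ _ hγ0] at h
    exact h
  have hall2 : ∀ t : F, Tin K u e α 2 0 t := by
    intro t
    have h := G12 (t / γ) (hall1 _)
    rw [div_mul_cancel₀ _ hγ0] at h
    exact h
  exact fun t => ⟨hall0 t, hall1 t, hall2 t⟩

end Cfsg.Agent.Helper20.ECalc
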