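import Mathlib
import Cfsg.Agent.Helper20.ECalc3

/-!
# From the sets `T_d` to all transvections
-/

set_option autoImplicit false

namespace Cfsg.Agent.Helper20.ECalc

open Matrix Cfsg.Agent.Helper20.SLnGen

section sub

variable {F : Type*} [Field F] {ι : Type*} [DecidableEq ι] [Fintype ι]

/-- Vectors of `ker α` all of whose multiples give transvections of `K` with axis `α`. -/
def Sub (K : Subgroup (Matrix.SpecialLinearGroup ι F)) (α : ι → F) : Submodule F (ι → F) where
  carrier := {v | α ⬝ᵥ v = 0 ∧ ∀ t : F, InH K (1 + vecMulVec (t • v) α)}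
  add_mem' := by
    rintro v w ⟨hv, hv'⟩ ⟨hw, hw'⟩
    refine ⟨by rw [dotProduct_add, hv, hw, add_zero], fun t => ?_⟩
    rw [smul_add]
    exact inH_tv_add (hv' t) (hw' t) (by rw [dotProduct_smul, hw, smul_zero])
  zero_mem' := ⟨dotProduct_zero _, fun t => by rw [smul_zero]; exact inH_tv_zero _⟩
  smul_mem' := by
    rintro c v ⟨hv, hv'⟩
    refine ⟨by rw [dotProduct_smul, hv, smul_zero], fun t => ?_⟩
    rw [smul_smul]
    exact hv' (t * c)

theorem mem_Sub_iff {K : Subgroup (Matrix.SpecialLinearGroup ι F)} {α v : ι → F} :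
    v ∈ Sub K α ↔ (α ⬝ᵥ v = 0 ∧ ∀ t : F, InH K (1 + vecMulVec (t • v) α)) := Iff.rfl

theorem pow_mem_of_U (W : Submodule F (ι → F)) (N : Matrix ι ι F) :
    ∀ (j : ℕ) (v : ι → F), (∀ k : ℕ, k ≤ j → ((1 - N) ^ k) *ᵥ v ∈ W) → (N ^ j) *ᵥ v ∈ W := by
  intro j
  induction j with
  | zero =>
    intro v h
    have h0 := h 0 le_rfl
    rw [pow_zero, one_mulVec] at h0 ⊢
    exact h0
  | succ j ih =>
    intro v h
    have e1 : (N ^ (j + 1)) *ᵥ v = (N ^ j) *ᵥ v - (N ^ j) *ᵥ ((1 - N) *ᵥ v) := by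
      rw [pow_succ, ← mulVec_mulVec, sub_mulVec, one_mulVec, mulVec_sub, sub_sub_cancel]
    rw [e1]
    apply Submodule.sub_mem
    · exact ih v (fun k hk => h k (by omega))
    · apply ih
      intro k hk
      have h2 := h (k + 1) (by omega)
      rw [pow_succ, ← mulVec_mulVec] at h2
      exact h2

variable {K : Subgroup (Matrix.SpecialLinearGroup ι F)}

theorem axisIn_zero : AxisIn K (0 : ι → F) := by
  intro v _
  rw [vecMulVec_zero, add_zero]
  exact inH_one K

theorem axisIn_sub' {ψ ψ' : ι → F} (h : AxisIn K ψ) (h' : AxisIn K ψ') : AxisIn K (ψ - ψ') := by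
  classical
  by_cases hex : ∃ v' : ι → F, ψ' ⬝ᵥ v' = 0 ∧ ψ ⬝ᵥ v' = 1
  · obtain ⟨v', h1, h2⟩ := hex
    exact axisIn_sub h h' v' h1 h2 rfl
  · have hker : ∀ v : ι → F, ψ' ⬝ᵥ v = 0 → ψ ⬝ᵥ v = 0 := by
      intro v hv
      by_contra hne
      apply hex
      exact ⟨(ψ ⬝ᵥ v)⁻¹ • v, by rw [dotProduct_smul, hv, smul_zero],
        by rw [dotProduct_smul, smul_eq_mul, inv_mul_cancel₀ hne]⟩
    by_cases hz : ψ' = 0
    · rw [hz, sub_zero]
      exact h
    · obtain ⟨j, hj⟩ : ∃ j, ψ' j ≠ 0 := by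
        by_contra hall
        apply hz
        ext j
        by_contra hj
        exact hall ⟨j, hj⟩
      have hprop : ψ = (ψ j / ψ' j) • ψ' := by
        ext i
        have h3 := hker (Pi.single i (ψ' j) - Pi.single j (ψ' i)) (by
          rw [dotProduct_sub, dotProduct_single, dotProduct_single]
          ring)
        rw [dotProduct_sub, dotProduct_single, dotProduct_single] at h3
        rw [Pi.smul_apply, smul_eq_mul, div_mul_eq_mul_div, eq_div_iff hj]
        linear_combination h3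
      have e1 : ψ - ψ' = (ψ j / ψ' j - 1) • ψ' := by
        rw [sub_smul, one_smul, ← hprop]
      rw [e1]
      exact axisIn_smul h' _

/-- The axes all of whose transvections lie in `K` form a subspace. -/
def Axes (K : Subgroup (Matrix.SpecialLinearGroup ι F)) : Submodule F (ι → F) where
  carrier := {ψ | AxisIn K ψ}
  add_mem' := by
    intro a b ha hb
    show AxisIn K (a + b)
    have hb' : AxisIn K (-b) := by
      have h := axisIn_smul (show AxisIn K b from hb) (-1 : F)
      rw [neg_one_smul] at h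
      exact h
    have h := axisIn_sub' (show AxisIn K a from ha) hb'
    rw [sub_neg_eq_add] at h
    exact h
  zero_mem' := axisIn_zero
  smul_mem' := fun c ψ h => axisIn_smul (show AxisIn K ψ from h) c

theorem mem_Axes_iff {ψ : ι → F} : ψ ∈ Axes K ↔ AxisIn K ψ := Iff.rfl

theorem conj_pow_ring {R : Type*} [Ring R] (G G' X : R) (h1 : G * G' = 1) (h2 : G' * G = 1)
    (m : ℕ) : (G * X * G') ^ m = G * X ^ m * G' := by
  induction m with
  | zero => rw [pow_zero, pow_zero, mul_one, h1]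
  | succ m ih =>
    rw [pow_succ, ih, pow_succ]
    calc G * X ^ m * G' * (G * X * G') = G * X ^ m * (G' * G) * X * G' := by
          simp only [mul_assoc]
      _ = G * (X ^ m * X) * G' := by rw [h2, mul_one, mul_assoc G]

theorem regular_conj (u g : Matrix.SpecialLinearGroup ι F) (k : ℕ)
    (h : IsNilpotent ((u : Matrix ι ι F) - 1) ∧ ((u : Matrix ι ι F) - 1) ^ k ≠ 0) :
    IsNilpotent (((g * u * g⁻¹ : Matrix.SpecialLinearGroup ι F) : Matrix ι ι F) - 1)
      ∧ (((g * u * g⁻¹ : Matrix.SpecialLinearGroup ι F) : Matrix ι ι F) - 1) ^ k ≠ 0 := by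
  have h1 : (g : Matrix ι ι F) * ((g⁻¹ : Matrix.SpecialLinearGroup ι F) : Matrix ι ι F) = 1 := by
    rw [← Matrix.SpecialLinearGroup.coe_mul, mul_inv_cancel, Matrix.SpecialLinearGroup.coe_one]
  have h2 : ((g⁻¹ : Matrix.SpecialLinearGroup ι F) : Matrix ι ι F) * (g : Matrix ι ι F) = 1 := by
    rw [← Matrix.SpecialLinearGroup.coe_mul, inv_mul_cancel, Matrix.SpecialLinearGroup.coe_one]
  have e1 : ((g * u * g⁻¹ : Matrix.SpecialLinearGroup ι F) : Matrix ι ι F) - 1
      = (g : Matrix ι ι F) * ((u : Matrix ι ι F) - 1)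
        * ((g⁻¹ : Matrix.SpecialLinearGroup ι F) : Matrix ι ι F) := by
    rw [Matrix.SpecialLinearGroup.coe_mul, Matrix.SpecialLinearGroup.coe_mul, mul_sub, sub_mul,
      mul_one, h1]
  rw [e1]
  obtain ⟨⟨m, hm⟩, hk⟩ := h
  refine ⟨⟨m, by rw [conj_pow_ring _ _ _ h1 h2, hm, mul_zero, zero_mul]⟩, ?_⟩
  intro h0
  apply hk
  rw [conj_pow_ring _ _ _ h1 h2] at h0
  have h3 := congrArg (fun Y => ((g⁻¹ : Matrix.SpecialLinearGroup ι F) : Matrix ι ι F) * Y
    * (g : Matrix ι ι F)) h0
  simp only [mul_zero, zero_mul, mul_assoc] at h3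
  rw [h2, mul_one, ← mul_assoc, h2, one_mul] at h3
  exact h3

end sub

section fin

variable {F : Type*} [Field F] {n : ℕ}

theorem axis_of_sub (K : Subgroup (Matrix.SpecialLinearGroup (Fin n) F)) (α : Fin n → F)
    (i0 i1 : Fin n) (h0 : i0.val = 0) (h1 : i1.val = 1) (c0 c1 : F) (hc0 : c0 ≠ 0)
    (hα : α = Pi.single i0 c0 + Pi.single i1 c1)
    (he : ∀ i : Fin n, 2 ≤ i.val → Pi.single i (1 : F) ∈ Sub K α)
    (x : Fin n → F) (hx : x ∈ Sub K α) (hx1 : x i1 ≠ 0) : AxisIn K α := by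
  intro v hv
  obtain ⟨y, hy⟩ : ∃ y : Fin n → F, y = v - (v i1 / x i1) • x := ⟨_, rfl⟩
  have hdot : ∀ z : Fin n → F, α ⬝ᵥ z = c0 * z i0 + c1 * z i1 := by
    intro z
    rw [hα, add_dotProduct, single_dotProduct, single_dotProduct]
  have hy1 : y i1 = 0 := by
    rw [hy, Pi.sub_apply, Pi.smul_apply, smul_eq_mul, div_mul_cancel₀ _ hx1, sub_self]
  have hyα : α ⬝ᵥ y = 0 := by
    rw [hy, dotProduct_sub, dotProduct_smul, hv, (mem_Sub_iff.1 hx).1, smul_zero, sub_zero]
  have hy0 : y i0 = 0 := by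
    rw [hdot, hy1, mul_zero, add_zero] at hyα
    exact (mul_eq_zero.1 hyα).resolve_left hc0
  have hyS : y ∈ Sub K α := by
    have e1 : y = ∑ i, y i • (Pi.single i (1 : F) : Fin n → F) := by
      ext k
      rw [Finset.sum_apply, Finset.sum_eq_single k]
      · rw [Pi.smul_apply, Pi.single_eq_same, smul_eq_mul, mul_one]
      · intro b _ hb
        rw [Pi.smul_apply, Pi.single_eq_of_ne (Ne.symm hb), smul_zero]
      · intro h
        exact absurd (Finset.mem_univ _) h
    rw [e1]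
    apply Submodule.sum_mem
    intro i _
    by_cases hi : 2 ≤ i.val
    · exact Submodule.smul_mem _ _ (he i hi)
    · have hyi : y i = 0 := by
        rcases Nat.lt_or_ge i.val 1 with h | h
        · have e2 : i = i0 := Fin.ext (by omega)
          rw [e2]
          exact hy0
        · have e2 : i = i1 := Fin.ext (by omega)
          rw [e2]
          exact hy1
      rw [hyi, zero_smul]
      exact Submodule.zero_mem _
  have hvS : v ∈ Sub K α := by
    have e1 : v = y + (v i1 / x i1) • x := by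
      rw [hy, sub_add_cancel]
    rw [e1]
    exact Submodule.add_mem _ hyS (Submodule.smul_mem _ _ hx)
  have h3 := (mem_Sub_iff.1 hvS).2 1
  rw [one_smul] at h3
  exact h3

/-- The `k`-th basis (co)vector, zero for `k ≥ n`. -/
def eb (F : Type*) [Field F] (n k : ℕ) : Fin n → F := fun i => if i.val = k then 1 else 0

theorem eb_apply (k : ℕ) (i : Fin n) : eb F n k i = if i.val = k then 1 else 0 := rfl

theorem eb_vecMul_Nm (k : ℕ) : eb F n k ᵥ* Nm F n = eb F n (k + 1) := by
  ext j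
  by_cases hj : j.val = 0
  · rw [vecMul_Nm_zero _ j hj, eb_apply, if_neg (by omega)]
  · obtain ⟨j', hj'⟩ : ∃ j' : Fin n, j.val = j'.val + 1 :=
      ⟨⟨j.val - 1, by have := j.isLt; omega⟩, by show j.val = j.val - 1 + 1; omega⟩
    rw [vecMul_Nm _ j' j hj', eb_apply, eb_apply]
    by_cases h : j'.val = k
    · rw [if_pos h, if_pos (by omega)]
    · rw [if_neg h, if_neg (by omega)]

theorem eb_eq_single (j : Fin n) : eb F n j.val = Pi.single j (1 : F) := by
  ext i
  rw [eb_apply]
  by_cases h : i = j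
  · rw [h, if_pos rfl, Pi.single_eq_same]
  · rw [Pi.single_eq_of_ne h, if_neg (fun hh => h (Fin.ext hh))]

theorem eb_eq_zero (k : ℕ) (hk : n ≤ k) : eb F n k = 0 := by
  ext i
  rw [eb_apply, if_neg (by have := i.isLt; omega)]
  rfl

theorem top_of_axis (hn : 2 ≤ n) (K : Subgroup (Matrix.SpecialLinearGroup (Fin n) F))
    (hU : InH K (1 - Nm F n)) (α : Fin n → F) (i0 i1 : Fin n) (h0 : i0.val = 0)
    (h1 : i1.val = 1) (c0 c1 : F) (hc0 : c0 ≠ 0) (hα : α = Pi.single i0 c0 + Pi.single i1 c1)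
    (hA : AxisIn K α) : K = ⊤ := by
  have hinv : ∀ ψ : Fin n → F, ψ ∈ Axes K → ψ ᵥ* Nm F n ∈ Axes K := by
    intro ψ hψ
    have e1 : ψ ᵥ* Nm F n = ψ - ψ ᵥ* (1 - Nm F n) := by
      rw [vecMul_sub, vecMul_one, sub_sub_cancel]
    rw [e1]
    exact Submodule.sub_mem _ hψ (mem_Axes_iff.2 (axisIn_conj (mem_Axes_iff.1 hψ) hU))
  have hψ : ∀ k : ℕ, c0 • eb F n k + c1 • eb F n (k + 1) ∈ Axes K := by
    intro k
    induction k with
    | zero =>
      have e0 : eb F n 0 = Pi.single i0 (1 : F) := by rw [← eb_eq_single, h0]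
      have e1 : eb F n 1 = Pi.single i1 (1 : F) := by rw [← eb_eq_single, h1]
      rw [zero_add, e0, e1, ← Pi.single_smul, ← Pi.single_smul, smul_eq_mul, smul_eq_mul,
        mul_one, mul_one, ← hα]
      exact mem_Axes_iff.2 hA
    | succ k ih =>
      have h := hinv _ ih
      rw [add_vecMul, smul_vecMul, smul_vecMul, eb_vecMul_Nm, eb_vecMul_Nm] at h
      exact h
  have hall : ∀ (d k : ℕ), n ≤ k + d → eb F n k ∈ Axes K := by
    intro d
    induction d with
    | zero =>
      intro k hk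
      rw [eb_eq_zero k (by omega)]
      exact Submodule.zero_mem _
    | succ d ih =>
      intro k hk
      have h1' := ih (k + 1) (by omega)
      have h2 := hψ k
      have e1 : eb F n k
          = c0⁻¹ • ((c0 • eb F n k + c1 • eb F n (k + 1)) - c1 • eb F n (k + 1)) := by
        rw [add_sub_cancel_right, smul_smul, inv_mul_cancel₀ hc0, one_smul]
      rw [e1]
      exact Submodule.smul_mem _ _ (Submodule.sub_mem _ h2 (Submodule.smul_mem _ _ h1'))
  have hW : ∀ j : Fin n, AxisIn K (Pi.single j (1 : F)) := by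
    intro j
    rw [← eb_eq_single]
    exact mem_Axes_iff.1 (hall n j.val (by omega))
  haveI : Nontrivial (Fin n) := Fin.nontrivial_iff_two_le.2 hn
  apply Cfsg.Agent.Helper2.SLGen.eq_top_of_transvection_mem
  intro i j hij a
  obtain ⟨x, hx, hxm⟩ := hW j (Pi.single i a)
    (by rw [single_dotProduct, one_mul, Pi.single_eq_of_ne (Ne.symm hij)])
  have e : x = Matrix.SpecialLinearGroup.transvection hij a := by
    apply Subtype.ext
    rw [hxm, Matrix.SpecialLinearGroup.transvection_coe, single_eq_vecMulVec]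
  rw [← e]
  exact hx

end fin

end Cfsg.Agent.Helper20.ECalc
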