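import Mathlib
import Cfsg.Agent.Helper20.ECalc4

/-!
# `SL_n(F)` (`n ≥ 4`, `F` finite) is generated by two conjugate regular unipotent elements

`u = 1 - N` and `g u g⁻¹` with `g = 1 + e_n ⊗ α` a transvection.
-/

set_option autoImplicit false

namespace Cfsg.Agent.Helper20.ECalc

open Matrix Cfsg.Agent.Helper20.SLnGen

variable {F : Type*} [Field F] {n : ℕ}

theorem det_tvL (iL : Fin n) (hL : iL.val + 1 = n) (α : Fin n → F) (hαL : α iL = 0) :
    Matrix.det (1 + vecMulVec (Pi.single iL (1 : F)) α) = 1 := by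
  have htri : (1 + vecMulVec (Pi.single iL (1 : F)) α).IsLowerTriangular := by
    intro i j hij
    have hlt : i < j := hij
    have hne : i ≠ j := ne_of_lt hlt
    have hv : i.val < j.val := hlt
    have hiL : i ≠ iL := by
      intro h
      rw [h] at hv
      have := j.isLt
      omega
    rw [Matrix.add_apply, Matrix.one_apply_ne hne, vecMulVec_apply, Pi.single_eq_of_ne hiL,
      zero_mul, add_zero]
  rw [Matrix.det_of_isLowerTriangular _ htri]
  apply Finset.prod_eq_one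
  intro i _
  rw [Matrix.add_apply, Matrix.one_apply_eq, vecMulVec_apply]
  by_cases h : i = iL
  · rw [h, hαL, mul_zero, add_zero]
  · rw [Pi.single_eq_of_ne h, zero_mul, add_zero]

theorem Nm_pow_single (iL : Fin n) (hL : iL.val + 1 = n) :
    ∀ (j : ℕ) (i : Fin n), i.val + j + 1 = n →
      (Nm F n ^ j) *ᵥ Pi.single iL (1 : F) = Pi.single i 1 := by
  intro j
  induction j with
  | zero =>
    intro i hi
    have e1 : i = iL := Fin.ext (by omega)
    rw [e1, pow_zero, one_mulVec]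
  | succ j ih =>
    intro i hi
    obtain ⟨i', hi'⟩ : ∃ i' : Fin n, i'.val = i.val + 1 := ⟨⟨i.val + 1, by omega⟩, rfl⟩
    rw [pow_succ', ← mulVec_mulVec, ih i' (by omega), Nm_mulVec_single i' i hi']

/-- `(1 - N)^m e_n`. -/
def gvec (F : Type*) [Field F] (n m : ℕ) : Fin n → F :=
  fun i => (-1) ^ (n - 1 - i.val) * ((m.choose (n - 1 - i.val) : ℕ) : F)

theorem gvec_apply (m : ℕ) (i : Fin n) :
    gvec F n m i = (-1) ^ (n - 1 - i.val) * ((m.choose (n - 1 - i.val) : ℕ) : F) := rfl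

theorem gvec_zero (iL : Fin n) (hL : iL.val + 1 = n) : gvec F n 0 = Pi.single iL 1 := by
  ext i
  rw [gvec_apply]
  by_cases h : i = iL
  · rw [h, Pi.single_eq_same, show n - 1 - iL.val = 0 by omega, pow_zero, Nat.choose_zero_right,
      Nat.cast_one, mul_one]
  · rw [Pi.single_eq_of_ne h]
    have hi : n - 1 - i.val ≠ 0 := by
      intro h0
      apply h
      apply Fin.ext
      have := i.isLt
      omega
    obtain ⟨k, hk⟩ := Nat.exists_eq_succ_of_ne_zero hi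
    rw [hk, Nat.choose_zero_succ, Nat.cast_zero, mul_zero]

theorem gvec_succ (m : ℕ) : (1 - Nm F n) *ᵥ gvec F n m = gvec F n (m + 1) := by
  ext i
  rw [sub_mulVec, one_mulVec, Pi.sub_apply]
  by_cases hi : i.val + 1 < n
  · obtain ⟨i', hi'⟩ : ∃ i' : Fin n, i'.val = i.val + 1 := ⟨⟨i.val + 1, hi⟩, rfl⟩
    rw [Nm_mulVec _ i i' hi', gvec_apply, gvec_apply, gvec_apply]
    obtain ⟨k, hk⟩ : ∃ k, n - 1 - i'.val = k := ⟨_, rfl⟩
    have hk' : n - 1 - i.val = k + 1 := by omega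
    rw [hk, hk', Nat.choose_succ_succ, pow_succ]
    push_cast
    ring
  · rw [Nm_mulVec_last _ i (by have := i.isLt; omega), sub_zero, gvec_apply, gvec_apply]
    have h0 : n - 1 - i.val = 0 := by have := i.isLt; omega
    rw [h0, Nat.choose_zero_right, Nat.choose_zero_right]

theorem U_ones (iL : Fin n) (hL : iL.val + 1 = n) :
    (1 - Nm F n) *ᵥ (fun _ => (1 : F)) = Pi.single iL 1 := by
  ext i
  rw [sub_mulVec, one_mulVec, Pi.sub_apply]
  by_cases hi : i.val + 1 < n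
  · obtain ⟨i', hi'⟩ : ∃ i' : Fin n, i'.val = i.val + 1 := ⟨⟨i.val + 1, hi⟩, rfl⟩
    rw [Nm_mulVec _ i i' hi']
    show (1 : F) - 1 = (Pi.single iL (1 : F) : Fin n → F) i
    rw [sub_self, Pi.single_eq_of_ne]
    intro h
    rw [h] at hi
    omega
  · rw [Nm_mulVec_last _ i (by have := i.isLt; omega), sub_zero]
    have e1 : i = iL := Fin.ext (by have := i.isLt; omega)
    rw [e1, Pi.single_eq_same]

theorem U_svec :
    (1 - Nm F n) *ᵥ (fun i : Fin n => ((n - i.val : ℕ) : F)) = fun _ => (1 : F) := by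
  ext i
  rw [sub_mulVec, one_mulVec, Pi.sub_apply]
  by_cases hi : i.val + 1 < n
  · obtain ⟨i', hi'⟩ : ∃ i' : Fin n, i'.val = i.val + 1 := ⟨⟨i.val + 1, hi⟩, rfl⟩
    rw [Nm_mulVec _ i i' hi']
    show ((n - i.val : ℕ) : F) - ((n - i'.val : ℕ) : F) = 1
    have e1 : n - i.val = (n - i'.val) + 1 := by omega
    rw [e1]
    push_cast
    ring
  · rw [Nm_mulVec_last _ i (by have := i.isLt; omega), sub_zero]
    show ((n - i.val : ℕ) : F) = 1
    have e1 : n - i.val = 1 := by have := i.isLt; omega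
    rw [e1, Nat.cast_one]

theorem av_nat (u : Matrix.SpecialLinearGroup (Fin n) F)
    (hu : (u : Matrix (Fin n) (Fin n) F) = 1 - Nm F n) (iL : Fin n) (hL : iL.val + 1 = n)
    (m : ℕ) : av u (Pi.single iL (1 : F)) (m : ℤ) = gvec F n m := by
  induction m with
  | zero => rw [Nat.cast_zero, av_zero, gvec_zero iL hL]
  | succ m ih => rw [Nat.cast_succ, ← av_succ, ih, hu, gvec_succ]

theorem av_m1 (u : Matrix.SpecialLinearGroup (Fin n) F)
    (hu : (u : Matrix (Fin n) (Fin n) F) = 1 - Nm F n) (iL : Fin n) (hL : iL.val + 1 = n) :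
    av u (Pi.single iL (1 : F)) (-1) = fun _ => (1 : F) := by
  have h := av_pred u (Pi.single iL (1 : F)) 0 (fun _ => (1 : F))
    (by rw [av_zero, hu, U_ones iL hL])
  rw [show (0 : ℤ) - 1 = -1 by norm_num] at h
  exact h

theorem av_m2 (u : Matrix.SpecialLinearGroup (Fin n) F)
    (hu : (u : Matrix (Fin n) (Fin n) F) = 1 - Nm F n) (iL : Fin n) (hL : iL.val + 1 = n) :
    av u (Pi.single iL (1 : F)) (-2) = fun i : Fin n => ((n - i.val : ℕ) : F) := by
  have h := av_pred u (Pi.single iL (1 : F)) (-1) (fun i : Fin n => ((n - i.val : ℕ) : F))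
    (by rw [av_m1 u hu iL hL, hu, U_svec])
  rw [show (-1 : ℤ) - 1 = -2 by norm_num] at h
  exact h

theorem bet_nat (u : Matrix.SpecialLinearGroup (Fin n) F)
    (hu : (u : Matrix (Fin n) (Fin n) F) = 1 - Nm F n) (i0 i1 iL : Fin n) (h0 : i0.val = 0)
    (h1 : i1.val = 1) (hL : iL.val + 1 = n) (c0 c1 : F) (m : ℕ) :
    bet u (Pi.single iL (1 : F)) (Pi.single i0 c0 + Pi.single i1 c1) (m : ℤ)
      = c0 * ((-1) ^ (n - 1) * ((m.choose (n - 1) : ℕ) : F))
        + c1 * ((-1) ^ (n - 2) * ((m.choose (n - 2) : ℕ) : F)) := by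
  unfold bet
  rw [av_nat u hu iL hL, add_dotProduct, single_dotProduct, single_dotProduct, gvec_apply,
    gvec_apply, h0, h1, Nat.sub_zero, show n - 1 - 1 = n - 2 by omega]

theorem bet_m1 (u : Matrix.SpecialLinearGroup (Fin n) F)
    (hu : (u : Matrix (Fin n) (Fin n) F) = 1 - Nm F n) (i0 i1 iL : Fin n)
    (hL : iL.val + 1 = n) (c0 c1 : F) :
    bet u (Pi.single iL (1 : F)) (Pi.single i0 c0 + Pi.single i1 c1) (-1) = c0 + c1 := by
  unfold bet
  rw [av_m1 u hu iL hL, add_dotProduct, single_dotProduct, single_dotProduct]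
  show c0 * 1 + c1 * 1 = c0 + c1
  rw [mul_one, mul_one]

theorem bet_m2 (u : Matrix.SpecialLinearGroup (Fin n) F)
    (hu : (u : Matrix (Fin n) (Fin n) F) = 1 - Nm F n) (i0 i1 iL : Fin n) (h0 : i0.val = 0)
    (h1 : i1.val = 1) (hL : iL.val + 1 = n) (c0 c1 : F) :
    bet u (Pi.single iL (1 : F)) (Pi.single i0 c0 + Pi.single i1 c1) (-2)
      = c0 * ((n : ℕ) : F) + c1 * ((n - 1 : ℕ) : F) := by
  unfold bet
  rw [av_m2 u hu iL hL, add_dotProduct, single_dotProduct, single_dotProduct]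
  show c0 * ((n - i0.val : ℕ) : F) + c1 * ((n - i1.val : ℕ) : F) = _
  rw [h0, h1, Nat.sub_zero]

theorem exists_g (hn : 3 ≤ n) (i0 i1 iL : Fin n) (h0 : i0.val = 0) (h1 : i1.val = 1)
    (hL : iL.val + 1 = n) (c0 c1 : F) :
    ∃ g : Matrix.SpecialLinearGroup (Fin n) F, (g : Matrix (Fin n) (Fin n) F)
      = 1 + vecMulVec (Pi.single iL (1 : F)) (Pi.single i0 c0 + Pi.single i1 c1) := by
  have e0 : (Pi.single i0 c0 : Fin n → F) iL = 0 :=
    Pi.single_eq_of_ne (fun h => by have := congrArg Fin.val h; omega) _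
  have e1 : (Pi.single i1 c1 : Fin n → F) iL = 0 :=
    Pi.single_eq_of_ne (fun h => by have := congrArg Fin.val h; omega) _
  exact ⟨⟨_, det_tvL iL hL _ (by rw [Pi.add_apply, e0, e1, add_zero])⟩, rfl⟩

theorem setup_mk (hn : 3 ≤ n) (i0 i1 iL : Fin n) (h0 : i0.val = 0) (h1 : i1.val = 1)
    (hL : iL.val + 1 = n) (c0 c1 : F) (u g : Matrix.SpecialLinearGroup (Fin n) F)
    (hg : (g : Matrix (Fin n) (Fin n) F)
      = 1 + vecMulVec (Pi.single iL (1 : F)) (Pi.single i0 c0 + Pi.single i1 c1)) :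
    Setup (Subgroup.closure ({u, g * u * g⁻¹} : Set (Matrix.SpecialLinearGroup (Fin n) F)))
      u g (Pi.single iL (1 : F)) (Pi.single i0 c0 + Pi.single i1 c1) := by
  have e0 : (Pi.single iL (1 : F) : Fin n → F) i0 = 0 :=
    Pi.single_eq_of_ne (fun h => by have := congrArg Fin.val h; omega) _
  have e1 : (Pi.single iL (1 : F) : Fin n → F) i1 = 0 :=
    Pi.single_eq_of_ne (fun h => by have := congrArg Fin.val h; omega) _
  refine ⟨Subgroup.subset_closure (Set.mem_insert _ _),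
    Subgroup.subset_closure (Set.mem_insert_of_mem _ rfl), hg, ?_⟩
  rw [add_dotProduct, single_dotProduct, single_dotProduct, e0, e1, mul_zero, mul_zero,
    add_zero]

theorem single_mem_Sub (iL : Fin n) (hL : iL.val + 1 = n)
    (u : Matrix.SpecialLinearGroup (Fin n) F)
    (hu : (u : Matrix (Fin n) (Fin n) F) = 1 - Nm F n)
    (K : Subgroup (Matrix.SpecialLinearGroup (Fin n) F)) (α : Fin n → F) (w : ℕ)
    (hb : ∀ m : ℕ, m ≤ w → bet u (Pi.single iL (1 : F)) α (m : ℤ) = 0)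
    (hall : ∀ d : ℕ, d ≤ w → ∀ t : F, Tin K u (Pi.single iL (1 : F)) α (d : ℤ) 0 t)
    (i : Fin n) (hi : n ≤ i.val + w + 1) : Pi.single i (1 : F) ∈ Sub K α := by
  have ha : ∀ d : ℕ, d ≤ w → ((1 - Nm F n) ^ d) *ᵥ (Pi.single iL (1 : F)) ∈ Sub K α := by
    intro d hd
    rw [← hu, ← av_natCast]
    refine mem_Sub_iff.2 ⟨hb d hd, fun t => ?_⟩
    have h := hall d hd t
    unfold Tin at h
    rw [alv_zero] at h
    exact h
  have h := pow_mem_of_U (Sub K α) (Nm F n) (n - 1 - i.val) (Pi.single iL (1 : F))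
    (fun k hk => ha k (by omega))
  rw [Nm_pow_single iL hL (n - 1 - i.val) i (by have := i.isLt; omega)] at h
  exact h

theorem finish (hn : 4 ≤ n) (i0 i1 : Fin n) (h0 : i0.val = 0) (h1 : i1.val = 1)
    (c0 c1 : F) (hc0 : c0 ≠ 0) (u : Matrix.SpecialLinearGroup (Fin n) F)
    (hu : (u : Matrix (Fin n) (Fin n) F) = 1 - Nm F n)
    (K : Subgroup (Matrix.SpecialLinearGroup (Fin n) F)) (huK : u ∈ K)
    (he : ∀ i : Fin n, 2 ≤ i.val →
      Pi.single i (1 : F) ∈ Sub K (Pi.single i0 c0 + Pi.single i1 c1))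
    (x : Fin n → F) (hx : x ∈ Sub K (Pi.single i0 c0 + Pi.single i1 c1)) (hx1 : x i1 ≠ 0) :
    K = ⊤ := by
  have hA : AxisIn K (Pi.single i0 c0 + Pi.single i1 c1) :=
    axis_of_sub K _ i0 i1 h0 h1 c0 c1 hc0 rfl he x hx hx1
  exact top_of_axis (by omega) K ⟨u, huK, hu⟩ _ i0 i1 h0 h1 c0 c1 hc0 rfl hA

theorem caseA [Fintype F] (hn : 5 ≤ n) (ζ : F) (hζ1 : ζ ≠ 1)
    (hζ : Subfield.closure ({ζ} : Set F) = ⊤) :
    ∃ u g : Matrix.SpecialLinearGroup (Fin n) F,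
      (IsNilpotent ((u : Matrix (Fin n) (Fin n) F) - 1)
        ∧ ((u : Matrix (Fin n) (Fin n) F) - 1) ^ (n - 1) ≠ 0) ∧
      Subgroup.closure ({u, g * u * g⁻¹} : Set (Matrix.SpecialLinearGroup (Fin n) F)) = ⊤ := by
  classical
  obtain ⟨i0, h0⟩ : ∃ i : Fin n, i.val = 0 := ⟨⟨0, by omega⟩, rfl⟩
  obtain ⟨i1, h1⟩ : ∃ i : Fin n, i.val = 1 := ⟨⟨1, by omega⟩, rfl⟩
  obtain ⟨iL, hL⟩ : ∃ i : Fin n, i.val + 1 = n :=
    ⟨⟨n - 1, by omega⟩, by show n - 1 + 1 = n; omega⟩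
  obtain ⟨u, hu⟩ : ∃ u : Matrix.SpecialLinearGroup (Fin n) F,
      (u : Matrix (Fin n) (Fin n) F) = 1 - Nm F n := ⟨⟨_, det_Um F n⟩, rfl⟩
  obtain ⟨g, hg⟩ := exists_g (F := F) (by omega) i0 i1 iL h0 h1 hL (1 - ζ) ζ
  refine ⟨u, g, ⟨by rw [hu]; exact Um_nilp F n, by rw [hu]; exact Um_reg F n (by omega)⟩, ?_⟩
  have S := setup_mk (by omega) i0 i1 iL h0 h1 hL (1 - ζ) ζ u g hg
  obtain ⟨K, hK⟩ : ∃ K : Subgroup (Matrix.SpecialLinearGroup (Fin n) F),
      K = Subgroup.closure ({u, g * u * g⁻¹} : Set (Matrix.SpecialLinearGroup (Fin n) F)) :=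
    ⟨_, rfl⟩
  rw [← hK] at S ⊢
  obtain ⟨k, hk⟩ : ∃ k, n - 2 = k := ⟨_, rfl⟩
  have hk1 : n - 1 = k + 1 := by omega
  have hkn : n = k + 2 := by omega
  have hb : ∀ m : ℕ, m ≤ n - 3 →
      bet u (Pi.single iL (1 : F)) (Pi.single i0 (1 - ζ) + Pi.single i1 ζ) (m : ℤ) = 0 := by
    intro m hm
    rw [bet_nat u hu i0 i1 iL h0 h1 hL, Nat.choose_eq_zero_of_lt (by omega : m < n - 1),
      Nat.choose_eq_zero_of_lt (by omega : m < n - 2)]
    simp only [Nat.cast_zero, mul_zero, add_zero]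
  have hbm1 : bet u (Pi.single iL (1 : F)) (Pi.single i0 (1 - ζ) + Pi.single i1 ζ) (-1)
      = 1 := by
    rw [bet_m1 u hu i0 i1 iL hL, sub_add_cancel]
  have hb1 : bet u (Pi.single iL (1 : F)) (Pi.single i0 (1 - ζ) + Pi.single i1 ζ)
      (((n - 3 : ℕ) : ℤ) + 1) = (-1) ^ k * ζ := by
    rw [show (((n - 3 : ℕ) : ℤ) + 1) = ((k : ℕ) : ℤ) by omega,
      bet_nat u hu i0 i1 iL h0 h1 hL, hk1, hk, Nat.choose_succ_self, Nat.choose_self,
      Nat.cast_zero, Nat.cast_one]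
    ring
  have hb2 : bet u (Pi.single iL (1 : F)) (Pi.single i0 (1 - ζ) + Pi.single i1 ζ)
      (((n - 3 : ℕ) : ℤ) + 2) = (-1) ^ k * (((k : F) + 2) * ζ - 1) := by
    rw [show (((n - 3 : ℕ) : ℤ) + 2) = ((k + 1 : ℕ) : ℤ) by omega,
      bet_nat u hu i0 i1 iL h0 h1 hL, hk1, hk, Nat.choose_self, Nat.choose_succ_self_right,
      pow_succ]
    push_cast
    ring
  have hε := neg_one_pow_eq_or F k
  have hall := closureA S (n - 3) (by omega) ζ ((-1) ^ k) ((k : F) + 2) hε hζ hb hbm1 hb1 hb2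
  have hvs := vstarA S (n - 3) (by omega) ζ ((-1) ^ k) ((k : F) + 2) hε hb hbm1 hb1 hb2 hall
  have he : ∀ i : Fin n, 2 ≤ i.val →
      Pi.single i (1 : F) ∈ Sub K (Pi.single i0 (1 - ζ) + Pi.single i1 ζ) :=
    fun i hi => single_mem_Sub iL hL u hu K _ (n - 3) hb hall i (by omega)
  have hx1 : (av u (Pi.single iL (1 : F)) (-2)
      - bet u (Pi.single iL (1 : F)) (Pi.single i0 (1 - ζ) + Pi.single i1 ζ) (-2)
        • av u (Pi.single iL (1 : F)) (-1)) i1 ≠ 0 := by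
    rw [bet_m2 u hu i0 i1 iL h0 h1 hL, av_m1 u hu iL hL, av_m2 u hu iL hL, Pi.sub_apply,
      Pi.smul_apply]
    show ((n - i1.val : ℕ) : F) - ((1 - ζ) * ((n : ℕ) : F) + ζ * ((n - 1 : ℕ) : F)) • (1 : F)
      ≠ 0
    rw [h1, hk1, hkn, smul_eq_mul, mul_one]
    push_cast
    intro h
    apply hζ1
    linear_combination h
  exact finish (by omega) i0 i1 h0 h1 (1 - ζ) ζ (sub_ne_zero.2 (Ne.symm hζ1)) u hu K S.hu he _
    (mem_Sub_iff.2 hvs) hx1

theorem caseB [Fintype F] (γ : F) (hγ0 : γ ≠ 0) (hγ : Subfield.closure ({γ} : Set F) = ⊤) :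
    ∃ u g : Matrix.SpecialLinearGroup (Fin 4) F,
      (IsNilpotent ((u : Matrix (Fin 4) (Fin 4) F) - 1)
        ∧ ((u : Matrix (Fin 4) (Fin 4) F) - 1) ^ (4 - 1) ≠ 0) ∧
      Subgroup.closure ({u, g * u * g⁻¹} : Set (Matrix.SpecialLinearGroup (Fin 4) F)) = ⊤ := by
  classical
  obtain ⟨i0, h0⟩ : ∃ i : Fin 4, i.val = 0 := ⟨⟨0, by omega⟩, rfl⟩
  obtain ⟨i1, h1⟩ : ∃ i : Fin 4, i.val = 1 := ⟨⟨1, by omega⟩, rfl⟩
  obtain ⟨iL, hL⟩ : ∃ i : Fin 4, i.val + 1 = 4 := ⟨⟨3, by omega⟩, rfl⟩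
  obtain ⟨u, hu⟩ : ∃ u : Matrix.SpecialLinearGroup (Fin 4) F,
      (u : Matrix (Fin 4) (Fin 4) F) = 1 - Nm F 4 := ⟨⟨_, det_Um F 4⟩, rfl⟩
  obtain ⟨g, hg⟩ := exists_g (F := F) (by omega) i0 i1 iL h0 h1 hL γ 0
  refine ⟨u, g, ⟨by rw [hu]; exact Um_nilp F 4, by rw [hu]; exact Um_reg F 4 (by omega)⟩, ?_⟩
  have S := setup_mk (by omega) i0 i1 iL h0 h1 hL γ 0 u g hg
  obtain ⟨K, hK⟩ : ∃ K : Subgroup (Matrix.SpecialLinearGroup (Fin 4) F),
      K = Subgroup.closure ({u, g * u * g⁻¹} : Set (Matrix.SpecialLinearGroup (Fin 4) F)) :=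
    ⟨_, rfl⟩
  rw [← hK] at S ⊢
  have c33 : Nat.choose 3 3 = 1 := by decide
  have c43 : Nat.choose 4 3 = 4 := by decide
  have hbn : ∀ m : ℕ, bet u (Pi.single iL (1 : F)) (Pi.single i0 γ + Pi.single i1 0) (m : ℤ)
      = -(γ * ((m.choose 3 : ℕ) : F)) := by
    intro m
    rw [bet_nat u hu i0 i1 iL h0 h1 hL, show (4 : ℕ) - 1 = 3 from rfl, zero_mul, add_zero]
    ring
  have hb : ∀ m : ℕ, m ≤ 2 →
      bet u (Pi.single iL (1 : F)) (Pi.single i0 γ + Pi.single i1 0) (m : ℤ) = 0 := by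
    intro m hm
    rw [hbn m, Nat.choose_eq_zero_of_lt (by omega), Nat.cast_zero, mul_zero, neg_zero]
  have hb0 : bet u (Pi.single iL (1 : F)) (Pi.single i0 γ + Pi.single i1 0) 0 = 0 := by
    have h := hb 0 (by omega)
    rw [Nat.cast_zero] at h
    exact h
  have hb1 : bet u (Pi.single iL (1 : F)) (Pi.single i0 γ + Pi.single i1 0) 1 = 0 := by
    have h := hb 1 (by omega)
    rw [Nat.cast_one] at h
    exact h
  have hb2 : bet u (Pi.single iL (1 : F)) (Pi.single i0 γ + Pi.single i1 0) 2 = 0 := by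
    have h := hb 2 (by omega)
    rw [Nat.cast_ofNat] at h
    exact h
  have hb3 : bet u (Pi.single iL (1 : F)) (Pi.single i0 γ + Pi.single i1 0) 3 = -γ := by
    have h := hbn 3
    rw [Nat.cast_ofNat, c33, Nat.cast_one, mul_one] at h
    exact h
  have hb4 : bet u (Pi.single iL (1 : F)) (Pi.single i0 γ + Pi.single i1 0) 4
      = -(4 * γ) := by
    have h := hbn 4
    rw [Nat.cast_ofNat, c43, Nat.cast_ofNat, mul_comm] at h
    exact h
  have hbm1 : bet u (Pi.single iL (1 : F)) (Pi.single i0 γ + Pi.single i1 0) (-1) = γ := by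
    rw [bet_m1 u hu i0 i1 iL hL, add_zero]
  have hcl := closureB S γ hγ0 hγ hb0 hb1 hb2 hbm1 hb3 hb4
  have hall : ∀ d : ℕ, d ≤ 2 → ∀ t : F,
      Tin K u (Pi.single iL (1 : F)) (Pi.single i0 γ + Pi.single i1 0) (d : ℤ) 0 t := by
    intro d hd t
    obtain ⟨t0, t1, t2⟩ := hcl t
    interval_cases d
    · exact_mod_cast t0
    · exact_mod_cast t1
    · exact_mod_cast t2
  have hsm : ∀ i : Fin 4, 1 ≤ i.val →
      Pi.single i (1 : F) ∈ Sub K (Pi.single i0 γ + Pi.single i1 0) :=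
    fun i hi => single_mem_Sub iL hL u hu K _ 2 hb hall i (by omega)
  exact finish (by omega) i0 i1 h0 h1 γ 0 hγ0 u hu K S.hu (fun i hi => hsm i (by omega))
    (Pi.single i1 1) (hsm i1 (by omega)) (by rw [Pi.single_eq_same]; exact one_ne_zero)

/-- `SL_n(F)`, `n ≥ 4`, `F` a finite field, is generated by two conjugate regular unipotent
elements. -/
theorem conj_pair [Fintype F] (n : ℕ) (hn : 4 ≤ n) :
    ∃ u g : Matrix.SpecialLinearGroup (Fin n) F,
      (IsNilpotent ((u : Matrix (Fin n) (Fin n) F) - 1)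
        ∧ ((u : Matrix (Fin n) (Fin n) F) - 1) ^ (n - 1) ≠ 0) ∧
      Subgroup.closure ({u, g * u * g⁻¹} : Set (Matrix.SpecialLinearGroup (Fin n) F)) = ⊤ := by
  obtain ⟨z, hz0, -, -, hzK⟩ := Cfsg.Agent.Helper20.SL3Gen.exists_gen (F := F)
  have hzcl : Subfield.closure ({z} : Set F) = ⊤ := hzK _ (Subfield.subset_closure rfl)
  rcases Nat.lt_or_ge n 5 with h5 | h5
  · have h4 : n = 4 := by omega
    subst h4
    exact caseB z hz0 hzcl
  · by_cases hz1 : z = 1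
    · have h0cl : Subfield.closure ({0} : Set F) = ⊤ := by
        rw [eq_top_iff, ← hzcl, Subfield.closure_le]
        intro x hx
        rw [Set.mem_singleton_iff] at hx
        rw [hx, hz1]
        exact (Subfield.closure _).one_mem
      exact caseA h5 0 zero_ne_one h0cl
    · exact caseA h5 z hz1 hzcl

end Cfsg.Agent.Helper20.ECalc
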