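import Mathlib

set_option autoImplicit false

open Matrix

namespace Cfsg.Agent.Helper20.S2486b1

variable {n : ℕ}

/-- row operation matrix `1 + a ⊗ e_i`. -/
def rowE (a : Fin n → ZMod 2) (i : Fin n) : Matrix (Fin n) (Fin n) (ZMod 2) :=
  1 + Matrix.of (fun r c => if c = i then a r else 0)

/-- column operation matrix `1 + e_k ⊗ b`. -/
def colF (k : Fin n) (b : Fin n → ZMod 2) : Matrix (Fin n) (Fin n) (ZMod 2) :=
  1 + Matrix.of (fun r c => if r = k then b c else 0)

theorem rowE_apply (a : Fin n → ZMod 2) (i r c : Fin n) :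
    rowE a i r c = (if r = c then 1 else 0) + if c = i then a r else 0 := by
  simp [rowE, Matrix.one_apply]

theorem colF_apply (k : Fin n) (b : Fin n → ZMod 2) (r c : Fin n) :
    colF k b r c = (if r = c then 1 else 0) + if r = k then b c else 0 := by
  simp [colF, Matrix.one_apply]

theorem rowE_mul (a : Fin n → ZMod 2) (i : Fin n) (h : Matrix (Fin n) (Fin n) (ZMod 2))
    (r c : Fin n) : (rowE a i * h) r c = h r c + a r * h i c := by
  unfold rowE
  rw [Matrix.add_mul, Matrix.one_mul, Matrix.add_apply, Matrix.mul_apply]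
  congr 1
  simp [Matrix.of_apply, ite_mul]

theorem mul_colF (k : Fin n) (b : Fin n → ZMod 2) (h : Matrix (Fin n) (Fin n) (ZMod 2))
    (r c : Fin n) : (h * colF k b) r c = h r c + h r k * b c := by
  unfold colF
  rw [Matrix.mul_add, Matrix.mul_one, Matrix.add_apply, Matrix.mul_apply]
  congr 1
  simp [Matrix.of_apply, mul_ite]

theorem rowE_ut (a : Fin n → ZMod 2) (i : Fin n) (ha : ∀ r, i ≤ r → a r = 0) :
    (rowE a i).BlockTriangular id := by
  intro r c hrc
  simp only [id] at hrc
  rw [rowE_apply]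
  have h1 : r ≠ c := ne_of_gt hrc
  rw [if_neg h1, zero_add]
  split_ifs with h2
  · exact ha r (by rw [← h2]; exact hrc.le)
  · rfl

theorem colF_ut (k : Fin n) (b : Fin n → ZMod 2) (hb : ∀ c, c ≤ k → b c = 0) :
    (colF k b).BlockTriangular id := by
  intro r c hrc
  simp only [id] at hrc
  rw [colF_apply]
  have h1 : r ≠ c := ne_of_gt hrc
  rw [if_neg h1, zero_add]
  split_ifs with h2
  · exact hb c (by rw [← h2]; exact hrc.le)
  · rfl

theorem rowE_det (a : Fin n → ZMod 2) (i : Fin n) (ha : ∀ r, i ≤ r → a r = 0) :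
    (rowE a i).det = 1 := by
  rw [Matrix.det_of_upperTriangular (rowE_ut a i ha)]
  apply Finset.prod_eq_one
  intro r _
  rw [rowE_apply, if_pos rfl]
  split_ifs with h2
  · rw [ha r (by rw [h2]), add_zero]
  · rw [add_zero]

theorem colF_det (k : Fin n) (b : Fin n → ZMod 2) (hb : ∀ c, c ≤ k → b c = 0) :
    (colF k b).det = 1 := by
  rw [Matrix.det_of_upperTriangular (colF_ut k b hb)]
  apply Finset.prod_eq_one
  intro r _
  rw [colF_apply, if_pos rfl]
  split_ifs with h2
  · rw [hb r (by rw [h2]), add_zero]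
  · rw [add_zero]

theorem z2_add_add : ∀ x y : ZMod 2, x + y + y = x := by decide

theorem z2_eq_one : ∀ x : ZMod 2, x ≠ 0 → x = 1 := by decide

theorem rowE_sq (a : Fin n → ZMod 2) (i : Fin n) (ha : a i = 0) : rowE a i * rowE a i = 1 := by
  ext r c
  rw [rowE_mul, rowE_apply, rowE_apply, Matrix.one_apply]
  by_cases hci : c = i
  · subst hci
    simp only [if_true, ha, add_zero, mul_one]
    exact z2_add_add _ _
  · have h2 : ¬ i = c := fun h => hci h.symm
    simp [hci, h2]

theorem colF_sq (k : Fin n) (b : Fin n → ZMod 2) (hb : b k = 0) : colF k b * colF k b = 1 := by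
  ext r c
  rw [mul_colF, colF_apply, colF_apply, Matrix.one_apply]
  by_cases hrk : r = k
  · subst hrk
    simp only [if_true, hb, add_zero, one_mul]
    exact z2_add_add _ _
  · simp [hrk]

theorem claim (g : Matrix (Fin n) (Fin n) (ZMod 2)) (hg : g.det = 1) :
    ∀ k : ℕ, k ≤ n → ∃ (u u' h : Matrix (Fin n) (Fin n) (ZMod 2)) (ρ : Fin n → Fin n),
      u.BlockTriangular id ∧ u'.BlockTriangular id ∧ u.det = 1 ∧ u'.det = 1 ∧ g = u * h * u' ∧
      (∀ j : Fin n, j.val < k → ∀ r, h r j = if r = ρ j then 1 else 0) ∧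
      (∀ j : Fin n, j.val < k → ∀ l, h (ρ j) l = if l = j then 1 else 0) := by
  intro k
  induction k with
  | zero =>
    intro _
    refine ⟨1, 1, g, id, Matrix.blockTriangular_one, Matrix.blockTriangular_one, Matrix.det_one,
      Matrix.det_one, by rw [Matrix.one_mul, Matrix.mul_one], ?_, ?_⟩
    · intro j hj; exact absurd hj (Nat.not_lt_zero _)
    · intro j hj; exact absurd hj (Nat.not_lt_zero _)
  | succ k ih =>
    intro hk
    obtain ⟨u, u', h, ρ, hu, hu', hdu, hdu', hg', hcol, hrow⟩ := ih (by omega)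
    obtain ⟨kk, hkk⟩ : ∃ kk : Fin n, kk.val = k := ⟨⟨k, by omega⟩, rfl⟩
    have hdet : h.det = 1 := by
      have h1 := congrArg Matrix.det hg'
      rw [Matrix.det_mul, Matrix.det_mul, hdu, hdu', hg, one_mul, mul_one] at h1
      exact h1.symm
    have hne : ∃ r, h r kk ≠ 0 := by
      by_contra hcon
      have hcon' : ∀ r, h r kk = 0 := fun r => by
        by_contra hr
        exact hcon ⟨r, hr⟩
      have h0 : h.det = 0 := Matrix.det_eq_zero_of_column_eq_zero kk hcon'
      rw [hdet] at h0
      exact one_ne_zero h0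
    obtain ⟨i, hi, himax⟩ : ∃ i, h i kk ≠ 0 ∧ ∀ r, h r kk ≠ 0 → r ≤ i := by
      have hT : (Finset.univ.filter (fun r => h r kk ≠ 0)).Nonempty := by
        obtain ⟨r, hr⟩ := hne
        exact ⟨r, by simp [hr]⟩
      refine ⟨(Finset.univ.filter (fun r => h r kk ≠ 0)).max' hT, ?_, ?_⟩
      · have := Finset.max'_mem _ hT
        exact (Finset.mem_filter.mp this).2
      · intro r hr
        exact Finset.le_max' _ r (Finset.mem_filter.mpr ⟨Finset.mem_univ _, hr⟩)
    have hi1 : h i kk = 1 := z2_eq_one _ hi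
    have hkj : ∀ j : Fin n, j.val < k → kk ≠ j := by
      intro j hj h'
      rw [← h', hkk] at hj
      exact lt_irrefl _ hj
    have hiρ : ∀ j : Fin n, j.val < k → i ≠ ρ j := by
      intro j hj hij
      have h1 := hrow j hj kk
      rw [← hij, hi1, if_neg (hkj j hj)] at h1
      exact one_ne_zero h1
    have hij0 : ∀ j : Fin n, j.val < k → h i j = 0 := by
      intro j hj
      rw [hcol j hj i, if_neg (hiρ j hj)]
    obtain ⟨a, hadef⟩ : ∃ a : Fin n → ZMod 2, a = fun r => if r < i then h r kk else 0 := ⟨_, rfl⟩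
    have ha : ∀ r, i ≤ r → a r = 0 := by
      intro r hr
      rw [hadef]
      simp [not_lt.mpr hr]
    have hai : a i = 0 := ha i le_rfl
    obtain ⟨h₁, h₁def⟩ : ∃ h₁, h₁ = rowE a i * h := ⟨_, rfl⟩
    have h₁a : ∀ r c, h₁ r c = h r c + a r * h i c := by
      intro r c; rw [h₁def]; exact rowE_mul a i h r c
    obtain ⟨b, hbdef⟩ : ∃ b : Fin n → ZMod 2, b = fun c => if kk < c then h₁ i c else 0 :=
      ⟨_, rfl⟩
    have hb : ∀ c, c ≤ kk → b c = 0 := by
      intro c hc
      rw [hbdef]
      simp [not_lt.mpr hc]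
    have hbk : b kk = 0 := hb kk le_rfl
    obtain ⟨h₂, h₂def⟩ : ∃ h₂, h₂ = h₁ * colF kk b := ⟨_, rfl⟩
    have h₂a : ∀ r c, h₂ r c = h₁ r c + h₁ r kk * b c := by
      intro r c; rw [h₂def]; exact mul_colF kk b h₁ r c
    have h₁col : ∀ r, h₁ r kk = if r = i then 1 else 0 := by
      intro r
      rw [h₁a, hi1, mul_one]
      rcases lt_trichotomy r i with hlt | heq | hgt
      · have h1 : a r = h r kk := by rw [hadef]; simp [hlt]
        rw [h1, if_neg hlt.ne]
        exact CharTwo.add_self_eq_zero _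
      · rw [heq, hai, hi1, add_zero, if_pos rfl]
      · have h0 : h r kk = 0 := by
          by_contra hc
          exact absurd (himax r hc) (not_le.mpr hgt)
        rw [h0, ha r hgt.le, if_neg hgt.ne', add_zero]
    have h₁colj : ∀ j : Fin n, j.val < k → ∀ r, h₁ r j = h r j := by
      intro j hj r
      rw [h₁a, hij0 j hj, mul_zero, add_zero]
    have h₁rowj : ∀ j : Fin n, j.val < k → ∀ c, h₁ (ρ j) c = h (ρ j) c := by
      intro j hj c
      have h1 : a (ρ j) = 0 := by
        rw [hadef]
        have h2 : h (ρ j) kk = 0 := by rw [hrow j hj kk, if_neg (hkj j hj)]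
        simp [h2]
      rw [h₁a, h1, zero_mul, add_zero]
    have h₂a' : ∀ r c, h₂ r c = h₁ r c + (if r = i then 1 else 0) * b c := by
      intro r c; rw [h₂a, h₁col]
    refine ⟨u * rowE a i, colF kk b * u', h₂, Function.update ρ kk i,
      hu.mul (rowE_ut a i ha), (colF_ut kk b hb).mul hu', ?_, ?_, ?_, ?_, ?_⟩
    · rw [Matrix.det_mul, hdu, rowE_det a i ha, mul_one]
    · rw [Matrix.det_mul, hdu', colF_det kk b hb, mul_one]
    · have h1 : rowE a i * h₂ * colF kk b = h := by
        rw [h₂def, h₁def]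
        calc rowE a i * (rowE a i * h * colF kk b) * colF kk b
            = (rowE a i * rowE a i) * h * (colF kk b * colF kk b) := by
              simp only [Matrix.mul_assoc]
          _ = h := by rw [rowE_sq a i hai, colF_sq kk b hbk, Matrix.one_mul, Matrix.mul_one]
      calc g = u * h * u' := hg'
        _ = u * (rowE a i * h₂ * colF kk b) * u' := by rw [h1]
        _ = u * rowE a i * h₂ * (colF kk b * u') := by simp only [Matrix.mul_assoc]
    · intro j hj r
      by_cases hjk : j = kk
      · subst hjk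
        rw [Function.update_self, h₂a', hbk, mul_zero, add_zero, h₁col]
      · have hj' : j.val < k := by
          have : j.val ≠ k := fun h' => hjk (Fin.ext (by rw [h', hkk]))
          omega
        rw [Function.update_of_ne hjk, h₂a', hb j (by rw [Fin.le_def, hkk]; omega), mul_zero,
          add_zero, h₁colj j hj', hcol j hj']
    · intro j hj l
      by_cases hjk : j = kk
      · subst hjk
        rw [Function.update_self, h₂a', if_pos rfl, one_mul]
        rcases lt_trichotomy l j with hlt | heq | hgt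
        · have hl' : l.val < k := by rw [← hkk]; exact hlt
          rw [hb l hlt.le, add_zero, h₁colj l hl', hij0 l hl', if_neg hlt.ne]
        · rw [heq, hbk, add_zero, h₁col, if_pos rfl, if_pos rfl]
        · have h1 : b l = h₁ i l := by rw [hbdef]; simp [hgt]
          rw [h1, if_neg hgt.ne']
          exact CharTwo.add_self_eq_zero _
      · have hj' : j.val < k := by
          have : j.val ≠ k := fun h' => hjk (Fin.ext (by rw [h', hkk]))
          omega
        rw [Function.update_of_ne hjk, h₂a', if_neg (fun h' => hiρ j hj' h'.symm), zero_mul,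
          add_zero, h₁rowj j hj', hrow j hj']

/-- [B1] Bruhat decomposition of `SL_n(2)`. -/
theorem bruhat (n : ℕ) (g : Matrix.SpecialLinearGroup (Fin n) (ZMod 2)) :
    ∃ (u u' : Matrix.SpecialLinearGroup (Fin n) (ZMod 2)) (σ : Equiv.Perm (Fin n)),
      (u : Matrix (Fin n) (Fin n) (ZMod 2)).BlockTriangular id ∧
      (u' : Matrix (Fin n) (Fin n) (ZMod 2)).BlockTriangular id ∧
      (g : Matrix (Fin n) (Fin n) (ZMod 2)) =
        (u : Matrix (Fin n) (Fin n) (ZMod 2)) * Equiv.Perm.permMatrix (ZMod 2) σ *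
          (u' : Matrix (Fin n) (Fin n) (ZMod 2)) := by
  obtain ⟨u, u', h, ρ, hu, hu', hdu, hdu', hg', hcol, hrow⟩ :=
    claim (g : Matrix (Fin n) (Fin n) (ZMod 2)) g.2 n le_rfl
  have hcol' : ∀ j r, h r j = if r = ρ j then 1 else 0 := fun j r => hcol j j.2 r
  have hrow' : ∀ j l, h (ρ j) l = if l = j then 1 else 0 := fun j l => hrow j j.2 l
  have hinj : Function.Injective ρ := by
    intro j j' hjj
    have h1 := hrow' j j'
    rw [hcol' j' (ρ j), if_pos hjj] at h1
    by_contra hne
    rw [if_neg (fun h' => hne h'.symm)] at h1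
    exact one_ne_zero h1
  have hbij : Function.Bijective ρ := Finite.injective_iff_bijective.mp hinj
  let e : Equiv.Perm (Fin n) := Equiv.ofBijective ρ hbij
  refine ⟨⟨u, hdu⟩, ⟨u', hdu'⟩, e.symm, hu, hu', ?_⟩
  have hP : Equiv.Perm.permMatrix (ZMod 2) e.symm = h := by
    ext r j
    rw [hcol' j r]
    simp only [Equiv.Perm.permMatrix, PEquiv.toMatrix_apply, Equiv.toPEquiv_apply,
      Option.mem_def, Option.some.injEq]
    have h1 : e.symm r = j ↔ r = ρ j := by
      rw [Equiv.symm_apply_eq]; rfl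
    simp only [h1]
  show (g : Matrix (Fin n) (Fin n) (ZMod 2)) = u * Equiv.Perm.permMatrix (ZMod 2) e.symm * u'
  rw [hP]
  exact hg'

end Cfsg.Agent.Helper20.S2486b1
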