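import Mathlib
import Cfsg.Prelude.Def_Local
import Cfsg.Agent.Helper7.PComp

set_option autoImplicit false

namespace Cfsg.Agent.Helper20.S4172h

/-- [h] If `O_{p'}(G) = 1`, every nilpotent normal subgroup of `G` is a `p`-group. -/
theorem nilpotent_normal_isPGroup {G : Type*} [Group G] [Finite G] (p : ℕ) [Fact p.Prime]
    (hcore : Cfsg.pPrimeCore p G = ⊥) (M : Subgroup G) (hM : M.Normal)
    (hnil : Group.IsNilpotent ↥M) : IsPGroup p ↥M := by
  classical
  have hp : p.Prime := Fact.out
  have hsyl : ∀ (q : ℕ) (hq : Fact q.Prime) (Q : Sylow q ↥M), (Q : Subgroup ↥M).Normal :=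
    ((Group.isNilpotent_of_finite_tfae (G := ↥M)).out 0 3).mp hnil
  have key : ∀ q : ℕ, q.Prime → q ∣ Nat.card ↥M → q = p := by
    intro q hq hdvd
    by_contra hne
    haveI : Fact q.Prime := ⟨hq⟩
    obtain Q : Sylow q ↥M := default
    have hQn := hsyl q ⟨hq⟩ Q
    have h1 : ((Q : Subgroup ↥M).map M.subtype).IsSubnormal :=
      (Subgroup.Normal.isSubnormal hQn).trans' (Subgroup.Normal.isSubnormal hM)
    have h2 : (Nat.card ((Q : Subgroup ↥M).map M.subtype)).Coprime p := by
      rw [Subgroup.card_map_of_injective M.subtype_injective]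
      obtain ⟨k, hk⟩ := (IsPGroup.iff_card).mp Q.isPGroup'
      rw [hk]
      exact Nat.Coprime.pow_left k ((Nat.coprime_primes hq hp).mpr hne)
    have h3 := Cfsg.Agent.Helper7.subnormal_pprime_le_pPrimeCore p h1 h2
    rw [hcore, le_bot_iff] at h3
    have h4 : (Q : Subgroup ↥M) = ⊥ := by
      rw [eq_bot_iff]
      intro x hx
      have : M.subtype x ∈ (Q : Subgroup ↥M).map M.subtype := Subgroup.mem_map_of_mem _ hx
      rw [h3, Subgroup.mem_bot] at this
      rw [Subgroup.mem_bot]
      exact M.subtype_injective (by simpa using this)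
    exact Q.ne_bot_of_dvd_card hdvd h4
  have hpos : Nat.card ↥M ≠ 0 := Nat.card_pos.ne'
  have := Nat.eq_prime_pow_of_unique_prime_dvd hpos (fun {d} hd hdv => key d hd hdv)
  exact IsPGroup.of_card this

end Cfsg.Agent.Helper20.S4172h
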