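import Mathlib

set_option autoImplicit false

namespace Cfsg.Agent.Helper20.S4172i

/-- `w` is a power of `w ^ k` when `w` is a `p`-element and `p ∤ k`. -/
theorem mem_of_pow_mem {G : Type*} [Group G] (p : ℕ) [Fact p.Prime] (N : Subgroup G) (w : G)
    (j k : ℕ) (hwj : w ^ (p ^ j) = 1) (hk : ¬ p ∣ k) (h : w ^ k ∈ N) : w ∈ N := by
  have hp : p.Prime := Fact.out
  have hcop : Nat.Coprime k (p ^ j) :=
    Nat.Coprime.pow_right j (Nat.Coprime.symm ((Nat.Prime.coprime_iff_not_dvd hp).mpr hk))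
  have h1 : (1 : ℤ) = (k : ℤ) * Nat.gcdA k (p ^ j) + ((p ^ j : ℕ) : ℤ) * Nat.gcdB k (p ^ j) := by
    have := Nat.gcd_eq_gcd_ab k (p ^ j)
    rw [hcop.gcd_eq_one] at this
    exact_mod_cast this
  have h2 : w = (w ^ k) ^ (Nat.gcdA k (p ^ j)) := by
    conv_lhs => rw [← zpow_one w, h1, zpow_add, zpow_mul, zpow_mul, zpow_natCast, zpow_natCast,
      hwj, one_zpow, mul_one]
  rw [h2]
  exact N.zpow_mem h _

/-- [i] relative Maschke / trace. -/
theorem trace {G : Type*} [Group G] [Finite G] (p : ℕ) [Fact p.Prime] (P : Sylow p G)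
    (M N : Subgroup G) (hM : M.Normal) (hN : N.Normal) (hNM : N ≤ M)
    (hMc : ∀ a ∈ M, ∀ b ∈ M, a * b = b * a) (hMp : IsPGroup p ↥M)
    (w : G) (hwM : w ∈ M) (hwN : w ∉ N)
    (hwP : ∀ u ∈ (P : Subgroup G), u * w = w * u)
    (hPM : ∀ u ∈ (P : Subgroup G), ∀ m ∈ M, u * m * u⁻¹ * m⁻¹ ∈ N) :
    ∃ c ∈ M, c ∉ N ∧ ∃ H : Subgroup G, H.Normal ∧ (P : Subgroup G) ≤ H ∧
      ∀ h ∈ H, h * c = c * h := by
  classical
  let H : Subgroup G :=
    { carrier := {h | ∀ m ∈ M, h * m * h⁻¹ * m⁻¹ ∈ N}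
      one_mem' := by
        intro m hm
        simp [N.one_mem]
      mul_mem' := by
        intro a b ha hb m hm
        have h1 := hb m hm
        have h2 := ha m hm
        have h3 : a * (b * m * b⁻¹ * m⁻¹) * a⁻¹ ∈ N := hN.conj_mem _ h1 a
        have : a * b * m * (a * b)⁻¹ * m⁻¹ =
            (a * (b * m * b⁻¹ * m⁻¹) * a⁻¹) * (a * m * a⁻¹ * m⁻¹) := by group
        rw [this]
        exact N.mul_mem h3 h2
      inv_mem' := by
        intro a ha m hm
        have hm' : a⁻¹ * m * a ∈ M := by simpa using hM.conj_mem m hm a⁻¹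
        have h1 := ha _ hm'
        have : a⁻¹ * m * a⁻¹⁻¹ * m⁻¹ = (a * (a⁻¹ * m * a) * a⁻¹ * (a⁻¹ * m * a)⁻¹)⁻¹ := by group
        rw [this]
        exact N.inv_mem h1 }
  have hHmem : ∀ h, h ∈ H ↔ ∀ m ∈ M, h * m * h⁻¹ * m⁻¹ ∈ N := fun h => Iff.rfl
  have hHn : H.Normal := by
    constructor
    intro h hh g
    rw [hHmem]
    intro m hm
    have hm' : g⁻¹ * m * g ∈ M := by simpa using hM.conj_mem m hm g⁻¹
    have h1 := (hHmem h).mp hh _ hm'
    have h2 := hN.conj_mem _ h1 g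
    have : g * h * g⁻¹ * m * (g * h * g⁻¹)⁻¹ * m⁻¹ =
        g * (h * (g⁻¹ * m * g) * h⁻¹ * (g⁻¹ * m * g)⁻¹) * g⁻¹ := by group
    rw [this]
    exact h2
  have hPH : (P : Subgroup G) ≤ H := fun u hu => (hHmem u).mpr (fun m hm => hPM u hu m hm)
  letI cg : CommGroup ↥M := { (inferInstance : Group ↥M) with
    mul_comm := fun a b => Subtype.ext (hMc a a.2 b b.2) }
  let P' : Subgroup ↥H := (P : Subgroup G).subgroupOf H
  haveI : Fintype (↥H ⧸ P') := Fintype.ofFinite _
  let f : ↥H → ↥M := fun h => ⟨(h : G) * w * (h : G)⁻¹, hM.conj_mem w hwM h⟩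
  have hf : ∀ a b : ↥H, QuotientGroup.leftRel P' a b → f a = f b := by
    intro a b hab
    rw [QuotientGroup.leftRel_apply] at hab
    have hu : (a : G)⁻¹ * (b : G) ∈ (P : Subgroup G) := by
      simpa [P', Subgroup.mem_subgroupOf] using hab
    have h1 := hwP _ hu
    apply Subtype.ext
    show (a : G) * w * (a : G)⁻¹ = (b : G) * w * (b : G)⁻¹
    have h3 : (b : G) * w * (b : G)⁻¹ =
        (a : G) * ((a : G)⁻¹ * (b : G) * w) * ((a : G)⁻¹ * (b : G))⁻¹ * (a : G)⁻¹ := by group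
    rw [h3, h1]
    group
  let F : ↥H ⧸ P' → ↥M := fun q => Quotient.liftOn' q f hf
  have hF : ∀ a : ↥H, F (QuotientGroup.mk a) = f a := fun a => rfl
  let wt : ↥M := ⟨w, hwM⟩
  let c : ↥M := ∏ q : ↥H ⧸ P', F q
  set k : ℕ := Fintype.card (↥H ⧸ P') with hkdef
  -- k is prime to p
  have hk : ¬ p ∣ k := by
    have h1 : k = (P : Subgroup G).relIndex H := by
      rw [hkdef, ← Nat.card_eq_fintype_card]
      rfl
    have h2 := Subgroup.relIndex_mul_index hPH
    have h3 : ¬ p ∣ (P : Subgroup G).index := P.not_dvd_index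
    intro h4
    apply h3
    rw [← h2, ← h1]
    exact Dvd.dvd.mul_right h4 _
  -- c ≡ w ^ k mod N
  have hcw : ((c : ↥M) : G) / w ^ k ∈ N := by
    have h1 : ∀ q : ↥H ⧸ P', F q / wt ∈ N.subgroupOf M := by
      intro q
      induction q using QuotientGroup.induction_on with
      | H g =>
        rw [hF, Subgroup.mem_subgroupOf]
        have := (hHmem (g : G)).mp g.2 w hwM
        simpa [f, wt, div_eq_mul_inv] using this
    have h2 : (∏ q : ↥H ⧸ P', F q / wt) ∈ N.subgroupOf M :=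
      Subgroup.prod_mem _ (fun q _ => h1 q)
    rw [Finset.prod_div_distrib, Finset.prod_const, Finset.card_univ] at h2
    have h3 := Subgroup.mem_subgroupOf.mp h2
    simpa [c, wt] using h3
  -- invariance
  have hinv : ∀ h : ↥H, (MulAut.conjNormal (h : G) : MulAut ↥M) c = c := by
    intro h
    have h1 : ∀ q : ↥H ⧸ P', (MulAut.conjNormal (h : G) : MulAut ↥M) (F q) = F (h • q) := by
      intro q
      induction q using QuotientGroup.induction_on with
      | H g =>
        have h2 : (h • (QuotientGroup.mk g : ↥H ⧸ P')) = QuotientGroup.mk (h * g) := rfl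
        rw [h2, hF, hF]
        apply Subtype.ext
        rw [MulAut.conjNormal_apply]
        simp only [f, Subgroup.coe_mul]
        group
    have h3 : (MulAut.conjNormal (h : G) : MulAut ↥M) c
        = ∏ q : ↥H ⧸ P', (MulAut.conjNormal (h : G) : MulAut ↥M) (F q) :=
      map_prod (MulAut.conjNormal (h : G) : MulAut ↥M) F Finset.univ
    rw [h3]
    simp only [h1]
    exact Equiv.prod_comp (MulAction.toPerm h) F
  obtain ⟨j, hj⟩ := hMp wt
  have hwj : w ^ (p ^ j) = 1 := by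
    have := congrArg Subtype.val hj
    simpa [wt] using this
  refine ⟨(c : G), c.2, ?_, H, hHn, hPH, ?_⟩
  · intro hcN
    apply hwN
    apply mem_of_pow_mem p N w j k hwj hk
    have : w ^ k = (((c : ↥M) : G) / w ^ k)⁻¹ * (c : G) := by
      rw [div_eq_mul_inv, mul_inv_rev, inv_inv, inv_mul_cancel_right]
    rw [this]
    exact N.mul_mem (N.inv_mem hcw) hcN
  · intro h hh
    have h1 := hinv ⟨h, hh⟩
    have h2 : h * (c : G) * h⁻¹ = (c : G) := by
      have := congrArg Subtype.val h1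
      rw [MulAut.conjNormal_apply] at this
      exact this
    calc h * (c : G) = h * (c : G) * h⁻¹ * h := by group
      _ = (c : G) * h := by rw [h2]

end Cfsg.Agent.Helper20.S4172i
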