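import Mathlib

/-!
# `SL₂(ℤ/5^k)`: a perfect group with a solvable maximal subgroup of large derived length
-/

set_option autoImplicit false

namespace Cfsg.Agent.Helper20.SL2Local

open Matrix
open scoped commutatorElement

section General

variable {S : Type*} [CommRing S]

theorem det_rel (g : Matrix.SpecialLinearGroup (Fin 2) S) :
    (g : Matrix (Fin 2) (Fin 2) S) 0 0 * (g : Matrix (Fin 2) (Fin 2) S) 1 1 - (g : Matrix (Fin 2) (Fin 2) S) 0 1 * (g : Matrix (Fin 2) (Fin 2) S) 1 0 = 1 := by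
  have h := g.2
  rw [Matrix.det_fin_two] at h
  exact h

theorem inv_apply (g : Matrix.SpecialLinearGroup (Fin 2) S) :
    ((g⁻¹ : Matrix.SpecialLinearGroup (Fin 2) S) : Matrix (Fin 2) (Fin 2) S) = !![(g : Matrix (Fin 2) (Fin 2) S) 1 1, -(g : Matrix (Fin 2) (Fin 2) S) 0 1; -(g : Matrix (Fin 2) (Fin 2) S) 1 0, (g : Matrix (Fin 2) (Fin 2) S) 0 0] := by
  rw [Matrix.SpecialLinearGroup.coe_inv, Matrix.adjugate_fin_two]

/-- upper triangular elements -/
def Bsub (S : Type*) [CommRing S] : Subgroup (Matrix.SpecialLinearGroup (Fin 2) S) where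
  carrier := {g | (g : Matrix (Fin 2) (Fin 2) S) 1 0 = 0}
  mul_mem' := by
    intro g h hg hh
    simp only [Set.mem_ofPred_eq] at hg hh ⊢
    rw [Matrix.SpecialLinearGroup.coe_mul, Matrix.mul_apply, Fin.sum_univ_two, hg, hh]
    ring
  one_mem' := by
    simp
  inv_mem' := by
    intro g hg
    simp only [Set.mem_ofPred_eq] at hg ⊢
    rw [inv_apply]
    simp [hg]

/-- upper unitriangular elements -/
def Usub (S : Type*) [CommRing S] : Subgroup (Matrix.SpecialLinearGroup (Fin 2) S) where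
  carrier := {g | (g : Matrix (Fin 2) (Fin 2) S) 1 0 = 0 ∧ (g : Matrix (Fin 2) (Fin 2) S) 0 0 = 1 ∧ (g : Matrix (Fin 2) (Fin 2) S) 1 1 = 1}
  mul_mem' := by
    rintro g h ⟨hg1, hg2, hg3⟩ ⟨hh1, hh2, hh3⟩
    refine ⟨?_, ?_, ?_⟩
    · rw [Matrix.SpecialLinearGroup.coe_mul, Matrix.mul_apply, Fin.sum_univ_two, hg1, hh1]
      ring
    · rw [Matrix.SpecialLinearGroup.coe_mul, Matrix.mul_apply, Fin.sum_univ_two, hg2, hh1, hh2]
      ring
    · rw [Matrix.SpecialLinearGroup.coe_mul, Matrix.mul_apply, Fin.sum_univ_two, hg1, hg3, hh3]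
      ring
  one_mem' := by
    simp
  inv_mem' := by
    rintro g ⟨hg1, hg2, hg3⟩
    refine ⟨?_, ?_, ?_⟩
    · rw [inv_apply]
      simp [hg1]
    · rw [inv_apply]
      simp [hg3]
    · rw [inv_apply]
      simp [hg2]

theorem comm_apply (g h : Matrix.SpecialLinearGroup (Fin 2) S) :
    ((⁅g, h⁆ : Matrix.SpecialLinearGroup (Fin 2) S) : Matrix (Fin 2) (Fin 2) S) =
      (g : Matrix (Fin 2) (Fin 2) S) * (h : Matrix (Fin 2) (Fin 2) S) * !![(g : Matrix (Fin 2) (Fin 2) S) 1 1, -(g : Matrix (Fin 2) (Fin 2) S) 0 1; -(g : Matrix (Fin 2) (Fin 2) S) 1 0, (g : Matrix (Fin 2) (Fin 2) S) 0 0]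
        * !![(h : Matrix (Fin 2) (Fin 2) S) 1 1, -(h : Matrix (Fin 2) (Fin 2) S) 0 1; -(h : Matrix (Fin 2) (Fin 2) S) 1 0, (h : Matrix (Fin 2) (Fin 2) S) 0 0] := by
  rw [commutatorElement_def, Matrix.SpecialLinearGroup.coe_mul, Matrix.SpecialLinearGroup.coe_mul,
    Matrix.SpecialLinearGroup.coe_mul, inv_apply, inv_apply]

theorem comm_B_le_U : ⁅Bsub S, Bsub S⁆ ≤ Usub S := by
  rw [Subgroup.commutator_le]
  intro g hg h hh
  have hg' : (g : Matrix (Fin 2) (Fin 2) S) 1 0 = 0 := hg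
  have hh' : (h : Matrix (Fin 2) (Fin 2) S) 1 0 = 0 := hh
  have dg := det_rel g
  have dh := det_rel h
  rw [hg'] at dg
  rw [hh'] at dh
  refine ⟨?_, ?_, ?_⟩
  · rw [comm_apply]
    simp only [Matrix.mul_apply, Fin.sum_univ_two, Matrix.of_apply, Matrix.cons_val', Matrix.cons_val_zero,
      Matrix.cons_val_one, Matrix.cons_val_fin_one, hg', hh']
    ring
  · rw [comm_apply]
    simp only [Matrix.mul_apply, Fin.sum_univ_two, Matrix.of_apply, Matrix.cons_val', Matrix.cons_val_zero,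
      Matrix.cons_val_one, Matrix.cons_val_fin_one, hg', hh']
    linear_combination ((h : Matrix (Fin 2) (Fin 2) S) 0 0 * (h : Matrix (Fin 2) (Fin 2) S) 1 1) * dg + dh
  · rw [comm_apply]
    simp only [Matrix.mul_apply, Fin.sum_univ_two, Matrix.of_apply, Matrix.cons_val', Matrix.cons_val_zero,
      Matrix.cons_val_one, Matrix.cons_val_fin_one, hg', hh']
    linear_combination ((h : Matrix (Fin 2) (Fin 2) S) 0 0 * (h : Matrix (Fin 2) (Fin 2) S) 1 1) * dg + dh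

theorem comm_U_le_bot : ⁅Usub S, Usub S⁆ ≤ ⊥ := by
  rw [Subgroup.commutator_le]
  rintro g ⟨hg1, hg2, hg3⟩ h ⟨hh1, hh2, hh3⟩
  rw [Subgroup.mem_bot]
  apply Subtype.ext
  rw [comm_apply]
  ext i j
  fin_cases i <;> fin_cases j <;>
    simp [Matrix.mul_apply, Fin.sum_univ_two, hg1, hg2, hg3, hh1, hh2, hh3]

end General


section Chain

theorem solvable_of_chain {G : Type*} [Group G] (H : Subgroup G) (K : ℕ → Subgroup G) (m : ℕ)
    (h0 : H ≤ K 0) (hstep : ∀ i, ⁅K i, K i⁆ ≤ K (i + 1)) (hbot : K m = ⊥) :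
    Group.IsSolvable H := by
  have key : ∀ i, (derivedSeries H i).map H.subtype ≤ K i := by
    intro i
    induction i with
    | zero =>
      rw [derivedSeries_zero]
      intro x hx
      obtain ⟨y, -, rfl⟩ := hx
      exact h0 y.2
    | succ i ih =>
      rw [derivedSeries_succ, Subgroup.map_commutator]
      exact (Subgroup.commutator_mono ih ih).trans (hstep i)
  refine ⟨⟨m, ?_⟩⟩
  have h1 := key m
  rw [hbot, le_bot_iff] at h1
  exact (Subgroup.map_eq_bot_iff_of_injective _ H.subtype_injective).1 h1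

theorem mat_ext {α : Type*} {a b c d a' b' c' d' : α} (h1 : a = a') (h2 : b = b') (h3 : c = c')
    (h4 : d = d') : (!![a, b; c, d] : Matrix (Fin 2) (Fin 2) α) = !![a', b'; c', d'] := by
  rw [h1, h2, h3, h4]

end Chain

section Local

variable (k : ℕ)

theorem five_pow_eq_zero {a : ℕ} (h : k ≤ a) : (5 : ZMod (5 ^ k)) ^ a = 0 := by
  have h1 : ((5 ^ a : ℕ) : ZMod (5 ^ k)) = 0 :=
    (ZMod.natCast_eq_zero_iff _ _).2 (pow_dvd_pow 5 h)
  rw [← h1]
  push_cast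
  rfl

theorem not_five_dvd_one (hk : 1 ≤ k) : ¬ (5 : ZMod (5 ^ k)) ∣ 1 := by
  rintro ⟨y, hy⟩
  have h0 := five_pow_eq_zero k (le_refl k)
  have h1 : (1 : ZMod (5 ^ k)) = 0 := by
    calc (1 : ZMod (5 ^ k)) = 1 ^ k := (one_pow k).symm
      _ = (5 * y) ^ k := by rw [← hy]
      _ = 5 ^ k * y ^ k := mul_pow 5 y k
      _ = 0 := by rw [h0, zero_mul]
  haveI : Fact (1 < 5 ^ k) := ⟨Nat.one_lt_pow (by omega) (by norm_num)⟩
  exact one_ne_zero h1

theorem exists_inv_of_not_dvd (hk : 1 ≤ k) (x : ZMod (5 ^ k)) (hx : ¬ (5 : ZMod (5 ^ k)) ∣ x) :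
    ∃ y : ZMod (5 ^ k), x * y = 1 := by
  haveI : NeZero (5 ^ k) := ⟨by positivity⟩
  have h1 : ¬ 5 ∣ x.val := by
    intro h
    apply hx
    obtain ⟨m, hm⟩ := h
    refine ⟨(m : ZMod (5 ^ k)), ?_⟩
    have h2 := congrArg (Nat.cast : ℕ → ZMod (5 ^ k)) hm
    rw [ZMod.natCast_zmod_val] at h2
    rw [h2]
    push_cast
    rfl
  have h3 : IsUnit ((x.val : ℕ) : ZMod (5 ^ k)) :=
    (ZMod.isUnit_natCast_iff_not_dvd_pow Nat.prime_five (by omega)).2 h1
  rw [ZMod.natCast_zmod_val] at h3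
  obtain ⟨u, hu⟩ := h3
  exact ⟨((u⁻¹ : (ZMod (5 ^ k))ˣ) : ZMod (5 ^ k)), by rw [← hu]; exact u.mul_inv⟩

theorem dvd_transfer {s u v : ZMod (5 ^ k)} (h : u * v = 1) (hs : s ∣ u - 1) : s ∣ v - 1 := by
  have e : v - 1 = -(v * (u - 1)) := by linear_combination h
  rw [e]
  exact (Dvd.dvd.mul_left hs v).neg_right

/-- principal congruence subgroups -/
def Gam (a : ℕ) : Subgroup (Matrix.SpecialLinearGroup (Fin 2) (ZMod (5 ^ k))) where
  carrier := {g | ∃ X : Matrix (Fin 2) (Fin 2) (ZMod (5 ^ k)),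
    (g : Matrix (Fin 2) (Fin 2) (ZMod (5 ^ k))) = 1 + ((5 : ZMod (5 ^ k)) ^ a) • X}
  mul_mem' := by
    rintro g h ⟨X, hX⟩ ⟨Y, hY⟩
    refine ⟨X + Y + ((5 : ZMod (5 ^ k)) ^ a) • (X * Y), ?_⟩
    rw [Matrix.SpecialLinearGroup.coe_mul, hX, hY]
    simp only [mul_add, add_mul, mul_one, one_mul, Matrix.smul_mul, Matrix.mul_smul]
    module
  one_mem' := ⟨0, by simp⟩
  inv_mem' := by
    rintro g ⟨X, hX⟩
    refine ⟨-(X * ((g⁻¹ : Matrix.SpecialLinearGroup (Fin 2) (ZMod (5 ^ k))) :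
      Matrix (Fin 2) (Fin 2) (ZMod (5 ^ k)))), ?_⟩
    have h1 : (g : Matrix (Fin 2) (Fin 2) (ZMod (5 ^ k))) *
        ((g⁻¹ : Matrix.SpecialLinearGroup (Fin 2) (ZMod (5 ^ k))) :
          Matrix (Fin 2) (Fin 2) (ZMod (5 ^ k))) = 1 := by
      rw [← Matrix.SpecialLinearGroup.coe_mul, mul_inv_cancel, Matrix.SpecialLinearGroup.coe_one]
    rw [hX, add_mul, one_mul, Matrix.smul_mul] at h1
    rw [smul_neg, ← sub_eq_add_neg]
    exact eq_sub_of_add_eq h1

theorem comm_Gam_le (a b : ℕ) : ⁅Gam k a, Gam k b⁆ ≤ Gam k (a + b) := by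
  rw [Subgroup.commutator_le]
  rintro g ⟨X, hX⟩ h ⟨Y, hY⟩
  have hg : (g : Matrix (Fin 2) (Fin 2) (ZMod (5 ^ k))) *
      ((g⁻¹ : Matrix.SpecialLinearGroup (Fin 2) (ZMod (5 ^ k))) :
        Matrix (Fin 2) (Fin 2) (ZMod (5 ^ k))) = 1 := by
    rw [← Matrix.SpecialLinearGroup.coe_mul, mul_inv_cancel, Matrix.SpecialLinearGroup.coe_one]
  have hh : (h : Matrix (Fin 2) (Fin 2) (ZMod (5 ^ k))) *
      ((h⁻¹ : Matrix.SpecialLinearGroup (Fin 2) (ZMod (5 ^ k))) :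
        Matrix (Fin 2) (Fin 2) (ZMod (5 ^ k))) = 1 := by
    rw [← Matrix.SpecialLinearGroup.coe_mul, mul_inv_cancel, Matrix.SpecialLinearGroup.coe_one]
  refine ⟨(X * Y - Y * X) * ((g⁻¹ : Matrix.SpecialLinearGroup (Fin 2) (ZMod (5 ^ k))) :
      Matrix (Fin 2) (Fin 2) (ZMod (5 ^ k))) *
      ((h⁻¹ : Matrix.SpecialLinearGroup (Fin 2) (ZMod (5 ^ k))) :
        Matrix (Fin 2) (Fin 2) (ZMod (5 ^ k))), ?_⟩
  have key : (g : Matrix (Fin 2) (Fin 2) (ZMod (5 ^ k))) * (h : Matrix (Fin 2) (Fin 2) (ZMod (5 ^ k)))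
      = (h : Matrix (Fin 2) (Fin 2) (ZMod (5 ^ k))) * (g : Matrix (Fin 2) (Fin 2) (ZMod (5 ^ k)))
        + ((5 : ZMod (5 ^ k)) ^ (a + b)) • (X * Y - Y * X) := by
    rw [hX, hY]
    simp only [mul_add, add_mul, mul_one, one_mul, Matrix.smul_mul, Matrix.mul_smul]
    module
  rw [commutatorElement_def, Matrix.SpecialLinearGroup.coe_mul, Matrix.SpecialLinearGroup.coe_mul,
    Matrix.SpecialLinearGroup.coe_mul, key, add_mul, add_mul,
    mul_assoc (h : Matrix (Fin 2) (Fin 2) (ZMod (5 ^ k))), hg, mul_one, hh, Matrix.smul_mul,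
    Matrix.smul_mul]

theorem Gam_eq_bot {a : ℕ} (h : k ≤ a) : Gam k a = ⊥ := by
  rw [eq_bot_iff]
  rintro g ⟨X, hX⟩
  rw [five_pow_eq_zero k h, zero_smul, add_zero] at hX
  rw [Subgroup.mem_bot]
  exact Subtype.ext hX

/-- reduction modulo `5` -/
def rho : Matrix.SpecialLinearGroup (Fin 2) (ZMod (5 ^ k)) →*
    Matrix.SpecialLinearGroup (Fin 2) (ZMod (5 ^ k) ⧸ Ideal.span {(5 : ZMod (5 ^ k))}) :=
  Matrix.SpecialLinearGroup.map (Ideal.Quotient.mk (Ideal.span {(5 : ZMod (5 ^ k))}))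

theorem rho_apply (g : Matrix.SpecialLinearGroup (Fin 2) (ZMod (5 ^ k))) (i j : Fin 2) :
    ((rho k g : Matrix.SpecialLinearGroup (Fin 2) (ZMod (5 ^ k) ⧸ Ideal.span {(5 : ZMod (5 ^ k))})) :
      Matrix (Fin 2) (Fin 2) (ZMod (5 ^ k) ⧸ Ideal.span {(5 : ZMod (5 ^ k))})) i j
      = Ideal.Quotient.mk (Ideal.span {(5 : ZMod (5 ^ k))})
        ((g : Matrix (Fin 2) (Fin 2) (ZMod (5 ^ k))) i j) := rfl

theorem ker_rho_le : (rho k).ker ≤ Gam k 1 := by
  intro g hg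
  rw [MonoidHom.mem_ker] at hg
  have h1 : ∀ i j : Fin 2, (5 : ZMod (5 ^ k)) ∣ (g : Matrix (Fin 2) (Fin 2) (ZMod (5 ^ k))) i j
      - (1 : Matrix (Fin 2) (Fin 2) (ZMod (5 ^ k))) i j := by
    intro i j
    rw [← Ideal.mem_span_singleton, ← Ideal.Quotient.eq_zero_iff_mem, map_sub, ← rho_apply, hg,
      Matrix.SpecialLinearGroup.coe_one]
    by_cases hij : i = j
    · subst hij
      simp
    · simp [Matrix.one_apply_ne hij]
  choose X hX using h1
  refine ⟨Matrix.of X, ?_⟩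
  ext i j
  have h2 := hX i j
  simp only [Matrix.add_apply, Matrix.smul_apply, pow_one, Matrix.of_apply, smul_eq_mul]
  linear_combination h2

/-- the maximal subgroup: lower left entry divisible by `5` -/
def Hsub : Subgroup (Matrix.SpecialLinearGroup (Fin 2) (ZMod (5 ^ k))) where
  carrier := {g | (5 : ZMod (5 ^ k)) ∣ (g : Matrix (Fin 2) (Fin 2) (ZMod (5 ^ k))) 1 0}
  mul_mem' := by
    intro g h hg hh
    simp only [Set.mem_ofPred_eq] at hg hh ⊢
    rw [Matrix.SpecialLinearGroup.coe_mul, Matrix.mul_apply, Fin.sum_univ_two]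
    exact dvd_add (Dvd.dvd.mul_right hg _) (Dvd.dvd.mul_left hh _)
  one_mem' := by
    simp
  inv_mem' := by
    intro g hg
    simp only [Set.mem_ofPred_eq] at hg ⊢
    rw [inv_apply]
    simpa using hg

theorem mem_Hsub (g : Matrix.SpecialLinearGroup (Fin 2) (ZMod (5 ^ k))) :
    g ∈ Hsub k ↔ (5 : ZMod (5 ^ k)) ∣ (g : Matrix (Fin 2) (Fin 2) (ZMod (5 ^ k))) 1 0 := Iff.rfl

theorem Hsub_le :
    Hsub k ≤ (Bsub (ZMod (5 ^ k) ⧸ Ideal.span {(5 : ZMod (5 ^ k))})).comap (rho k) := by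
  intro g hg
  show ((rho k g : Matrix.SpecialLinearGroup (Fin 2)
      (ZMod (5 ^ k) ⧸ Ideal.span {(5 : ZMod (5 ^ k))})) :
      Matrix (Fin 2) (Fin 2) (ZMod (5 ^ k) ⧸ Ideal.span {(5 : ZMod (5 ^ k))})) 1 0 = 0
  rw [rho_apply, Ideal.Quotient.eq_zero_iff_mem, Ideal.mem_span_singleton]
  exact hg

/-- the chain of subgroups witnessing solvability -/
def Kch : ℕ → Subgroup (Matrix.SpecialLinearGroup (Fin 2) (ZMod (5 ^ k)))
  | 0 => (Bsub (ZMod (5 ^ k) ⧸ Ideal.span {(5 : ZMod (5 ^ k))})).comap (rho k)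
  | 1 => (Usub (ZMod (5 ^ k) ⧸ Ideal.span {(5 : ZMod (5 ^ k))})).comap (rho k)
  | (j + 2) => Gam k (2 ^ j)

theorem solvable_H : Group.IsSolvable (Hsub k) := by
  apply solvable_of_chain (Hsub k) (Kch k) (k + 2)
  · exact Hsub_le k
  · intro i
    match i with
    | 0 =>
      show ⁅(Bsub (ZMod (5 ^ k) ⧸ Ideal.span {(5 : ZMod (5 ^ k))})).comap (rho k),
        (Bsub (ZMod (5 ^ k) ⧸ Ideal.span {(5 : ZMod (5 ^ k))})).comap (rho k)⁆
        ≤ (Usub (ZMod (5 ^ k) ⧸ Ideal.span {(5 : ZMod (5 ^ k))})).comap (rho k)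
      rw [Subgroup.commutator_le]
      intro g hg h hh
      show rho k ⁅g, h⁆ ∈ Usub _
      rw [map_commutatorElement]
      exact comm_B_le_U (Subgroup.commutator_mem_commutator hg hh)
    | 1 =>
      show ⁅(Usub (ZMod (5 ^ k) ⧸ Ideal.span {(5 : ZMod (5 ^ k))})).comap (rho k),
        (Usub (ZMod (5 ^ k) ⧸ Ideal.span {(5 : ZMod (5 ^ k))})).comap (rho k)⁆
        ≤ Gam k (2 ^ 0)
      rw [Subgroup.commutator_le, pow_zero]
      intro g hg h hh
      apply ker_rho_le k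
      rw [MonoidHom.mem_ker, map_commutatorElement]
      have h1 := comm_U_le_bot (Subgroup.commutator_mem_commutator hg hh)
      rwa [Subgroup.mem_bot] at h1
    | (j + 2) =>
      show ⁅Gam k (2 ^ j), Gam k (2 ^ j)⁆ ≤ Gam k (2 ^ (j + 1))
      have e : 2 ^ (j + 1) = 2 ^ j + 2 ^ j := by ring
      rw [e]
      exact comm_Gam_le k _ _
  · show Gam k (2 ^ k) = ⊥
    exact Gam_eq_bot k (Nat.lt_two_pow_self).le

end Local


section Core

variable {R : Type*} [CommRing R]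

theorem core_comm_D_E12 (u v y : R) (h : u * v = 1) :
    (!![u, 0; 0, v] : Matrix (Fin 2) (Fin 2) R) * !![1, y; 0, 1] * !![v, -0; -0, u]
      * !![1, -y; -0, 1] = !![1, (u ^ 2 - 1) * y; 0, 1] := by
  rw [Matrix.mul_fin_two, Matrix.mul_fin_two, Matrix.mul_fin_two]
  exact mat_ext (by linear_combination h) (by linear_combination (-y) * h) (by ring)
    (by linear_combination h)

theorem core_comm_D_E21 (u v y : R) (h : u * v = 1) :
    (!![u, 0; 0, v] : Matrix (Fin 2) (Fin 2) R) * !![1, 0; y, 1] * !![v, -0; -0, u]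
      * !![1, -0; -y, 1] = !![1, 0; (v ^ 2 - 1) * y, 1] := by
  rw [Matrix.mul_fin_two, Matrix.mul_fin_two, Matrix.mul_fin_two]
  exact mat_ext (by linear_combination h) (by ring) (by linear_combination (-y) * h)
    (by linear_combination h)

theorem core_comm_E (x y : R) :
    (!![1, x; 0, 1] : Matrix (Fin 2) (Fin 2) R) * !![1, 0; y, 1] * !![1, -x; -0, 1]
      * !![1, -0; -y, 1] = !![1 + x * y + x ^ 2 * y ^ 2, -(x ^ 2 * y); x * y ^ 2, 1 - x * y] := by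
  rw [Matrix.mul_fin_two, Matrix.mul_fin_two, Matrix.mul_fin_two]
  exact mat_ext (by ring) (by ring) (by ring) (by ring)

theorem core_decomp_D (a b e d v' : R) (hd : v' * d = 1) (hdet : a * d - b * e = 1) :
    (!![1, -(b * v'); 0, 1] : Matrix (Fin 2) (Fin 2) R) * !![a, b; e, d] * !![1, 0; -(v' * e), 1]
      = !![v', 0; 0, d] := by
  rw [Matrix.mul_fin_two, Matrix.mul_fin_two]
  exact mat_ext (by linear_combination (-(a - b * v' * e)) * hd + v' * hdet)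
    (by linear_combination (-b) * hd) (by linear_combination (-e) * hd) (by ring)

theorem core_decomp_W (a b e d c' : R) (he : e * c' = 1) (hdet : a * d - b * e = 1) :
    (!![1, a * c'; 0, 1] : Matrix (Fin 2) (Fin 2) R) * !![0, -1; 1, 0] * !![e, 0; 0, c']
      * !![1, d * c'; 0, 1] = !![a, b; e, d] := by
  rw [Matrix.mul_fin_two, Matrix.mul_fin_two, Matrix.mul_fin_two]
  exact mat_ext (by linear_combination a * he)
    (by linear_combination (a * d * c' + b) * he + c' * hdet) (by ring)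
    (by linear_combination d * he)

theorem core_D_eq (u v : R) (h : u * v = 1) :
    (!![1, u; 0, 1] : Matrix (Fin 2) (Fin 2) R) * !![1, 0; -v, 1] * !![1, u; 0, 1]
      * !![0, -1; 1, 0] = !![u, 0; 0, v] := by
  rw [Matrix.mul_fin_two, Matrix.mul_fin_two, Matrix.mul_fin_two]
  exact mat_ext (by linear_combination (-u) * h) (by linear_combination h)
    (by linear_combination (-1 : R) * h) (by ring)

theorem core_W_eq :
    (!![1, -1; 0, 1] : Matrix (Fin 2) (Fin 2) R) * !![1, 0; 1, 1] * !![1, -1; 0, 1]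
      = !![0, -1; 1, 0] := by
  rw [Matrix.mul_fin_two, Matrix.mul_fin_two]
  exact mat_ext (by ring) (by ring) (by ring) (by ring)

end Core

section Elements

variable (k : ℕ)

/-- upper elementary matrix -/
def E12 (x : ZMod (5 ^ k)) : Matrix.SpecialLinearGroup (Fin 2) (ZMod (5 ^ k)) :=
  ⟨!![1, x; 0, 1], by rw [Matrix.det_fin_two_of]; ring⟩

/-- lower elementary matrix -/
def E21 (y : ZMod (5 ^ k)) : Matrix.SpecialLinearGroup (Fin 2) (ZMod (5 ^ k)) :=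
  ⟨!![1, 0; y, 1], by rw [Matrix.det_fin_two_of]; ring⟩

/-- diagonal matrix -/
def Dg (u v : ZMod (5 ^ k)) (h : u * v = 1) : Matrix.SpecialLinearGroup (Fin 2) (ZMod (5 ^ k)) :=
  ⟨!![u, 0; 0, v], by rw [Matrix.det_fin_two_of]; linear_combination h⟩

/-- Weyl element -/
def Wm : Matrix.SpecialLinearGroup (Fin 2) (ZMod (5 ^ k)) :=
  ⟨!![0, -1; 1, 0], by rw [Matrix.det_fin_two_of]; ring⟩

theorem comm_D_E12 (u v : ZMod (5 ^ k)) (h : u * v = 1) (y : ZMod (5 ^ k)) :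
    ⁅Dg k u v h, E12 k y⁆ = E12 k ((u ^ 2 - 1) * y) := by
  apply Subtype.ext
  rw [comm_apply]
  exact core_comm_D_E12 u v y h

theorem comm_D_E21 (u v : ZMod (5 ^ k)) (h : u * v = 1) (y : ZMod (5 ^ k)) :
    ⁅Dg k u v h, E21 k y⁆ = E21 k ((v ^ 2 - 1) * y) := by
  apply Subtype.ext
  rw [comm_apply]
  exact core_comm_D_E21 u v y h

theorem comm_E12_E21 (x y : ZMod (5 ^ k)) :
    ((⁅E12 k x, E21 k y⁆ : Matrix.SpecialLinearGroup (Fin 2) (ZMod (5 ^ k))) : Matrix (Fin 2) (Fin 2) (ZMod (5 ^ k))) =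
      !![1 + x * y + x ^ 2 * y ^ 2, -(x ^ 2 * y); x * y ^ 2, 1 - x * y] := by
  rw [comm_apply]
  exact core_comm_E x y

theorem decomp_D (c : Matrix.SpecialLinearGroup (Fin 2) (ZMod (5 ^ k))) (v' : ZMod (5 ^ k)) (h : v' * (c : Matrix (Fin 2) (Fin 2) (ZMod (5 ^ k))) 1 1 = 1) :
    E12 k (-((c : Matrix (Fin 2) (Fin 2) (ZMod (5 ^ k))) 0 1 * v')) * c * E21 k (-(v' * (c : Matrix (Fin 2) (Fin 2) (ZMod (5 ^ k))) 1 0))
      = Dg k v' ((c : Matrix (Fin 2) (Fin 2) (ZMod (5 ^ k))) 1 1) h := by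
  apply Subtype.ext
  rw [Matrix.SpecialLinearGroup.coe_mul, Matrix.SpecialLinearGroup.coe_mul]
  have h1 := core_decomp_D ((c : Matrix (Fin 2) (Fin 2) (ZMod (5 ^ k))) 0 0) ((c : Matrix (Fin 2) (Fin 2) (ZMod (5 ^ k))) 0 1) ((c : Matrix (Fin 2) (Fin 2) (ZMod (5 ^ k))) 1 0)
    ((c : Matrix (Fin 2) (Fin 2) (ZMod (5 ^ k))) 1 1) v' h (det_rel c)
  rw [← Matrix.eta_fin_two (c : Matrix (Fin 2) (Fin 2) (ZMod (5 ^ k)))] at h1
  exact h1

theorem decomp_W (g : Matrix.SpecialLinearGroup (Fin 2) (ZMod (5 ^ k))) (c' : ZMod (5 ^ k)) (h : (g : Matrix (Fin 2) (Fin 2) (ZMod (5 ^ k))) 1 0 * c' = 1) :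
    E12 k ((g : Matrix (Fin 2) (Fin 2) (ZMod (5 ^ k))) 0 0 * c') * Wm k * Dg k ((g : Matrix (Fin 2) (Fin 2) (ZMod (5 ^ k))) 1 0) c' h
      * E12 k ((g : Matrix (Fin 2) (Fin 2) (ZMod (5 ^ k))) 1 1 * c') = g := by
  apply Subtype.ext
  rw [Matrix.SpecialLinearGroup.coe_mul, Matrix.SpecialLinearGroup.coe_mul,
    Matrix.SpecialLinearGroup.coe_mul]
  have h1 := core_decomp_W ((g : Matrix (Fin 2) (Fin 2) (ZMod (5 ^ k))) 0 0) ((g : Matrix (Fin 2) (Fin 2) (ZMod (5 ^ k))) 0 1) ((g : Matrix (Fin 2) (Fin 2) (ZMod (5 ^ k))) 1 0)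
    ((g : Matrix (Fin 2) (Fin 2) (ZMod (5 ^ k))) 1 1) c' h (det_rel g)
  rw [← Matrix.eta_fin_two (g : Matrix (Fin 2) (Fin 2) (ZMod (5 ^ k)))] at h1
  exact h1

theorem D_eq (u v : ZMod (5 ^ k)) (h : u * v = 1) :
    E12 k u * E21 k (-v) * E12 k u * Wm k = Dg k u v h := by
  apply Subtype.ext
  rw [Matrix.SpecialLinearGroup.coe_mul, Matrix.SpecialLinearGroup.coe_mul,
    Matrix.SpecialLinearGroup.coe_mul]
  exact core_D_eq u v h

theorem W_eq : E12 k (-1) * E21 k 1 * E12 k (-1) = Wm k := by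
  apply Subtype.ext
  rw [Matrix.SpecialLinearGroup.coe_mul, Matrix.SpecialLinearGroup.coe_mul]
  exact core_W_eq

theorem E12_mem (x : ZMod (5 ^ k)) : E12 k x ∈ Hsub k := by
  show (5 : ZMod (5 ^ k)) ∣ (0 : ZMod (5 ^ k))
  exact dvd_zero _

theorem E21_mem (y : ZMod (5 ^ k)) (h : (5 : ZMod (5 ^ k)) ∣ y) : E21 k y ∈ Hsub k := by
  show (5 : ZMod (5 ^ k)) ∣ y
  exact h

theorem Dg_mem (u v : ZMod (5 ^ k)) (h : u * v = 1) : Dg k u v h ∈ Hsub k := by
  show (5 : ZMod (5 ^ k)) ∣ (0 : ZMod (5 ^ k))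
  exact dvd_zero _

theorem not_five_dvd_two (hk : 1 ≤ k) : ¬ (5 : ZMod (5 ^ k)) ∣ 2 := by
  intro h
  apply not_five_dvd_one k hk
  have h1 := dvd_sub (Dvd.dvd.mul_right h 3) (dvd_refl (5 : ZMod (5 ^ k)))
  have e : (2 : ZMod (5 ^ k)) * 3 - 5 = 1 := by norm_num
  rwa [e] at h1

theorem not_five_dvd_three (hk : 1 ≤ k) : ¬ (5 : ZMod (5 ^ k)) ∣ 3 := by
  intro h
  apply not_five_dvd_one k hk
  have h1 := dvd_sub (Dvd.dvd.mul_right h 2) (dvd_refl (5 : ZMod (5 ^ k)))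
  have e : (3 : ZMod (5 ^ k)) * 2 - 5 = 1 := by norm_num
  rwa [e] at h1

theorem perfect (hk : 1 ≤ k) : commutator (Matrix.SpecialLinearGroup (Fin 2) (ZMod (5 ^ k))) = ⊤ := by
  obtain ⟨i2, h2⟩ := exists_inv_of_not_dvd k hk 2 (not_five_dvd_two k hk)
  obtain ⟨i3, h3⟩ := exists_inv_of_not_dvd k hk 3 (not_five_dvd_three k hk)
  have h2' : i2 * 2 = 1 := by rw [mul_comm]; exact h2
  have hE12 : ∀ x, E12 k x ∈ commutator (Matrix.SpecialLinearGroup (Fin 2) (ZMod (5 ^ k))) := by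
    intro x
    have e := comm_D_E12 k 2 i2 h2 (i3 * x)
    have e2 : ((2 : ZMod (5 ^ k)) ^ 2 - 1) * (i3 * x) = x := by linear_combination x * h3
    rw [e2] at e
    rw [← e, commutator_def]
    exact Subgroup.commutator_mem_commutator (Subgroup.mem_top _) (Subgroup.mem_top _)
  have hE21 : ∀ x, E21 k x ∈ commutator (Matrix.SpecialLinearGroup (Fin 2) (ZMod (5 ^ k))) := by
    intro x
    have e := comm_D_E21 k i2 2 h2' (i3 * x)
    have e2 : ((2 : ZMod (5 ^ k)) ^ 2 - 1) * (i3 * x) = x := by linear_combination x * h3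
    rw [e2] at e
    rw [← e, commutator_def]
    exact Subgroup.commutator_mem_commutator (Subgroup.mem_top _) (Subgroup.mem_top _)
  have hW : Wm k ∈ commutator (Matrix.SpecialLinearGroup (Fin 2) (ZMod (5 ^ k))) := by
    rw [← W_eq k]
    exact mul_mem (mul_mem (hE12 _) (hE21 _)) (hE12 _)
  have hD : ∀ (u v : ZMod (5 ^ k)) (h : u * v = 1), Dg k u v h ∈ commutator (Matrix.SpecialLinearGroup (Fin 2) (ZMod (5 ^ k))) := by
    intro u v h
    rw [← D_eq k u v h]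
    exact mul_mem (mul_mem (mul_mem (hE12 _) (hE21 _)) (hE12 _)) hW
  rw [eq_top_iff]
  intro g _
  by_cases hc : (5 : ZMod (5 ^ k)) ∣ (g : Matrix (Fin 2) (Fin 2) (ZMod (5 ^ k))) 1 0
  · have hd : ¬ (5 : ZMod (5 ^ k)) ∣ (g : Matrix (Fin 2) (Fin 2) (ZMod (5 ^ k))) 1 1 := by
      intro h5
      apply not_five_dvd_one k hk
      have dg := det_rel g
      rw [← dg]
      exact dvd_sub (Dvd.dvd.mul_left h5 _) (Dvd.dvd.mul_left hc _)
    obtain ⟨v', hv'⟩ := exists_inv_of_not_dvd k hk _ hd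
    have hv'' : v' * (g : Matrix (Fin 2) (Fin 2) (ZMod (5 ^ k))) 1 1 = 1 := by rw [mul_comm]; exact hv'
    have e := decomp_D k g v' hv''
    have key : ∀ (X Y D : Matrix.SpecialLinearGroup (Fin 2) (ZMod (5 ^ k))), X * g * Y = D → X ∈ commutator (Matrix.SpecialLinearGroup (Fin 2) (ZMod (5 ^ k))) →
        Y ∈ commutator (Matrix.SpecialLinearGroup (Fin 2) (ZMod (5 ^ k))) → D ∈ commutator (Matrix.SpecialLinearGroup (Fin 2) (ZMod (5 ^ k))) → g ∈ commutator (Matrix.SpecialLinearGroup (Fin 2) (ZMod (5 ^ k))) := by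
      intro X Y D hXY hX hY hD'
      have e3 : g = X⁻¹ * D * Y⁻¹ := by rw [← hXY]; group
      rw [e3]
      exact mul_mem (mul_mem (inv_mem hX) hD') (inv_mem hY)
    exact key _ _ _ e (hE12 _) (hE21 _) (hD _ _ _)
  · obtain ⟨c', hc'⟩ := exists_inv_of_not_dvd k hk _ hc
    have e := decomp_W k g c' hc'
    have h4 := mul_mem (mul_mem (mul_mem (hE12 ((g : Matrix (Fin 2) (Fin 2) (ZMod (5 ^ k))) 0 0 * c')) hW)
      (hD _ c' hc')) (hE12 ((g : Matrix (Fin 2) (Fin 2) (ZMod (5 ^ k))) 1 1 * c'))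
    rw [e] at h4
    exact h4

theorem coatom (hk : 1 ≤ k) : IsCoatom (Hsub k) := by
  refine ⟨?_, ?_⟩
  · intro htop
    have h1 : Wm k ∈ Hsub k := by rw [htop]; exact Subgroup.mem_top _
    exact not_five_dvd_one k hk h1
  · intro K hK
    obtain ⟨g, hgK, hgH⟩ := SetLike.exists_of_lt hK
    have hc : ¬ (5 : ZMod (5 ^ k)) ∣ (g : Matrix (Fin 2) (Fin 2) (ZMod (5 ^ k))) 1 0 := hgH
    obtain ⟨c', hc'⟩ := exists_inv_of_not_dvd k hk _ hc
    have e := decomp_W k g c' hc'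
    have hE : ∀ x, E12 k x ∈ K := fun x => hK.le (E12_mem k x)
    have hD : ∀ (u v : ZMod (5 ^ k)) (h : u * v = 1), Dg k u v h ∈ K :=
      fun u v h => hK.le (Dg_mem k u v h)
    have hW : Wm k ∈ K := by
      have key : ∀ (X W D Y : Matrix.SpecialLinearGroup (Fin 2) (ZMod (5 ^ k))), X * W * D * Y = g → X ∈ K → D ∈ K → Y ∈ K → W ∈ K := by
        intro X W D Y h1 hX hD' hY
        have e3 : W = X⁻¹ * g * Y⁻¹ * D⁻¹ := by rw [← h1]; group
        rw [e3]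
        exact mul_mem (mul_mem (mul_mem (inv_mem hX) hgK) (inv_mem hY)) (inv_mem hD')
      exact key _ _ _ _ e (hE _) (hD _ _ _) (hE _)
    rw [eq_top_iff]
    intro x _
    by_cases hx : (5 : ZMod (5 ^ k)) ∣ (x : Matrix (Fin 2) (Fin 2) (ZMod (5 ^ k))) 1 0
    · exact hK.le hx
    · obtain ⟨c'', hc''⟩ := exists_inv_of_not_dvd k hk _ hx
      have e' := decomp_W k x c'' hc''
      have h4 := mul_mem (mul_mem (mul_mem (hE ((x : Matrix (Fin 2) (Fin 2) (ZMod (5 ^ k))) 0 0 * c'')) hW)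
        (hD _ c'' hc'')) (hE ((x : Matrix (Fin 2) (Fin 2) (ZMod (5 ^ k))) 1 1 * c''))
      rw [e'] at h4
      exact h4

theorem derived_mem (hk : 1 ≤ k) (j : ℕ) :
    (∀ x : ZMod (5 ^ k), E12 k ((5 : ZMod (5 ^ k)) ^ (2 ^ j) * x) ∈
      (derivedSeries (Hsub k) j).map (Hsub k).subtype) ∧
    (∀ x : ZMod (5 ^ k), E21 k ((5 : ZMod (5 ^ k)) ^ (2 ^ j) * x) ∈
      (derivedSeries (Hsub k) j).map (Hsub k).subtype) ∧
    (∀ (u v : ZMod (5 ^ k)) (h : u * v = 1), (5 : ZMod (5 ^ k)) ^ (2 ^ j) ∣ u - 1 →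
      Dg k u v h ∈ (derivedSeries (Hsub k) j).map (Hsub k).subtype) := by
  induction j with
  | zero =>
    have top : ∀ g : Matrix.SpecialLinearGroup (Fin 2) (ZMod (5 ^ k)), g ∈ Hsub k →
        g ∈ (derivedSeries (Hsub k) 0).map (Hsub k).subtype := by
      intro g hg
      rw [derivedSeries_zero]
      exact ⟨⟨g, hg⟩, Subgroup.mem_top _, rfl⟩
    refine ⟨fun x => top _ (E12_mem k _), fun x => top _ (E21_mem k _ ?_),
      fun u v h _ => top _ (Dg_mem k u v h)⟩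
    exact Dvd.dvd.mul_right (dvd_pow_self _ (by norm_num)) _
  | succ j ih =>
    obtain ⟨s, hs⟩ : ∃ s : ZMod (5 ^ k), s = 5 ^ (2 ^ j) := ⟨_, rfl⟩
    rw [← hs] at ih
    obtain ⟨ih1, ih2, ih3⟩ := ih
    have hss : (5 : ZMod (5 ^ k)) ^ (2 ^ (j + 1)) = s * s := by
      rw [hs, ← pow_add]
      congr 1
      ring
    have h5s : (5 : ZMod (5 ^ k)) ∣ s := by
      rw [hs]
      exact dvd_pow_self _ (by positivity)
    rw [derivedSeries_succ, Subgroup.map_commutator, hss]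
    have nu : ¬ (5 : ZMod (5 ^ k)) ∣ 1 + s :=
      fun h => not_five_dvd_one k hk ((dvd_add_left h5s).1 h)
    have nt : ¬ (5 : ZMod (5 ^ k)) ∣ 2 + s :=
      fun h => not_five_dvd_two k hk ((dvd_add_left h5s).1 h)
    obtain ⟨u', hu⟩ := exists_inv_of_not_dvd k hk (1 + s) nu
    obtain ⟨w, hw⟩ := exists_inv_of_not_dvd k hk (2 + s) nt
    have hu' : u' * (1 + s) = 1 := by rw [mul_comm]; exact hu
    have hs1 : s ∣ (1 + s) - 1 := ⟨1, by ring⟩
    have hD1 := ih3 (1 + s) u' hu hs1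
    have hD2 := ih3 u' (1 + s) hu' (dvd_transfer k hu hs1)
    have A : ∀ x : ZMod (5 ^ k), E12 k (s * s * x) ∈
        ⁅(derivedSeries (Hsub k) j).map (Hsub k).subtype,
          (derivedSeries (Hsub k) j).map (Hsub k).subtype⁆ := by
      intro x
      have e := comm_D_E12 k (1 + s) u' hu (s * (w * x))
      have e2 : ((1 + s) ^ 2 - 1) * (s * (w * x)) = s * s * x := by
        linear_combination (s * s * x) * hw
      rw [e2] at e
      rw [← e]
      exact Subgroup.commutator_mem_commutator hD1 (ih1 _)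
    have B : ∀ x : ZMod (5 ^ k), E21 k (s * s * x) ∈
        ⁅(derivedSeries (Hsub k) j).map (Hsub k).subtype,
          (derivedSeries (Hsub k) j).map (Hsub k).subtype⁆ := by
      intro x
      have e := comm_D_E21 k u' (1 + s) hu' (s * (w * x))
      have e2 : ((1 + s) ^ 2 - 1) * (s * (w * x)) = s * s * x := by
        linear_combination (s * s * x) * hw
      rw [e2] at e
      rw [← e]
      exact Subgroup.commutator_mem_commutator hD2 (ih2 _)
    refine ⟨A, B, ?_⟩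
    intro p q h hp
    obtain ⟨z, hz⟩ := dvd_transfer k h hp
    obtain ⟨c, hc⟩ : ∃ c : Matrix.SpecialLinearGroup (Fin 2) (ZMod (5 ^ k)), c = ⁅E12 k (s * 1), E21 k (s * (-z))⁆ := ⟨_, rfl⟩
    have hcm : c ∈ ⁅(derivedSeries (Hsub k) j).map (Hsub k).subtype,
        (derivedSeries (Hsub k) j).map (Hsub k).subtype⁆ := by
      rw [hc]
      exact Subgroup.commutator_mem_commutator (ih1 1) (ih2 (-z))
    have hcm' := comm_E12_E21 k (s * 1) (s * (-z))
    rw [← hc] at hcm'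
    have c01 : (c : Matrix (Fin 2) (Fin 2) (ZMod (5 ^ k))) 0 1 = -((s * 1) ^ 2 * (s * (-z))) := by
      rw [hcm']
      rfl
    have c10 : (c : Matrix (Fin 2) (Fin 2) (ZMod (5 ^ k))) 1 0 = (s * 1) * (s * (-z)) ^ 2 := by
      rw [hcm']
      rfl
    have c11 : (c : Matrix (Fin 2) (Fin 2) (ZMod (5 ^ k))) 1 1 = q := by
      rw [hcm']
      show 1 - (s * 1) * (s * (-z)) = q
      linear_combination (-1 : ZMod (5 ^ k)) * hz
    have hpc : p * (c : Matrix (Fin 2) (Fin 2) (ZMod (5 ^ k))) 1 1 = 1 := by rw [c11]; exact h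
    have e := decomp_D k c p hpc
    have e3 : Dg k p q h = Dg k p ((c : Matrix (Fin 2) (Fin 2) (ZMod (5 ^ k))) 1 1) hpc := by
      apply Subtype.ext
      show (!![p, 0; 0, q] : Matrix (Fin 2) (Fin 2) (ZMod (5 ^ k))) = !![p, 0; 0, (c : Matrix (Fin 2) (Fin 2) (ZMod (5 ^ k))) 1 1]
      rw [c11]
    rw [e3, ← e]
    have a1 : -((c : Matrix (Fin 2) (Fin 2) (ZMod (5 ^ k))) 0 1 * p) = s * s * (-(s * z * p)) := by rw [c01]; ring
    have a2 : -(p * (c : Matrix (Fin 2) (Fin 2) (ZMod (5 ^ k))) 1 0) = s * s * (-(p * s * z ^ 2)) := by rw [c10]; ring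
    rw [a1, a2]
    exact mul_mem (mul_mem (A _) hcm) (B _)

theorem derived_ne_bot (d : ℕ) : derivedSeries (Hsub (2 ^ d + 1)) d ≠ ⊥ := by
  intro h
  have h1 := (derived_mem (2 ^ d + 1) (Nat.le_add_left 1 (2 ^ d)) d).1 1
  rw [h, Subgroup.map_bot, Subgroup.mem_bot] at h1
  have h3 := congrArg (fun g : Matrix.SpecialLinearGroup (Fin 2) (ZMod (5 ^ (2 ^ d + 1))) =>
    (g : Matrix (Fin 2) (Fin 2) (ZMod (5 ^ (2 ^ d + 1)))) 0 1) h1
  have h2 : (5 : ZMod (5 ^ (2 ^ d + 1))) ^ (2 ^ d) * 1 = 0 := by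
    simpa [E12] using h3
  rw [mul_one] at h2
  have h4 : ((5 ^ (2 ^ d) : ℕ) : ZMod (5 ^ (2 ^ d + 1))) = 0 := by
    push_cast
    exact h2
  rw [ZMod.natCast_eq_zero_iff] at h4
  have h5 := Nat.le_of_dvd (by positivity) h4
  have h6 : 5 ^ (2 ^ d) < 5 ^ (2 ^ d + 1) := Nat.pow_lt_pow_right (by norm_num) (by omega)
  omega

end Elements

end Cfsg.Agent.Helper20.SL2Local
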