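import Mathlib

/-!
# Elements of order 3 of `Sp₄(3)` that are conjugate to their inverses

Linear algebra behind S3213: a symplectic `4 × 4` matrix `Y` over the field with three
elements with `Y ^ 3 = 1`, `Y ≠ 1`, which is inverted by a symplectic matrix, has a
`2`-dimensional totally isotropic fixed space.  Also: every element of `SL₂` over the
field with five elements is inverted by some element.
-/

set_option autoImplicit false

namespace Cfsg.Agent.Helper20.Sp43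

open Matrix

section core
variable {F : Type*} [Field F] [Fintype F]

lemma three_zero (hF : Fintype.card F = 3) : (3 : F) = 0 := by
  have := Nat.cast_card_eq_zero F
  rw [hF] at this
  exact_mod_cast this

lemma two_ne (hF : Fintype.card F = 3) : (2 : F) ≠ 0 := by
  intro h
  have h3 := three_zero hF
  have : (1 : F) = 0 := by linear_combination h3 - h
  exact one_ne_zero this

lemma no_sq (hF : Fintype.card F = 3) (t : F) : t ^ 2 ≠ -1 := by
  intro h
  by_cases ht : t = 0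
  · subst ht
    simp at h
  · have h1 := FiniteField.pow_card_sub_one_eq_one t ht
    rw [hF] at h1
    have h2 : (2 : F) = 0 := by
      have h3 : t ^ 2 = 1 := h1
      linear_combination h - h3
    exact two_ne hF h2

lemma tri (hF : Fintype.card F = 3) (M : Matrix (Fin 2 ⊕ Fin 2) (Fin 2 ⊕ Fin 2) F) :
    M + M + M = 0 := by
  ext i j
  have : M i j + M i j + M i j = 3 * M i j := by ring
  simp only [Matrix.add_apply, Matrix.zero_apply]
  rw [this, three_zero hF, zero_mul]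

omit [Fintype F] in
lemma adj (A : Matrix (Fin 2 ⊕ Fin 2) (Fin 2 ⊕ Fin 2) F) (v w : Fin 2 ⊕ Fin 2 → F) :
    (A *ᵥ v) ⬝ᵥ w = v ⬝ᵥ (Aᵀ *ᵥ w) := by
  rw [Matrix.dotProduct_mulVec, Matrix.vecMul_transpose]

omit [Fintype F] in
lemma inv {A : Matrix (Fin 2 ⊕ Fin 2) (Fin 2 ⊕ Fin 2) F}
    (hA : Aᵀ * J (Fin 2) F * A = J (Fin 2) F) (v w : Fin 2 ⊕ Fin 2 → F) :
    (A *ᵥ v) ⬝ᵥ (J (Fin 2) F *ᵥ (A *ᵥ w)) = v ⬝ᵥ (J (Fin 2) F *ᵥ w) := by
  rw [adj, Matrix.mulVec_mulVec, Matrix.mulVec_mulVec, hA]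

omit [Fintype F] in
lemma bf_skew (v w : Fin 2 ⊕ Fin 2 → F) :
    v ⬝ᵥ (J (Fin 2) F *ᵥ w) = -(w ⬝ᵥ (J (Fin 2) F *ᵥ v)) := by
  rw [dotProduct_comm, adj, J_transpose, Matrix.neg_mulVec, dotProduct_neg]

omit [Fintype F] in
lemma nondeg (u : Fin 2 ⊕ Fin 2 → F) (h : ∀ v, v ⬝ᵥ (J (Fin 2) F *ᵥ u) = 0) : u = 0 := by
  have h1 : J (Fin 2) F *ᵥ u = 0 := by
    funext i
    have := h (Pi.single i 1)
    simpa using this
  have h2 : (J (Fin 2) F * J (Fin 2) F) *ᵥ u = 0 := by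
    rw [← Matrix.mulVec_mulVec, h1, Matrix.mulVec_zero]
  rw [J_squared, Matrix.neg_mulVec, Matrix.one_mulVec] at h2
  exact neg_eq_zero.1 h2

omit [Fintype F] in
lemma exists_ne (M : Matrix (Fin 2 ⊕ Fin 2) (Fin 2 ⊕ Fin 2) F) (hM : M ≠ 0) :
    ∃ b, M *ᵥ b ≠ 0 := by
  by_contra hne
  simp only [not_exists, not_not] at hne
  apply hM
  ext i j
  have := congrFun (hne (Pi.single j 1)) i
  simpa using this

/-- `Y ^ 2 + Y + 1 = 0`: there is no Jordan block of size three. -/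
lemma quad_zero (hF : Fintype.card F = 3) (Y : Matrix (Fin 2 ⊕ Fin 2) (Fin 2 ⊕ Fin 2) F)
    (hY : Yᵀ * J (Fin 2) F * Y = J (Fin 2) F) (hY3 : Y * Y * Y = 1) :
    Y * Y + Y + 1 = 0 := by
  have m1 : Yᵀ * J (Fin 2) F = J (Fin 2) F * (Y * Y) := by
    calc Yᵀ * J (Fin 2) F = Yᵀ * J (Fin 2) F * (Y * Y * Y) := by rw [hY3, mul_one]
      _ = (Yᵀ * J (Fin 2) F * Y) * (Y * Y) := by simp only [Matrix.mul_assoc]
      _ = J (Fin 2) F * (Y * Y) := by rw [hY]
  have h4 : Y * Y * (Y * Y) = Y := by rw [← Matrix.mul_assoc, hY3, one_mul]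
  have m2 : (Y * Y + Y + 1)ᵀ * J (Fin 2) F = J (Fin 2) F * (Y * Y + Y + 1) := by
    rw [transpose_add, transpose_add, transpose_mul, transpose_one]
    rw [add_mul, add_mul, one_mul, Matrix.mul_assoc, m1, ← Matrix.mul_assoc, m1,
      Matrix.mul_assoc, h4, mul_add, mul_add, mul_one]
    abel
  set S : Matrix (Fin 2 ⊕ Fin 2) (Fin 2 ⊕ Fin 2) F := Y * Y + Y + 1 with hSdef
  set N : Matrix (Fin 2 ⊕ Fin 2) (Fin 2 ⊕ Fin 2) F := Y - 1 with hNdef
  have hNN : N * N = S := by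
    have : (Y - 1) * (Y - 1) = Y * Y + Y + 1 - (Y + Y + Y) := by noncomm_ring
    rw [hNdef, hSdef, this, tri hF, sub_zero]
  have hSN : S * N = 0 := by
    have : (Y * Y + Y + 1) * (Y - 1) = Y * Y * Y - 1 := by noncomm_ring
    rw [hNdef, hSdef, this, hY3, sub_self]
  have hNS : N * S = 0 := by
    have : (Y - 1) * (Y * Y + Y + 1) = Y * Y * Y - 1 := by noncomm_ring
    rw [hNdef, hSdef, this, hY3, sub_self]
  have hSS : S * S = 0 := by
    rw [← hNN, ← Matrix.mul_assoc, hNN, hSN, Matrix.zero_mul]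
  have skew : ∀ a b : Fin 2 ⊕ Fin 2 → F,
      a ⬝ᵥ (J (Fin 2) F *ᵥ (S *ᵥ b)) = -(b ⬝ᵥ (J (Fin 2) F *ᵥ (S *ᵥ a))) := by
    intro a b
    rw [Matrix.mulVec_mulVec, ← m2, ← Matrix.mulVec_mulVec, ← adj, bf_skew]
  have alt : ∀ a : Fin 2 ⊕ Fin 2 → F, a ⬝ᵥ (J (Fin 2) F *ᵥ (S *ᵥ a)) = 0 := by
    intro a
    have h := skew a a
    have h2 : (2 : F) * (a ⬝ᵥ (J (Fin 2) F *ᵥ (S *ᵥ a))) = 0 := by linear_combination h
    rcases mul_eq_zero.1 h2 with h3 | h3
    · exact absurd h3 (two_ne hF)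
    · exact h3
  by_contra hS
  obtain ⟨b, hb⟩ := exists_ne S hS
  have : ∃ a, a ⬝ᵥ (J (Fin 2) F *ᵥ (S *ᵥ b)) ≠ 0 := by
    by_contra hne
    simp only [not_exists, not_not] at hne
    exact hb (nondeg _ hne)
  obtain ⟨a, ha⟩ := this
  have hba : b ⬝ᵥ (J (Fin 2) F *ᵥ (S *ᵥ a)) ≠ 0 := by
    intro h
    apply ha
    rw [skew, h, neg_zero]
  have key : ∀ c₁ c₂ : F, c₁ • (S *ᵥ a) + c₂ • (S *ᵥ b) = 0 → c₁ = 0 ∧ c₂ = 0 := by
    intro c₁ c₂ h
    have e1 := congrArg (fun z => b ⬝ᵥ (J (Fin 2) F *ᵥ z)) h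
    have e2 := congrArg (fun z => a ⬝ᵥ (J (Fin 2) F *ᵥ z)) h
    simp only [Matrix.mulVec_add, Matrix.mulVec_smul, dotProduct_add, dotProduct_smul,
      smul_eq_mul, Matrix.mulVec_zero, dotProduct_zero, alt, mul_zero, add_zero, zero_add]
      at e1 e2
    exact ⟨(mul_eq_zero.1 e1).resolve_right hba, (mul_eq_zero.1 e2).resolve_right ha⟩
  have hli : LinearIndependent F
      (![a, b, N *ᵥ a, N *ᵥ b, S *ᵥ a, S *ᵥ b] : Fin 6 → (Fin 2 ⊕ Fin 2 → F)) := by
    rw [Fintype.linearIndependent_iff]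
    intro g hg
    rw [Fin.sum_univ_six] at hg
    simp only [Matrix.cons_val] at hg
    have e1 := congrArg (fun z => S *ᵥ z) hg
    simp only [Matrix.mulVec_add, Matrix.mulVec_smul, Matrix.mulVec_mulVec, hSN, hSS,
      Matrix.zero_mulVec, smul_zero, add_zero, Matrix.mulVec_zero] at e1
    obtain ⟨h0, h1⟩ := key _ _ e1
    have e2 := congrArg (fun z => N *ᵥ z) hg
    simp only [Matrix.mulVec_add, Matrix.mulVec_smul, Matrix.mulVec_mulVec, hNN, hNS,
      Matrix.zero_mulVec, smul_zero, add_zero, Matrix.mulVec_zero, h0, h1, zero_smul,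
      zero_add] at e2
    obtain ⟨h2, h3⟩ := key _ _ e2
    simp only [h0, h1, h2, h3, zero_smul, zero_add] at hg
    obtain ⟨h4, h5⟩ := key _ _ hg
    intro i
    fin_cases i <;> assumption
  have h6 := hli.fintype_card_le_finrank
  simp [Module.finrank_fintype_fun_eq_card] at h6

/-- The fixed space of `Y` is a totally isotropic plane. -/
theorem core (hF : Fintype.card F = 3) (Y H : Matrix (Fin 2 ⊕ Fin 2) (Fin 2 ⊕ Fin 2) F)
    (hY : Yᵀ * J (Fin 2) F * Y = J (Fin 2) F) (hH : Hᵀ * J (Fin 2) F * H = J (Fin 2) F)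
    (hY3 : Y * Y * Y = 1) (hY1 : Y ≠ 1) (hHY : Y * H * Y = H) :
    Module.finrank F ↥(LinearMap.ker (Matrix.toLin' Y - LinearMap.id)) = 2 ∧
      ∀ v w : Fin 2 ⊕ Fin 2 → F, Y *ᵥ v = v → Y *ᵥ w = w →
        v ⬝ᵥ (J (Fin 2) F *ᵥ w) = 0 := by
  have hS := quad_zero hF Y hY hY3
  have m1 : Yᵀ * J (Fin 2) F = J (Fin 2) F * (Y * Y) := by
    calc Yᵀ * J (Fin 2) F = Yᵀ * J (Fin 2) F * (Y * Y * Y) := by rw [hY3, mul_one]
      _ = (Yᵀ * J (Fin 2) F * Y) * (Y * Y) := by simp only [Matrix.mul_assoc]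
      _ = J (Fin 2) F * (Y * Y) := by rw [hY]
  set N : Matrix (Fin 2 ⊕ Fin 2) (Fin 2 ⊕ Fin 2) F := Y - 1 with hNdef
  have hN0 : N ≠ 0 := by
    intro h
    exact hY1 (sub_eq_zero.1 h)
  have hNN : N * N = 0 := by
    have : (Y - 1) * (Y - 1) = Y * Y + Y + 1 - (Y + Y + Y) := by noncomm_ring
    rw [hNdef, this, tri hF, sub_zero, hS]
  have hYY : Y * Y - 1 = -N := by
    have : Y * Y - 1 = -(Y - 1) + (Y * Y + Y + 1) - ((1 : Matrix (Fin 2 ⊕ Fin 2) (Fin 2 ⊕ Fin 2) F) + 1 + 1) := by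
      abel
    rw [this, hS, tri hF, add_zero, sub_zero]
  have m3 : Nᵀ * J (Fin 2) F = -(J (Fin 2) F * N) := by
    calc Nᵀ * J (Fin 2) F = Yᵀ * J (Fin 2) F - J (Fin 2) F := by
          rw [hNdef, transpose_sub, transpose_one, sub_mul, one_mul]
      _ = J (Fin 2) F * (Y * Y - 1) := by rw [m1, mul_sub, mul_one]
      _ = -(J (Fin 2) F * N) := by rw [hYY, mul_neg]
  have m3' : J (Fin 2) F * N = -(Nᵀ * J (Fin 2) F) := by rw [m3, neg_neg]
  have sym : ∀ v w : Fin 2 ⊕ Fin 2 → F,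
      v ⬝ᵥ (J (Fin 2) F *ᵥ (N *ᵥ w)) = w ⬝ᵥ (J (Fin 2) F *ᵥ (N *ᵥ v)) := by
    intro v w
    rw [Matrix.mulVec_mulVec, m3', Matrix.neg_mulVec, dotProduct_neg, ← Matrix.mulVec_mulVec,
      ← adj, bf_skew, neg_neg]
  have h1 : H * Y = Y * Y * H := by
    calc H * Y = (Y * Y * Y) * H * Y := by rw [hY3, one_mul]
      _ = Y * Y * (Y * H * Y) := by simp only [Matrix.mul_assoc]
      _ = Y * Y * H := by rw [hHY]
  have hHN : H * N = -(N * H) := by
    rw [hNdef, mul_sub, mul_one, h1, ← neg_mul, ← hNdef, ← hYY, sub_mul, one_mul]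
  have hNH : N * H = -(H * N) := by rw [hHN, neg_neg]
  have hQ : ∀ v : Fin 2 ⊕ Fin 2 → F,
      (H *ᵥ v) ⬝ᵥ (J (Fin 2) F *ᵥ (N *ᵥ (H *ᵥ v))) = -(v ⬝ᵥ (J (Fin 2) F *ᵥ (N *ᵥ v))) := by
    intro v
    have e : N *ᵥ (H *ᵥ v) = -(H *ᵥ (N *ᵥ v)) := by
      rw [Matrix.mulVec_mulVec, Matrix.mulVec_mulVec, hNH, Matrix.neg_mulVec]
    rw [e, Matrix.mulVec_neg, dotProduct_neg, inv hH]
  set f : (Fin 2 ⊕ Fin 2 → F) →ₗ[F] (Fin 2 ⊕ Fin 2 → F) := Matrix.toLin' N with hfdef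
  have hfa : ∀ v, f v = N *ᵥ v := fun v => by rw [hfdef, Matrix.toLin'_apply]
  have hff : f ∘ₗ f = 0 := by
    rw [hfdef, ← Matrix.toLin'_mul, hNN, map_zero]
  have hle : LinearMap.range f ≤ LinearMap.ker f := LinearMap.range_le_ker_iff.2 hff
  have hrn := f.finrank_range_add_finrank_ker
  have hV : Module.finrank F (Fin 2 ⊕ Fin 2 → F) = 4 := by
    simp [Module.finrank_fintype_fun_eq_card]
  rw [hV] at hrn
  have hmono := Submodule.finrank_mono hle
  have hne4 : Module.finrank F ↥(LinearMap.ker f) ≠ 4 := by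
    intro h4
    have h5 : LinearMap.ker f = ⊤ := Submodule.eq_top_of_finrank_eq (h4.trans hV.symm)
    have h6 : f = 0 := LinearMap.ker_eq_top.1 h5
    apply hN0
    apply Matrix.toLin'.injective
    rw [map_zero]
    exact h6
  have hne3 : Module.finrank F ↥(LinearMap.ker f) ≠ 3 := by
    intro h3
    have hr1 : Module.finrank F ↥(LinearMap.range f) = 1 := by omega
    obtain ⟨⟨u, hu⟩, hu0, hspan⟩ := finrank_eq_one_iff'.1 hr1
    have hu0' : u ≠ 0 := fun h => hu0 (Subtype.ext h)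
    choose ℓ hℓ using (fun v => hspan ⟨f v, LinearMap.mem_range_self f v⟩)
    have hℓ' : ∀ v, N *ᵥ v = ℓ v • u := by
      intro v
      have := congrArg Subtype.val (hℓ v)
      rw [← hfa]
      exact this.symm
    obtain ⟨w₀, hw₀⟩ := exists_ne N hN0
    have hℓ0 : ℓ w₀ ≠ 0 := by
      intro h
      apply hw₀
      rw [hℓ', h, zero_smul]
    have sym' : ∀ v w : Fin 2 ⊕ Fin 2 → F,
        ℓ w * (v ⬝ᵥ (J (Fin 2) F *ᵥ u)) = ℓ v * (w ⬝ᵥ (J (Fin 2) F *ᵥ u)) := by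
      intro v w
      have := sym v w
      rw [hℓ', hℓ', Matrix.mulVec_smul, Matrix.mulVec_smul, dotProduct_smul, dotProduct_smul,
        smul_eq_mul, smul_eq_mul] at this
      exact this
    set κ : F := w₀ ⬝ᵥ (J (Fin 2) F *ᵥ u) with hκ
    have hκ0 : κ ≠ 0 := by
      intro h
      apply hu0'
      apply nondeg
      intro v
      have := sym' v w₀
      rw [← hκ, h, mul_zero] at this
      exact (mul_eq_zero.1 this).resolve_left hℓ0
    have hQv : ∀ v : Fin 2 ⊕ Fin 2 → F,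
        ℓ w₀ * (v ⬝ᵥ (J (Fin 2) F *ᵥ (N *ᵥ v))) = ℓ v * ℓ v * κ := by
      intro v
      rw [hℓ', Matrix.mulVec_smul, dotProduct_smul, smul_eq_mul]
      have := sym' v w₀
      rw [← hκ] at this
      linear_combination ℓ v * this
    have e1 := hQv (H *ᵥ w₀)
    rw [hQ, mul_neg, hQv] at e1
    have e2 : (ℓ (H *ᵥ w₀) / ℓ w₀) ^ 2 = -1 := by
      have : ℓ (H *ᵥ w₀) * ℓ (H *ᵥ w₀) = -(ℓ w₀ * ℓ w₀) := by
        apply mul_right_cancel₀ hκ0
        linear_combination -e1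
      field_simp
      linear_combination this
    exact no_sq hF _ e2
  have hk2 : Module.finrank F ↥(LinearMap.ker f) = 2 := by omega
  have hfeq : Matrix.toLin' Y - LinearMap.id = f := by
    rw [hfdef, hNdef, map_sub, Matrix.toLin'_one]
  refine ⟨by rw [hfeq]; exact hk2, ?_⟩
  intro v w hv hw
  have hrk : LinearMap.range f = LinearMap.ker f :=
    Submodule.eq_of_le_of_finrank_eq hle (by omega)
  have hvk : v ∈ LinearMap.ker f := by
    rw [LinearMap.mem_ker, hfa, hNdef, Matrix.sub_mulVec, hv, Matrix.one_mulVec, sub_self]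
  rw [← hrk] at hvk
  obtain ⟨a, ha⟩ := hvk
  rw [hfa, hNdef, Matrix.sub_mulVec, Matrix.one_mulVec] at ha
  rw [← ha, sub_dotProduct]
  have := inv hY a w
  rw [hw] at this
  rw [this, sub_self]

end core

section sl2
variable {K : Type*} [Field K] [Fintype K]

omit [Fintype K] in
lemma conj_aux (a b c d p q r : K) (hdet : a * d - b * c = 1)
    (hlin : p * (a - d) + q * c + b * r = 0) :
    !![a, b; c, d] * !![p, q; r, -p] * !![a, b; c, d] = !![p, q; r, -p] := by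
  rw [Matrix.mul_fin_two, Matrix.mul_fin_two]
  have e11 : (a * p + b * r) * a + (a * q + b * -p) * c = p := by
    linear_combination a * hlin + p * hdet
  have e12 : (a * p + b * r) * b + (a * q + b * -p) * d = q := by
    linear_combination b * hlin + q * hdet
  have e21 : (c * p + d * r) * a + (c * q + d * -p) * c = r := by
    linear_combination c * hlin + r * hdet
  have e22 : (c * p + d * r) * b + (c * q + d * -p) * d = -p := by
    linear_combination d * hlin - p * hdet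
  rw [e11, e12, e21, e22]

/-- Every element of `SL₂` over the field with five elements is inverted by some element. -/
theorem real_sl2 (hK : Fintype.card K = 5) (x : Matrix.SpecialLinearGroup (Fin 2) K) :
    ∃ g : Matrix.SpecialLinearGroup (Fin 2) K, x * g * x = g := by
  have h5 : (5 : K) = 0 := by
    have := Nat.cast_card_eq_zero K
    rw [hK] at this
    exact_mod_cast this
  have hx : (x : Matrix (Fin 2) (Fin 2) K) = !![x 0 0, x 0 1; x 1 0, x 1 1] :=
    Matrix.eta_fin_two _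
  have hdet : x 0 0 * x 1 1 - x 0 1 * x 1 0 = 1 := by
    have := x.det_coe
    rw [Matrix.det_fin_two] at this
    exact this
  have aux : ∀ p q r : K, p * (x 0 0 - x 1 1) + q * x 1 0 + x 0 1 * r = 0 →
      p * -p - q * r = 1 → ∃ g : Matrix.SpecialLinearGroup (Fin 2) K, x * g * x = g := by
    intro p q r hlin hdetg
    have hdg : (!![p, q; r, -p] : Matrix (Fin 2) (Fin 2) K).det = 1 := by
      rw [Matrix.det_fin_two_of]; exact hdetg
    let g : Matrix.SpecialLinearGroup (Fin 2) K := ⟨!![p, q; r, -p], hdg⟩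
    have hg : (g : Matrix (Fin 2) (Fin 2) K) = !![p, q; r, -p] := rfl
    refine ⟨g, ?_⟩
    apply Subtype.ext
    rw [Matrix.SpecialLinearGroup.coe_mul, Matrix.SpecialLinearGroup.coe_mul, hg, hx]
    exact conj_aux _ _ _ _ p q r hdet hlin
  by_cases hb : x 0 1 = 0
  · by_cases hc : x 1 0 = 0
    · exact aux 0 1 (-1) (by rw [hb, hc]; ring) (by ring)
    · exact aux 2 (-2 * (x 0 0 - x 1 1) / x 1 0) 0 (by field_simp; ring)
        (by linear_combination (-1 : K) * h5)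
  · exact aux 2 0 (-2 * (x 0 0 - x 1 1) / x 0 1) (by field_simp; ring)
      (by linear_combination (-1 : K) * h5)

end sl2

end Cfsg.Agent.Helper20.Sp43
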