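import Mathlib
import Cfsg.Agent.S0764
import Cfsg.Agent.S0765
import Cfsg.Agent.S0766

/-!
# Symplectic groups: transvection sets, block-upper-triangular calculus (Siegel parabolic)
-/

set_option autoImplicit false

namespace Cfsg.Agent.Helper20.SpGen

open Matrix

/-- the symplectic group as a type -/
abbrev SpG (n : ℕ) (F : Type*) [Field F] := ↥(Matrix.symplecticGroup (Fin n) F)

/-- the natural module -/
abbrev VV (n : ℕ) (F : Type*) := Fin n ⊕ Fin n → F

/-- matrices on the natural module -/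
abbrev MM (n : ℕ) (F : Type*) := Matrix (Fin n ⊕ Fin n) (Fin n ⊕ Fin n) F

/-- the special linear group -/
abbrev SLn (n : ℕ) (F : Type*) [Field F] := Matrix.SpecialLinearGroup (Fin n) F

variable {F : Type*} [Field F] {n : ℕ}

theorem J_elim (x y : Fin n → F) :
    Matrix.J (Fin n) F *ᵥ Sum.elim x y = Sum.elim (-y) x := by
  rw [Matrix.J, Matrix.fromBlocks_mulVec]
  simp [Matrix.neg_mulVec]

theorem form_elim (x y x' y' : Fin n → F) :
    Cfsg.sympForm n F (Sum.elim x y) (Sum.elim x' y') = y ⬝ᵥ x' - x ⬝ᵥ y' := by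
  unfold Cfsg.sympForm
  rw [J_elim, sumElim_dotProduct_sumElim, dotProduct_neg]
  ring

theorem elim_add (x y x' y' : Fin n → F) :
    (Sum.elim x y : VV n F) + Sum.elim x' y' = Sum.elim (x + x') (y + y') := by
  ext (i | i) <;> simp

theorem elim_smul (a : F) (x y : Fin n → F) :
    a • (Sum.elim x y : VV n F) = Sum.elim (a • x) (a • y) := by
  ext (i | i) <;> simp

/-- symplectic transvection as an element of the symplectic group -/
noncomputable def tvS (n : ℕ) {F : Type*} [Field F] (w : VV n F) (c : F) : SpG n F :=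
  ⟨Cfsg.sympTransvection n w c, Cfsg.Agent.S0764.result n w c⟩

theorem tvS_coe (w : VV n F) (c : F) :
    ((tvS n w c : SpG n F) : MM n F) = Cfsg.sympTransvection n w c := rfl

theorem tvS_mulVec (w : VV n F) (c : F) (v : VV n F) :
    ((tvS n w c : SpG n F) : MM n F) *ᵥ v = v + (c * Cfsg.sympForm n F v w) • w :=
  Cfsg.Agent.S0766.transv_mulVec n w c v

theorem key_J (k : SpG n F) (w : VV n F) :
    (Matrix.J (Fin n) F *ᵥ ((k : MM n F) *ᵥ w)) ᵥ* (k : MM n F) = Matrix.J (Fin n) F *ᵥ w := by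
  have h := SymplecticGroup.mem_iff'.1 k.2
  rw [← Matrix.mulVec_transpose, Matrix.mulVec_mulVec, Matrix.mulVec_mulVec, h]

theorem tv_mul_comm (k : SpG n F) (w : VV n F) (c : F) :
    Cfsg.sympTransvection n ((k : MM n F) *ᵥ w) c * (k : MM n F)
      = (k : MM n F) * Cfsg.sympTransvection n w c := by
  unfold Cfsg.sympTransvection
  rw [Matrix.add_mul, Matrix.one_mul, Matrix.mul_add, Matrix.mul_one, Matrix.smul_mul,
    Matrix.mul_smul, Matrix.vecMulVec_mul, Matrix.mul_vecMulVec, key_J]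

theorem conj_tvS (k : SpG n F) (w : VV n F) (c : F) :
    k * tvS n w c * k⁻¹ = tvS n ((k : MM n F) *ᵥ w) c := by
  have h : tvS n ((k : MM n F) *ᵥ w) c * k = k * tvS n w c :=
    Subtype.ext (tv_mul_comm k w c)
  rw [← h, mul_inv_cancel_right]

/-- the vectors all of whose transvections lie in `K` -/
def AA (K : Subgroup (SpG n F)) : Set (VV n F) := {w | ∀ c : F, tvS n w c ∈ K}

theorem AA_mulVec {K : Subgroup (SpG n F)} {k : SpG n F} (hk : k ∈ K) {w : VV n F}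
    (hw : w ∈ AA K) : (k : MM n F) *ᵥ w ∈ AA K := by
  intro c
  rw [← conj_tvS]
  exact K.mul_mem (K.mul_mem hk (hw c)) (K.inv_mem hk)

theorem tvS_smul (a : F) (w : VV n F) (c : F) : tvS n (a • w) c = tvS n w (c * a * a) := by
  apply Subtype.ext
  show Cfsg.sympTransvection n (a • w) c = Cfsg.sympTransvection n w (c * a * a)
  unfold Cfsg.sympTransvection
  rw [Matrix.mulVec_smul, Matrix.smul_vecMulVec, Matrix.vecMulVec_smul, smul_smul, smul_smul]

theorem AA_smul {K : Subgroup (SpG n F)} {w : VV n F} (hw : w ∈ AA K) (a : F) :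
    a • w ∈ AA K := by
  intro c
  rw [tvS_smul]
  exact hw _

theorem AA_tv {K : Subgroup (SpG n F)} {w t : VV n F} (hw : w ∈ AA K) (ht : t ∈ AA K)
    (c : F) : w + (c * Cfsg.sympForm n F w t) • t ∈ AA K := by
  have h := AA_mulVec (ht c) hw
  rw [tvS_mulVec] at h
  exact h

theorem top_of_AA (K : Subgroup (SpG n F)) (h : ∀ w, w ∈ AA K) : K = ⊤ := by
  rw [eq_top_iff, ← Cfsg.Agent.S0765.result (F := F) n, Subgroup.closure_le]
  rintro A ⟨w, c, hA⟩
  have e : A = tvS n w c := Subtype.ext hA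
  rw [e]
  exact h w c

/-! ### Block upper triangular elements -/

theorem blk_e1 (A B D : Matrix (Fin n) (Fin n) F) :
    (Matrix.fromBlocks A B 0 D)ᵀ * Matrix.J (Fin n) F * Matrix.fromBlocks A B 0 D
      = Matrix.fromBlocks 0 (-(Aᵀ * D)) (Dᵀ * A) (Dᵀ * B - Bᵀ * D) := by
  rw [Matrix.J, Matrix.fromBlocks_transpose, Matrix.fromBlocks_multiply,
    Matrix.fromBlocks_multiply]
  congr 1 <;> simp [sub_eq_add_neg]

theorem blk_rel {k : SpG n F} {A B D : Matrix (Fin n) (Fin n) F}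
    (hk : (k : MM n F) = Matrix.fromBlocks A B 0 D) :
    Aᵀ * D = 1 ∧ Dᵀ * A = 1 ∧ A * Dᵀ = 1 ∧ D * Aᵀ = 1 ∧ Bᵀ * D = Dᵀ * B := by
  have h1 := SymplecticGroup.mem_iff'.1 k.2
  rw [hk, blk_e1, Matrix.J, Matrix.fromBlocks_inj] at h1
  obtain ⟨-, h2, h3, h4⟩ := h1
  have hAD : Aᵀ * D = 1 := neg_injective h2
  have hDA : D * Aᵀ = 1 := mul_eq_one_comm.1 hAD
  refine ⟨hAD, h3, ?_, hDA, (sub_eq_zero.1 h4).symm⟩
  have h5 := congrArg Matrix.transpose hDA
  rwa [Matrix.transpose_mul, Matrix.transpose_transpose, Matrix.transpose_one] at h5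

theorem blk_mem {A B D : Matrix (Fin n) (Fin n) F} (h1 : Aᵀ * D = 1)
    (h2 : Bᵀ * D = Dᵀ * B) :
    Matrix.fromBlocks A B 0 D ∈ Matrix.symplecticGroup (Fin n) F := by
  have h3 : Dᵀ * A = 1 := by
    have h5 := congrArg Matrix.transpose h1
    rwa [Matrix.transpose_mul, Matrix.transpose_transpose, Matrix.transpose_one] at h5
  rw [SymplecticGroup.mem_iff', blk_e1, h1, h2, h3, sub_self, Matrix.J]

theorem blk_inv {k : SpG n F} {A B D : Matrix (Fin n) (Fin n) F}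
    (hk : (k : MM n F) = Matrix.fromBlocks A B 0 D) :
    ((k⁻¹ : SpG n F) : MM n F) = Matrix.fromBlocks Dᵀ (-Bᵀ) 0 Aᵀ := by
  rw [SymplecticGroup.coe_inv, hk, Matrix.J, Matrix.fromBlocks_transpose, Matrix.fromBlocks_neg,
    Matrix.fromBlocks_multiply, Matrix.fromBlocks_multiply]
  congr 1 <;> simp

theorem coe_mul_inv (k : SpG n F) : (k : MM n F) * ((k⁻¹ : SpG n F) : MM n F) = 1 := by
  rw [← Submonoid.coe_mul, mul_inv_cancel]
  rfl

theorem coe_inv_mul (k : SpG n F) : ((k⁻¹ : SpG n F) : MM n F) * (k : MM n F) = 1 := by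
  rw [← Submonoid.coe_mul, inv_mul_cancel]
  rfl

/-- `k` is block upper triangular with lower right block `D` -/
def UB (k : SpG n F) (D : Matrix (Fin n) (Fin n) F) : Prop :=
  ∃ A B : Matrix (Fin n) (Fin n) F, (k : MM n F) = Matrix.fromBlocks A B 0 D

theorem UB_one : UB (1 : SpG n F) (1 : Matrix (Fin n) (Fin n) F) :=
  ⟨1, 0, by rw [OneMemClass.coe_one, Matrix.fromBlocks_one]⟩

theorem UB_mul {k k' : SpG n F} {D D' : Matrix (Fin n) (Fin n) F} (h : UB k D)
    (h' : UB k' D') : UB (k * k') (D * D') := by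
  obtain ⟨A, B, e⟩ := h
  obtain ⟨A', B', e'⟩ := h'
  refine ⟨A * A', A * B' + B * D', ?_⟩
  rw [Submonoid.coe_mul, e, e', Matrix.fromBlocks_multiply]
  congr 1 <;> simp

theorem sl_mul_inv (D : SLn n F) :
    (D : Matrix (Fin n) (Fin n) F) * ((D⁻¹ : SLn n F) : Matrix (Fin n) (Fin n) F) = 1 := by
  rw [← Matrix.SpecialLinearGroup.coe_mul, mul_inv_cancel, Matrix.SpecialLinearGroup.coe_one]

theorem sl_inv_mul (D : SLn n F) :
    ((D⁻¹ : SLn n F) : Matrix (Fin n) (Fin n) F) * (D : Matrix (Fin n) (Fin n) F) = 1 := by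
  rw [← Matrix.SpecialLinearGroup.coe_mul, inv_mul_cancel, Matrix.SpecialLinearGroup.coe_one]

theorem UB_inv {k : SpG n F} {D : SLn n F} (h : UB k (D : Matrix (Fin n) (Fin n) F)) :
    UB k⁻¹ ((D⁻¹ : SLn n F) : Matrix (Fin n) (Fin n) F) := by
  obtain ⟨A, B, e⟩ := h
  have h1 := (blk_rel e).1
  have hA : Aᵀ = ((D⁻¹ : SLn n F) : Matrix (Fin n) (Fin n) F) := by
    calc Aᵀ = Aᵀ * ((D : Matrix (Fin n) (Fin n) F)
          * ((D⁻¹ : SLn n F) : Matrix (Fin n) (Fin n) F)) := by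
          rw [sl_mul_inv, Matrix.mul_one]
      _ = _ := by rw [← Matrix.mul_assoc, h1, Matrix.one_mul]
  exact ⟨_, _, by rw [blk_inv e, hA]⟩

/-- the lower right blocks of the block upper triangular elements of `K` -/
def LevSub (K : Subgroup (SpG n F)) : Subgroup (SLn n F) where
  carrier := {D | ∃ k ∈ K, UB k (D : Matrix (Fin n) (Fin n) F)}
  mul_mem' := by
    rintro D D' ⟨k, hk, h⟩ ⟨k', hk', h'⟩
    exact ⟨k * k', K.mul_mem hk hk', by
      rw [Matrix.SpecialLinearGroup.coe_mul]; exact UB_mul h h'⟩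
  one_mem' := ⟨1, K.one_mem, by rw [Matrix.SpecialLinearGroup.coe_one]; exact UB_one⟩
  inv_mem' := by
    rintro D ⟨k, hk, h⟩
    exact ⟨k⁻¹, K.inv_mem hk, UB_inv h⟩

theorem mem_LevSub {K : Subgroup (SpG n F)} {D : SLn n F} :
    D ∈ LevSub K ↔ ∃ k ∈ K, UB k (D : Matrix (Fin n) (Fin n) F) := Iff.rfl

theorem lev_onto {K : Subgroup (SpG n F)} {D₁ D₂ : SLn n F} (h1 : D₁ ∈ LevSub K)
    (h2 : D₂ ∈ LevSub K) (hcl : Subgroup.closure ({D₁, D₂} : Set (SLn n F)) = ⊤)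
    (D : SLn n F) : D ∈ LevSub K := by
  have h : Subgroup.closure ({D₁, D₂} : Set (SLn n F)) ≤ LevSub K := by
    rw [Subgroup.closure_le]
    rintro x (rfl | rfl)
    · exact h1
    · exact h2
  exact h (hcl ▸ Subgroup.mem_top D)

/-- every `τ ∈ SL_n` is the upper left block of an element of `K` -/
theorem levA_of_levD {K : Subgroup (SpG n F)} (h : ∀ D : SLn n F, D ∈ LevSub K)
    (τ : SLn n F) : ∃ k ∈ K, ∃ B D : Matrix (Fin n) (Fin n) F,
      (k : MM n F) = Matrix.fromBlocks (τ : Matrix (Fin n) (Fin n) F) B 0 D := by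
  obtain ⟨k, hk, A, B, e⟩ := h ⟨((τ⁻¹ : SLn n F) : Matrix (Fin n) (Fin n) F)ᵀ, by
    rw [Matrix.det_transpose]; exact (τ⁻¹).2⟩
  have h1 := (blk_rel e).1
  have h2 : ((τ⁻¹ : SLn n F) : Matrix (Fin n) (Fin n) F) * A = 1 := by
    have h5 := congrArg Matrix.transpose h1
    rwa [Matrix.transpose_mul, Matrix.transpose_transpose, Matrix.transpose_one] at h5
  have hA : A = (τ : Matrix (Fin n) (Fin n) F) := by
    calc A = ((τ : Matrix (Fin n) (Fin n) F)
          * ((τ⁻¹ : SLn n F) : Matrix (Fin n) (Fin n) F)) * A := by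
          rw [sl_mul_inv, Matrix.one_mul]
      _ = _ := by rw [Matrix.mul_assoc, h2, Matrix.mul_one]
  exact ⟨k, hk, B, _, hA ▸ e⟩

/-! ### The unipotent radical part -/

/-- `S ∈ UM K` iff `[1 S; 0 1] ∈ K` -/
def UM (K : Subgroup (SpG n F)) : Set (Matrix (Fin n) (Fin n) F) :=
  {S | ∃ k ∈ K, (k : MM n F) = Matrix.fromBlocks 1 S 0 1}

theorem UM_zero (K : Subgroup (SpG n F)) : (0 : Matrix (Fin n) (Fin n) F) ∈ UM K :=
  ⟨1, K.one_mem, by rw [OneMemClass.coe_one, Matrix.fromBlocks_one]⟩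

theorem UM_symm {K : Subgroup (SpG n F)} {S : Matrix (Fin n) (Fin n) F} (hS : S ∈ UM K) :
    Sᵀ = S := by
  obtain ⟨k, hk, e⟩ := hS
  have h := (blk_rel e).2.2.2.2
  rwa [Matrix.mul_one, Matrix.transpose_one, Matrix.one_mul] at h

theorem UM_add {K : Subgroup (SpG n F)} {S T : Matrix (Fin n) (Fin n) F} (hS : S ∈ UM K)
    (hT : T ∈ UM K) : S + T ∈ UM K := by
  obtain ⟨k, hk, e⟩ := hS
  obtain ⟨l, hl, e'⟩ := hT
  refine ⟨l * k, K.mul_mem hl hk, ?_⟩
  rw [Submonoid.coe_mul, e, e', Matrix.fromBlocks_multiply]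
  congr 1 <;> simp

theorem UM_neg {K : Subgroup (SpG n F)} {S : Matrix (Fin n) (Fin n) F} (hS : S ∈ UM K) :
    -S ∈ UM K := by
  have hs := UM_symm hS
  obtain ⟨k, hk, e⟩ := hS
  refine ⟨k⁻¹, K.inv_mem hk, ?_⟩
  rw [blk_inv e, Matrix.transpose_one, hs]

theorem UM_sub {K : Subgroup (SpG n F)} {S T : Matrix (Fin n) (Fin n) F} (hS : S ∈ UM K)
    (hT : T ∈ UM K) : S - T ∈ UM K := by
  rw [sub_eq_add_neg]
  exact UM_add hS (UM_neg hT)

theorem UM_sum {K : Subgroup (SpG n F)} {ι : Type*} (s : Finset ι)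
    (f : ι → Matrix (Fin n) (Fin n) F) (h : ∀ i ∈ s, f i ∈ UM K) : ∑ i ∈ s, f i ∈ UM K := by
  classical
  induction s using Finset.induction_on with
  | empty => rw [Finset.sum_empty]; exact UM_zero K
  | insert a s ha ih =>
    rw [Finset.sum_insert ha]
    exact UM_add (h a (Finset.mem_insert_self a s))
      (ih (fun i hi => h i (Finset.mem_insert_of_mem hi)))

theorem UM_conj {K : Subgroup (SpG n F)} {k : SpG n F} (hk : k ∈ K)
    {A B D : Matrix (Fin n) (Fin n) F} (e : (k : MM n F) = Matrix.fromBlocks A B 0 D)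
    {S : Matrix (Fin n) (Fin n) F} (hS : S ∈ UM K) : A * S * Aᵀ ∈ UM K := by
  obtain ⟨l, hl, e'⟩ := hS
  have h1 := (blk_rel e).1
  refine ⟨k * l * k⁻¹, K.mul_mem (K.mul_mem hk hl) (K.inv_mem hk), ?_⟩
  have hc : Matrix.fromBlocks 1 (A * S * Aᵀ) 0 1 * (k : MM n F) = (k : MM n F) * (l : MM n F) := by
    rw [e, e', Matrix.fromBlocks_multiply, Matrix.fromBlocks_multiply]
    congr 1
    · simp
    · rw [Matrix.one_mul, Matrix.mul_one, Matrix.mul_assoc (A * S), h1, Matrix.mul_one, add_comm]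
    · simp
    · simp
  calc ((k * l * k⁻¹ : SpG n F) : MM n F)
      = (k : MM n F) * (l : MM n F) * ((k⁻¹ : SpG n F) : MM n F) := rfl
    _ = Matrix.fromBlocks 1 (A * S * Aᵀ) 0 1
          * ((k : MM n F) * ((k⁻¹ : SpG n F) : MM n F)) := by
        rw [← hc, Matrix.mul_assoc]
    _ = _ := by rw [coe_mul_inv, Matrix.mul_one]

theorem UM_conj_SL {K : Subgroup (SpG n F)} (h : ∀ D : SLn n F, D ∈ LevSub K) (τ : SLn n F)
    {S : Matrix (Fin n) (Fin n) F} (hS : S ∈ UM K) :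
    (τ : Matrix (Fin n) (Fin n) F) * S * (τ : Matrix (Fin n) (Fin n) F)ᵀ ∈ UM K := by
  obtain ⟨k, hk, B, D, e⟩ := levA_of_levD h τ
  exact UM_conj hk e hS

end Cfsg.Agent.Helper20.SpGen
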