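import Mathlib
import Cfsg.Agent.Helper20.SpGen1

/-!
# Symplectic groups: a generation criterion through the Siegel parabolic
-/

set_option autoImplicit false

namespace Cfsg.Agent.Helper20.SpGen

open Matrix

variable {F : Type*} [Field F] {n : ℕ}

theorem det_tv (a l : Fin n → F) : Matrix.det (1 + vecMulVec a l) = 1 + l ⬝ᵥ a := by
  rw [Matrix.vecMulVec_eq Unit, Matrix.det_one_add_replicateCol_mul_replicateRow]

theorem tv_mulVec' (a l v : Fin n → F) : (1 + vecMulVec a l) *ᵥ v = v + (l ⬝ᵥ v) • a := by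
  rw [Matrix.add_mulVec, Matrix.one_mulVec, Matrix.vecMulVec_mulVec, op_smul_eq_smul]

theorem sl_trans (hn : 2 ≤ n) (i : Fin n) (x : Fin n → F) (hx : x ≠ 0) :
    ∃ τ : SLn n F, (τ : Matrix (Fin n) (Fin n) F) *ᵥ Pi.single i 1 = x := by
  classical
  have e1 : (Pi.single i (1 : F)) ⬝ᵥ (Pi.single i (1 : F)) = 1 := by
    rw [single_dotProduct, Pi.single_eq_same, one_mul]
  by_cases hxi : x i = 0
  · obtain ⟨l, hl⟩ : ∃ l, x l ≠ 0 := by
      by_contra h
      push Not at h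
      exact hx (funext h)
    have hli : l ≠ i := fun h => hl (h ▸ hxi)
    have d1 : Matrix.det (1 + vecMulVec (Pi.single l (x l)) (Pi.single i (1 : F))) = 1 := by
      rw [det_tv, single_dotProduct, Pi.single_eq_of_ne hli.symm, mul_zero, add_zero]
    have d2 : Matrix.det (1 + vecMulVec (x - Pi.single i 1 - Pi.single l (x l))
        ((x l)⁻¹ • Pi.single l (1 : F))) = 1 := by
      rw [det_tv, smul_dotProduct, single_dotProduct, one_mul]
      simp only [Pi.sub_apply, Pi.single_eq_same, Pi.single_eq_of_ne hli, sub_zero, sub_self,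
        smul_eq_mul, mul_zero, add_zero]
    obtain ⟨t1, ht1⟩ : ∃ t : SLn n F, (t : Matrix (Fin n) (Fin n) F)
        = 1 + vecMulVec (Pi.single l (x l)) (Pi.single i (1 : F)) := ⟨⟨_, d1⟩, rfl⟩
    obtain ⟨t2, ht2⟩ : ∃ t : SLn n F, (t : Matrix (Fin n) (Fin n) F)
        = 1 + vecMulVec (x - Pi.single i 1 - Pi.single l (x l))
        ((x l)⁻¹ • Pi.single l (1 : F)) := ⟨⟨_, d2⟩, rfl⟩
    refine ⟨t2 * t1, ?_⟩
    have e2 : ((x l)⁻¹ • Pi.single l (1 : F)) ⬝ᵥ
        (Pi.single i (1 : F) + (1 : F) • Pi.single l (x l)) = 1 := by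
      rw [smul_dotProduct, single_dotProduct, one_mul, Pi.add_apply, Pi.smul_apply,
        Pi.single_eq_same, Pi.single_eq_of_ne hli, zero_add, smul_eq_mul, smul_eq_mul, one_mul,
        inv_mul_cancel₀ hl]
    have e3 : (t1 : Matrix (Fin n) (Fin n) F) *ᵥ Pi.single i 1
        = Pi.single i (1 : F) + (1 : F) • Pi.single l (x l) := by
      rw [ht1, tv_mulVec', e1]
    rw [Matrix.SpecialLinearGroup.coe_mul, ← Matrix.mulVec_mulVec, e3, ht2, tv_mulVec', e2,
      one_smul, one_smul]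
    abel
  · haveI : Nontrivial (Fin n) := Fin.nontrivial_iff_two_le.2 hn
    obtain ⟨l, hli⟩ := exists_ne i
    have e0 : (Pi.single l (1 : F)) ⬝ᵥ (Pi.single i (1 : F)) = 0 := by
      rw [single_dotProduct, Pi.single_eq_of_ne hli, mul_zero]
    have d : Matrix.det ((1 + vecMulVec (x - Pi.single i 1) (Pi.single i (1 : F)))
        * (1 + vecMulVec (((x i)⁻¹ - 1) • Pi.single l (1 : F)) (Pi.single l (1 : F)))) = 1 := by
      rw [Matrix.det_mul, det_tv, det_tv, single_dotProduct, single_dotProduct, one_mul, one_mul,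
        Pi.sub_apply, Pi.single_eq_same, Pi.smul_apply, Pi.single_eq_same, smul_eq_mul, mul_one]
      have e : (1 + (x i - 1)) * (1 + ((x i)⁻¹ - 1)) = x i * (x i)⁻¹ := by ring
      rw [e, mul_inv_cancel₀ hxi]
    refine ⟨⟨_, d⟩, ?_⟩
    show ((1 + vecMulVec (x - Pi.single i 1) (Pi.single i (1 : F)))
        * (1 + vecMulVec (((x i)⁻¹ - 1) • Pi.single l (1 : F)) (Pi.single l (1 : F))))
        *ᵥ Pi.single i 1 = x
    have e3 : (1 + vecMulVec (((x i)⁻¹ - 1) • Pi.single l (1 : F)) (Pi.single l (1 : F)))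
        *ᵥ Pi.single i 1 = Pi.single i (1 : F) := by
      rw [tv_mulVec', e0, zero_smul, add_zero]
    rw [← Matrix.mulVec_mulVec, e3, tv_mulVec', e1, one_smul]
    abel

theorem two_squares [Fintype F] (z : F) : ∃ a b : F, a ^ 2 + b ^ 2 = z := by
  classical
  by_cases h2 : ringChar F = 2
  · obtain ⟨a, ha⟩ := FiniteField.isSquare_of_char_two h2 z
    exact ⟨a, 0, by rw [ha]; ring⟩
  · have hodd : Fintype.card F % 2 = 1 := FiniteField.odd_card_of_char_ne_two h2
    obtain ⟨a, b, hab⟩ := FiniteField.exists_root_sum_quadratic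
      (f := (Polynomial.X : Polynomial F) ^ 2) (g := Polynomial.X ^ 2 - Polynomial.C z)
      (Polynomial.degree_X_pow 2) (Polynomial.degree_X_pow_sub_C (by decide) _) hodd
    refine ⟨a, b, ?_⟩
    rw [← sub_eq_zero]
    simpa only [Polynomial.eval_C, Polynomial.eval_X, Polynomial.eval_pow, Polynomial.eval_sub,
      ← add_sub_assoc] using hab

theorem vmv_smul_smul (a : F) (x : Fin n → F) :
    vecMulVec (a • x) (a • x) = (a * a) • vecMulVec x x := by
  rw [Matrix.smul_vecMulVec, Matrix.vecMulVec_smul, smul_smul]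

theorem conj_vmv (τ : Matrix (Fin n) (Fin n) F) (c : F) (x y : Fin n → F) :
    τ * (c • vecMulVec x y) * τᵀ = c • vecMulVec (τ *ᵥ x) (τ *ᵥ y) := by
  rw [Matrix.mul_smul, Matrix.smul_mul, Matrix.mul_vecMulVec, Matrix.vecMulVec_mul,
    Matrix.vecMul_transpose]

theorem vmv_zero : vecMulVec (0 : Fin n → F) (0 : Fin n → F) = 0 := by
  ext a b
  simp [vecMulVec_apply]

theorem tv_inl (x : Fin n → F) (c : F) :
    Cfsg.sympTransvection n (Sum.elim x 0 : VV n F) c
      = Matrix.fromBlocks 1 (c • vecMulVec x x) 0 1 := by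
  unfold Cfsg.sympTransvection
  rw [J_elim]
  ext (i | i) (j | j) <;> simp [vecMulVec_apply, Matrix.one_apply]

theorem AA_inl_of_UM {K : Subgroup (SpG n F)}
    (h : ∀ (x : Fin n → F) (c : F), c • vecMulVec x x ∈ UM K) (x : Fin n → F) :
    (Sum.elim x 0 : VV n F) ∈ AA K := by
  intro c
  obtain ⟨k, hk, e⟩ := h x c
  have e2 : tvS n (Sum.elim x 0 : VV n F) c = k := by
    apply Subtype.ext
    rw [e, tvS_coe, tv_inl]
  rw [e2]
  exact hk

theorem UM_rank_one [Fintype F] (hn : 2 ≤ n) {K : Subgroup (SpG n F)}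
    (hlev : ∀ D : SLn n F, D ∈ LevSub K) (c₀ : F) (hc₀ : c₀ ≠ 0) (i : Fin n)
    (h : c₀ • vecMulVec (Pi.single i (1 : F)) (Pi.single i (1 : F)) ∈ UM K)
    (x : Fin n → F) (c : F) : c • vecMulVec x x ∈ UM K := by
  have h1 : ∀ y : Fin n → F, c₀ • vecMulVec y y ∈ UM K := by
    intro y
    by_cases hy : y = 0
    · rw [hy, vmv_zero, smul_zero]
      exact UM_zero K
    · obtain ⟨τ, hτ⟩ := sl_trans hn i y hy
      have h2 := UM_conj_SL hlev τ h
      rwa [conj_vmv, hτ] at h2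
  obtain ⟨a, b, hab⟩ := two_squares (c / c₀)
  have h2 := UM_add (h1 (a • x)) (h1 (b • x))
  rw [vmv_smul_smul, vmv_smul_smul, smul_smul, smul_smul, ← add_smul] at h2
  have e : c₀ * (a * a) + c₀ * (b * b) = c := by
    have h3 : a * a + b * b = c / c₀ := by rw [← hab]; ring
    rw [← mul_add, h3]
    field_simp
  rwa [e] at h2

/-- **Siegel criterion**: a subgroup containing all transvections with centre in the
Lagrangian `L`, mapping onto `SL_n` in the Levi factor, and having a transvection with centre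
outside `L`, is the whole symplectic group. -/
theorem top_of_siegel (hn : 2 ≤ n) (K : Subgroup (SpG n F))
    (hL : ∀ x : Fin n → F, (Sum.elim x 0 : VV n F) ∈ AA K)
    (hlev : ∀ D : SLn n F, D ∈ LevSub K)
    (x₀ y₀ : Fin n → F) (hy₀ : y₀ ≠ 0) (h₀ : (Sum.elim x₀ y₀ : VV n F) ∈ AA K) : K = ⊤ := by
  classical
  have G : ∀ x z : Fin n → F, (Sum.elim x y₀ : VV n F) ∈ AA K → y₀ ⬝ᵥ z ≠ 0 →
      (Sum.elim (x + z) y₀ : VV n F) ∈ AA K := by
    intro x z hx hz
    have h := AA_tv hx (hL z) (y₀ ⬝ᵥ z)⁻¹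
    rw [form_elim, dotProduct_zero, sub_zero, inv_mul_cancel₀ hz, one_smul, elim_add,
      add_zero] at h
    exact h
  have H : ∀ x : Fin n → F, (Sum.elim x y₀ : VV n F) ∈ AA K := by
    intro x
    obtain ⟨l, hl⟩ : ∃ l, y₀ l ≠ 0 := by
      by_contra h
      push Not at h
      exact hy₀ (funext h)
    have hz1 : y₀ ⬝ᵥ Pi.single l (1 : F) ≠ 0 := by
      rw [dotProduct_single, mul_one]
      exact hl
    by_cases hd : y₀ ⬝ᵥ (x - x₀) = 0
    · have h1 := G x₀ (Pi.single l 1) h₀ hz1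
      have h2 := G _ (x - x₀ - Pi.single l 1) h1 (by
        rw [dotProduct_sub, hd, zero_sub]
        exact neg_ne_zero.2 hz1)
      have e : x₀ + Pi.single l 1 + (x - x₀ - Pi.single l 1) = x := by abel
      rwa [e] at h2
    · have h1 := G x₀ (x - x₀) h₀ hd
      have e : x₀ + (x - x₀) = x := by abel
      rwa [e] at h1
  have Y : ∀ (D : SLn n F) (y : Fin n → F), (∀ x, (Sum.elim x y : VV n F) ∈ AA K) →
      ∀ x, (Sum.elim x ((D : Matrix (Fin n) (Fin n) F) *ᵥ y) : VV n F) ∈ AA K := by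
    intro D y hy x
    obtain ⟨k, hk, A, B, e⟩ := mem_LevSub.1 (hlev D)
    have h3 := (blk_rel e).2.2.1
    have h := AA_mulVec hk (hy ((D : Matrix (Fin n) (Fin n) F)ᵀ *ᵥ (x - B *ᵥ y)))
    rw [e, Matrix.fromBlocks_mulVec, Sum.elim_comp_inl, Sum.elim_comp_inr,
      Matrix.mulVec_mulVec, h3, Matrix.one_mulVec,
      Matrix.zero_mulVec, zero_add, sub_add_cancel] at h
    exact h
  apply top_of_AA
  intro w
  obtain ⟨x, y, rfl⟩ : ∃ x y : Fin n → F, w = Sum.elim x y :=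
    ⟨_, _, (Sum.elim_comp_inl_inr w).symm⟩
  by_cases hw : y = 0
  · rw [hw]
    exact hL _
  · obtain ⟨i⟩ : Nonempty (Fin n) := ⟨⟨0, by omega⟩⟩
    obtain ⟨τ₁, h1⟩ := sl_trans hn i y₀ hy₀
    obtain ⟨τ₂, h2⟩ := sl_trans hn i y hw
    have h3 := Y (τ₂ * τ₁⁻¹) y₀ H x
    have e : ((τ₂ * τ₁⁻¹ : SLn n F) : Matrix (Fin n) (Fin n) F) *ᵥ y₀ = y := by
      rw [Matrix.SpecialLinearGroup.coe_mul, ← h1, Matrix.mulVec_mulVec, Matrix.mul_assoc,
        sl_inv_mul, Matrix.mul_one, h2]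
    rwa [e] at h3

end Cfsg.Agent.Helper20.SpGen
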