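import Mathlib
import Cfsg.Agent.Helper20.SpGen2

/-!
# Symplectic groups: a regular unipotent element in the Siegel parabolic
-/

set_option autoImplicit false

namespace Cfsg.Agent.Helper20.SpGen

open Matrix

variable {F : Type*} [Field F] {n : ℕ}

theorem nilp_pow_fin (d : ℕ) (N : Matrix (Fin d) (Fin d) F)
    (hN : IsNilpotent N) : N ^ d = 0 := by
  have h1 : IsNilpotent (N.charpoly - Polynomial.X ^ (Fintype.card (Fin d))) :=
    Matrix.isNilpotent_charpoly_sub_pow_of_isNilpotent hN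
  have h2 : N.charpoly = Polynomial.X ^ d := by
    have := h1.eq_zero
    rw [Fintype.card_fin] at this
    exact sub_eq_zero.mp this
  have h3 := Matrix.aeval_self_charpoly N
  rw [h2] at h3
  simpa using h3

/-- the element with blocks `(D⁻¹)ᵀ, S D, 0, D` -/
noncomputable def mkU (D : SLn n F) (S : Matrix (Fin n) (Fin n) F) (hS : Sᵀ = S) : SpG n F :=
  ⟨Matrix.fromBlocks ((D⁻¹ : SLn n F) : Matrix (Fin n) (Fin n) F)ᵀ
      (S * (D : Matrix (Fin n) (Fin n) F)) 0 (D : Matrix (Fin n) (Fin n) F),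
    blk_mem (by rw [Matrix.transpose_transpose, sl_inv_mul])
      (by rw [Matrix.transpose_mul, hS, Matrix.mul_assoc])⟩

theorem mkU_coe (D : SLn n F) (S : Matrix (Fin n) (Fin n) F) (hS : Sᵀ = S) :
    ((mkU D S hS : SpG n F) : MM n F)
      = Matrix.fromBlocks ((D⁻¹ : SLn n F) : Matrix (Fin n) (Fin n) F)ᵀ
      (S * (D : Matrix (Fin n) (Fin n) F)) 0 (D : Matrix (Fin n) (Fin n) F) := rfl

theorem mkU_UB (D : SLn n F) (S : Matrix (Fin n) (Fin n) F) (hS : Sᵀ = S) :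
    UB (mkU D S hS) (D : Matrix (Fin n) (Fin n) F) := ⟨_, _, mkU_coe D S hS⟩

theorem blk_pow_ex (P Q R : Matrix (Fin n) (Fin n) F) (k : ℕ) :
    ∃ X, (Matrix.fromBlocks P Q 0 R) ^ k = Matrix.fromBlocks (P ^ k) X 0 (R ^ k) := by
  induction k with
  | zero => exact ⟨0, by rw [pow_zero, pow_zero, pow_zero, Matrix.fromBlocks_one]⟩
  | succ k ih =>
    obtain ⟨X, hX⟩ := ih
    refine ⟨P ^ k * Q + X * R, ?_⟩
    rw [pow_succ, hX, Matrix.fromBlocks_multiply, pow_succ, pow_succ]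
    simp

theorem blk_top (P Q R : Matrix (Fin n) (Fin n) F) (m : ℕ) (hP : P ^ (m + 1) = 0)
    (hR : R ^ (m + 1) = 0) :
    (Matrix.fromBlocks P Q 0 R) ^ (2 * m + 1) = Matrix.fromBlocks 0 (P ^ m * Q * R ^ m) 0 0 := by
  obtain ⟨X, hX⟩ := blk_pow_ex P Q R m
  have e : 2 * m + 1 = m + 1 + m := by ring
  have hP' : P ^ m * P = 0 := by rw [← pow_succ]; exact hP
  have hR' : R ^ m * R = 0 := by rw [← pow_succ]; exact hR
  have hR'' : R * R ^ m = 0 := by rw [← pow_succ']; exact hR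
  rw [e, pow_add, pow_succ, hX, Matrix.fromBlocks_multiply, Matrix.fromBlocks_multiply, hP', hR']
  have e2 : (P ^ m * Q + X * R) * R ^ m = P ^ m * Q * R ^ m := by
    rw [Matrix.add_mul, Matrix.mul_assoc X R, hR'', mul_zero, add_zero]
  simp only [mul_zero, zero_mul, add_zero, zero_add, e2]

theorem blk_nilp (P Q R : Matrix (Fin n) (Fin n) F) (m : ℕ) (hP : P ^ (m + 1) = 0)
    (hR : R ^ (m + 1) = 0) : IsNilpotent (Matrix.fromBlocks P Q 0 R) := by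
  refine ⟨2 * m + 1 + 1, ?_⟩
  have h : P ^ m * Q * R ^ m * R = 0 := by
    rw [Matrix.mul_assoc, ← pow_succ, hR, mul_zero]
  rw [pow_succ, blk_top P Q R m hP hR, Matrix.fromBlocks_multiply, h]
  simp

section reg

variable (D : SLn n F) (m : ℕ)

theorem D_mul_pow (hN : ((D : Matrix (Fin n) (Fin n) F) - 1) ^ (m + 1) = 0) :
    (D : Matrix (Fin n) (Fin n) F) * ((D : Matrix (Fin n) (Fin n) F) - 1) ^ m
      = ((D : Matrix (Fin n) (Fin n) F) - 1) ^ m := by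
  calc (D : Matrix (Fin n) (Fin n) F) * ((D : Matrix (Fin n) (Fin n) F) - 1) ^ m
      = (((D : Matrix (Fin n) (Fin n) F) - 1) + 1) * ((D : Matrix (Fin n) (Fin n) F) - 1) ^ m := by
        rw [sub_add_cancel]
    _ = ((D : Matrix (Fin n) (Fin n) F) - 1) ^ m := by
        rw [Matrix.add_mul, ← pow_succ', hN, zero_add, Matrix.one_mul]

theorem E_mul_pow (hN : ((D : Matrix (Fin n) (Fin n) F) - 1) ^ (m + 1) = 0) :
    ((D⁻¹ : SLn n F) : Matrix (Fin n) (Fin n) F) * ((D : Matrix (Fin n) (Fin n) F) - 1) ^ m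
      = ((D : Matrix (Fin n) (Fin n) F) - 1) ^ m := by
  conv_lhs => rw [← D_mul_pow D m hN]
  rw [← Matrix.mul_assoc, sl_inv_mul, Matrix.one_mul]

theorem Epow_mul_pow (hN : ((D : Matrix (Fin n) (Fin n) F) - 1) ^ (m + 1) = 0) (k : ℕ) :
    ((D⁻¹ : SLn n F) : Matrix (Fin n) (Fin n) F) ^ k * ((D : Matrix (Fin n) (Fin n) F) - 1) ^ m
      = ((D : Matrix (Fin n) (Fin n) F) - 1) ^ m := by
  induction k with
  | zero => rw [pow_zero, Matrix.one_mul]
  | succ k ih => rw [pow_succ, Matrix.mul_assoc, E_mul_pow D m hN, ih]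

theorem E_sub_one_pow (k : ℕ) :
    (((D⁻¹ : SLn n F) : Matrix (Fin n) (Fin n) F) - 1) ^ k
      = (-1 : F) ^ k • (((D⁻¹ : SLn n F) : Matrix (Fin n) (Fin n) F) ^ k
        * ((D : Matrix (Fin n) (Fin n) F) - 1) ^ k) := by
  have e1 : ((D⁻¹ : SLn n F) : Matrix (Fin n) (Fin n) F) - 1
      = (-1 : F) • (((D⁻¹ : SLn n F) : Matrix (Fin n) (Fin n) F)
        * ((D : Matrix (Fin n) (Fin n) F) - 1)) := by
    rw [Matrix.mul_sub, sl_inv_mul, Matrix.mul_one, neg_smul, one_smul, neg_sub]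
  have hc : Commute ((D⁻¹ : SLn n F) : Matrix (Fin n) (Fin n) F)
      ((D : Matrix (Fin n) (Fin n) F) - 1) := by
    show _ * _ = _ * _
    rw [Matrix.mul_sub, Matrix.sub_mul, sl_inv_mul, sl_mul_inv, Matrix.mul_one, Matrix.one_mul]
  rw [e1, smul_pow, hc.mul_pow]

theorem P_pow (k : ℕ) :
    (((D⁻¹ : SLn n F) : Matrix (Fin n) (Fin n) F)ᵀ - 1) ^ k
      = (-1 : F) ^ k • (((D⁻¹ : SLn n F) : Matrix (Fin n) (Fin n) F) ^ k
        * ((D : Matrix (Fin n) (Fin n) F) - 1) ^ k)ᵀ := by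
  have e : ((D⁻¹ : SLn n F) : Matrix (Fin n) (Fin n) F)ᵀ - 1
      = (((D⁻¹ : SLn n F) : Matrix (Fin n) (Fin n) F) - 1)ᵀ := by
    rw [Matrix.transpose_sub, Matrix.transpose_one]
  rw [e, ← Matrix.transpose_pow, E_sub_one_pow, Matrix.transpose_smul]

theorem P_pow_top (hN : ((D : Matrix (Fin n) (Fin n) F) - 1) ^ (m + 1) = 0) :
    (((D⁻¹ : SLn n F) : Matrix (Fin n) (Fin n) F)ᵀ - 1) ^ (m + 1) = 0 := by
  rw [P_pow, hN, mul_zero, Matrix.transpose_zero, smul_zero]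

theorem P_pow_m (hN : ((D : Matrix (Fin n) (Fin n) F) - 1) ^ (m + 1) = 0) :
    (((D⁻¹ : SLn n F) : Matrix (Fin n) (Fin n) F)ᵀ - 1) ^ m
      = (-1 : F) ^ m • (((D : Matrix (Fin n) (Fin n) F) - 1) ^ m)ᵀ := by
  rw [P_pow, Epow_mul_pow D m hN]

theorem mkU_sub_one (S : Matrix (Fin n) (Fin n) F) (hS : Sᵀ = S) :
    ((mkU D S hS : SpG n F) : MM n F) - 1
      = Matrix.fromBlocks (((D⁻¹ : SLn n F) : Matrix (Fin n) (Fin n) F)ᵀ - 1)
        (S * (D : Matrix (Fin n) (Fin n) F)) 0 ((D : Matrix (Fin n) (Fin n) F) - 1) := by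
  rw [mkU_coe, ← Matrix.fromBlocks_one]
  ext (a | a) (b | b) <;> simp [Matrix.one_apply]

theorem mkU_nilp (hN : ((D : Matrix (Fin n) (Fin n) F) - 1) ^ (m + 1) = 0)
    (S : Matrix (Fin n) (Fin n) F) (hS : Sᵀ = S) :
    IsNilpotent (((mkU D S hS : SpG n F) : MM n F) - 1) := by
  rw [mkU_sub_one]
  exact blk_nilp _ _ _ m (P_pow_top D m hN) hN

theorem mkU_top (hN : ((D : Matrix (Fin n) (Fin n) F) - 1) ^ (m + 1) = 0)
    (S : Matrix (Fin n) (Fin n) F) (hS : Sᵀ = S) :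
    (((mkU D S hS : SpG n F) : MM n F) - 1) ^ (2 * m + 1)
      = Matrix.fromBlocks 0 ((-1 : F) ^ m • ((((D : Matrix (Fin n) (Fin n) F) - 1) ^ m)ᵀ * S
        * ((D : Matrix (Fin n) (Fin n) F) - 1) ^ m)) 0 0 := by
  rw [mkU_sub_one, blk_top _ _ _ m (P_pow_top D m hN) hN, P_pow_m D m hN,
    Matrix.smul_mul, Matrix.smul_mul, Matrix.mul_assoc _ (S * _), Matrix.mul_assoc S,
    D_mul_pow D m hN, ← Matrix.mul_assoc]

theorem mkU_top_ne (hN : ((D : Matrix (Fin n) (Fin n) F) - 1) ^ (m + 1) = 0)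
    (i j : Fin n) (hν : (((D : Matrix (Fin n) (Fin n) F) - 1) ^ m) i j ≠ 0)
    (hS : (vecMulVec (Pi.single i (1 : F)) (Pi.single i (1 : F)))ᵀ
      = vecMulVec (Pi.single i (1 : F)) (Pi.single i (1 : F))) :
    (((mkU D (vecMulVec (Pi.single i (1 : F)) (Pi.single i (1 : F))) hS : SpG n F) : MM n F) - 1)
      ^ (2 * m + 1) ≠ 0 := by
  classical
  rw [mkU_top D m hN]
  intro h
  have h2 := congr_fun (congr_fun h (Sum.inl j)) (Sum.inr j)
  rw [Matrix.fromBlocks_apply₁₂, Matrix.zero_apply, Matrix.smul_apply, Matrix.mul_vecMulVec,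
    Matrix.vecMulVec_mul, Matrix.vecMulVec_apply] at h2
  have e1 : ((((D : Matrix (Fin n) (Fin n) F) - 1) ^ m)ᵀ *ᵥ Pi.single i (1 : F)) j
      = (((D : Matrix (Fin n) (Fin n) F) - 1) ^ m) i j := by
    simp [Matrix.mulVec, dotProduct_single]
  have e2 : (Pi.single i (1 : F) ᵥ* ((D : Matrix (Fin n) (Fin n) F) - 1) ^ m) j
      = (((D : Matrix (Fin n) (Fin n) F) - 1) ^ m) i j := by
    simp [Matrix.vecMul, single_dotProduct]
  rw [e1, e2, smul_eq_mul] at h2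
  rcases mul_eq_zero.1 h2 with h3 | h3
  · exact pow_ne_zero _ (neg_ne_zero.2 one_ne_zero) h3
  · exact hν (mul_self_eq_zero.1 h3)

theorem vmv_single_symm (i : Fin n) :
    (vecMulVec (Pi.single i (1 : F)) (Pi.single i (1 : F)))ᵀ
      = vecMulVec (Pi.single i (1 : F)) (Pi.single i (1 : F)) := by
  rw [Matrix.transpose_vecMulVec]

end reg

theorem mkU_mulVec (D : SLn n F) (S : Matrix (Fin n) (Fin n) F) (hS : Sᵀ = S)
    (x y : Fin n → F) :
    ((mkU D S hS : SpG n F) : MM n F) *ᵥ Sum.elim x y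
      = Sum.elim (((D⁻¹ : SLn n F) : Matrix (Fin n) (Fin n) F)ᵀ *ᵥ x
          + S *ᵥ ((D : Matrix (Fin n) (Fin n) F) *ᵥ y))
        ((D : Matrix (Fin n) (Fin n) F) *ᵥ y) := by
  rw [mkU_coe, Matrix.fromBlocks_mulVec, Sum.elim_comp_inl, Sum.elim_comp_inr,
    Matrix.zero_mulVec, zero_add, Matrix.mulVec_mulVec]

end Cfsg.Agent.Helper20.SpGen
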