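import Mathlib
import Cfsg.Agent.Helper20.SpGen3

/-!
# Symplectic groups: tools for the explicit treatment of `Sp_4`
-/

set_option autoImplicit false

namespace Cfsg.Agent.Helper20.SpGen

open Matrix

variable {F : Type*} [Field F] {n : ℕ}

theorem coe_of_mul {a b : SpG n F} {M : MM n F} (h : M * (b : MM n F) = (a : MM n F)) :
    ((a * b⁻¹ : SpG n F) : MM n F) = M := by
  calc ((a * b⁻¹ : SpG n F) : MM n F) = (a : MM n F) * ((b⁻¹ : SpG n F) : MM n F) := rfl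
    _ = M * ((b : MM n F) * ((b⁻¹ : SpG n F) : MM n F)) := by rw [← h, Matrix.mul_assoc]
    _ = M := by rw [coe_mul_inv, Matrix.mul_one]

theorem AA_all_x {K : Subgroup (SpG n F)}
    (hL : ∀ x : Fin n → F, (Sum.elim x 0 : VV n F) ∈ AA K)
    (x₀ y₀ : Fin n → F) (hy₀ : y₀ ≠ 0) (h₀ : (Sum.elim x₀ y₀ : VV n F) ∈ AA K)
    (x : Fin n → F) : (Sum.elim x y₀ : VV n F) ∈ AA K := by
  classical
  have G : ∀ x z : Fin n → F, (Sum.elim x y₀ : VV n F) ∈ AA K → y₀ ⬝ᵥ z ≠ 0 →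
      (Sum.elim (x + z) y₀ : VV n F) ∈ AA K := by
    intro x z hx hz
    have h := AA_tv hx (hL z) (y₀ ⬝ᵥ z)⁻¹
    rw [form_elim, dotProduct_zero, sub_zero, inv_mul_cancel₀ hz, one_smul, elim_add,
      add_zero] at h
    exact h
  obtain ⟨l, hl⟩ : ∃ l, y₀ l ≠ 0 := by
    by_contra h
    push Not at h
    exact hy₀ (funext h)
  have hz1 : y₀ ⬝ᵥ Pi.single l (1 : F) ≠ 0 := by
    rw [dotProduct_single, mul_one]
    exact hl
  by_cases hd : y₀ ⬝ᵥ (x - x₀) = 0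
  · have h1 := G x₀ (Pi.single l 1) h₀ hz1
    have h2 := G _ (x - x₀ - Pi.single l 1) h1 (by
      rw [dotProduct_sub, hd, zero_sub]
      exact neg_ne_zero.2 hz1)
    have e : x₀ + Pi.single l 1 + (x - x₀ - Pi.single l 1) = x := by abel
    rwa [e] at h2
  · have h1 := G x₀ (x - x₀) h₀ hd
    have e : x₀ + (x - x₀) = x := by abel
    rwa [e] at h1

/-- the `y` all of whose lifts `(x; y)` are centres of transvection groups in `K` -/
def YY (K : Subgroup (SpG n F)) : Set (Fin n → F) :=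
  {y | ∀ x : Fin n → F, (Sum.elim x y : VV n F) ∈ AA K}

theorem YY_of {K : Subgroup (SpG n F)}
    (hL : ∀ x : Fin n → F, (Sum.elim x 0 : VV n F) ∈ AA K)
    (x₀ y₀ : Fin n → F) (hy₀ : y₀ ≠ 0) (h₀ : (Sum.elim x₀ y₀ : VV n F) ∈ AA K) :
    y₀ ∈ YY K := fun x => AA_all_x hL x₀ y₀ hy₀ h₀ x

theorem YY_smul {K : Subgroup (SpG n F)}
    (hL : ∀ x : Fin n → F, (Sum.elim x 0 : VV n F) ∈ AA K) {y : Fin n → F} (hy : y ∈ YY K)
    (a : F) : a • y ∈ YY K := by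
  intro x
  by_cases ha : a = 0
  · rw [ha, zero_smul]
    exact hL x
  · have h := AA_smul (hy (a⁻¹ • x)) a
    rwa [elim_smul, smul_smul, mul_inv_cancel₀ ha, one_smul] at h

theorem YY_add {K : Subgroup (SpG n F)}
    (hL : ∀ x : Fin n → F, (Sum.elim x 0 : VV n F) ∈ AA K) {y y' : Fin n → F} (hy : y ∈ YY K)
    (hy' : y' ∈ YY K) : y + y' ∈ YY K := by
  classical
  intro ξ
  by_cases h0 : y + y' = 0
  · rw [h0]
    exact hL ξ
  · obtain ⟨l, hl⟩ : ∃ l, (y + y') l ≠ 0 := by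
      by_contra h
      push Not at h
      exact h0 (funext h)
    obtain ⟨s, hs⟩ : ∃ s : F, s * (y l + y' l) = 1 + ξ ⬝ᵥ y' :=
      ⟨(1 + ξ ⬝ᵥ y') / (y + y') l, by rw [← Pi.add_apply]; field_simp⟩
    have h := AA_tv (hy (ξ - s • Pi.single l 1)) (hy' (s • Pi.single l 1)) 1
    have e : Cfsg.sympForm n F (Sum.elim (ξ - s • Pi.single l 1) y)
        (Sum.elim (s • Pi.single l 1) y') = 1 := by
      rw [form_elim, dotProduct_smul, dotProduct_single, sub_dotProduct, smul_dotProduct,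
        single_dotProduct]
      simp only [smul_eq_mul, mul_one, one_mul]
      linear_combination hs
    rw [e, mul_one, one_smul, elim_add, sub_add_cancel] at h
    exact h

theorem hL_of_sym2 {K : Subgroup (SpG 2 F)} (h : ∀ a b d : F, !![a, b; b, d] ∈ UM K)
    (x : Fin 2 → F) : (Sum.elim x 0 : VV 2 F) ∈ AA K := by
  apply AA_inl_of_UM
  intro x c
  have e : c • vecMulVec x x
      = !![c * x 0 * x 0, c * x 0 * x 1; c * x 0 * x 1, c * x 1 * x 1] := by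
    ext i j
    fin_cases i <;> fin_cases j <;> simp [vecMulVec_apply] <;> ring
  rw [e]
  exact h _ _ _

theorem top_of_two {K : Subgroup (SpG 2 F)}
    (hL : ∀ x : Fin 2 → F, (Sum.elim x 0 : VV 2 F) ∈ AA K)
    (κ κ' : F) (hκ : κ * κ' = 1) (h0 : ![0, -1] ∈ YY K) (h1 : ![κ, -1] ∈ YY K) : K = ⊤ := by
  apply top_of_AA
  intro w
  obtain ⟨x, y, rfl⟩ : ∃ x y : Fin 2 → F, w = Sum.elim x y :=
    ⟨_, _, (Sum.elim_comp_inl_inr w).symm⟩
  have e : y = (-(y 1) - y 0 * κ') • ![0, -1] + (y 0 * κ') • ![κ, -1] := by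
    ext i
    fin_cases i
    · simp
      linear_combination (-(y 0)) * hκ
    · simp
  have h := YY_add hL (YY_smul hL h0 (-(y 1) - y 0 * κ')) (YY_smul hL h1 (y 0 * κ'))
  rw [← e] at h
  exact h x

/-- in odd characteristic `2` is invertible in the prime field -/
theorem nat_half [Fintype F] (h2 : (2 : F) ≠ 0) : ∃ m : ℕ, (m : F) * 2 = 1 := by
  obtain ⟨p, hp⟩ := CharP.exists F
  haveI := hp
  have hpp : p.Prime := CharP.char_is_prime F p
  have hp2 : p ≠ 2 := by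
    rintro rfl
    exact h2 (by exact_mod_cast CharP.cast_eq_zero F 2)
  have hodd : p % 2 = 1 := by
    rcases hpp.eq_two_or_odd with h | h
    · exact absurd h hp2
    · exact h
  refine ⟨(p + 1) / 2, ?_⟩
  have e : ((p + 1) / 2) * 2 = p + 1 := by omega
  have e2 : (((p + 1) / 2 : ℕ) : F) * 2 = (((p + 1) / 2 * 2 : ℕ) : F) := by push_cast; ring
  rw [e2, e, Nat.cast_add, CharP.cast_eq_zero F p, zero_add, Nat.cast_one]

/-! ### `4 × 4` matrices written out -/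

/-- a matrix on `Fin 2 ⊕ Fin 2` given by its sixteen entries, row by row -/
def mk4 (a11 a12 a13 a14 a21 a22 a23 a24 a31 a32 a33 a34 a41 a42 a43 a44 : F) : MM 2 F :=
  Matrix.fromBlocks !![a11, a12; a21, a22] !![a13, a14; a23, a24]
    !![a31, a32; a41, a42] !![a33, a34; a43, a44]

theorem mk4_blk (a11 a12 a13 a14 a21 a22 a23 a24 a33 a34 a43 a44 : F) :
    mk4 a11 a12 a13 a14 a21 a22 a23 a24 0 0 a33 a34 0 0 a43 a44
      = Matrix.fromBlocks !![a11, a12; a21, a22] !![a13, a14; a23, a24]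
        0 !![a33, a34; a43, a44] := by
  unfold mk4
  congr 1
  ext i j
  fin_cases i <;> fin_cases j <;> rfl

theorem mk4_uni (a13 a14 a23 a24 : F) :
    mk4 1 0 a13 a14 0 1 a23 a24 0 0 1 0 0 0 0 1
      = Matrix.fromBlocks 1 !![a13, a14; a23, a24] 0 1 := by
  rw [mk4_blk, ← Matrix.one_fin_two]

theorem mk4_mul (a11 a12 a13 a14 a21 a22 a23 a24 a31 a32 a33 a34 a41 a42 a43 a44
    b11 b12 b13 b14 b21 b22 b23 b24 b31 b32 b33 b34 b41 b42 b43 b44 : F) :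
    mk4 a11 a12 a13 a14 a21 a22 a23 a24 a31 a32 a33 a34 a41 a42 a43 a44 *
      mk4 b11 b12 b13 b14 b21 b22 b23 b24 b31 b32 b33 b34 b41 b42 b43 b44
    = mk4 (a11 * b11 + a12 * b21 + a13 * b31 + a14 * b41) (a11 * b12 + a12 * b22 + a13 * b32 + a14 * b42) (a11 * b13 + a12 * b23 + a13 * b33 + a14 * b43) (a11 * b14 + a12 * b24 + a13 * b34 + a14 * b44)
      (a21 * b11 + a22 * b21 + a23 * b31 + a24 * b41) (a21 * b12 + a22 * b22 + a23 * b32 + a24 * b42) (a21 * b13 + a22 * b23 + a23 * b33 + a24 * b43) (a21 * b14 + a22 * b24 + a23 * b34 + a24 * b44)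
      (a31 * b11 + a32 * b21 + a33 * b31 + a34 * b41) (a31 * b12 + a32 * b22 + a33 * b32 + a34 * b42) (a31 * b13 + a32 * b23 + a33 * b33 + a34 * b43) (a31 * b14 + a32 * b24 + a33 * b34 + a34 * b44)
      (a41 * b11 + a42 * b21 + a43 * b31 + a44 * b41) (a41 * b12 + a42 * b22 + a43 * b32 + a44 * b42) (a41 * b13 + a42 * b23 + a43 * b33 + a44 * b43) (a41 * b14 + a42 * b24 + a43 * b34 + a44 * b44) := by
  unfold mk4
  rw [Matrix.fromBlocks_multiply, Matrix.mul_fin_two, Matrix.mul_fin_two, Matrix.mul_fin_two,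
    Matrix.mul_fin_two, Matrix.mul_fin_two, Matrix.mul_fin_two, Matrix.mul_fin_two,
    Matrix.mul_fin_two]
  congr 1 <;> (ext i j; fin_cases i <;> fin_cases j <;> simp <;> ring)

theorem mk4_transpose (a11 a12 a13 a14 a21 a22 a23 a24 a31 a32 a33 a34 a41 a42 a43 a44 : F) :
    (mk4 a11 a12 a13 a14 a21 a22 a23 a24 a31 a32 a33 a34 a41 a42 a43 a44)ᵀ
      = mk4 a11 a21 a31 a41 a12 a22 a32 a42 a13 a23 a33 a43 a14 a24 a34 a44 := by
  unfold mk4
  rw [Matrix.fromBlocks_transpose]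
  congr 1 <;> (ext i j; fin_cases i <;> fin_cases j <;> rfl)

theorem mk4_J : Matrix.J (Fin 2) F = mk4 0 0 (-1) 0 0 0 0 (-1) 1 0 0 0 0 1 0 0 := by
  unfold mk4 Matrix.J
  congr 1 <;> (ext i j; fin_cases i <;> fin_cases j <;> simp)

theorem mk4_one : (1 : MM 2 F) = mk4 1 0 0 0 0 1 0 0 0 0 1 0 0 0 0 1 := by
  unfold mk4
  rw [← Matrix.fromBlocks_one]
  congr 1 <;> (ext i j; fin_cases i <;> fin_cases j <;> simp)

theorem mk4_sub (a11 a12 a13 a14 a21 a22 a23 a24 a31 a32 a33 a34 a41 a42 a43 a44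
    b11 b12 b13 b14 b21 b22 b23 b24 b31 b32 b33 b34 b41 b42 b43 b44 : F) :
    mk4 a11 a12 a13 a14 a21 a22 a23 a24 a31 a32 a33 a34 a41 a42 a43 a44 -
      mk4 b11 b12 b13 b14 b21 b22 b23 b24 b31 b32 b33 b34 b41 b42 b43 b44
    = mk4 (a11 - b11) (a12 - b12) (a13 - b13) (a14 - b14) (a21 - b21) (a22 - b22) (a23 - b23)
      (a24 - b24) (a31 - b31) (a32 - b32) (a33 - b33) (a34 - b34) (a41 - b41) (a42 - b42)
      (a43 - b43) (a44 - b44) := by
  unfold mk4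
  ext (i | i) (j | j) <;> fin_cases i <;> fin_cases j <;> simp

theorem mk4_mem {a11 a12 a13 a14 a21 a22 a23 a24 a31 a32 a33 a34 a41 a42 a43 a44 : F}
    (h : mk4 a11 a21 a31 a41 a12 a22 a32 a42 a13 a23 a33 a43 a14 a24 a34 a44
      * mk4 0 0 (-1) 0 0 0 0 (-1) 1 0 0 0 0 1 0 0
      * mk4 a11 a12 a13 a14 a21 a22 a23 a24 a31 a32 a33 a34 a41 a42 a43 a44
      = mk4 0 0 (-1) 0 0 0 0 (-1) 1 0 0 0 0 1 0 0) :
    mk4 a11 a12 a13 a14 a21 a22 a23 a24 a31 a32 a33 a34 a41 a42 a43 a44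
      ∈ Matrix.symplecticGroup (Fin 2) F := by
  rw [SymplecticGroup.mem_iff', mk4_transpose, mk4_J]
  exact h

theorem mk4_mulVec (a11 a12 a13 a14 a21 a22 a23 a24 a31 a32 a33 a34 a41 a42 a43 a44
    x1 x2 y1 y2 : F) :
    mk4 a11 a12 a13 a14 a21 a22 a23 a24 a31 a32 a33 a34 a41 a42 a43 a44
      *ᵥ (Sum.elim ![x1, x2] ![y1, y2] : VV 2 F)
    = Sum.elim ![a11 * x1 + a12 * x2 + a13 * y1 + a14 * y2,
        a21 * x1 + a22 * x2 + a23 * y1 + a24 * y2]
      ![a31 * x1 + a32 * x2 + a33 * y1 + a34 * y2, a41 * x1 + a42 * x2 + a43 * y1 + a44 * y2] := by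
  unfold mk4
  rw [Matrix.fromBlocks_mulVec]
  ext (i | i) <;> fin_cases i <;> simp <;> ring

end Cfsg.Agent.Helper20.SpGen
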