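import Mathlib
import Cfsg.Agent.Helper20.SpGen10

/-!
# Explicit elements of `Sp_4`
-/

set_option autoImplicit false

namespace Cfsg.Agent.Helper20.SpGen

open Matrix

variable {F : Type*} [Field F]

/-- a regular unipotent element of `Sp_4` -/
def w1 (F : Type*) [Field F] : SpG 2 F :=
  ⟨mk4 1 (-1) 0 0 0 1 1 1 0 0 1 0 0 0 1 1,
    mk4_mem (by rw [mk4_mul, mk4_mul]; congr 1 <;> ring)⟩

theorem w1_coe : ((w1 F : SpG 2 F) : MM 2 F) = mk4 1 (-1) 0 0 0 1 1 1 0 0 1 0 0 0 1 1 := rfl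

theorem w1_sub :
    ((w1 F : SpG 2 F) : MM 2 F) - 1 = mk4 0 (-1) 0 0 0 0 1 1 0 0 0 0 0 0 1 0 := by
  rw [w1_coe, mk4_one, mk4_sub]
  congr 1 <;> ring

theorem w1_cube :
    (((w1 F : SpG 2 F) : MM 2 F) - 1) ^ 3 = mk4 0 0 (-1) 0 0 0 0 0 0 0 0 0 0 0 0 0 := by
  rw [w1_sub, pow_succ, pow_two, mk4_mul, mk4_mul]
  congr 1 <;> ring

theorem w1_nilp : IsNilpotent (((w1 F : SpG 2 F) : MM 2 F) - 1) := by
  refine ⟨4, ?_⟩
  rw [pow_succ, w1_cube, w1_sub, mk4_mul]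
  unfold mk4
  ext (i | i) (j | j) <;> fin_cases i <;> fin_cases j <;> simp

theorem w1_ne : (((w1 F : SpG 2 F) : MM 2 F) - 1) ^ (2 * 2 - 1) ≠ 0 := by
  have e : 2 * 2 - 1 = 3 := rfl
  rw [e, w1_cube]
  intro h
  have h1 := congrFun (congrFun h (Sum.inl 0)) (Sum.inr 0)
  simp [mk4] at h1

/-- the conjugating Levi element -/
def gk (κ κ' : F) (h : κ * κ' = 1) : SpG 2 F :=
  ⟨mk4 0 1 0 0 (-κ) 0 0 0 0 0 0 1 0 0 (-κ') 0,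
    mk4_mem (by
      rw [mk4_mul, mk4_mul]
      congr 1 <;> first | ring1 | linear_combination h | linear_combination (-1 : F) * h)⟩

theorem gk_coe (κ κ' : F) (h : κ * κ' = 1) :
    ((gk κ κ' h : SpG 2 F) : MM 2 F) = mk4 0 1 0 0 (-κ) 0 0 0 0 0 0 1 0 0 (-κ') 0 := rfl

/-- the conjugating Weyl element -/
def hh (F : Type*) [Field F] : SpG 2 F :=
  ⟨mk4 1 0 0 0 0 0 0 (-1) 0 0 1 0 0 1 0 0,
    mk4_mem (by rw [mk4_mul, mk4_mul]; congr 1 <;> ring)⟩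

theorem hh_coe : ((hh F : SpG 2 F) : MM 2 F) = mk4 1 0 0 0 0 0 0 (-1) 0 0 1 0 0 1 0 0 := rfl

/-- the second generator -/
def w2 (κ κ' : F) (h : κ * κ' = 1) : SpG 2 F := gk κ κ' h * w1 F * (gk κ κ' h)⁻¹

/-- the third generator -/
def w3 (F : Type*) [Field F] : SpG 2 F := hh F * w1 F * (hh F)⁻¹

theorem w2_coe (κ κ' : F) (h : κ * κ' = 1) :
    ((w2 κ κ' h : SpG 2 F) : MM 2 F) = mk4 1 0 1 (-κ) κ 1 0 0 0 0 1 (-κ) 0 0 0 1 := by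
  unfold w2
  apply coe_of_mul
  rw [Submonoid.coe_mul, gk_coe, w1_coe, mk4_mul, mk4_mul]
  congr 1 <;> first | ring1 | linear_combination h | linear_combination (-1 : F) * h

theorem w3_coe :
    ((w3 F : SpG 2 F) : MM 2 F) = mk4 1 0 0 (-1) 0 1 (-1) 0 0 0 1 0 0 (-1) 1 1 := by
  unfold w3
  apply coe_of_mul
  rw [Submonoid.coe_mul, hh_coe, w1_coe, mk4_mul, mk4_mul]
  congr 1 <;> ring

/-- the seed in odd characteristic -/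
theorem seed4_odd {K : Subgroup (SpG 2 F)} (h1 : w1 F ∈ K) (h3 : w3 F ∈ K) :
    !![(-8 : F), 0; 0, 0] ∈ UM K := by
  have eP : ((w1 F * w3 F : SpG 2 F) : MM 2 F)
      = mk4 1 (-1) 1 (-1) 0 0 1 1 0 0 1 0 0 (-1) 2 1 := by
    rw [Submonoid.coe_mul, w1_coe, w3_coe, mk4_mul]
    congr 1 <;> ring
  have hP : w1 F * w3 F ∈ K := K.mul_mem h1 h3
  have eP3 : ((w1 F * w3 F * (w1 F * w3 F) * (w1 F * w3 F) : SpG 2 F) : MM 2 F)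
      = mk4 1 2 (-6) (-4) 0 (-1) 4 0 0 0 1 0 0 0 2 (-1) := by
    rw [Submonoid.coe_mul, Submonoid.coe_mul, eP, mk4_mul, mk4_mul]
    congr 1 <;> ring
  have hP3 : w1 F * w3 F * (w1 F * w3 F) * (w1 F * w3 F) ∈ K := K.mul_mem (K.mul_mem hP hP) hP
  obtain ⟨p, hp, ep⟩ : ∃ p ∈ K, (p : MM 2 F)
      = mk4 1 2 (-6) (-4) 0 (-1) 4 0 0 0 1 0 0 0 2 (-1) := ⟨_, hP3, eP3⟩
  have eZ : ((w1 F * p * (p * w1 F)⁻¹ : SpG 2 F) : MM 2 F)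
      = mk4 1 (-2) 0 4 0 1 4 0 0 0 1 0 0 0 2 1 := by
    apply coe_of_mul
    rw [Submonoid.coe_mul, Submonoid.coe_mul, ep, w1_coe, mk4_mul, mk4_mul, mk4_mul]
    congr 1 <;> ring
  obtain ⟨z, hz, ez⟩ : ∃ z ∈ K, (z : MM 2 F) = mk4 1 (-2) 0 4 0 1 4 0 0 0 1 0 0 0 2 1 :=
    ⟨_, K.mul_mem (K.mul_mem h1 hp) (K.inv_mem (K.mul_mem hp h1)), eZ⟩
  have eZ' : ((w1 F * z * (w1 F)⁻¹ : SpG 2 F) : MM 2 F)
      = mk4 1 (-2) (-8) 6 0 1 6 0 0 0 1 0 0 0 2 1 := by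
    apply coe_of_mul
    rw [Submonoid.coe_mul, ez, w1_coe, mk4_mul, mk4_mul]
    congr 1 <;> ring
  obtain ⟨z', hz', ez'⟩ : ∃ z ∈ K, (z : MM 2 F)
      = mk4 1 (-2) (-8) 6 0 1 6 0 0 0 1 0 0 0 2 1 :=
    ⟨_, K.mul_mem (K.mul_mem h1 hz) (K.inv_mem h1), eZ'⟩
  have eT : ((z * z' * (z' * z)⁻¹ : SpG 2 F) : MM 2 F)
      = mk4 1 0 (-8) 0 0 1 0 0 0 0 1 0 0 0 0 1 := by
    apply coe_of_mul
    rw [Submonoid.coe_mul, Submonoid.coe_mul, ez, ez', mk4_mul, mk4_mul, mk4_mul]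
    congr 1 <;> ring
  refine ⟨_, K.mul_mem (K.mul_mem hz hz') (K.inv_mem (K.mul_mem hz' hz)), ?_⟩
  rw [eT, mk4_uni]

/-- the square of the regular unipotent element in characteristic `2` -/
theorem seed4_even (h2 : (2 : F) = 0) {K : Subgroup (SpG 2 F)} (h1 : w1 F ∈ K) :
    !![(1 : F), 1; 1, 0] ∈ UM K := by
  refine ⟨w1 F * w1 F, K.mul_mem h1 h1, ?_⟩
  rw [Submonoid.coe_mul, w1_coe, mk4_mul, ← mk4_uni]
  congr 1 <;> first | ring1 | linear_combination h2 | linear_combination (-1 : F) * h2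

/-- a further element of the Siegel parabolic (used in characteristic `2`) -/
theorem q_elt {K : Subgroup (SpG 2 F)} (h3 : w3 F ∈ K) (a : F)
    (ha : !![a, a; a, 0] ∈ UM K) :
    ∃ q ∈ K, ∃ B D : Matrix (Fin 2) (Fin 2) F,
      (q : MM 2 F) = Matrix.fromBlocks !![1, a; 0, 1] B 0 D := by
  obtain ⟨k, hk, ek⟩ := ha
  rw [← mk4_uni] at ek
  refine ⟨w3 F * k * (w3 F)⁻¹, K.mul_mem (K.mul_mem h3 hk) (K.inv_mem h3),
    !![a, a; a, 0], !![1, 0; -a, 1], ?_⟩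
  rw [← mk4_blk 1 a a a 0 1 a 0 1 0 (-a) 1]
  apply coe_of_mul
  rw [Submonoid.coe_mul, ek, w3_coe, mk4_mul, mk4_mul]
  congr 1 <;> ring

theorem w1_blk : ∃ B D : Matrix (Fin 2) (Fin 2) F,
    ((w1 F : SpG 2 F) : MM 2 F) = Matrix.fromBlocks !![1, -1; 0, 1] B 0 D :=
  ⟨_, _, by rw [w1_coe, mk4_blk]⟩

theorem w2_blk (κ κ' : F) (h : κ * κ' = 1) : ∃ B D : Matrix (Fin 2) (Fin 2) F,
    ((w2 κ κ' h : SpG 2 F) : MM 2 F) = Matrix.fromBlocks !![1, 0; κ, 1] B 0 D :=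
  ⟨_, _, by rw [w2_coe, mk4_blk]⟩

end Cfsg.Agent.Helper20.SpGen
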