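import Mathlib
import Cfsg.Agent.Helper20.SpGen11

/-!
# `Sp_4(F)` is generated by three conjugate regular unipotent elements (`|F| > 2`)
-/

set_option autoImplicit false

namespace Cfsg.Agent.Helper20.SpGen

open Matrix

variable {F : Type*} [Field F]

/-- a symmetric `2 × 2` matrix -/
def sy (a b d : F) : Matrix (Fin 2) (Fin 2) F := !![a, b; b, d]

theorem sy_add (a b d a' b' d' : F) :
    sy a b d + sy a' b' d' = sy (a + a') (b + b') (d + d') := by
  unfold sy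
  ext i j
  fin_cases i <;> fin_cases j <;> simp

theorem sy_sub (a b d a' b' d' : F) :
    sy a b d - sy a' b' d' = sy (a - a') (b - b') (d - d') := by
  unfold sy
  ext i j
  fin_cases i <;> fin_cases j <;> simp

theorem sy_zero : sy (0 : F) 0 0 = 0 := by
  unfold sy
  ext i j
  fin_cases i <;> fin_cases j <;> simp

theorem sy_congr {K : Subgroup (SpG 2 F)} {a b d a' b' d' : F} (h : sy a b d ∈ UM K)
    (ha : a = a') (hb : b = b') (hd : d = d') : sy a' b' d' ∈ UM K := by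
  subst ha hb hd
  exact h

theorem sy_plus {K : Subgroup (SpG 2 F)} {a b d a' b' d' : F} (h : sy a b d ∈ UM K)
    (h' : sy a' b' d' ∈ UM K) : sy (a + a') (b + b') (d + d') ∈ UM K := by
  rw [← sy_add]
  exact UM_add h h'

theorem sy_minus {K : Subgroup (SpG 2 F)} {a b d a' b' d' : F} (h : sy a b d ∈ UM K)
    (h' : sy a' b' d' ∈ UM K) : sy (a - a') (b - b') (d - d') ∈ UM K := by
  rw [← sy_sub]
  exact UM_sub h h'

theorem sy_x {K : Subgroup (SpG 2 F)} {k : SpG 2 F} (hk : k ∈ K) {t : F}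
    (e : ∃ B D : Matrix (Fin 2) (Fin 2) F,
      (k : MM 2 F) = Matrix.fromBlocks !![1, t; 0, 1] B 0 D)
    {a b d : F} (h : sy a b d ∈ UM K) :
    sy (a + 2 * b * t + d * t * t) (b + d * t) d ∈ UM K := by
  obtain ⟨B, D, e⟩ := e
  have h1 := UM_conj hk e h
  have e2 : !![1, t; 0, 1] * sy a b d * !![1, t; 0, 1]ᵀ
      = sy (a + 2 * b * t + d * t * t) (b + d * t) d := by
    unfold sy
    ext i j
    fin_cases i <;> fin_cases j <;> simp [Matrix.mul_apply, Fin.sum_univ_two] <;> ring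
  rwa [e2] at h1

theorem sy_y {K : Subgroup (SpG 2 F)} {k : SpG 2 F} (hk : k ∈ K) {t : F}
    (e : ∃ B D : Matrix (Fin 2) (Fin 2) F,
      (k : MM 2 F) = Matrix.fromBlocks !![1, 0; t, 1] B 0 D)
    {a b d : F} (h : sy a b d ∈ UM K) :
    sy a (a * t + b) (a * t * t + 2 * b * t + d) ∈ UM K := by
  obtain ⟨B, D, e⟩ := e
  have h1 := UM_conj hk e h
  have e2 : !![1, 0; t, 1] * sy a b d * !![1, 0; t, 1]ᵀ
      = sy a (a * t + b) (a * t * t + 2 * b * t + d) := by
    unfold sy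
    ext i j
    fin_cases i <;> fin_cases j <;> simp [Matrix.mul_apply, Fin.sum_univ_two] <;> ring
  rwa [e2] at h1

theorem char2_sq [Finite F] (h2 : (2 : F) = 0) (c : F) : ∃ r : F, c = r * r := by
  have hinj : Function.Injective (fun r : F => r * r) := by
    intro r s h
    have h' : r * r = s * s := h
    have e : (r - s) * (r - s) = 0 := by linear_combination h' + (s * s - r * s) * h2
    exact sub_eq_zero.1 (mul_self_eq_zero.1 e)
  obtain ⟨r, hr⟩ := Finite.injective_iff_surjective.1 hinj c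
  exact ⟨r, hr.symm⟩

/-- odd characteristic: the unipotent radical of the Siegel parabolic lies in `K` -/
theorem sym_odd [Fintype F] (h2 : (2 : F) ≠ 0) {K : Subgroup (SpG 2 F)} {k₁ k₂ : SpG 2 F}
    (hk₁ : k₁ ∈ K) (hk₂ : k₂ ∈ K) (κ κ' : F) (hκ : κ * κ' = 1)
    (hgen : ∀ a : F, a ≠ 0 → ∃ l : ℕ, κ ^ l = a)
    (e₁ : ∃ B D : Matrix (Fin 2) (Fin 2) F,
      (k₁ : MM 2 F) = Matrix.fromBlocks !![1, -1; 0, 1] B 0 D)
    (e₂ : ∃ B D : Matrix (Fin 2) (Fin 2) F,
      (k₂ : MM 2 F) = Matrix.fromBlocks !![1, 0; κ, 1] B 0 D)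
    (hseed : sy (-8 : F) 0 0 ∈ UM K) (a b d : F) : sy a b d ∈ UM K := by
  have hz : sy (0 : F) 0 0 ∈ UM K := by
    rw [sy_zero]
    exact UM_zero K
  have hV : ∀ α, sy α 0 0 ∈ UM K → sy α (α * κ) (α * κ * κ) ∈ UM K := by
    intro α h
    exact sy_congr (sy_y hk₂ e₂ h) rfl (by ring) (by ring)
  have hdbl : ∀ α, sy α 0 0 ∈ UM K → sy (2 * (κ * κ * α)) 0 0 ∈ UM K := by
    intro α h
    have h0 := hV α h
    have h1 := sy_x hk₁ e₁ h0
    have h2 := sy_x hk₁ e₁ h1
    exact sy_congr (sy_plus (sy_minus (sy_minus h2 h1) h1) h0) (by ring) (by ring) (by ring)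
  have hadd : ∀ α β, sy α 0 0 ∈ UM K → sy β 0 0 ∈ UM K → sy (α + β) 0 0 ∈ UM K := by
    intro α β h h'
    exact sy_congr (sy_plus h h') rfl (by ring) (by ring)
  have hnat : ∀ (m : ℕ) α, sy α 0 0 ∈ UM K → sy ((m : F) * α) 0 0 ∈ UM K := by
    intro m α h
    induction m with
    | zero =>
      rw [Nat.cast_zero, zero_mul]
      exact hz
    | succ m ih => exact sy_congr (hadd _ _ ih h) (by push_cast; ring) rfl rfl
  obtain ⟨m, hm⟩ := nat_half h2
  have hhalf : ∀ α, sy (2 * α) 0 0 ∈ UM K → sy α 0 0 ∈ UM K := by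
    intro α h
    exact sy_congr (hnat m _ h) (by linear_combination α * hm) rfl rfl
  have hκ2 : ∀ α, sy α 0 0 ∈ UM K → sy (κ * κ * α) 0 0 ∈ UM K := by
    intro α h
    exact hhalf _ (hdbl α h)
  have h8 : sy (2 * (2 * (2 * (1 : F)))) 0 0 ∈ UM K :=
    sy_congr (sy_minus hz hseed) (by ring) (by ring) (by ring)
  have h1 : sy (1 : F) 0 0 ∈ UM K := hhalf _ (hhalf _ (hhalf _ h8))
  have hpow : ∀ l : ℕ, sy (κ ^ l * κ ^ l) 0 0 ∈ UM K := by
    intro l
    induction l with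
    | zero => exact sy_congr h1 (by ring) rfl rfl
    | succ l ih => exact sy_congr (hκ2 _ ih) (by ring) rfl rfl
  have hsq : ∀ c : F, sy (c * c) 0 0 ∈ UM K := by
    intro c
    by_cases hc : c = 0
    · rw [hc, mul_zero]
      exact hz
    · obtain ⟨l, rfl⟩ := hgen c hc
      exact hpow l
  have hall : ∀ α : F, sy α 0 0 ∈ UM K := by
    intro α
    obtain ⟨x, y, hxy⟩ := two_squares α
    exact sy_congr (hadd _ _ (hsq x) (hsq y)) (by rw [← hxy]; ring) rfl rfl
  have hoff' : ∀ α : F, sy 0 (-(α * κ * κ)) 0 ∈ UM K := by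
    intro α
    have h0 := hV α (hall α)
    have h1 := sy_x hk₁ e₁ h0
    exact sy_congr (sy_minus (sy_minus h1 h0) (hall (-2 * α * κ + α * κ * κ)))
      (by ring) (by ring) (by ring)
  have hoff : ∀ β : F, sy 0 β 0 ∈ UM K := by
    intro β
    exact sy_congr (hoff' (-(β * κ' * κ'))) rfl
      (by linear_combination β * (κ * κ' + 1) * hκ) rfl
  have hdd' : ∀ α : F, sy 0 0 (α * κ * κ) ∈ UM K := by
    intro α
    exact sy_congr (sy_minus (sy_minus (hV α (hall α)) (hall α)) (hoff (α * κ)))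
      (by ring) (by ring) (by ring)
  have hdd : ∀ δ : F, sy 0 0 δ ∈ UM K := by
    intro δ
    exact sy_congr (hdd' (δ * κ' * κ')) rfl rfl
      (by linear_combination δ * (κ * κ' + 1) * hκ)
  exact sy_congr (sy_plus (sy_plus (hall a) (hoff b)) (hdd d)) (by ring) (by ring) (by ring)

/-- characteristic `2`: the unipotent radical of the Siegel parabolic lies in `K` -/
theorem sym_even [Fintype F] (h2 : (2 : F) = 0) {K : Subgroup (SpG 2 F)} {k₁ k₂ : SpG 2 F}
    (hk₁ : k₁ ∈ K) (hk₂ : k₂ ∈ K) (κ κ' : F) (hκ : κ * κ' = 1) (hκ1 : κ ≠ 1)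
    (hgen : ∀ a : F, a ≠ 0 → ∃ l : ℕ, κ ^ l = a)
    (e₁ : ∃ B D : Matrix (Fin 2) (Fin 2) F,
      (k₁ : MM 2 F) = Matrix.fromBlocks !![1, -1; 0, 1] B 0 D)
    (e₂ : ∃ B D : Matrix (Fin 2) (Fin 2) F,
      (k₂ : MM 2 F) = Matrix.fromBlocks !![1, 0; κ, 1] B 0 D)
    (hseed : sy (1 : F) 1 0 ∈ UM K)
    (hq : ∀ a : F, sy a a 0 ∈ UM K → ∃ q ∈ K, ∃ B D : Matrix (Fin 2) (Fin 2) F,
      (q : MM 2 F) = Matrix.fromBlocks !![1, a; 0, 1] B 0 D)
    (a b d : F) : sy a b d ∈ UM K := by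
  have hV : ∀ c, sy c c 0 ∈ UM K → sy 0 (c * κ) (c * κ * κ) ∈ UM K := by
    intro c h
    have h1 := sy_y hk₂ e₂ h
    exact sy_congr (sy_minus h1 h) (by ring) (by ring) (by linear_combination (c * κ) * h2)
  have hmul : ∀ c, sy c c 0 ∈ UM K → sy (κ * κ * c) (κ * κ * c) 0 ∈ UM K := by
    intro c h
    have hv := hV c h
    have h1 := sy_x hk₁ e₁ hv
    exact sy_congr (sy_minus h1 hv) (by linear_combination (-(c * κ)) * h2)
      (by linear_combination (-(c * κ * κ)) * h2) (by ring)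
  have hpow : ∀ l : ℕ, sy (κ ^ l * κ ^ l) (κ ^ l * κ ^ l) 0 ∈ UM K := by
    intro l
    induction l with
    | zero => exact sy_congr hseed (by ring) (by ring) rfl
    | succ l ih => exact sy_congr (hmul _ ih) (by ring) (by ring) rfl
  have hsq : ∀ c : F, sy (c * c) (c * c) 0 ∈ UM K := by
    intro c
    by_cases hc : c = 0
    · rw [hc, mul_zero, sy_zero]
      exact UM_zero K
    · obtain ⟨l, rfl⟩ := hgen c hc
      exact hpow l
  have hall : ∀ c : F, sy c c 0 ∈ UM K := by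
    intro c
    obtain ⟨r, hr⟩ := char2_sq h2 c
    rw [hr]
    exact hsq r
  have hW : ∀ c : F, sy 0 c (c * κ) ∈ UM K := by
    intro c
    exact sy_congr (hV (c * κ') (hall _)) rfl (by linear_combination c * hκ)
      (by linear_combination (c * κ) * hκ)
  obtain ⟨q, hq, eq⟩ := hq κ (hall κ)
  have hE' : ∀ c : F, sy (c * κ * κ * (κ - 1)) 0 0 ∈ UM K := by
    intro c
    have h0 := hW c
    have h1 := sy_x hq eq h0
    exact sy_congr (sy_minus (sy_minus h1 h0) (hall (c * κ * κ)))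
      (by linear_combination (c * κ) * h2) (by ring) (by ring)
  have hκ0 : κ ≠ 0 := by
    rintro rfl
    rw [zero_mul] at hκ
    exact zero_ne_one hκ
  have hκ1' : κ - 1 ≠ 0 := sub_ne_zero.2 hκ1
  have hE : ∀ δ : F, sy δ 0 0 ∈ UM K := by
    intro δ
    exact sy_congr (hE' (δ / (κ * κ * (κ - 1)))) (by field_simp) rfl rfl
  have hoff : ∀ β : F, sy 0 β 0 ∈ UM K := fun β =>
    sy_congr (sy_minus (hall β) (hE β)) (by ring) (by ring) (by ring)
  have hdd : ∀ δ : F, sy 0 0 δ ∈ UM K := by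
    intro δ
    exact sy_congr (sy_minus (hW (δ * κ')) (hoff (δ * κ'))) (by ring) (by ring)
      (by linear_combination δ * hκ)
  exact sy_congr (sy_plus (sy_plus (hE a) (hoff b)) (hdd d)) (by ring) (by ring) (by ring)

/-- `Sp_4(F)`, `|F| ≠ 2`, is generated by three conjugate regular unipotent elements -/
theorem sp_two [Fintype F] (hF : Fintype.card F ≠ 2) :
    ∃ u g h : SpG 2 F, IsNilpotent ((u : MM 2 F) - 1) ∧ ((u : MM 2 F) - 1) ^ (2 * 2 - 1) ≠ 0 ∧
      Subgroup.closure ({u, g * u * g⁻¹, h * u * h⁻¹} : Set (SpG 2 F)) = ⊤ := by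
  classical
  obtain ⟨κu, hκu⟩ := IsCyclic.exists_monoid_generator (α := Fˣ)
  have hκ : (κu : F) * ((κu⁻¹ : Fˣ) : F) = 1 := by
    rw [← Units.val_mul, mul_inv_cancel, Units.val_one]
  have hgen : ∀ a : F, a ≠ 0 → ∃ l : ℕ, (κu : F) ^ l = a := by
    intro a ha
    obtain ⟨l, hl⟩ := (Submonoid.mem_powers_iff _ _).1 (hκu (Units.mk0 a ha))
    refine ⟨l, ?_⟩
    have h := congrArg Units.val hl
    rwa [Units.val_pow_eq_pow_val, Units.val_mk0] at h
  refine ⟨w1 F, gk (κu : F) ((κu⁻¹ : Fˣ) : F) hκ, hh F, w1_nilp, w1_ne, ?_⟩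
  set K : Subgroup (SpG 2 F) := Subgroup.closure ({w1 F,
    gk (κu : F) ((κu⁻¹ : Fˣ) : F) hκ * w1 F * (gk (κu : F) ((κu⁻¹ : Fˣ) : F) hκ)⁻¹,
    hh F * w1 F * (hh F)⁻¹} : Set (SpG 2 F)) with hK
  have m1 : w1 F ∈ K := Subgroup.subset_closure (Set.mem_insert _ _)
  have m2 : w2 (κu : F) ((κu⁻¹ : Fˣ) : F) hκ ∈ K :=
    Subgroup.subset_closure (Set.mem_insert_of_mem _ (Set.mem_insert _ _))
  have m3 : w3 F ∈ K :=
    Subgroup.subset_closure (Set.mem_insert_of_mem _ (Set.mem_insert_of_mem _ rfl))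
  have hsym : ∀ a b d : F, sy a b d ∈ UM K := by
    by_cases h2 : (2 : F) = 0
    · have hκ1 : (κu : F) ≠ 1 := by
        intro h1
        apply hF
        rw [← Nat.card_eq_fintype_card, Nat.card_eq_two_iff]
        refine ⟨0, 1, zero_ne_one, ?_⟩
        ext a
        simp only [Set.mem_univ, Set.mem_insert_iff, Set.mem_singleton_iff, iff_true]
        by_cases ha : a = 0
        · exact Or.inl ha
        · obtain ⟨l, hl⟩ := hgen a ha
          rw [h1, one_pow] at hl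
          exact Or.inr hl.symm
      exact sym_even h2 m1 m2 _ _ hκ hκ1 hgen w1_blk (w2_blk _ _ hκ) (seed4_even h2 m1)
        (fun a ha => q_elt m3 a ha)
    · exact sym_odd h2 m1 m2 _ _ hκ hgen w1_blk (w2_blk _ _ hκ) (seed4_odd m1 m3)
  have hL : ∀ x : Fin 2 → F, (Sum.elim x 0 : VV 2 F) ∈ AA K := hL_of_sym2 hsym
  have e0 : (0 : Fin 2 → F) = ![0, 0] := by
    ext i
    fin_cases i <;> rfl
  have y0 : ![(0 : F), -1] ∈ YY K := by
    have h := AA_mulVec m3 (hL ![0, 1])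
    rw [e0, w3_coe, mk4_mulVec] at h
    simp only [mul_zero, mul_one, add_zero, zero_add] at h
    refine YY_of hL _ _ ?_ h
    intro h'
    have h'' := congrFun h' 1
    simp at h''
  have y1 : ![(κu : F), -1] ∈ YY K := by
    have h := AA_mulVec m2 (y0 ![0, 0])
    rw [w2_coe, mk4_mulVec] at h
    simp only [mul_zero, mul_one, add_zero, zero_add, mul_neg, neg_neg, neg_zero] at h
    refine YY_of hL _ _ ?_ h
    intro h'
    have h'' := congrFun h' 1
    simp at h''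
  exact top_of_two hL _ _ hκ y0 y1

end Cfsg.Agent.Helper20.SpGen
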