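import Mathlib
import Cfsg.Agent.Helper20.SpGen3

/-!
# Symplectic groups: the module of symmetric matrices under the Levi factor
-/

set_option autoImplicit false

namespace Cfsg.Agent.Helper20.SpGen

open Matrix

variable {F : Type*} [Field F] {n : ℕ}

theorem mulVec_single_at (S : Matrix (Fin n) (Fin n) F) (l k : Fin n) :
    (S *ᵥ Pi.single l (1 : F)) k = S k l := by
  simp [Matrix.mulVec, dotProduct_single]

theorem tvc_formula (S : Matrix (Fin n) (Fin n) F) (hS : Sᵀ = S) (a : Fin n → F) (j : Fin n) :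
    (1 + vecMulVec a (Pi.single j (1 : F))) * S * (1 + vecMulVec a (Pi.single j (1 : F)))ᵀ
      = S + vecMulVec a (S *ᵥ Pi.single j 1) + vecMulVec (S *ᵥ Pi.single j 1) a
        + S j j • vecMulVec a a := by
  have e1 : Pi.single j (1 : F) ᵥ* S = S *ᵥ Pi.single j 1 := by
    conv_lhs => rw [← hS]
    rw [Matrix.vecMul_transpose]
  have e2 : (S *ᵥ Pi.single j (1 : F)) ⬝ᵥ Pi.single j 1 = S j j := by
    rw [dotProduct_single, mul_one, mulVec_single_at]
  rw [Matrix.transpose_add, Matrix.transpose_one, Matrix.transpose_vecMulVec, Matrix.add_mul,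
    Matrix.one_mul, Matrix.mul_add, Matrix.mul_one, Matrix.add_mul,
    Matrix.vecMulVec_mul, e1, Matrix.mul_vecMulVec, Matrix.vecMulVec_mul_vecMulVec, e2, Matrix.vecMulVec_smul]
  abel

theorem UM_tvc {K : Subgroup (SpG n F)} (hlev : ∀ D : SLn n F, D ∈ LevSub K)
    {S : Matrix (Fin n) (Fin n) F} (hS : S ∈ UM K) (a : Fin n → F) (j : Fin n) (ha : a j = 0) :
    S + vecMulVec a (S *ᵥ Pi.single j 1) + vecMulVec (S *ᵥ Pi.single j 1) a
        + S j j • vecMulVec a a ∈ UM K := by
  classical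
  have hd : Matrix.det (1 + vecMulVec a (Pi.single j (1 : F))) = 1 := by
    rw [det_tv, single_dotProduct, one_mul, ha, add_zero]
  have h := UM_conj_SL hlev ⟨_, hd⟩ hS
  rw [← tvc_formula S (UM_symm hS) a j]
  exact h

theorem odd_case1 (h2 : (2 : F) ≠ 0) (hn : 2 ≤ n) {K : Subgroup (SpG n F)}
    (hlev : ∀ D : SLn n F, D ∈ LevSub K) {S : Matrix (Fin n) (Fin n) F} (hS : S ∈ UM K)
    (j : Fin n) (hσ : S j j ≠ 0) :
    ∃ c₀ : F, c₀ ≠ 0 ∧ ∃ i : Fin n,
      c₀ • vecMulVec (Pi.single i (1 : F)) (Pi.single i (1 : F)) ∈ UM K := by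
  classical
  haveI : Nontrivial (Fin n) := Fin.nontrivial_iff_two_le.2 hn
  obtain ⟨i, hij⟩ := exists_ne j
  have ha1 : (Pi.single i (1 : F) : Fin n → F) j = 0 := Pi.single_eq_of_ne hij.symm _
  have ha2 : ((2 : F) • (Pi.single i (1 : F) : Fin n → F)) j = 0 := by
    rw [Pi.smul_apply, ha1, smul_zero]
  have h1 := UM_tvc hlev hS _ j ha1
  have h3 := UM_tvc hlev hS _ j ha2
  have h4 := UM_add (UM_sub (UM_sub h3 h1) h1) hS
  refine ⟨2 * S j j, mul_ne_zero h2 hσ, i, ?_⟩
  have e : S + vecMulVec ((2 : F) • (Pi.single i (1 : F) : Fin n → F)) (S *ᵥ Pi.single j 1)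
        + vecMulVec (S *ᵥ Pi.single j 1) ((2 : F) • (Pi.single i (1 : F) : Fin n → F))
        + S j j • vecMulVec ((2 : F) • (Pi.single i (1 : F) : Fin n → F))
          ((2 : F) • (Pi.single i (1 : F) : Fin n → F))
      - (S + vecMulVec (Pi.single i (1 : F)) (S *ᵥ Pi.single j 1)
        + vecMulVec (S *ᵥ Pi.single j 1) (Pi.single i (1 : F))
        + S j j • vecMulVec (Pi.single i (1 : F)) (Pi.single i (1 : F)))
      - (S + vecMulVec (Pi.single i (1 : F)) (S *ᵥ Pi.single j 1)
        + vecMulVec (S *ᵥ Pi.single j 1) (Pi.single i (1 : F))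
        + S j j • vecMulVec (Pi.single i (1 : F)) (Pi.single i (1 : F))) + S
      = (2 * S j j) • vecMulVec (Pi.single i (1 : F)) (Pi.single i (1 : F)) := by
    rw [vmv_smul_smul, Matrix.smul_vecMulVec, Matrix.vecMulVec_smul]
    module
  rw [← e]
  exact h4

theorem seed_odd (h2 : (2 : F) ≠ 0) (hn : 2 ≤ n) {K : Subgroup (SpG n F)}
    (hlev : ∀ D : SLn n F, D ∈ LevSub K) {S : Matrix (Fin n) (Fin n) F} (hS : S ∈ UM K)
    (hS0 : S ≠ 0) :
    ∃ c₀ : F, c₀ ≠ 0 ∧ ∃ i : Fin n,
      c₀ • vecMulVec (Pi.single i (1 : F)) (Pi.single i (1 : F)) ∈ UM K := by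
  classical
  by_cases h : ∃ j, S j j ≠ 0
  · obtain ⟨j, hj⟩ := h
    exact odd_case1 h2 hn hlev hS j hj
  · push Not at h
    obtain ⟨k, l, hkl⟩ : ∃ k l, S k l ≠ 0 := by
      by_contra hc
      push Not at hc
      exact hS0 (Matrix.ext hc)
    have hne : k ≠ l := by
      rintro rfl
      exact hkl (h k)
    have ha : (Pi.single k (1 : F) : Fin n → F) l = 0 := Pi.single_eq_of_ne hne.symm _
    have h1 := UM_tvc hlev hS _ l ha
    refine odd_case1 h2 hn hlev h1 k ?_
    rw [Matrix.add_apply, Matrix.add_apply, Matrix.add_apply, Matrix.smul_apply,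
      vecMulVec_apply, vecMulVec_apply, vecMulVec_apply, mulVec_single_at, Pi.single_eq_same,
      h k, h l]
    simp only [zero_add, one_mul, mul_one, zero_smul, add_zero]
    rw [← two_mul]
    exact mul_ne_zero h2 hkl

/-- the symmetrised rank two matrix -/
def br (x y : Fin n → F) : Matrix (Fin n) (Fin n) F := vecMulVec x y + vecMulVec y x

theorem br_smul_left (t : F) (x y : Fin n → F) : br (t • x) y = t • br x y := by
  unfold br
  rw [Matrix.smul_vecMulVec, Matrix.vecMulVec_smul, smul_add]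

theorem br_add_right (x y z : Fin n → F) : br x (y + z) = br x y + br x z := by
  unfold br
  rw [Matrix.vecMulVec_add, Matrix.add_vecMulVec]
  abel

theorem br_conj (τ : Matrix (Fin n) (Fin n) F) (c : F) (x y : Fin n → F) :
    τ * (c • br x y) * τᵀ = c • br (τ *ᵥ x) (τ *ᵥ y) := by
  unfold br
  rw [smul_add, Matrix.mul_add, Matrix.add_mul, conj_vmv, conj_vmv, smul_add]

theorem br_self (h2 : (2 : F) = 0) (x : Fin n → F) : br x x = 0 := by
  unfold br
  rw [← two_smul F, h2, zero_smul]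

theorem br_sum (S : Matrix (Fin n) (Fin n) F) (i j : Fin n) :
    ∑ k, S k j • br (Pi.single i (1 : F)) (Pi.single k (1 : F))
      = br (Pi.single i (1 : F)) (S *ᵥ Pi.single j 1) := by
  classical
  unfold br
  ext a b
  simp only [Matrix.sum_apply, Matrix.smul_apply, Matrix.add_apply, vecMulVec_apply,
    mulVec_single_at, smul_eq_mul, Pi.single_apply]
  simp [mul_add, Finset.sum_add_distrib]

theorem seed_even (h2 : (2 : F) = 0) (hn : 3 ≤ n) {K : Subgroup (SpG n F)}
    (hlev : ∀ D : SLn n F, D ∈ LevSub K) {S : Matrix (Fin n) (Fin n) F} (hS : S ∈ UM K)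
    (j : Fin n) (hσ : S j j ≠ 0) :
    ∃ c₀ : F, c₀ ≠ 0 ∧ ∃ i : Fin n,
      c₀ • vecMulVec (Pi.single i (1 : F)) (Pi.single i (1 : F)) ∈ UM K := by
  classical
  -- step 1
  have s1 : ∀ a a' : Fin n → F, a j = 0 → a' j = 0 → S j j • br a a' ∈ UM K := by
    intro a a' ha ha'
    have h1 := UM_tvc hlev hS a j ha
    have h2' := UM_tvc hlev hS a' j ha'
    have h3 := UM_tvc hlev hS (a + a') j (by rw [Pi.add_apply, ha, ha', add_zero])
    have h4 := UM_add (UM_sub (UM_sub h3 h1) h2') hS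
    have e : S + vecMulVec (a + a') (S *ᵥ Pi.single j 1)
          + vecMulVec (S *ᵥ Pi.single j 1) (a + a') + S j j • vecMulVec (a + a') (a + a')
        - (S + vecMulVec a (S *ᵥ Pi.single j 1) + vecMulVec (S *ᵥ Pi.single j 1) a
          + S j j • vecMulVec a a)
        - (S + vecMulVec a' (S *ᵥ Pi.single j 1) + vecMulVec (S *ᵥ Pi.single j 1) a'
          + S j j • vecMulVec a' a') + S = S j j • br a a' := by
      unfold br
      rw [Matrix.add_vecMulVec, Matrix.add_vecMulVec, Matrix.vecMulVec_add, Matrix.vecMulVec_add,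
        Matrix.vecMulVec_add]
      module
    rw [← e]
    exact h4
  have s1' : ∀ (c : F) (i k : Fin n), i ≠ j → k ≠ j →
      c • br (Pi.single i (1 : F)) (Pi.single k (1 : F)) ∈ UM K := by
    intro c i k hi hk
    have h := s1 ((c / S j j) • Pi.single i (1 : F)) (Pi.single k (1 : F))
      (by rw [Pi.smul_apply, Pi.single_eq_of_ne hi.symm, smul_zero])
      (Pi.single_eq_of_ne hk.symm _)
    rw [br_smul_left, smul_smul, mul_div_cancel₀ _ hσ] at h
    exact h
  have s2 : ∀ (c : F) (i : Fin n), i ≠ j →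
      c • br (Pi.single i (1 : F)) (Pi.single j (1 : F)) ∈ UM K := by
    intro c i hi
    obtain ⟨i', hi'i, hi'j⟩ : ∃ i' : Fin n, i' ≠ i ∧ i' ≠ j := by
      by_contra hc
      push Not at hc
      have hcard : Fintype.card (Fin n) ≤ 2 := by
        have hsub : (Finset.univ : Finset (Fin n)) ⊆ {i, j} := by
          intro x _
          by_cases hx : x = i
          · simp [hx]
          · simp [hc x hx]
        calc Fintype.card (Fin n) = (Finset.univ : Finset (Fin n)).card := rfl
          _ ≤ ({i, j} : Finset (Fin n)).card := Finset.card_le_card hsub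
          _ ≤ 2 := Finset.card_le_two
      rw [Fintype.card_fin] at hcard
      omega
    have hd : Matrix.det (1 + vecMulVec (Pi.single j (1 : F)) (Pi.single i' (1 : F))) = 1 := by
      rw [det_tv, single_dotProduct, one_mul, Pi.single_eq_of_ne hi'j, add_zero]
    have h := UM_conj_SL hlev ⟨_, hd⟩ (s1' c i i' hi hi'j)
    have e : ((⟨_, hd⟩ : SLn n F) : Matrix (Fin n) (Fin n) F)
        = 1 + vecMulVec (Pi.single j (1 : F)) (Pi.single i' (1 : F)) := rfl
    rw [e, br_conj, tv_mulVec', tv_mulVec', single_dotProduct, single_dotProduct, one_mul,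
      one_mul, Pi.single_eq_of_ne hi'i, Pi.single_eq_same, zero_smul, add_zero, one_smul,
      br_add_right, smul_add] at h
    have h5 := UM_sub h (s1' c i i' hi hi'j)
    rwa [add_sub_cancel_left] at h5
  obtain ⟨i, hij⟩ : ∃ i : Fin n, i ≠ j := by
    haveI : Nontrivial (Fin n) := Fin.nontrivial_iff_two_le.2 (by omega)
    exact exists_ne j
  have h1 := UM_tvc hlev hS (Pi.single i (1 : F)) j (Pi.single_eq_of_ne hij.symm _)
  have h6 : br (Pi.single i (1 : F)) (S *ᵥ Pi.single j 1) ∈ UM K := by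
    rw [← br_sum]
    apply UM_sum
    intro k _
    by_cases hki : k = i
    · rw [hki, br_self h2, smul_zero]
      exact UM_zero K
    · by_cases hkj : k = j
      · rw [hkj]
        exact s2 _ i hij
      · exact s1' _ i k hij hkj
  refine ⟨S j j, hσ, i, ?_⟩
  have h7 := UM_sub (UM_sub h1 hS) h6
  have e : S + vecMulVec (Pi.single i (1 : F)) (S *ᵥ Pi.single j 1)
        + vecMulVec (S *ᵥ Pi.single j 1) (Pi.single i (1 : F))
        + S j j • vecMulVec (Pi.single i (1 : F)) (Pi.single i (1 : F)) - S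
        - br (Pi.single i (1 : F)) (S *ᵥ Pi.single j 1)
      = S j j • vecMulVec (Pi.single i (1 : F)) (Pi.single i (1 : F)) := by
    unfold br
    abel
  rwa [e] at h7

end Cfsg.Agent.Helper20.SpGen
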