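import Mathlib
import Cfsg.Agent.Helper20.SpGen4

/-!
# Symplectic groups: bilinearity of the form, products of transvections in characteristic two
-/

set_option autoImplicit false

namespace Cfsg.Agent.Helper20.SpGen

open Matrix

variable {F : Type*} [Field F] {n : ℕ}

theorem sf_add_left (u u' v : VV n F) :
    Cfsg.sympForm n F (u + u') v = Cfsg.sympForm n F u v + Cfsg.sympForm n F u' v := by
  unfold Cfsg.sympForm
  rw [add_dotProduct]

theorem sf_smul_left (c : F) (u v : VV n F) :
    Cfsg.sympForm n F (c • u) v = c * Cfsg.sympForm n F u v := by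
  unfold Cfsg.sympForm
  rw [smul_dotProduct, smul_eq_mul]

theorem sf_add_right (u v v' : VV n F) :
    Cfsg.sympForm n F u (v + v') = Cfsg.sympForm n F u v + Cfsg.sympForm n F u v' := by
  unfold Cfsg.sympForm
  rw [Matrix.mulVec_add, dotProduct_add]

theorem sf_smul_right (c : F) (u v : VV n F) :
    Cfsg.sympForm n F u (c • v) = c * Cfsg.sympForm n F u v := by
  unfold Cfsg.sympForm
  rw [Matrix.mulVec_smul, dotProduct_smul, smul_eq_mul]

theorem sf_self (v : VV n F) : Cfsg.sympForm n F v v = 0 := by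
  obtain ⟨x, y, rfl⟩ : ∃ x y : Fin n → F, v = Sum.elim x y :=
    ⟨_, _, (Sum.elim_comp_inl_inr v).symm⟩
  rw [form_elim, dotProduct_comm, sub_self]

theorem sf_swap (u v : VV n F) : Cfsg.sympForm n F u v = - Cfsg.sympForm n F v u := by
  obtain ⟨x, y, rfl⟩ : ∃ x y : Fin n → F, u = Sum.elim x y :=
    ⟨_, _, (Sum.elim_comp_inl_inr u).symm⟩
  obtain ⟨x', y', rfl⟩ : ∃ x y : Fin n → F, v = Sum.elim x y :=
    ⟨_, _, (Sum.elim_comp_inl_inr v).symm⟩
  rw [form_elim, form_elim, dotProduct_comm y' x, dotProduct_comm x' y]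
  ring

theorem neg_self_two (h2 : (2 : F) = 0) (x : F) : -x = x := by
  rw [neg_eq_iff_add_eq_zero, ← two_mul, h2, zero_mul]

theorem tvS_sq (h2 : (2 : F) = 0) (a : VV n F) : tvS n a 1 * tvS n a 1 = 1 := by
  apply Subtype.ext
  apply Matrix.mulVec_injective
  funext v
  rw [Submonoid.coe_mul, ← Matrix.mulVec_mulVec, tvS_mulVec, tvS_mulVec, OneMemClass.coe_one,
    Matrix.one_mulVec, one_mul, one_mul, sf_add_left, sf_smul_left, sf_self, mul_zero, add_zero,
    add_assoc, ← add_smul, ← two_mul, h2, zero_mul, zero_smul, add_zero]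

theorem tvS_inv2 (h2 : (2 : F) = 0) (a : VV n F) : (tvS n a 1)⁻¹ = tvS n a 1 :=
  inv_eq_of_mul_eq_one_right (tvS_sq h2 a)

theorem pair_mulVec (h2 : (2 : F) = 0) (a e v : VV n F) (hae : Cfsg.sympForm n F a e = 0) :
    ((tvS n (a + e) 1 * tvS n a 1 : SpG n F) : MM n F) *ᵥ v
      = v + Cfsg.sympForm n F v a • e + Cfsg.sympForm n F v e • a
        + Cfsg.sympForm n F v e • e := by
  have key : ∀ α β : F, v + α • a + (α + β) • (a + e)
      = v + α • e + β • a + β • e + (2 * α) • a := by
    intro α β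
    module
  rw [Submonoid.coe_mul, ← Matrix.mulVec_mulVec, tvS_mulVec, tvS_mulVec, one_mul, one_mul,
    sf_add_left, sf_smul_left, sf_add_right, sf_add_right, sf_self, hae, add_zero, mul_zero,
    add_zero, key, h2, zero_mul, zero_smul, add_zero]

theorem pair_pair (h2 : (2 : F) = 0) (a a' e v : VV n F) (h1 : Cfsg.sympForm n F a e = 0)
    (h1' : Cfsg.sympForm n F a' e = 0) :
    (((tvS n (a + e) 1 * tvS n a 1) * (tvS n (a' + e) 1 * tvS n a' 1) : SpG n F) : MM n F) *ᵥ v
      = v + Cfsg.sympForm n F v (a + a') • e + Cfsg.sympForm n F v e • (a + a')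
        + (Cfsg.sympForm n F a' a * Cfsg.sympForm n F v e) • e := by
  have hea : Cfsg.sympForm n F e a = 0 := by rw [sf_swap, h1, neg_zero]
  have key : ∀ α α' β γ : F, v + α' • e + β • a' + β • e + (α + β * γ) • e + β • a + β • e
      = v + (α + α') • e + β • (a + a') + (γ * β) • e + (2 * β) • e := by
    intro α α' β γ
    module
  rw [Submonoid.coe_mul, ← Matrix.mulVec_mulVec, pair_mulVec h2 a' e v h1',
    pair_mulVec h2 a e _ h1]
  simp only [sf_add_left, sf_smul_left, sf_self, h1', hea, mul_zero, add_zero]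
  rw [key, h2, zero_mul, zero_smul, add_zero, sf_add_right]

end Cfsg.Agent.Helper20.SpGen
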