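import Mathlib
import Cfsg.Agent.Helper20.SpGen5

/-!
# Symplectic groups: the exit element and the seed in odd characteristic
-/

set_option autoImplicit false

namespace Cfsg.Agent.Helper20.SpGen

open Matrix

variable {F : Type*} [Field F] {n : ℕ}

/-- evaluation of a bilinear form -/
def qf (M : Matrix (Fin n) (Fin n) F) (a b : Fin n → F) : F := a ⬝ᵥ (M *ᵥ b)

theorem qf_add_left (M : Matrix (Fin n) (Fin n) F) (a a' b : Fin n → F) :
    qf M (a + a') b = qf M a b + qf M a' b := by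
  unfold qf
  rw [add_dotProduct]

theorem qf_add_right (M : Matrix (Fin n) (Fin n) F) (a b b' : Fin n → F) :
    qf M a (b + b') = qf M a b + qf M a b' := by
  unfold qf
  rw [Matrix.mulVec_add, dotProduct_add]

theorem qf_sub_left (M : Matrix (Fin n) (Fin n) F) (a a' b : Fin n → F) :
    qf M (a - a') b = qf M a b - qf M a' b := by
  unfold qf
  rw [sub_dotProduct]

theorem qf_sub_right (M : Matrix (Fin n) (Fin n) F) (a b b' : Fin n → F) :
    qf M a (b - b') = qf M a b - qf M a b' := by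
  unfold qf
  rw [Matrix.mulVec_sub, dotProduct_sub]

theorem qf_madd (M M' : Matrix (Fin n) (Fin n) F) (a b : Fin n → F) :
    qf (M + M') a b = qf M a b + qf M' a b := by
  unfold qf
  rw [Matrix.add_mulVec, dotProduct_add]

theorem qf_symm (M : Matrix (Fin n) (Fin n) F) (hM : Mᵀ = M) (a b : Fin n → F) :
    qf M a b = qf M b a := by
  unfold qf
  rw [Matrix.dotProduct_mulVec, ← Matrix.mulVec_transpose, hM, dotProduct_comm]

theorem qf_conj (D M : Matrix (Fin n) (Fin n) F) (a b : Fin n → F) :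
    qf (Dᵀ * M * D) a b = qf M (D *ᵥ a) (D *ᵥ b) := by
  unfold qf
  rw [← Matrix.mulVec_mulVec, ← Matrix.mulVec_mulVec, Matrix.dotProduct_mulVec,
    Matrix.vecMul_transpose]

theorem commute_contra (h2 : (2 : F) ≠ 0) (N D₁ Dk Ω S' : Matrix (Fin n) (Fin n) F)
    (hD₁ : D₁ = 1 + N) (hDk : Dk = 1 - N) (hΩ : Ωᵀ = Ω) (hS' : S'ᵀ = S')
    (h : Ω + Dkᵀ * S' * Dk = S' + D₁ᵀ * Ω * D₁)
    (y₁ y₂ y₃ : Fin n → F) (hy1 : N *ᵥ y₁ = 0) (hy2 : N *ᵥ y₂ = y₁) (hy3 : N *ᵥ y₃ = y₂) :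
    qf S' y₁ y₁ = 0 := by
  subst hD₁ hDk
  have key : ∀ a b : Fin n → F, qf Ω a b + qf S' ((1 - N) *ᵥ a) ((1 - N) *ᵥ b)
      = qf S' a b + qf Ω ((1 + N) *ᵥ a) ((1 + N) *ᵥ b) := by
    intro a b
    have h5 := congrArg (fun M => qf M a b) h
    simp only [qf_madd, qf_conj] at h5
    exact h5
  have d1 : (1 - N) *ᵥ y₁ = y₁ := by rw [Matrix.sub_mulVec, Matrix.one_mulVec, hy1, sub_zero]
  have d2 : (1 - N) *ᵥ y₂ = y₂ - y₁ := by rw [Matrix.sub_mulVec, Matrix.one_mulVec, hy2]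
  have d3 : (1 - N) *ᵥ y₃ = y₃ - y₂ := by rw [Matrix.sub_mulVec, Matrix.one_mulVec, hy3]
  have e1 : (1 + N) *ᵥ y₁ = y₁ := by rw [Matrix.add_mulVec, Matrix.one_mulVec, hy1, add_zero]
  have e2 : (1 + N) *ᵥ y₂ = y₂ + y₁ := by rw [Matrix.add_mulVec, Matrix.one_mulVec, hy2]
  have e3 : (1 + N) *ᵥ y₃ = y₃ + y₂ := by rw [Matrix.add_mulVec, Matrix.one_mulVec, hy3]
  have k22 := key y₂ y₂
  have k13 := key y₁ y₃
  have k12 := key y₁ y₂
  rw [d2, e2] at k22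
  rw [d1, d3, e1, e3] at k13
  rw [d1, d2, e1, e2] at k12
  simp only [qf_add_left, qf_add_right, qf_sub_left, qf_sub_right] at k22 k13 k12
  rw [qf_symm Ω hΩ y₂ y₁, qf_symm S' hS' y₂ y₁] at k22
  have h6 : 2 * qf S' y₁ y₁ = 0 := by linear_combination k22 - 2 * k13 - k12
  rcases mul_eq_zero.1 h6 with h7 | h7
  · exact absurd h7 h2
  · exact h7

section setup

variable (D : SLn n F) (m : ℕ) (i j : Fin n)

theorem y0_fix (hN : ((D : Matrix (Fin n) (Fin n) F) - 1) ^ (m + 1) = 0) :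
    (D : Matrix (Fin n) (Fin n) F) *ᵥ (((D : Matrix (Fin n) (Fin n) F) - 1) ^ m *ᵥ Pi.single j 1)
      = ((D : Matrix (Fin n) (Fin n) F) - 1) ^ m *ᵥ Pi.single j 1 := by
  rw [Matrix.mulVec_mulVec, D_mul_pow D m hN]

theorem y0_fixE (hN : ((D : Matrix (Fin n) (Fin n) F) - 1) ^ (m + 1) = 0) :
    ((D⁻¹ : SLn n F) : Matrix (Fin n) (Fin n) F)
        *ᵥ (((D : Matrix (Fin n) (Fin n) F) - 1) ^ m *ᵥ Pi.single j 1)
      = ((D : Matrix (Fin n) (Fin n) F) - 1) ^ m *ᵥ Pi.single j 1 := by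
  rw [Matrix.mulVec_mulVec, E_mul_pow D m hN]

theorem S1_mulVec (v : Fin n → F) :
    vecMulVec (Pi.single i (1 : F)) (Pi.single i (1 : F)) *ᵥ v = v i • Pi.single i (1 : F) := by
  rw [Matrix.vecMulVec_mulVec, op_smul_eq_smul, single_dotProduct, one_mul]

theorem u1_w (hN : ((D : Matrix (Fin n) (Fin n) F) - 1) ^ (m + 1) = 0) (x : Fin n → F) (c : F) :
    ((mkU D (vecMulVec (Pi.single i (1 : F)) (Pi.single i (1 : F))) (vmv_single_symm i)
        : SpG n F) : MM n F) *ᵥ Sum.elim x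
          (c • (((D : Matrix (Fin n) (Fin n) F) - 1) ^ m *ᵥ Pi.single j 1))
      = Sum.elim (((D⁻¹ : SLn n F) : Matrix (Fin n) (Fin n) F)ᵀ *ᵥ x
          + (c * (((D : Matrix (Fin n) (Fin n) F) - 1) ^ m) i j) • Pi.single i (1 : F))
        (c • (((D : Matrix (Fin n) (Fin n) F) - 1) ^ m *ᵥ Pi.single j 1)) := by
  rw [mkU_mulVec, Matrix.mulVec_smul, y0_fix D m j hN, S1_mulVec, Pi.smul_apply, mulVec_single_at,
    smul_eq_mul]

theorem Et_dot (hN : ((D : Matrix (Fin n) (Fin n) F) - 1) ^ (m + 1) = 0) (x : Fin n → F) :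
    (((D⁻¹ : SLn n F) : Matrix (Fin n) (Fin n) F)ᵀ *ᵥ x)
        ⬝ᵥ (((D : Matrix (Fin n) (Fin n) F) - 1) ^ m *ᵥ Pi.single j 1)
      = x ⬝ᵥ (((D : Matrix (Fin n) (Fin n) F) - 1) ^ m *ᵥ Pi.single j 1) := by
  rw [Matrix.mulVec_transpose, ← Matrix.dotProduct_mulVec, y0_fixE D m j hN]

/-- the exit: a transvection centre outside the Lagrangian -/
theorem exit_t (hN : ((D : Matrix (Fin n) (Fin n) F) - 1) ^ (m + 1) = 0)
    (hν : (((D : Matrix (Fin n) (Fin n) F) - 1) ^ m) i j ≠ 0) {K : Subgroup (SpG n F)}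
    (hu₃ : tvS n (Sum.elim 0 (((D : Matrix (Fin n) (Fin n) F) - 1) ^ m *ᵥ Pi.single j 1)) 1
      * mkU D (vecMulVec (Pi.single i (1 : F)) (Pi.single i (1 : F))) (vmv_single_symm i)
      * (tvS n (Sum.elim 0 (((D : Matrix (Fin n) (Fin n) F) - 1) ^ m *ᵥ Pi.single j 1)) 1)⁻¹ ∈ K)
    (hL : ∀ x : Fin n → F, (Sum.elim x 0 : VV n F) ∈ AA K) :
    ∃ x₀ y' : Fin n → F, y' ≠ 0 ∧ (Sum.elim x₀ y' : VV n F) ∈ AA K := by
  classical
  set ν := (((D : Matrix (Fin n) (Fin n) F) - 1) ^ m) i j with hνdef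
  set y₀ := ((D : Matrix (Fin n) (Fin n) F) - 1) ^ m *ᵥ Pi.single j (1 : F) with hy₀
  set u := mkU D (vecMulVec (Pi.single i (1 : F)) (Pi.single i (1 : F))) (vmv_single_symm i)
    with hu
  set t := tvS n (Sum.elim 0 y₀ : VV n F) 1 with ht
  have hy0i : y₀ i = ν := mulVec_single_at _ _ _
  have hdot : (Pi.single i (1 : F) : Fin n → F) ⬝ᵥ y₀ = ν := by
    rw [single_dotProduct, one_mul, hy0i]
  have h1 : (t : MM n F) *ᵥ Sum.elim (Pi.single i (1 : F)) (ν • y₀)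
      = Sum.elim (Pi.single i (1 : F)) 0 := by
    rw [ht, tvS_mulVec, form_elim, dotProduct_zero, zero_sub, hdot, elim_smul, elim_add, smul_zero,
      add_zero, one_mul, ← add_smul, add_neg_cancel, zero_smul]
  have h2 := AA_mulVec hu₃ (hL (Pi.single i (1 : F)))
  have h3 : ((t * u * t⁻¹ : SpG n F) : MM n F) *ᵥ Sum.elim (Pi.single i (1 : F)) 0
      = (t : MM n F) *ᵥ ((u : MM n F) *ᵥ Sum.elim (Pi.single i (1 : F)) (ν • y₀)) := by
    rw [← h1, Matrix.mulVec_mulVec, Matrix.mulVec_mulVec, ← Submonoid.coe_mul,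
      ← Submonoid.coe_mul]
    congr 2
    group
  rw [h3, hu, u1_w D m i j hN, ← hνdef, ← hy₀, ht, tvS_mulVec, form_elim, dotProduct_zero,
    zero_sub, add_dotProduct, Et_dot D m j hN, hdot, smul_dotProduct, hdot, elim_smul, elim_add,
    smul_zero, add_zero, ← add_smul] at h2
  refine ⟨_, _, ?_, h2⟩
  intro h0
  have h4 := congr_fun h0 i
  rw [Pi.smul_apply, hy0i, Pi.zero_apply, smul_eq_mul] at h4
  rcases mul_eq_zero.1 h4 with h5 | h5
  · have h6 : ν * (ν * ν) = 0 := by linear_combination -h5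
    rcases mul_eq_zero.1 h6 with h7 | h7
    · exact hν h7
    · exact hν (mul_self_eq_zero.1 h7)
  · exact hν h5

end setup

end Cfsg.Agent.Helper20.SpGen
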