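import Mathlib
import Cfsg.Agent.Helper20.SpGen6

/-!
# Symplectic groups: the seeds in the unipotent radical
-/

set_option autoImplicit false

namespace Cfsg.Agent.Helper20.SpGen

open Matrix

variable {F : Type*} [Field F] {n : ℕ}

set_option maxHeartbeats 800000 in
theorem seedA (h2 : (2 : F) ≠ 0) (D : SLn n F) (m : ℕ) (hm : 2 ≤ m)
    (hN : ((D : Matrix (Fin n) (Fin n) F) - 1) ^ (m + 1) = 0) (i j : Fin n)
    (hν : (((D : Matrix (Fin n) (Fin n) F) - 1) ^ m) i j ≠ 0)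
    {K : Subgroup (SpG n F)} (hlev : ∀ D : SLn n F, D ∈ LevSub K)
    (hu : mkU D (vecMulVec (Pi.single i (1 : F)) (Pi.single i (1 : F))) (vmv_single_symm i) ∈ K) :
    ∃ S ∈ UM K, S ≠ 0 := by
  classical
  have hnil : IsNilpotent ((D : Matrix (Fin n) (Fin n) F) - 1) := ⟨m + 1, hN⟩
  have hdet : Matrix.det (1 - ((D : Matrix (Fin n) (Fin n) F) - 1)) = 1 := by
    have h1 : ((D : Matrix (Fin n) (Fin n) F) - 1).charpoly = Polynomial.X ^ n := by
      have h := (Matrix.isNilpotent_charpoly_sub_pow_of_isNilpotent hnil).eq_zero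
      rw [Fintype.card_fin] at h
      exact sub_eq_zero.mp h
    have h3 := Matrix.eval_charpoly ((D : Matrix (Fin n) (Fin n) F) - 1) 1
    rw [h1, Polynomial.eval_pow, Polynomial.eval_X, one_pow, map_one] at h3
    exact h3.symm
  obtain ⟨Dk, eDk⟩ : ∃ Dk : SLn n F, (Dk : Matrix (Fin n) (Fin n) F)
      = 1 - ((D : Matrix (Fin n) (Fin n) F) - 1) := ⟨⟨_, hdet⟩, rfl⟩
  obtain ⟨k, hkK, Ak, Bk, ek⟩ := mem_LevSub.1 (hlev Dk)
  obtain ⟨u, hudef⟩ : ∃ u : SpG n F, u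
      = mkU D (vecMulVec (Pi.single i (1 : F)) (Pi.single i (1 : F))) (vmv_single_symm i) :=
    ⟨_, rfl⟩
  rw [← hudef] at hu
  have eu : (u : MM n F) = Matrix.fromBlocks ((D⁻¹ : SLn n F) : Matrix (Fin n) (Fin n) F)ᵀ
      (vecMulVec (Pi.single i (1 : F)) (Pi.single i (1 : F)) * (D : Matrix (Fin n) (Fin n) F)) 0
      (D : Matrix (Fin n) (Fin n) F) := by rw [hudef, mkU_coe]
  have hz : u⁻¹ * k⁻¹ * u * k ∈ K :=
    K.mul_mem (K.mul_mem (K.mul_mem (K.inv_mem hu) (K.inv_mem hkK)) hu) hkK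
  have hUBu : UB u (D : Matrix (Fin n) (Fin n) F) := ⟨_, _, eu⟩
  have hUB : UB (u⁻¹ * k⁻¹ * u * k) (((D⁻¹ : SLn n F) : Matrix (Fin n) (Fin n) F)
      * ((Dk⁻¹ : SLn n F) : Matrix (Fin n) (Fin n) F) * (D : Matrix (Fin n) (Fin n) F)
      * (Dk : Matrix (Fin n) (Fin n) F)) :=
    UB_mul (UB_mul (UB_mul (UB_inv hUBu) (UB_inv ⟨Ak, Bk, ek⟩)) hUBu) ⟨Ak, Bk, ek⟩
  have hcomm : (D : Matrix (Fin n) (Fin n) F) * (Dk : Matrix (Fin n) (Fin n) F)
      = (Dk : Matrix (Fin n) (Fin n) F) * (D : Matrix (Fin n) (Fin n) F) := by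
    rw [eDk]
    noncomm_ring
  have hone : ((D⁻¹ : SLn n F) : Matrix (Fin n) (Fin n) F)
      * ((Dk⁻¹ : SLn n F) : Matrix (Fin n) (Fin n) F) * (D : Matrix (Fin n) (Fin n) F)
      * (Dk : Matrix (Fin n) (Fin n) F) = 1 := by
    rw [Matrix.mul_assoc, hcomm, ← Matrix.mul_assoc,
      Matrix.mul_assoc ((D⁻¹ : SLn n F) : Matrix (Fin n) (Fin n) F), sl_inv_mul, Matrix.mul_one,
      sl_inv_mul]
  rw [hone] at hUB
  obtain ⟨A, B, ez⟩ := hUB
  have hA : A = 1 := by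
    have h := (blk_rel ez).1
    rw [Matrix.mul_one] at h
    exact Matrix.transpose_eq_one.1 h
  rw [hA] at ez
  refine ⟨B, ⟨_, hz, ez⟩, ?_⟩
  intro hB
  rw [hB, Matrix.fromBlocks_one] at ez
  have hz1 : u⁻¹ * k⁻¹ * u * k = 1 := Subtype.ext ez
  have hcom : u * k = k * u := by
    calc u * k = k * u * (u⁻¹ * k⁻¹ * u * k) := by group
      _ = k * u := by rw [hz1, mul_one]
  have hM : (u : MM n F) * (k : MM n F) = (k : MM n F) * (u : MM n F) := by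
    rw [← Submonoid.coe_mul, ← Submonoid.coe_mul, hcom]
  rw [eu, ek, Matrix.fromBlocks_multiply, Matrix.fromBlocks_multiply] at hM
  have hdag := (Matrix.fromBlocks_inj.1 hM).2.1
  have r1 : (D : Matrix (Fin n) (Fin n) F)ᵀ * ((D⁻¹ : SLn n F) : Matrix (Fin n) (Fin n) F)ᵀ = 1 := by
    rw [← Matrix.transpose_mul, sl_inv_mul, Matrix.transpose_one]
  have r2 : (Dk : Matrix (Fin n) (Fin n) F)ᵀ * Ak = 1 := (blk_rel ek).2.1
  have r3 : Bkᵀ * (Dk : Matrix (Fin n) (Fin n) F) = (Dk : Matrix (Fin n) (Fin n) F)ᵀ * Bk :=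
    (blk_rel ek).2.2.2.2
  have hΩ : ((Dk : Matrix (Fin n) (Fin n) F)ᵀ * Bk)ᵀ = (Dk : Matrix (Fin n) (Fin n) F)ᵀ * Bk := by
    rw [Matrix.transpose_mul, Matrix.transpose_transpose, r3]
  have hS' : ((D : Matrix (Fin n) (Fin n) F)ᵀ
      * vecMulVec (Pi.single i (1 : F)) (Pi.single i (1 : F)) * (D : Matrix (Fin n) (Fin n) F))ᵀ
      = (D : Matrix (Fin n) (Fin n) F)ᵀ
      * vecMulVec (Pi.single i (1 : F)) (Pi.single i (1 : F)) * (D : Matrix (Fin n) (Fin n) F) := by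
    rw [Matrix.transpose_mul, Matrix.transpose_mul, Matrix.transpose_transpose, vmv_single_symm,
      Matrix.mul_assoc]
  have hct : (Dk : Matrix (Fin n) (Fin n) F)ᵀ * (D : Matrix (Fin n) (Fin n) F)ᵀ
      = (D : Matrix (Fin n) (Fin n) F)ᵀ * (Dk : Matrix (Fin n) (Fin n) F)ᵀ := by
    rw [← Matrix.transpose_mul, ← Matrix.transpose_mul, hcomm]
  have hdd : (Dk : Matrix (Fin n) (Fin n) F)ᵀ * Bk + (Dk : Matrix (Fin n) (Fin n) F)ᵀ
      * ((D : Matrix (Fin n) (Fin n) F)ᵀ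
        * vecMulVec (Pi.single i (1 : F)) (Pi.single i (1 : F)) * (D : Matrix (Fin n) (Fin n) F))
      * (Dk : Matrix (Fin n) (Fin n) F)
      = (D : Matrix (Fin n) (Fin n) F)ᵀ
        * vecMulVec (Pi.single i (1 : F)) (Pi.single i (1 : F)) * (D : Matrix (Fin n) (Fin n) F)
      + (D : Matrix (Fin n) (Fin n) F)ᵀ * ((Dk : Matrix (Fin n) (Fin n) F)ᵀ * Bk)
        * (D : Matrix (Fin n) (Fin n) F) := by
    have h5 := congrArg (fun M => (Dk : Matrix (Fin n) (Fin n) F)ᵀ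
      * (D : Matrix (Fin n) (Fin n) F)ᵀ * M) hdag
    simp only [Matrix.mul_add] at h5
    have t1 : (Dk : Matrix (Fin n) (Fin n) F)ᵀ * (D : Matrix (Fin n) (Fin n) F)ᵀ
        * (((D⁻¹ : SLn n F) : Matrix (Fin n) (Fin n) F)ᵀ * Bk)
        = (Dk : Matrix (Fin n) (Fin n) F)ᵀ * Bk := by
      rw [Matrix.mul_assoc, ← Matrix.mul_assoc (D : Matrix (Fin n) (Fin n) F)ᵀ, r1, Matrix.one_mul]
    have t3 : (Dk : Matrix (Fin n) (Fin n) F)ᵀ * (D : Matrix (Fin n) (Fin n) F)ᵀ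
        * (Ak * (vecMulVec (Pi.single i (1 : F)) (Pi.single i (1 : F))
          * (D : Matrix (Fin n) (Fin n) F)))
        = (D : Matrix (Fin n) (Fin n) F)ᵀ
        * vecMulVec (Pi.single i (1 : F)) (Pi.single i (1 : F)) * (D : Matrix (Fin n) (Fin n) F) := by
      rw [hct, Matrix.mul_assoc, ← Matrix.mul_assoc (Dk : Matrix (Fin n) (Fin n) F)ᵀ, r2,
        Matrix.one_mul, Matrix.mul_assoc]
    have t2 : (Dk : Matrix (Fin n) (Fin n) F)ᵀ * (D : Matrix (Fin n) (Fin n) F)ᵀ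
        * (vecMulVec (Pi.single i (1 : F)) (Pi.single i (1 : F))
          * (D : Matrix (Fin n) (Fin n) F) * (Dk : Matrix (Fin n) (Fin n) F))
        = (Dk : Matrix (Fin n) (Fin n) F)ᵀ * ((D : Matrix (Fin n) (Fin n) F)ᵀ
        * vecMulVec (Pi.single i (1 : F)) (Pi.single i (1 : F)) * (D : Matrix (Fin n) (Fin n) F))
        * (Dk : Matrix (Fin n) (Fin n) F) := by
      simp only [Matrix.mul_assoc]
    have t4 : (Dk : Matrix (Fin n) (Fin n) F)ᵀ * (D : Matrix (Fin n) (Fin n) F)ᵀ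
        * (Bk * (D : Matrix (Fin n) (Fin n) F))
        = (D : Matrix (Fin n) (Fin n) F)ᵀ * ((Dk : Matrix (Fin n) (Fin n) F)ᵀ * Bk)
        * (D : Matrix (Fin n) (Fin n) F) := by
      rw [hct]
      simp only [Matrix.mul_assoc]
    rw [t1, t2, t3, t4] at h5
    exact h5
  have hD1 : (D : Matrix (Fin n) (Fin n) F) = 1 + ((D : Matrix (Fin n) (Fin n) F) - 1) := by abel
  have e1 : m - 1 + 1 = m := by omega
  have e2 : m - 2 + 1 = m - 1 := by omega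
  have hy1 : ((D : Matrix (Fin n) (Fin n) F) - 1)
      *ᵥ (((D : Matrix (Fin n) (Fin n) F) - 1) ^ m *ᵥ Pi.single j (1 : F)) = 0 := by
    rw [Matrix.mulVec_mulVec, ← pow_succ', hN, Matrix.zero_mulVec]
  have hy2 : ((D : Matrix (Fin n) (Fin n) F) - 1)
      *ᵥ (((D : Matrix (Fin n) (Fin n) F) - 1) ^ (m - 1) *ᵥ Pi.single j (1 : F))
      = ((D : Matrix (Fin n) (Fin n) F) - 1) ^ m *ᵥ Pi.single j (1 : F) := by
    rw [Matrix.mulVec_mulVec, ← pow_succ', e1]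
  have hy3 : ((D : Matrix (Fin n) (Fin n) F) - 1)
      *ᵥ (((D : Matrix (Fin n) (Fin n) F) - 1) ^ (m - 2) *ᵥ Pi.single j (1 : F))
      = ((D : Matrix (Fin n) (Fin n) F) - 1) ^ (m - 1) *ᵥ Pi.single j (1 : F) := by
    rw [Matrix.mulVec_mulVec, ← pow_succ', e2]
  have hc := commute_contra h2 ((D : Matrix (Fin n) (Fin n) F) - 1)
    (D : Matrix (Fin n) (Fin n) F) (Dk : Matrix (Fin n) (Fin n) F) _ _ hD1 eDk hΩ hS' hdd _ _ _
    hy1 hy2 hy3
  rw [qf_conj, y0_fix D m j hN] at hc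
  unfold qf at hc
  rw [S1_mulVec, dotProduct_smul, dotProduct_single, mul_one, mulVec_single_at, smul_eq_mul] at hc
  exact hν (mul_self_eq_zero.1 hc)

end Cfsg.Agent.Helper20.SpGen
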