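import Mathlib
import Cfsg.Agent.Helper20.SpGen7

/-!
# Symplectic groups: the seed in characteristic two
-/

set_option autoImplicit false

namespace Cfsg.Agent.Helper20.SpGen

open Matrix

variable {F : Type*} [Field F] {n : ℕ}

set_option maxHeartbeats 1600000 in
theorem seedB (h2 : (2 : F) = 0) (D : SLn n F) (m : ℕ) (hm : 2 ≤ m)
    (hN : ((D : Matrix (Fin n) (Fin n) F) - 1) ^ (m + 1) = 0) (i j : Fin n)
    (hν : (((D : Matrix (Fin n) (Fin n) F) - 1) ^ m) i j ≠ 0)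
    {K : Subgroup (SpG n F)} (hlev : ∀ D : SLn n F, D ∈ LevSub K)
    (hu : mkU D (vecMulVec (Pi.single i (1 : F)) (Pi.single i (1 : F))) (vmv_single_symm i) ∈ K)
    (hu₃ : tvS n (Sum.elim 0 (((D : Matrix (Fin n) (Fin n) F) - 1) ^ m *ᵥ Pi.single j 1)) 1
      * mkU D (vecMulVec (Pi.single i (1 : F)) (Pi.single i (1 : F))) (vmv_single_symm i)
      * (tvS n (Sum.elim 0 (((D : Matrix (Fin n) (Fin n) F) - 1) ^ m *ᵥ Pi.single j 1)) 1)⁻¹ ∈ K) :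
    ∃ S ∈ UM K, S j j ≠ 0 := by
  classical
  obtain ⟨N, hNdef⟩ : ∃ N : Matrix (Fin n) (Fin n) F, N = (D : Matrix (Fin n) (Fin n) F) - 1 :=
    ⟨_, rfl⟩
  obtain ⟨E, hEdef⟩ : ∃ E : Matrix (Fin n) (Fin n) F,
      E = ((D⁻¹ : SLn n F) : Matrix (Fin n) (Fin n) F) := ⟨_, rfl⟩
  obtain ⟨ν, hνdef⟩ : ∃ ν : F, ν = (((D : Matrix (Fin n) (Fin n) F) - 1) ^ m) i j := ⟨_, rfl⟩
  obtain ⟨y₀, hy₀⟩ : ∃ y₀ : Fin n → F,
      y₀ = ((D : Matrix (Fin n) (Fin n) F) - 1) ^ m *ᵥ Pi.single j 1 := ⟨_, rfl⟩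
  obtain ⟨u, hudef⟩ : ∃ u : SpG n F, u
      = mkU D (vecMulVec (Pi.single i (1 : F)) (Pi.single i (1 : F))) (vmv_single_symm i) :=
    ⟨_, rfl⟩
  rw [← hy₀, ← hudef] at hu₃
  rw [← hudef] at hu
  rw [← hνdef] at hν
  -- basic facts
  have hU : ∀ x : Fin n → F, (u : MM n F) *ᵥ Sum.elim x y₀
      = Sum.elim (Eᵀ *ᵥ x + ν • Pi.single i (1 : F)) y₀ := by
    intro x
    have h := u1_w D m i j hN x 1
    rw [one_smul, one_mul, ← hy₀, ← hudef, ← hνdef, ← hEdef] at h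
    exact h
  have hy0i : y₀ i = ν := by rw [hy₀, hνdef]; exact mulVec_single_at _ _ _
  have hEy : E *ᵥ y₀ = y₀ := by rw [hy₀, hEdef]; exact y0_fixE D m j hN
  have hEtdot : ∀ x : Fin n → F, (Eᵀ *ᵥ x) ⬝ᵥ y₀ = x ⬝ᵥ y₀ := by
    intro x
    rw [Matrix.mulVec_transpose, ← Matrix.dotProduct_mulVec, hEy]
  have hNE : E - 1 = -(E * N) := by
    rw [hNdef, hEdef, Matrix.mul_sub, sl_inv_mul, Matrix.mul_one, neg_sub]
  have hcE : Commute E N := by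
    show E * N = N * E
    rw [hNdef, hEdef, Matrix.mul_sub, Matrix.sub_mul, sl_inv_mul, sl_mul_inv, Matrix.mul_one,
      Matrix.one_mul]
  have hN' : N ^ (m + 1) = 0 := by rw [hNdef]; exact hN
  have hENm : E * N ^ m = N ^ m := by rw [hNdef, hEdef]; exact E_mul_pow D m hN
  have hy₀' : y₀ = N ^ m *ᵥ Pi.single j 1 := by rw [hy₀, hNdef]
  have hν' : ν = (N ^ m) i j := by rw [hνdef, hNdef]
  -- the vectors
  obtain ⟨e', he'⟩ : ∃ e' : Fin n → F, e' = (N ^ m)ᵀ *ᵥ Pi.single i 1 := ⟨_, rfl⟩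
  obtain ⟨p, hp⟩ : ∃ p : Fin n → F, p = (Eᵀ - 1) *ᵥ Pi.single i 1 := ⟨_, rfl⟩
  obtain ⟨σ, hσ⟩ : ∃ σ : Fin n → F, σ = N ^ (m - 1) *ᵥ Pi.single j 1 := ⟨_, rfl⟩
  have hp' : p = Pi.single i 1 ᵥ* (E - 1) := by
    have h : Eᵀ - 1 = (E - 1)ᵀ := by rw [Matrix.transpose_sub, Matrix.transpose_one]
    rw [hp, h, Matrix.mulVec_transpose]
  have he'' : e' = Pi.single i 1 ᵥ* N ^ m := by rw [he', Matrix.mulVec_transpose]
  have f1 : e' ⬝ᵥ y₀ = 0 := by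
    have h : N ^ (m + m) = 0 := by
      have e : m + m = (m + 1) + (m - 1) := by omega
      rw [e, pow_add, hN', zero_mul]
    rw [he'', ← Matrix.dotProduct_mulVec, hy₀', Matrix.mulVec_mulVec, ← pow_add, h,
      Matrix.zero_mulVec, dotProduct_zero]
  have f2 : p ⬝ᵥ y₀ = 0 := by
    rw [hp', ← Matrix.dotProduct_mulVec, Matrix.sub_mulVec, Matrix.one_mulVec, hEy, sub_self,
      dotProduct_zero]
  have f3 : e' j = ν := by
    rw [he', mulVec_single_at, Matrix.transpose_apply, hν']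
  have f4 : p ⬝ᵥ σ = -ν := by
    have e : m - 1 + 1 = m := by omega
    have h : (E - 1) * N ^ (m - 1) = -(N ^ m) := by
      rw [hNE, Matrix.neg_mul, Matrix.mul_assoc, ← pow_succ', e, hENm]
    rw [hp', ← Matrix.dotProduct_mulVec, hσ, Matrix.mulVec_mulVec, h, Matrix.neg_mulVec,
      dotProduct_neg, single_dotProduct, one_mul, mulVec_single_at, hν']
  have f5 : e' ⬝ᵥ σ = 0 := by
    have h : N ^ (m + (m - 1)) = 0 := by
      have e : m + (m - 1) = (m + 1) + (m - 2) := by omega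
      rw [e, pow_add, hN', zero_mul]
    rw [he'', ← Matrix.dotProduct_mulVec, hσ, Matrix.mulVec_mulVec, ← pow_add, h,
      Matrix.zero_mulVec, dotProduct_zero]
  have f6 : Eᵀ *ᵥ e' = e' := by
    rw [he', Matrix.mulVec_mulVec, ← Matrix.transpose_mul, ← (hcE.pow_right m).eq, hENm]
  -- the Levi element
  obtain ⟨β, hβ⟩ : ∃ β : F, β = (ν⁻¹ * p j - 1) / ν := ⟨_, rfl⟩
  obtain ⟨z, hz⟩ : ∃ z : Fin n → F, z = ν⁻¹ • Pi.single j (1 : F) + β • σ := ⟨_, rfl⟩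
  have hz1 : e' ⬝ᵥ z = 1 := by
    rw [hz, dotProduct_add, dotProduct_smul, dotProduct_smul, f5, dotProduct_single, mul_one, f3,
      smul_eq_mul, smul_eq_mul, mul_zero, add_zero, inv_mul_cancel₀ hν]
  have hz2 : p ⬝ᵥ z = 1 := by
    rw [hz, dotProduct_add, dotProduct_smul, dotProduct_smul, f4, dotProduct_single, mul_one,
      smul_eq_mul, smul_eq_mul, hβ]
    field_simp
    ring
  have hdet' : Matrix.det (1 + vecMulVec z (p - e')) = 1 := by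
    rw [det_tv, sub_dotProduct, hz2, hz1, sub_self, add_zero]
  obtain ⟨D', eD'⟩ : ∃ D' : SLn n F, (D' : Matrix (Fin n) (Fin n) F)
      = 1 + vecMulVec z (p - e') := ⟨⟨_, hdet'⟩, rfl⟩
  have hD'y : (D' : Matrix (Fin n) (Fin n) F) *ᵥ y₀ = y₀ := by
    rw [eD', tv_mulVec', sub_dotProduct, f2, f1, sub_zero, zero_smul, add_zero]
  have hD'e : (D' : Matrix (Fin n) (Fin n) F)ᵀ *ᵥ e' = p := by
    rw [eD', Matrix.transpose_add, Matrix.transpose_one, Matrix.transpose_vecMulVec, tv_mulVec',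
      dotProduct_comm, hz1, one_smul, add_sub_cancel]
  obtain ⟨g', hg'K, A', B', eg'⟩ := mem_LevSub.1 (hlev D')
  have hA'p : A' *ᵥ p = e' := by
    rw [← hD'e, Matrix.mulVec_mulVec, (blk_rel eg').2.2.1, Matrix.one_mulVec]
  have hg' : ∀ x y : Fin n → F, (g' : MM n F) *ᵥ Sum.elim x y
      = Sum.elim (A' *ᵥ x + B' *ᵥ y) ((D' : Matrix (Fin n) (Fin n) F) *ᵥ y) := by
    intro x y
    rw [eg', Matrix.fromBlocks_mulVec, Sum.elim_comp_inl, Sum.elim_comp_inr, Matrix.zero_mulVec,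
      zero_add]
  -- the product of two transvections
  obtain ⟨b, hb⟩ : ∃ b : Fin n → F, b = B' *ᵥ y₀ := ⟨_, rfl⟩
  have hk2w : ((u * u : SpG n F) : MM n F) *ᵥ Sum.elim 0 y₀ = Sum.elim (ν • p) y₀ := by
    rw [Submonoid.coe_mul, ← Matrix.mulVec_mulVec, hU, hU, Matrix.mulVec_zero, zero_add]
    congr 1
    rw [hp, Matrix.sub_mulVec, Matrix.one_mulVec, smul_sub, Matrix.mulVec_smul, sub_eq_add_neg,
      ← neg_smul, neg_self_two h2]
  have hX : u * u * (tvS n (Sum.elim 0 y₀) 1 * u * (tvS n (Sum.elim 0 y₀) 1)⁻¹)⁻¹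
      * (tvS n (Sum.elim 0 y₀) 1 * u * (tvS n (Sum.elim 0 y₀) 1)⁻¹)⁻¹ ∈ K :=
    K.mul_mem (K.mul_mem (K.mul_mem hu hu) (K.inv_mem hu₃)) (K.inv_mem hu₃)
  have eX : u * u * (tvS n (Sum.elim 0 y₀) 1 * u * (tvS n (Sum.elim 0 y₀) 1)⁻¹)⁻¹
      * (tvS n (Sum.elim 0 y₀) 1 * u * (tvS n (Sum.elim 0 y₀) 1)⁻¹)⁻¹
      = tvS n (Sum.elim (ν • p) y₀) 1 * tvS n (Sum.elim 0 y₀) 1 := by
    have h : u * u * (tvS n (Sum.elim 0 y₀ : VV n F) 1 * u * (tvS n (Sum.elim 0 y₀) 1)⁻¹)⁻¹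
        * (tvS n (Sum.elim 0 y₀) 1 * u * (tvS n (Sum.elim 0 y₀) 1)⁻¹)⁻¹
        = (u * u) * tvS n (Sum.elim 0 y₀) 1 * (u * u)⁻¹ * (tvS n (Sum.elim 0 y₀) 1)⁻¹ := by group
    rw [h, conj_tvS, hk2w, tvS_inv2 h2]
  rw [eX] at hX
  have hX₁ : g' * (tvS n (Sum.elim (ν • p) y₀) 1 * tvS n (Sum.elim 0 y₀) 1) * g'⁻¹ ∈ K :=
    K.mul_mem (K.mul_mem hg'K hX) (K.inv_mem hg'K)
  have eX₁ : g' * (tvS n (Sum.elim (ν • p) y₀) 1 * tvS n (Sum.elim 0 y₀) 1) * g'⁻¹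
      = tvS n (Sum.elim b y₀ + Sum.elim (ν • e') 0) 1 * tvS n (Sum.elim b y₀) 1 := by
    have h : g' * (tvS n (Sum.elim (ν • p) y₀ : VV n F) 1 * tvS n (Sum.elim 0 y₀) 1) * g'⁻¹
        = (g' * tvS n (Sum.elim (ν • p) y₀) 1 * g'⁻¹) * (g' * tvS n (Sum.elim 0 y₀) 1 * g'⁻¹) := by
      group
    rw [h, conj_tvS, conj_tvS, hg', hg', hD'y, Matrix.mulVec_zero, zero_add, ← hb,
      Matrix.mulVec_smul, hA'p, elim_add, add_zero, add_comm b]
  rw [eX₁] at hX₁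
  obtain ⟨w₂x, hw₂x⟩ : ∃ w₂x : Fin n → F, w₂x = Eᵀ *ᵥ b + ν • Pi.single i (1 : F) := ⟨_, rfl⟩
  have hX₂ : u * (tvS n (Sum.elim b y₀ + Sum.elim (ν • e') 0) 1 * tvS n (Sum.elim b y₀) 1) * u⁻¹
      ∈ K := K.mul_mem (K.mul_mem hu hX₁) (K.inv_mem hu)
  have eX₂ : u * (tvS n (Sum.elim b y₀ + Sum.elim (ν • e') 0) 1 * tvS n (Sum.elim b y₀) 1) * u⁻¹
      = tvS n (Sum.elim w₂x y₀ + Sum.elim (ν • e') 0) 1 * tvS n (Sum.elim w₂x y₀) 1 := by
    have h : u * (tvS n (Sum.elim b y₀ + Sum.elim (ν • e') 0 : VV n F) 1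
          * tvS n (Sum.elim b y₀) 1) * u⁻¹
        = (u * tvS n (Sum.elim b y₀ + Sum.elim (ν • e') 0) 1 * u⁻¹)
          * (u * tvS n (Sum.elim b y₀) 1 * u⁻¹) := by
      group
    rw [h, conj_tvS, conj_tvS, elim_add, add_zero, hU, hU, Matrix.mulVec_add, Matrix.mulVec_smul,
      f6, ← hw₂x, elim_add, add_zero]
    congr 3
    rw [hw₂x]
    abel
  rw [eX₂] at hX₂
  have hZ := K.mul_mem hX₁ hX₂
  -- the form values
  have hw1e : Cfsg.sympForm n F (Sum.elim b y₀) (Sum.elim (ν • e') 0) = 0 := by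
    rw [form_elim, dotProduct_smul, dotProduct_comm y₀ e', f1, smul_zero, dotProduct_zero,
      sub_zero]
  have hw2e : Cfsg.sympForm n F (Sum.elim w₂x y₀) (Sum.elim (ν • e') 0) = 0 := by
    rw [form_elim, dotProduct_smul, dotProduct_comm y₀ e', f1, smul_zero, dotProduct_zero,
      sub_zero]
  have hw21 : Cfsg.sympForm n F (Sum.elim w₂x y₀) (Sum.elim b y₀) = -(ν * ν) := by
    rw [form_elim, hw₂x, add_dotProduct, hEtdot, smul_dotProduct, single_dotProduct, one_mul,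
      hy0i, smul_eq_mul, dotProduct_comm y₀ b]
    ring
  obtain ⟨d, hd⟩ : ∃ d : Fin n → F, d = b + w₂x := ⟨_, rfl⟩
  have hsum : (Sum.elim b y₀ : VV n F) + Sum.elim w₂x y₀ = Sum.elim d 0 := by
    rw [elim_add, ← hd, ← two_smul F y₀, h2, zero_smul]
  refine ⟨ν • (vecMulVec e' d + vecMulVec d e') + (-(ν * ν) * ν * ν) • vecMulVec e' e',
    ⟨_, hZ, ?_⟩, ?_⟩
  · apply Matrix.mulVec_injective
    funext v
    obtain ⟨x, y, rfl⟩ : ∃ x y : Fin n → F, v = Sum.elim x y :=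
      ⟨_, _, (Sum.elim_comp_inl_inr v).symm⟩
    rw [pair_pair h2 _ _ _ _ hw1e hw2e, hw21, hsum, form_elim, form_elim,
      Matrix.fromBlocks_mulVec, Sum.elim_comp_inl, Sum.elim_comp_inr, Matrix.add_mulVec,
      Matrix.smul_mulVec, Matrix.smul_mulVec, Matrix.add_mulVec, Matrix.vecMulVec_mulVec,
      Matrix.vecMulVec_mulVec, Matrix.vecMulVec_mulVec, op_smul_eq_smul, op_smul_eq_smul,
      op_smul_eq_smul, dotProduct_comm d y, dotProduct_comm e' y, dotProduct_smul]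
    ext (a | a)
    · simp only [Sum.elim_inl, Pi.add_apply, Pi.smul_apply, smul_eq_mul, Matrix.one_mulVec,
        Matrix.zero_mulVec, dotProduct_zero, sub_zero, Pi.zero_apply]
      ring
    · simp only [Sum.elim_inr, Pi.add_apply, Pi.smul_apply, smul_eq_mul, Matrix.one_mulVec,
        Matrix.zero_mulVec, dotProduct_zero, sub_zero, Pi.zero_apply]
      ring
  · rw [Matrix.add_apply, Matrix.smul_apply, Matrix.smul_apply, Matrix.add_apply, vecMulVec_apply,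
      vecMulVec_apply, vecMulVec_apply, f3, smul_eq_mul, smul_eq_mul]
    have h : ν * d j + d j * ν = 0 := by rw [mul_comm (d j), ← two_mul, h2, zero_mul]
    rw [h, mul_zero, zero_add]
    exact mul_ne_zero (mul_ne_zero (mul_ne_zero (neg_ne_zero.2 (mul_ne_zero hν hν)) hν) hν)
      (mul_ne_zero hν hν)

end Cfsg.Agent.Helper20.SpGen
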