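import Mathlib
import Cfsg.Agent.Helper20.SpGen8

/-!
# Symplectic groups of rank at least three: three conjugates of a regular unipotent element
-/

set_option autoImplicit false

namespace Cfsg.Agent.Helper20.SpGen

open Matrix

variable {F : Type*} [Field F] {n : ℕ}

theorem sp_big [Fintype F] (hn : 3 ≤ n) (D g₀ : SLn n F)
    (hnil : IsNilpotent ((D : Matrix (Fin n) (Fin n) F) - 1))
    (hne : ((D : Matrix (Fin n) (Fin n) F) - 1) ^ (n - 1) ≠ 0)
    (hcl : Subgroup.closure ({D, g₀ * D * g₀⁻¹} : Set (SLn n F)) = ⊤) :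
    ∃ u g h : SpG n F, IsNilpotent ((u : MM n F) - 1) ∧ ((u : MM n F) - 1) ^ (2 * n - 1) ≠ 0 ∧
      Subgroup.closure ({u, g * u * g⁻¹, h * u * h⁻¹} : Set (SpG n F)) = ⊤ := by
  classical
  obtain ⟨m, hm⟩ : ∃ m, n = m + 1 := ⟨n - 1, by omega⟩
  have hN : ((D : Matrix (Fin n) (Fin n) F) - 1) ^ (m + 1) = 0 := by
    have h := nilp_pow_fin n _ hnil
    have e : m + 1 = n := hm.symm
    rw [e]
    exact h
  have e2 : n - 1 = m := by omega
  rw [e2] at hne
  obtain ⟨i, j, hν⟩ : ∃ i j, (((D : Matrix (Fin n) (Fin n) F) - 1) ^ m) i j ≠ 0 := by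
    by_contra hc
    push Not at hc
    exact hne (Matrix.ext hc)
  refine ⟨mkU D (vecMulVec (Pi.single i (1 : F)) (Pi.single i (1 : F))) (vmv_single_symm i),
    mkU g₀ 0 Matrix.transpose_zero,
    tvS n (Sum.elim 0 (((D : Matrix (Fin n) (Fin n) F) - 1) ^ m *ᵥ Pi.single j 1)) 1,
    mkU_nilp D m hN _ _, ?_, ?_⟩
  · have e3 : 2 * n - 1 = 2 * m + 1 := by omega
    rw [e3]
    exact mkU_top_ne D m hN i j hν _
  · obtain ⟨K, hK⟩ : ∃ K : Subgroup (SpG n F), K = Subgroup.closure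
        ({mkU D (vecMulVec (Pi.single i (1 : F)) (Pi.single i (1 : F))) (vmv_single_symm i),
          mkU g₀ 0 Matrix.transpose_zero
            * mkU D (vecMulVec (Pi.single i (1 : F)) (Pi.single i (1 : F))) (vmv_single_symm i)
            * (mkU g₀ 0 Matrix.transpose_zero)⁻¹,
          tvS n (Sum.elim 0 (((D : Matrix (Fin n) (Fin n) F) - 1) ^ m *ᵥ Pi.single j 1)) 1
            * mkU D (vecMulVec (Pi.single i (1 : F)) (Pi.single i (1 : F))) (vmv_single_symm i)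
            * (tvS n (Sum.elim 0 (((D : Matrix (Fin n) (Fin n) F) - 1) ^ m *ᵥ Pi.single j 1)) 1)⁻¹}
          : Set (SpG n F)) := ⟨_, rfl⟩
    rw [← hK]
    have hu : mkU D (vecMulVec (Pi.single i (1 : F)) (Pi.single i (1 : F))) (vmv_single_symm i)
        ∈ K := by
      rw [hK]
      exact Subgroup.subset_closure (Set.mem_insert _ _)
    have hu₂ : mkU g₀ 0 Matrix.transpose_zero
        * mkU D (vecMulVec (Pi.single i (1 : F)) (Pi.single i (1 : F))) (vmv_single_symm i)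
        * (mkU g₀ 0 Matrix.transpose_zero)⁻¹ ∈ K := by
      rw [hK]
      exact Subgroup.subset_closure (Set.mem_insert_of_mem _ (Set.mem_insert _ _))
    have hu₃ : tvS n (Sum.elim 0 (((D : Matrix (Fin n) (Fin n) F) - 1) ^ m *ᵥ Pi.single j 1)) 1
        * mkU D (vecMulVec (Pi.single i (1 : F)) (Pi.single i (1 : F))) (vmv_single_symm i)
        * (tvS n (Sum.elim 0 (((D : Matrix (Fin n) (Fin n) F) - 1) ^ m *ᵥ Pi.single j 1)) 1)⁻¹
        ∈ K := by
      rw [hK]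
      exact Subgroup.subset_closure
        (Set.mem_insert_of_mem _ (Set.mem_insert_of_mem _ (Set.mem_singleton _)))
    have hl1 : D ∈ LevSub K := mem_LevSub.2 ⟨_, hu, mkU_UB D _ _⟩
    have hl2 : g₀ * D * g₀⁻¹ ∈ LevSub K := by
      refine mem_LevSub.2 ⟨_, hu₂, ?_⟩
      rw [Matrix.SpecialLinearGroup.coe_mul, Matrix.SpecialLinearGroup.coe_mul]
      exact UB_mul (UB_mul (mkU_UB g₀ _ _) (mkU_UB D _ _)) (UB_inv (mkU_UB g₀ _ _))
    have hlev := lev_onto hl1 hl2 hcl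
    have hm2 : 2 ≤ m := by omega
    have hseed : ∃ c₀ : F, c₀ ≠ 0 ∧ ∃ i₀ : Fin n,
        c₀ • vecMulVec (Pi.single i₀ (1 : F)) (Pi.single i₀ (1 : F)) ∈ UM K := by
      by_cases h2 : (2 : F) = 0
      · obtain ⟨S, hS, hSj⟩ := seedB h2 D m hm2 hN i j hν hlev hu hu₃
        exact seed_even h2 hn hlev hS j hSj
      · obtain ⟨S, hS, hS0⟩ := seedA h2 D m hm2 hN i j hν hlev hu
        exact seed_odd h2 (by omega) hlev hS hS0
    obtain ⟨c₀, hc₀, i₀, hseed⟩ := hseed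
    have hrk := UM_rank_one (by omega) hlev c₀ hc₀ i₀ hseed
    have hL := AA_inl_of_UM hrk
    obtain ⟨x₀, y', hy', h₀⟩ := exit_t D m i j hN hν hu₃ hL
    exact top_of_siegel (by omega) K hL hlev x₀ y' hy' h₀

end Cfsg.Agent.Helper20.SpGen
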